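/- Tower RV (row S5207): specification.  Proofs of the jobs: `blueprints/RV.md`. -/
import Cfsg.Agent.H92.Alperin
import Cfsg.Agent.H92.Normal

set_option autoImplicit false
set_option linter.unusedSectionVars false

open Matrix Subgroup Cfsg H92

universe u

namespace H9.RV

abbrev V2 (p : ℕ) : Type := Fin 2 → ZMod p
abbrev G2 (p : ℕ) : Type := GL (Fin 2) (ZMod p)

variable {p : ℕ}

/-- the symplectic form -/
def om (v w : V2 p) : ZMod p := v 0 * w 1 - v 1 * w 0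

/-- the action of `GL₂` on vectors -/
def act (A : G2 p) (v : V2 p) : V2 p := (A : Matrix (Fin 2) (Fin 2) (ZMod p)) *ᵥ v

/-- the determinant, as an element of the field -/
def dt (A : G2 p) : ZMod p := (A : Matrix (Fin 2) (Fin 2) (ZMod p)).det

/-- the Heisenberg group of order `p ^ 3` (for odd `p` extraspecial of exponent `p`) -/
@[ext] structure He (p : ℕ) where
  v : V2 p
  c : ZMod p

instance : Mul (He p) := ⟨fun x y => ⟨x.v + y.v, x.c + y.c + om x.v y.v⟩⟩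
instance : One (He p) := ⟨⟨0, 0⟩⟩
instance : Inv (He p) := ⟨fun x => ⟨-x.v, -x.c⟩⟩

@[simp] theorem He.mul_v (x y : He p) : (x * y).v = x.v + y.v := rfl
@[simp] theorem He.mul_c (x y : He p) : (x * y).c = x.c + y.c + om x.v y.v := rfl
@[simp] theorem He.one_v : (1 : He p).v = 0 := rfl
@[simp] theorem He.one_c : (1 : He p).c = 0 := rfl
@[simp] theorem He.inv_v (x : He p) : (x⁻¹).v = -x.v := rfl
@[simp] theorem He.inv_c (x : He p) : (x⁻¹).c = -x.c := rfl

instance : Group (He p) := Group.ofLeftAxioms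
  (fun a b c => He.ext (add_assoc _ _ _) (by simp [om]; ring))
  (fun a => He.ext (zero_add _) (by simp [om]))
  (fun a => He.ext (neg_add_cancel _) (by simp [om]; ring))

theorem act_mul (A B : G2 p) (v : V2 p) : act (A * B) v = act A (act B v) := by
  simp only [act, Units.val_mul, mulVec_mulVec]

@[simp] theorem act_one (v : V2 p) : act 1 v = v := by simp [act]

theorem act_add (A : G2 p) (v w : V2 p) : act A (v + w) = act A v + act A w := mulVec_add _ _ _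

theorem act_smul (A : G2 p) (t : ZMod p) (v : V2 p) : act A (t • v) = t • act A v := mulVec_smul _ _ _

theorem dt_mul (A B : G2 p) : dt (A * B) = dt A * dt B := by simp [dt]

@[simp] theorem dt_one : dt (1 : G2 p) = 1 := by simp [dt]

theorem om_act (A : G2 p) (v w : V2 p) : om (act A v) (act A w) = dt A * om v w := by
  simp [om, act, dt, mulVec, dotProduct, Fin.sum_univ_two, det_fin_two]; ring

instance : MulDistribMulAction (G2 p) (He p) where
  smul A u := ⟨act A u.v, dt A * u.c⟩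
  one_smul u := He.ext (act_one _) (show dt 1 * u.c = u.c by simp)
  mul_smul A B u := He.ext (act_mul _ _ _) (show dt (A * B) * u.c = dt A * (dt B * u.c) by
    rw [dt_mul, mul_assoc])
  smul_one A := He.ext (show act A 0 = 0 from mulVec_zero _) (mul_zero _)
  smul_mul A x y := He.ext (act_add _ _ _)
    (show dt A * (x.c + y.c + om x.v y.v) = dt A * x.c + dt A * y.c + om (act A x.v) (act A y.v) by
      rw [om_act]; ring)

/-- the standard automorphisms `(v, c) ↦ (A v, det A * c)` -/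
def sd : G2 p →* MulAut (He p) := MulDistribMulAction.toMulAut (G2 p) (He p)

@[simp] theorem sd_v (A : G2 p) (u : He p) : (sd A u).v = act A u.v := rfl
@[simp] theorem sd_c (A : G2 p) (u : He p) : (sd A u).c = dt A * u.c := rfl

/-- the centre -/
def ZZ (p : ℕ) : Subgroup (He p) where
  carrier := {u | u.v = 0}
  one_mem' := rfl
  mul_mem' := fun {a b} (ha : a.v = 0) (hb : b.v = 0) => show a.v + b.v = 0 by rw [ha, hb, add_zero]
  inv_mem' := fun {a} (ha : a.v = 0) => show -a.v = 0 by rw [ha, neg_zero]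

/-- the subgroup of order `p ^ 2` over the line of `v` -/
def VV (v : V2 p) : Subgroup (He p) where
  carrier := {u | ∃ t : ZMod p, u.v = t • v}
  one_mem' := ⟨0, by simp⟩
  mul_mem' := fun {a b} ⟨s, hs⟩ ⟨t, ht⟩ => ⟨s + t, by rw [He.mul_v, hs, ht, add_smul]⟩
  inv_mem' := fun {a} ⟨s, hs⟩ => ⟨-s, by rw [He.inv_v, hs, neg_smul]⟩

theorem mem_ZZ {u : He p} : u ∈ ZZ p ↔ u.v = 0 := Iff.rfl
theorem mem_VV {v : V2 p} {u : He p} : u ∈ VV v ↔ ∃ t : ZMod p, u.v = t • v := Iff.rfl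

/-! ### the invariants -/

/-- the outer automizer of a fusion system, as a group of matrices -/
def WF (F : FusionSystem (⊤ : Subgroup (He p))) : Subgroup (G2 p) where
  carrier := {A | Mor F ⊤ (sd A)}
  one_mem' := (mor_id F le_rfl).congr fun x _ => by simp
  mul_mem' := fun {A B} (hA : Mor F ⊤ (sd A)) (hB : Mor F ⊤ (sd B)) =>
    (hB.comp hA fun _ _ => trivial).congr fun x _ => by simp
  inv_mem' := fun {A} (hA : Mor F ⊤ (sd A)) => by
    have h := hA.inv_of (g := sd A⁻¹) fun x _ => by simp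
    have e : img ⊤ (sd A) = (⊤ : Subgroup (He p)) := top_le_iff.1 fun x _ =>
      (hA.mem_img' le_rfl).2 ⟨sd A⁻¹ x, trivial, by simp⟩
    rwa [e] at h

/-- the radical vectors of a fusion system -/
def RF (F : FusionSystem (⊤ : Subgroup (He p))) : Set (V2 p) :=
  {v | v ≠ 0 ∧ ∃ f, Mor F (zpowers (⟨v, 0⟩ : He p)) f ∧ (f ⟨v, 0⟩).v = 0}

/-- the outer automizer in a group -/
def WG {G : Type*} [Group G] (ι : He p →* G) : Subgroup (G2 p) where
  carrier := {A | ∃ g : G, ∀ u, g * ι u * g⁻¹ = ι (sd A u)}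
  one_mem' := ⟨1, fun u => by simp⟩
  mul_mem' := fun {A B} ⟨g, hg⟩ ⟨h, hh⟩ => ⟨g * h, fun u => by
    rw [map_mul, MulAut.mul_apply, ← hg, ← hh]; group⟩
  inv_mem' := fun {A} ⟨g, hg⟩ => ⟨g⁻¹, fun u => by
    have := hg (sd A⁻¹ u)
    rw [show sd A (sd A⁻¹ u) = u by simp] at this
    rw [← this]; group⟩

/-- the radical vectors in a group -/
def RG {G : Type*} [Group G] (ι : He p →* G) : Set (V2 p) :=
  {v | v ≠ 0 ∧ ∃ (g : G) (c : ZMod p), g * ι ⟨v, 0⟩ * g⁻¹ = ι ⟨0, c⟩}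

theorem mem_WF {F : FusionSystem (⊤ : Subgroup (He p))} {A : G2 p} : A ∈ WF F ↔ Mor F ⊤ (sd A) := Iff.rfl

theorem mem_WG {G : Type*} [Group G] {ι : He p →* G} {A : G2 p} :
    A ∈ WG ι ↔ ∃ g : G, ∀ u, g * ι u * g⁻¹ = ι (sd A u) := Iff.rfl

/-- admissible pairs -/
structure Adm (p : ℕ) (W : Subgroup (G2 p)) (R : Set (V2 p)) : Prop where
  cop : ¬ p ∣ Nat.card W
  ne : ∀ v ∈ R, v ≠ 0
  smul : ∀ v ∈ R, ∀ t : ZMod p, t ≠ 0 → t • v ∈ R
  inv : ∀ A ∈ W, ∀ v ∈ R, act A v ∈ R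
  tor : ∀ v ∈ R, ∀ a : ZMod p, a ≠ 0 → ∃ A ∈ W, act A v = a⁻¹ • v ∧ dt A = a

/-- the pair comes from a finite group -/
def Real (p : ℕ) (W : Subgroup (G2 p)) (R : Set (V2 p)) : Prop :=
  ∃ (G : Type) (_ : Group G) (_ : Finite G) (ι : He p →* G), Function.Injective ι ∧
    (∃ T : Sylow p G, (T : Subgroup G) = ι.range) ∧ WG ι = W ∧ RG ι = R

/-- three different lines -/
def Thr (R : Set (V2 p)) : Prop :=
  ∃ u ∈ R, ∃ v ∈ R, ∃ w ∈ R, om u v ≠ 0 ∧ om u w ≠ 0 ∧ om v w ≠ 0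

/-- conjugate pairs -/
def Cj (W : Subgroup (G2 p)) (R : Set (V2 p)) (W' : Subgroup (G2 p)) (R' : Set (V2 p)) : Prop :=
  ∃ A : G2 p, (∀ B, B ∈ W ↔ A * B * A⁻¹ ∈ W') ∧ ∀ v, v ∈ R ↔ act A v ∈ R'

/-- the two axes -/
def Rax (p : ℕ) : Set (V2 p) := {v | v ≠ 0 ∧ v 0 * v 1 = 0}

/-- a group of monomial matrices containing the torus of `SL₃` -/
structure Mono (W : Subgroup (G2 p)) : Prop where
  mon : ∀ B ∈ W, (B 0 1 = 0 ∧ B 1 0 = 0) ∨ (B 0 0 = 0 ∧ B 1 1 = 0)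
  t1 : ∀ a : ZMod p, a ≠ 0 → ∃ B ∈ W, (B : Matrix (Fin 2) (Fin 2) (ZMod p)) = !![a⁻¹, 0; 0, a ^ 2]
  t2 : ∀ a : ZMod p, a ≠ 0 → ∃ B ∈ W, (B : Matrix (Fin 2) (Fin 2) (ZMod p)) = !![a ^ 2, 0; 0, a⁻¹]

/-! ### the jobs -/

/-- an extraspecial group of order `p ^ 3` and exponent `p` is `He p` -/
def JobIso : Prop := ∀ (p : ℕ) [Fact p.Prime], p ≠ 2 → ∀ (P : Type u) [Group P] [Finite P],
  IsExtraspecial p P → Nat.card P = p ^ 3 → Monoid.exponent P = p → Nonempty (P ≃* He p)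

/-- the automorphisms of `He p` -/
def JobAut : Prop := ∀ (p : ℕ) [Fact p.Prime], p ≠ 2 → ∀ θ : MulAut (He p),
  ∃ (s : He p) (A : G2 p), ∀ u, θ u = s * sd A u * s⁻¹

/-- the order of the outer automizer -/
def JobCard : Prop := JobAut → ∀ (p : ℕ) [Fact p.Prime], p ≠ 2 → ∀ (G : Type) [Group G] [Finite G]
  (ι : He p →* G), Function.Injective ι → Nat.card (WG ι) =
    (ι.range ⊔ centralizer (ι.range : Set G)).relIndex (normalizer (ι.range : Set G))

/-- essential subgroups -/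
def JobEss : Prop := ∀ (p : ℕ) [Fact p.Prime], p ≠ 2 → ∀ F : FusionSystem (⊤ : Subgroup (He p)),
  F.IsSaturated p → ∀ P, F.IsEssential p P → ∃ v, v ≠ 0 ∧ P = VV v

/-- automorphisms of `VV v` which keep the centre extend -/
def JobExt : Prop := ∀ (p : ℕ) [Fact p.Prime], p ≠ 2 → ∀ F : FusionSystem (⊤ : Subgroup (He p)),
  F.IsSaturated p → ∀ v : V2 p, v ≠ 0 → ∀ f, Mor F (VV v) f → (∀ u ∈ VV v, f u ∈ VV v) →
    (∀ u ∈ ZZ p, f u ∈ ZZ p) → ∃ θ : MulAut (He p), Mor F ⊤ θ ∧ ∀ u ∈ VV v, θ u = f u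

/-- an automorphism of `VV v` which moves the centre makes `v` radical -/
def JobMv : Prop := ∀ (p : ℕ) [Fact p.Prime], p ≠ 2 → ∀ F : FusionSystem (⊤ : Subgroup (He p)),
  ∀ v : V2 p, v ≠ 0 → ∀ f, Mor F (VV v) f → (∀ u ∈ VV v, f u ∈ VV v) →
    (∀ u ∈ ZZ p, f u ∈ ZZ p) ∨ v ∈ RF F

/-- the automizer of a radical `VV v` contains `SL₂` -/
def JobSL : Prop := ∀ (p : ℕ) [Fact p.Prime], p ≠ 2 → ∀ F : FusionSystem (⊤ : Subgroup (He p)),
  F.IsSaturated p → ∀ v ∈ RF F, ∀ a b c d : ZMod p, a * d - b * c = 1 →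
    ∃ f, Mor F (VV v) f ∧ ∀ t s : ZMod p, f ⟨t • v, s⟩ = ⟨(c * s + d * t) • v, a * s + b * t⟩

/-- the pair of a saturated system is admissible -/
def JobAdm : Prop := JobAut → JobExt → JobSL → ∀ (p : ℕ) [Fact p.Prime], p ≠ 2 →
  ∀ F : FusionSystem (⊤ : Subgroup (He p)), F.IsSaturated p → Adm p (WF F) (RF F)

/-- the pair determines the system -/
def JobDet : Prop := JobAut → JobEss → JobExt → JobMv → JobSL → ∀ (p : ℕ) [Fact p.Prime], p ≠ 2 →
  ∀ F E : FusionSystem (⊤ : Subgroup (He p)), F.IsSaturated p → E.IsSaturated p →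
    WF F ≤ WF E → RF F ⊆ RF E → F ≤ E

/-- at most one radical line: the system is constrained -/
def JobCon : Prop := JobAut → JobEss → JobExt → JobMv → ∀ (p : ℕ) [Fact p.Prime], p ≠ 2 →
  ∀ F : FusionSystem (⊤ : Subgroup (He p)), F.IsSaturated p → Adm p (WF F) (RF F) →
    (∀ v ∈ RF F, ∀ w ∈ RF F, om v w = 0) → F.IsRealizable p

/-- exactly two radical lines: normal form -/
def JobTwo : Prop := ∀ (p : ℕ) [Fact p.Prime], p ≠ 2 → ∀ (W : Subgroup (G2 p)) (R : Set (V2 p)),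
  Adm p W R → (∃ v ∈ R, ∃ w ∈ R, om v w ≠ 0) → ¬ Thr R → ∃ W', Mono W' ∧ Cj W R W' (Rax p)

/-- exactly two radical lines: the groups between `SL₃(p)` and `GL₃(p) : 2` -/
def JobL : Prop := ∀ (p : ℕ) [Fact p.Prime], p ≠ 2 → ∀ W : Subgroup (G2 p), Mono W → Real p W (Rax p)

/-- three radical lines: the primes -/
def JobP : Prop := ∀ (p : ℕ) [Fact p.Prime], p ≠ 2 → ∀ (W : Subgroup (G2 p)) (R : Set (V2 p)),
  Adm p W R → Thr R → p = 3 ∨ p = 5 ∨ p = 7 ∨ p = 13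

/-- three radical lines, `p = 5` or `p = 13`: only one pair -/
def JobN (p : ℕ) : Prop := ∀ (W W' : Subgroup (G2 p)) (R R' : Set (V2 p)),
  Adm p W R → Thr R → Adm p W' R' → Thr R' → Cj W R W' R'

/-- three radical lines, `p = 3`: two pairs -/
def JobN3 : Prop := ∀ (W : Subgroup (G2 3)) (R : Set (V2 3)), Adm 3 W R → Thr R →
  (Nat.card W = 8 ∨ Nat.card W = 16) ∧ ∀ (W' : Subgroup (G2 3)) (R' : Set (V2 3)),
    Adm 3 W' R' → Thr R' → Nat.card W = Nat.card W' → Cj W R W' R'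

end H9.RV
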