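/- Tower RV (row S5207): basic facts on `He p` and on pairs. -/
import Cfsg.Agent.H9.RVSpec

set_option autoImplicit false
set_option linter.unusedSectionVars false

open Matrix Subgroup Cfsg H92

namespace H9.RV

variable {p : ℕ}

theorem om_self (v : V2 p) : om v v = 0 := by simp [om]; ring
theorem om_comm (v w : V2 p) : om w v = -om v w := by simp [om]; ring
@[simp] theorem om_zero_left (v : V2 p) : om 0 v = 0 := by simp [om]
@[simp] theorem om_zero_right (v : V2 p) : om v 0 = 0 := by simp [om]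
theorem om_smul_left (t : ZMod p) (v w : V2 p) : om (t • v) w = t * om v w := by simp [om]; ring
theorem om_smul_right (t : ZMod p) (v w : V2 p) : om v (t • w) = t * om v w := by simp [om]; ring
theorem om_add_left (u v w : V2 p) : om (u + v) w = om u w + om v w := by simp [om]; ring
theorem om_add_right (u v w : V2 p) : om u (v + w) = om u v + om u w := by simp [om]; ring
theorem om_smul_smul (s t : ZMod p) (v : V2 p) : om (s • v) (t • v) = 0 := by simp [om]; ring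

@[simp] theorem act_zero (A : G2 p) : act A 0 = 0 := mulVec_zero _
@[simp] theorem act_inv_act (A : G2 p) (v : V2 p) : act A⁻¹ (act A v) = v := by
  rw [← act_mul, inv_mul_cancel, act_one]
@[simp] theorem act_act_inv (A : G2 p) (v : V2 p) : act A (act A⁻¹ v) = v := by
  rw [← act_mul, mul_inv_cancel, act_one]
theorem act_inj (A : G2 p) {v w : V2 p} (h : act A v = act A w) : v = w := by
  rw [← act_inv_act A v, h, act_inv_act]
theorem act_eq_zero {A : G2 p} {v : V2 p} : act A v = 0 ↔ v = 0 :=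
  ⟨fun h => act_inj A (h.trans (act_zero A).symm), fun h => h ▸ act_zero A⟩
theorem act_apply0 (A : G2 p) (v : V2 p) : act A v 0 = A 0 0 * v 0 + A 0 1 * v 1 := by
  simp [act, mulVec, dotProduct, Fin.sum_univ_two]
theorem act_apply1 (A : G2 p) (v : V2 p) : act A v 1 = A 1 0 * v 0 + A 1 1 * v 1 := by
  simp [act, mulVec, dotProduct, Fin.sum_univ_two]
theorem dt_eq (A : G2 p) : dt A = A 0 0 * A 1 1 - A 0 1 * A 1 0 := det_fin_two _
theorem dt_mul_inv (A : G2 p) : dt A * dt A⁻¹ = 1 := by rw [← dt_mul, mul_inv_cancel, dt_one]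
theorem dt_conj (A B : G2 p) : dt (A * B * A⁻¹) = dt B := by
  rw [dt_mul, dt_mul, mul_right_comm, dt_mul_inv, one_mul]

/-- a matrix is determined by its action -/
theorem G2.ext_act {A B : G2 p} (h : ∀ v, act A v = act B v) : A = B := by
  have h0 := h ![1, 0]
  have h1 := h ![0, 1]
  have a := congrFun h0 0
  have b := congrFun h0 1
  have c := congrFun h1 0
  have d := congrFun h1 1
  simp only [act_apply0, act_apply1] at a b c d
  refine Units.ext (Matrix.ext fun i j => ?_)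
  fin_cases i <;> fin_cases j
  exacts [by simpa using a, by simpa using c, by simpa using b, by simpa using d]

theorem sd_mk (A : G2 p) (v : V2 p) (c : ZMod p) : sd A ⟨v, c⟩ = ⟨act A v, dt A * c⟩ := rfl

@[simp] theorem conj_v (s u : He p) : (s * u * s⁻¹).v = u.v := by simp

theorem conj_c (s u : He p) : (s * u * s⁻¹).c = u.c + 2 * om s.v u.v := by simp [om]; ring

theorem conj_eq (s u : He p) : s * u * s⁻¹ = ⟨u.v, u.c + 2 * om s.v u.v⟩ := He.ext (conj_v s u) (conj_c s u)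

theorem sd_conj (A : G2 p) (s u : He p) : sd A (s * u * s⁻¹) = sd A s * sd A u * (sd A s)⁻¹ := by simp

theorem pow_eq (u : He p) (n : ℕ) : u ^ n = ⟨(n : ZMod p) • u.v, n * u.c⟩ := by
  induction n with
  | zero => exact He.ext (by simp) (by simp)
  | succ n ih =>
    rw [pow_succ, ih]
    refine He.ext (by simp [add_smul]) ?_
    simp only [He.mul_c, om_smul_left, om_self]; push_cast; ring

theorem pow_p (u : He p) : u ^ p = 1 := by rw [pow_eq]; exact He.ext (by simp) (by simp)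

theorem mul_VV (v : V2 p) (s t a b : ZMod p) :
    (⟨s • v, a⟩ : He p) * ⟨t • v, b⟩ = ⟨(s + t) • v, a + b⟩ :=
  He.ext (by simp [add_smul]) (by simp [om_smul_smul])

theorem ZZ_le_VV (v : V2 p) : ZZ p ≤ VV v := fun _ h => ⟨0, by rw [zero_smul]; exact h⟩

theorem mk_mem_VV (v : V2 p) (t c : ZMod p) : (⟨t • v, c⟩ : He p) ∈ VV v := ⟨t, rfl⟩

theorem self_mem_VV (v : V2 p) (c : ZMod p) : (⟨v, c⟩ : He p) ∈ VV v := ⟨1, (one_smul _ _).symm⟩

theorem conj_mem_VV {v : V2 p} (s : He p) {u : He p} (h : u ∈ VV v) : s * u * s⁻¹ ∈ VV v := by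
  obtain ⟨t, ht⟩ := h
  exact ⟨t, by rw [conj_v, ht]⟩

instance (v : V2 p) : (VV v).Normal := ⟨fun _ h s => conj_mem_VV s h⟩

theorem comm_ZZ {z : He p} (h : z ∈ ZZ p) (u : He p) : u * z = z * u := by
  have : z.v = 0 := h
  exact He.ext (by simp [this]) (by simp [this, add_comm])

theorem conj_ZZ {z : He p} (h : z ∈ ZZ p) (s : He p) : s * z * s⁻¹ = z := by
  rw [comm_ZZ h, mul_inv_cancel_right]

theorem comm_VV {v : V2 p} {a b : He p} (ha : a ∈ VV v) (hb : b ∈ VV v) : a * b = b * a := by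
  obtain ⟨s, hs⟩ := ha
  obtain ⟨t, ht⟩ := hb
  exact He.ext (by simp [add_comm]) (by simp [hs, ht, om_smul_smul, add_comm])

theorem sd_mem_ZZ (A : G2 p) {u : He p} (h : u ∈ ZZ p) : sd A u ∈ ZZ p := by
  rw [mem_ZZ, sd_v, (h : u.v = 0), act_zero]

/-- `He p` as a product -/
def He.equiv (p : ℕ) : He p ≃ V2 p × ZMod p :=
  ⟨fun u => (u.v, u.c), fun x => ⟨x.1, x.2⟩, fun _ => rfl, fun _ => rfl⟩

instance [NeZero p] : Finite (He p) := Finite.of_equiv _ (He.equiv p).symm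

theorem card_He [NeZero p] : Nat.card (He p) = p ^ 3 := by
  rw [Nat.card_congr (He.equiv p), Nat.card_prod, Nat.card_fun, Nat.card_zmod, Nat.card_eq_fintype_card,
    Fintype.card_fin, ← pow_succ]

theorem pgroup_He : IsPGroup p (He p) := fun u => ⟨1, by rw [pow_one, pow_p]⟩

theorem pgroup_top : IsPGroup p (⊤ : Subgroup (He p)) := pgroup_He.to_subgroup _

section Prime
variable [hp : Fact p.Prime]

theorem two_ne (h2 : p ≠ 2) : (2 : ZMod p) ≠ 0 := fun h => h2
  ((Nat.prime_dvd_prime_iff_eq hp.out Nat.prime_two).1 ((ZMod.natCast_eq_zero_iff 2 p).1 (by exact_mod_cast h)))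

theorem dt_ne (A : G2 p) : dt A ≠ 0 := left_ne_zero_of_mul_eq_one (dt_mul_inv A)

theorem exists_pow (u : He p) (t : ZMod p) : ∃ n : ℕ, u ^ n = ⟨t • u.v, t * u.c⟩ :=
  ⟨t.val, by rw [pow_eq, ZMod.natCast_zmod_val]⟩

theorem mem_zpowers_iff' {u x : He p} : x ∈ zpowers u ↔ ∃ t : ZMod p, x = ⟨t • u.v, t * u.c⟩ := by
  refine ⟨fun h => ?_, fun ⟨t, ht⟩ => ?_⟩
  · obtain ⟨n, rfl⟩ := (mem_powers_iff_mem_zpowers.2 h : x ∈ Submonoid.powers u)
    exact ⟨n, pow_eq u n⟩
  · obtain ⟨n, hn⟩ := exists_pow u t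
    rw [ht, ← hn]; exact npow_mem_zpowers u n

theorem om_eq_zero {v w : V2 p} (hv : v ≠ 0) : om v w = 0 ↔ ∃ t : ZMod p, w = t • v := by
  refine ⟨fun h => ?_, fun ⟨t, ht⟩ => by rw [ht, om_smul_right, om_self, mul_zero]⟩
  rw [om, sub_eq_zero] at h
  by_cases h0 : v 0 = 0
  · have h1 : v 1 ≠ 0 := fun h1 => hv (funext fun i => by fin_cases i <;> assumption)
    refine ⟨w 1 / v 1, funext fun i => ?_⟩
    fin_cases i
    · rw [h0, zero_mul] at h
      simp [h0, (mul_eq_zero.1 h.symm).resolve_left h1]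
    · simp [h1]
  · refine ⟨w 0 / v 0, funext fun i => ?_⟩
    fin_cases i
    · simp [h0]
    · simp only [Fin.mk_one, Pi.smul_apply, smul_eq_mul]
      field_simp
      linear_combination h

theorem exists_om {v : V2 p} (hv : v ≠ 0) (c : ZMod p) : ∃ s : V2 p, om s v = c := by
  by_cases h0 : v 0 = 0
  · have h1 : v 1 ≠ 0 := fun h1 => hv (funext fun i => by fin_cases i <;> assumption)
    exact ⟨![c / v 1, 0], by simp [om, h1]⟩
  · exact ⟨![0, -c / v 0], by simp [om, h0]⟩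

/-- all elements over a nonzero vector are conjugate -/
theorem exists_conj (h2 : p ≠ 2) {v : V2 p} (hv : v ≠ 0) (c d : ZMod p) :
    ∃ s : He p, s * ⟨v, c⟩ * s⁻¹ = ⟨v, d⟩ := by
  obtain ⟨s, hs⟩ := exists_om hv ((d - c) / 2)
  refine ⟨⟨s, 0⟩, by rw [conj_eq]; exact He.ext rfl (by
    have := two_ne h2
    simp only [hs]; field_simp; ring)⟩

theorem comm_iff (h2 : p ≠ 2) {a b : He p} : a * b = b * a ↔ om a.v b.v = 0 := by
  refine ⟨fun h => ?_, fun h => He.ext (by simp [add_comm]) (by simp [om_comm a.v b.v, h, add_comm])⟩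
  have := congrArg He.c h
  simp only [He.mul_c, om_comm a.v b.v] at this
  exact (mul_eq_zero.1 (show 2 * om a.v b.v = 0 by linear_combination this)).resolve_left (two_ne h2)

theorem mem_VV_iff {v : V2 p} (hv : v ≠ 0) {u : He p} : u ∈ VV v ↔ om v u.v = 0 := (om_eq_zero hv).symm

/-- the centralizer of a noncentral element -/
theorem comm_iff_VV (h2 : p ≠ 2) {v : V2 p} (hv : v ≠ 0) (c : ZMod p) {u : He p} :
    (⟨v, c⟩ : He p) * u = u * ⟨v, c⟩ ↔ u ∈ VV v := (comm_iff h2).trans (mem_VV_iff hv).symm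

theorem mem_ZZ_of_comm (h2 : p ≠ 2) {z : He p} (h : ∀ u, u * z = z * u) : z ∈ ZZ p := by
  by_contra hz
  obtain ⟨s, hs⟩ := exists_om (v := z.v) hz 1
  exact one_ne_zero (hs.symm.trans ((comm_iff h2).1 (h ⟨s, 0⟩)))

theorem cen_VV (h2 : p ≠ 2) {v : V2 p} (hv : v ≠ 0) : FusionSystem.centralizerIn ⊤ (VV v) ≤ VV v :=
  fun _ hs => (comm_iff_VV h2 hv 0).1 (mem_centralizer_iff.1 hs.2 _ (self_mem_VV v 0))

theorem aut_mem_ZZ (h2 : p ≠ 2) (θ : MulAut (He p)) {z : He p} (h : z ∈ ZZ p) : θ z ∈ ZZ p :=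
  mem_ZZ_of_comm h2 fun u => by
    rw [← θ.apply_symm_apply u, ← map_mul, comm_ZZ h, map_mul]

theorem VV_eq {v w : V2 p} (hv : v ≠ 0) (hw : w ≠ 0) (h : om v w = 0) : VV w = VV v := by
  obtain ⟨t, rfl⟩ := (om_eq_zero hv).1 h
  have ht : t ≠ 0 := fun e => hw (by rw [e, zero_smul])
  ext u
  rw [mem_VV_iff hw, mem_VV_iff hv, om_smul_left, mul_eq_zero, or_iff_right ht]

theorem VV_lt_top {v : V2 p} (hv : v ≠ 0) : VV v < ⊤ := lt_top_iff_ne_top.2 fun h => by
  obtain ⟨s, hs⟩ := exists_om hv 1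
  have := (mem_VV_iff hv).1 (h.ge (mem_top (⟨s, 0⟩ : He p)))
  rw [om_comm, hs] at this
  simp at this

theorem smul_inj {v : V2 p} (hv : v ≠ 0) {s t : ZMod p} (h : s • v = t • v) : s = t :=
  smul_left_injective _ hv h

/-- the matrix with two independent columns -/
theorem exists_cols {v w : V2 p} (h : om v w ≠ 0) :
    ∃ A : G2 p, act A ![1, 0] = v ∧ act A ![0, 1] = w ∧ dt A = om v w := by
  have e : (!![v 0, w 0; v 1, w 1] : Matrix (Fin 2) (Fin 2) (ZMod p)).det = om v w := by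
    rw [det_fin_two_of, om]; ring
  refine ⟨GeneralLinearGroup.mkOfDetNeZero _ (e ▸ h), ?_, ?_, e⟩ <;>
  · show !![v 0, w 0; v 1, w 1] *ᵥ _ = _
    funext i
    fin_cases i <;> simp [mulVec, dotProduct, Fin.sum_univ_two]

/-- an invertible matrix with given entries -/
theorem exists_mat (a b c d : ZMod p) (h : a * d - b * c ≠ 0) :
    ∃ A : G2 p, (A : Matrix (Fin 2) (Fin 2) (ZMod p)) = !![a, b; c, d] :=
  ⟨GeneralLinearGroup.mkOfDetNeZero _ (by rwa [det_fin_two_of]), rfl⟩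

/-- a map of the system on the whole group is an automorphism -/
theorem exists_aut {F : FusionSystem (⊤ : Subgroup (He p))} {f : He p → He p} (h : Mor F ⊤ f) :
    ∃ θ : MulAut (He p), ∀ u, θ u = f u := by
  let φ : He p →* He p := MonoidHom.mk' f fun a b => h.map_mul trivial trivial
  have i : Function.Injective φ := fun a b e => h.inj trivial trivial e
  exact ⟨MulEquiv.ofBijective φ (Finite.injective_iff_bijective.1 i), fun _ => rfl⟩

/-- stripping the inner part -/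
theorem mem_WF_of {F : FusionSystem (⊤ : Subgroup (He p))} {f : He p → He p} (h : Mor F ⊤ f) {s : He p}
    {A : G2 p} (e : ∀ u, f u = s * sd A u * s⁻¹) : A ∈ WF F :=
  (h.comp (mor_conj' F le_rfl (mem_top s)) fun _ _ => trivial).congr fun u _ => by rw [e]; group

/-- adding the inner part -/
theorem mor_of_WF {F : FusionSystem (⊤ : Subgroup (He p))} {A : G2 p} (h : A ∈ WF F) (s : He p) :
    Mor F ⊤ fun u => s * sd A u * s⁻¹ :=
  (mem_WF.1 h).comp (mor_conj F le_rfl (mem_top s)) fun _ _ => trivial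

end Prime

/-! ### conjugate pairs -/

variable {W W' W'' : Subgroup (G2 p)} {R R' R'' : Set (V2 p)}

theorem Cj.refl (W : Subgroup (G2 p)) (R : Set (V2 p)) : Cj W R W R := ⟨1, by simp, by simp⟩

theorem Cj.symm (h : Cj W R W' R') : Cj W' R' W R := by
  obtain ⟨A, h1, h2⟩ := h
  exact ⟨A⁻¹, fun B => by rw [h1]; simp [mul_assoc], fun v => by rw [h2, act_act_inv]⟩

theorem Cj.trans (h : Cj W R W' R') (k : Cj W' R' W'' R'') : Cj W R W'' R'' := by
  obtain ⟨A, h1, h2⟩ := h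
  obtain ⟨B, k1, k2⟩ := k
  exact ⟨B * A, fun C => by rw [h1, k1]; simp [mul_assoc], fun v => by rw [h2, k2, act_mul]⟩

/-- conjugating a pair by a given matrix -/
theorem exists_cj (A : G2 p) (W : Subgroup (G2 p)) (R : Set (V2 p)) :
    ∃ (W' : Subgroup (G2 p)) (R' : Set (V2 p)), (∀ B, B ∈ W ↔ A * B * A⁻¹ ∈ W') ∧ ∀ v, v ∈ R ↔ act A v ∈ R' :=
  ⟨W.comap (MulAut.conj A⁻¹).toMonoidHom, {v | act A⁻¹ v ∈ R}, fun B => by simp [mul_assoc],
    fun v => by simp⟩

theorem Cj.card (h : Cj W R W' R') : Nat.card W = Nat.card W' := by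
  obtain ⟨A, h1, -⟩ := h
  have : W = W'.comap (MulAut.conj A).toMonoidHom := Subgroup.ext h1
  rw [this, comap_equiv_eq_map_symm', card_map_of_injective (MulEquiv.injective _)]

theorem Cj.adm (h : Cj W R W' R') (a : Adm p W R) : Adm p W' R' := by
  have hc := h.card
  obtain ⟨A, h1, h2⟩ := h.symm
  refine ⟨hc ▸ a.cop, fun v hv e => a.ne _ ((h2 v).1 hv) (by rw [e, act_zero]), fun v hv t ht => ?_,
    fun B hB v hv => ?_, fun v hv t ht => ?_⟩
  · rw [h2, act_smul]; exact a.smul _ ((h2 v).1 hv) t ht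
  · have := a.inv _ ((h1 B).1 hB) _ ((h2 v).1 hv)
    rwa [act_mul, act_inv_act, act_mul, ← h2] at this
  · obtain ⟨B, hB, e1, e2⟩ := a.tor _ ((h2 v).1 hv) t ht
    refine ⟨A⁻¹ * B * A⁻¹⁻¹, by rw [h1]; simpa [mul_assoc] using hB, ?_, by rw [dt_conj, e2]⟩
    rw [inv_inv, act_mul, act_mul, e1, act_smul, act_inv_act]

theorem Cj.thr [Fact p.Prime] (h : Cj W R W' R') (a : Thr R) : Thr R' := by
  obtain ⟨A, -, h2⟩ := h
  obtain ⟨u, hu, v, hv, w, hw, e1, e2, e3⟩ := a
  refine ⟨_, (h2 u).1 hu, _, (h2 v).1 hv, _, (h2 w).1 hw, ?_, ?_, ?_⟩ <;> rw [om_act]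
  exacts [mul_ne_zero (dt_ne A) e1, mul_ne_zero (dt_ne A) e2, mul_ne_zero (dt_ne A) e3]

theorem Cj.real (h : Cj W R W' R') (a : Real p W' R') : Real p W R := by
  obtain ⟨A, h1, h2⟩ := h
  obtain ⟨G, i, j, ι, hι, ⟨T, hT⟩, rfl, rfl⟩ := a
  refine ⟨G, i, j, ι.comp (sd A).toMonoidHom, hι.comp (sd A).injective, ⟨T, ?_⟩, Subgroup.ext fun B => ?_,
    Set.ext fun v => ?_⟩
  · rw [hT]
    exact le_antisymm (fun _ ⟨u, e⟩ => ⟨sd A⁻¹ u, by simpa using e⟩) fun _ ⟨u, e⟩ => ⟨_, e⟩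
  · rw [h1]
    refine exists_congr fun g => ⟨fun k u => ?_, fun k u => ?_⟩
    · simpa using k (sd A⁻¹ u)
    · simpa using k (sd A u)
  · rw [h2]
    refine and_congr (not_congr act_eq_zero.symm) (exists_congr fun g => ⟨fun ⟨c, k⟩ => ⟨dt A * c, ?_⟩,
      fun ⟨c, k⟩ => ⟨dt A⁻¹ * c, ?_⟩⟩)
    · simpa [sd_mk] using k
    · simpa [sd_mk, ← mul_assoc, dt_mul_inv] using k

end H9.RV
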