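import Cfsg.Agent.H9.E7T
import Cfsg.Agent.H45.E7U1

/-! Tower E7MAX (row S5934): the type data from words in the root elements. -/

set_option autoImplicit false
set_option linter.unusedSectionVars false

namespace H9.E7T

open Module H36.E7M Cfsg.Lie
open H22.BK hiding F

/-- an evaluation of words; `e_r` is bit `c + r`, `h_i` is bit `d + i` -/
structure WK (e : chevE7.Idx ≃ Fin 133) (wd : List ℕ → G) (wa : List ℕ → ℕ → ℕ) (c d : ℕ) : Prop
    extends H45.E7U.Ev e wd wa where
  one : ∀ r < 126, wd [r] = x r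
  hc : ∀ r : Fin 126, (e (ix r) : ℕ) = c + r
  hd : ∀ i : Fin 7, (e (ih i) : ℕ) = d + i

/-- the word of the lift of a vector -/
def qw (b : ℕ) : List ℕ := ((List.range 32).filter b.testBit).map (93 + ·)
/-- the generators -/
def gens (ws : List ℕ) (ls ex : List (List ℕ)) : List (List ℕ) :=
  [125] :: [0] :: (ws.map qw ++ ls ++ ex.map fun u => u ++ [0] ++ u.reverse)
/-- the level `-1` block -/
def blk (c : ℕ) (M : List ℕ) : List ℕ :=
  (List.range 32).map fun j => (M.getD (c + 1 + j) 0 >>> (c + 1)) % 2 ^ 32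
def inR (a b : ℕ) (w : List ℕ) : Bool := w.all fun r => Nat.ble a r && Nat.ble r b
/-- the test implied by `Crit` -/
def tst (c d u : ℕ) : Bool := Nat.beq ((u >>> (c + 33)) % 2 ^ 60) 0 &&
  (Nat.beq ((u >>> d) % 2 ^ 7) 0 || Nat.beq ((u >>> d) % 2 ^ 7) 84)

variable {e : chevE7.Idx ≃ Fin 133} {wd : List ℕ → G} {wa : List ℕ → ℕ → ℕ} {c d : ℕ}

namespace WK

variable (h : WK e wd wa c d)
include h

theorem cons (r : ℕ) (w : List ℕ) (hr : r < 126) : wd (r :: w) = x r * wd w := by
  rw [← h.one r hr, ← h.app]; rfl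

theorem mem {H : Subgroup G} {a b : ℕ} (hb : b < 126) (hH : ∀ r, a ≤ r → r ≤ b → x r ∈ H)
    {w : List ℕ} (q : inR a b w = true) : wd w ∈ H := by
  induction w with
  | nil => rw [h.nil]; exact one_mem H
  | cons r t ih =>
    simp only [inR, List.all_cons, Bool.and_eq_true, Nat.ble_eq] at q
    rw [h.cons r t (by omega)]
    exact mul_mem (hH r q.1.1 q.1.2) (ih (by simpa [inR] using q.2))

theorem memL {w : List ℕ} (q : inR 33 92 w = true) : wd w ∈ L :=
  h.mem (by omega) (fun _ => x_mem_L) q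

theorem eb_eq (r : Fin 126) : vec e (2 ^ (c + r)) = eb r := by rw [← h.hc, vec_pow]; rfl

theorem qw_spec (k : Kit) (b : ℕ) : wd (qw b) ∈ Q ∧ φ (wd (qw b)) = vec e2 b := by
  have key : ∀ l : List ℕ, (∀ i ∈ l, i < 32) → l.Nodup → wd (l.map (93 + ·)) ∈ Q ∧
      ∀ j : Fin 32, φ (wd (l.map (93 + ·))) j = if (j : ℕ) ∈ l then 1 else 0 := fun l h1 h2 => by
    induction l with
    | nil =>
      rw [List.map_nil, h.nil, (k.phi.2.1 1 (one_mem Q)).2 (Or.inl rfl)]
      exact ⟨one_mem Q, fun _ => by simp⟩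
    | cons i t ih =>
      have hi := h1 i (.head _)
      obtain ⟨a1, a2⟩ := ih (fun j s => h1 j (.tail _ s)) (List.nodup_cons.1 h2).2
      have a3 : x (93 + i) ∈ Q := x_mem_Q (by omega) (by omega)
      rw [List.map_cons, h.cons _ _ (by omega), k.phi.1 _ a3 _ a1, k.phi.2.2.2.1 ⟨i, hi⟩]
      refine ⟨mul_mem a3 a1, fun j => ?_⟩
      rw [Pi.add_apply, a2]
      by_cases hj : j = ⟨i, hi⟩
      · subst hj; simp [(List.nodup_cons.1 h2).1]
      · have : (j : ℕ) ≠ i := fun t => hj (Fin.ext t)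
        simp [hj, this]
  obtain ⟨a1, a2⟩ := key ((List.range 32).filter b.testBit)
    (fun i s => List.mem_range.1 (List.mem_filter.1 s).1) (List.nodup_range.filter _)
  refine ⟨a1, funext fun j => (a2 j).trans ?_⟩
  simp only [List.mem_filter, List.mem_range, j.2, true_and, vec, Equiv.refl_apply]
  cases b.testBit j <;> simp

theorem rl (l : List (List ℕ)) {Ms : List (List ℕ)} (q : (l.map fun w => mat 133 (wa w)) = Ms) :
    RL e ((l.map wd).map ρ) Ms := by
  subst q
  induction l with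
  | nil => exact RL.nil
  | cons w t ih => exact RL.cons (h.rep w) rfl ih

theorem rep_blk {g : G} {M : List ℕ} (r : Rep e (ρ g) (app M)) (hM : M.length = 133) :
    Rep e2 (A g) (app (blk c M)) := by
  have : A g = lin e2 (blk c M) := by
    refine LinearMap.pi_ext' fun i => LinearMap.ext_ring (funext fun j => ?_)
    have e1 : emb (Pi.single i 1) = eb (lo i) := by
      rw [emb, Finset.sum_eq_single i] <;> simp +contextual
    have e3 : lin e2 (blk c M) (Pi.single i 1) = vec e2 ((blk c M).getD i 0) := by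
      rw [lin, LinearMap.sum_apply, Finset.sum_eq_single i] <;> simp +contextual
    have e4 : ρ g (eb (lo i)) = vec e (M.getD (c + 1 + i) 0) := by
      rw [← h.eb_eq, r, vec_app hM, ← h.hc, vec_pow, Finset.sum_eq_single (ix (lo i))]
      · rw [h.hc, Pi.single_eq_same, one_smul]; congr 2; simp [lo]; omega
      · intro t _ ht; rw [Pi.single_eq_of_ne ht, zero_smul]
      · simp
    have e5 : ∀ v, A g v j = ρ g (emb v) (ix (lo j)) := fun _ => rfl
    simp only [LinearMap.coe_comp, LinearMap.coe_single, Function.comp_apply]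
    rw [e5, e1, e3, e4, vec, vec, h.hc]
    have e6 : (blk c M).getD i 0 = (M.getD (c + 1 + i) 0 >>> (c + 1)) % 2 ^ 32 := by simp [blk]
    rw [e6, Nat.testBit_mod_two_pow, Nat.testBit_shiftRight]
    simp only [lo, Equiv.refl_apply, j.2, decide_true, Bool.true_and]
    congr 2; omega
  rw [this]
  exact rep_app (by simp [blk])

theorem rlA (l : List (List ℕ)) {As : List (List ℕ)}
    (q : (l.map fun w => blk c (mat 133 (wa w))) = As) : RL e2 ((l.map wd).map A) As := by
  subst q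
  induction l with
  | nil => exact RL.nil
  | cons w t ih =>
    exact List.Forall₂.cons ⟨h.rep_blk ((h.rep w).toMat rfl) (by simp [mat]), by simp [blk]⟩ ih

theorem tst_of (u : ℕ) (q : Crit (vec e u)) : tst c d u = true := by
  obtain ⟨q1, q2⟩ := q
  have b0 : ∀ {b : Bool}, bt b = 0 → b = false := by decide
  simp only [tst, Bool.and_eq_true, Bool.or_eq_true, Nat.beq_eq]
  refine ⟨Nat.eq_of_testBit_eq fun j => ?_, q2.imp (fun t => Nat.eq_of_testBit_eq fun j => ?_)
    fun t => Nat.eq_of_testBit_eq fun j => ?_⟩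
  · rw [Nat.testBit_mod_two_pow, Nat.zero_testBit, Nat.testBit_shiftRight]
    by_cases hj : j < 60
    · have := q1 ⟨33 + j, by omega⟩ (by simp) (by simp; omega)
      rw [vec, h.hc] at this
      simpa [add_assoc] using fun _ => b0 this
    · simp [hj]
  · rw [Nat.testBit_mod_two_pow, Nat.zero_testBit, Nat.testBit_shiftRight]
    by_cases hj : j < 7
    · have := t ⟨j, hj⟩
      rw [vec, h.hd] at this
      simpa using fun _ => b0 this
    · simp [hj]
  · rw [Nat.testBit_mod_two_pow, Nat.testBit_shiftRight]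
    by_cases hj : j < 7
    · have := t ⟨j, hj⟩
      rw [vec, h.hd] at this
      have e1 : ∀ j : Fin 7, (![0, 0, 1, 0, 1, 0, 1] : Fin 7 → F) j = bt (Nat.testBit 84 j) := by
        decide
      rw [e1] at this
      simpa [hj] using bt_inj this
    · simpa [hj] using (Nat.testBit_lt_two_pow (lt_of_lt_of_le (by norm_num : 84 < 2 ^ 7)
        (Nat.pow_le_pow_right (by norm_num) (by omega))))

variable (k : Kit) {ws : List ℕ} {ls ex Ms Ts As : List (List ℕ)} {B : List ℕ}
include k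

/-- `Base`, `Pre` and the order of `Y ⊓ Q`.  `m` is an invariant subspace that `x r` does not keep
(`b ∈ m`), `C` the complement of `B`, `p T v a` Norton's data, `as` seeds for the dual spin. -/
theorem base (hM : ((gens ws ls ex).map fun w => mat 133 (wa w)) = Ms) (hT : Ms.map (tr 133) = Ts)
    (hA : ((Ms.drop (2 + ws.length)).take ls.length).map (blk c) = As)
    (q1 : ls.all (inR 33 92) = true) (q2 : ex.all (inR 33 125) = true)
    {m : List ℕ} (q3 : Ms.all (mps m m) = true) {r : ℕ}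
    (q4 : m.length < rk 133 (m ++ [wa [r] (m.headD 0)])) (q5 : m ≠ [])
    {j : ℕ} {as : List ℕ}
    (q6 : 112 ≤ tl 133 (spin (Ts.map app) j (as.map fun a => Nat.xor (app (Ts.headD []) a) a)))
    (q7 : B.all (fun b => Nat.beq (red (spin (As.map app) j ws) b) 0) = true)
    {p : List (List ℕ)} {T : List ℕ} {v a : ℕ} (q8 : mat 32 (papp As p) = T)
    (q9 : nortonChk 32 B T v a = true) (q10 : 32 ≤ tl 32 (spin (As.map app) j (B ++ [v])))
    (q11 : 32 ≤ tl 32 (spin ((As.map (tr 32)).map app) j [a]) + rk 32 B)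
    {C : List ℕ} (q12 : C.all (fun c => B.all fun b => !dt 32 c b) = true)
    (q13 : 32 ≤ rk 32 (B.map rv ++ C)) (q14 : tri 32 B = true) :
    Base (YY ((gens ws ls ex).map wd)) ∧ Pre (YY ((gens ws ls ex).map wd)) (sp e2 B) ∧
      nQ (YY ((gens ws ls ex).map wd)) = 2 ^ (B.length + 1) := by
  have R := h.rl _ hM
  have mem : ∀ w ∈ gens ws ls ex, wd w ∈ (gens ws ls ex).map wd := fun w t =>
    List.mem_map.2 ⟨w, t, rfl⟩
  have hz : z ∈ (gens ws ls ex).map wd := h.z ▸ mem _ (.head _)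
  have ey : wd [0] = y := h.one 0 (by omega)
  have hy : y ∈ (gens ws ls ex).map wd := ey ▸ mem [0] (.tail _ (.head _))
  have hY : YY ((gens ws ls ex).map wd) ≠ ⊤ :=
    ne_top (inv_chk R q3) (h.rep [r]) (by cases m with
      | nil => exact (q5 rfl).elim
      | cons => exact .head _) q4
  have hL : ∀ l ∈ ls, wd l ∈ L := fun l t => h.memL (List.all_eq_true.1 q1 l t)
  have RA : RL e2 ((ls.map wd).map A) As := h.rlA ls (by
    rw [← hA, ← hM]
    simp [gens, Function.comp_def, add_comm 2])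
  have hp := pre k (B := B) (mem_YY hz) (mem_YY hy) hY (ls := ls.map wd) (fun l t => by
      obtain ⟨w, s, rfl⟩ := List.mem_map.1 t
      exact ⟨mem_YY (mem w (by simp [gens, s])), hL w s⟩) RA
    (fun b t => ⟨_, mem_YY (mem (qw b) (by
      simp only [gens, List.mem_cons, List.mem_append, List.mem_map]
      exact Or.inr (Or.inr (Or.inl (Or.inl ⟨b, t, rfl⟩))))), h.qw_spec k b⟩) q7 q8 q9 q10 q11
  refine ⟨H9.E7T.base k hz hy hY (fun g t => ?_) hp (gram q12 q13) ?_, hp.2, nq k hp.2 q14⟩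
  · obtain ⟨w, s, rfl⟩ := List.mem_map.1 t
    simp only [gens, List.mem_cons, List.mem_append, List.mem_map] at s
    rcases s with rfl | rfl | (⟨b, -, rfl⟩ | s) | ⟨u, s, rfl⟩
    · exact Or.inl (h.z ▸ z_mem_Q)
    · exact Or.inr (Or.inr (rel_opp.2 ⟨1, (cj_one z).symm, ey.trans (cj_one y).symm⟩))
    · exact Or.inl (h.qw_spec k b).1
    · exact Or.inr (Or.inl (hL w s))
    · refine Or.inr (Or.inr (rel_opp.2 ⟨wd u, (cj_eq_iff.2 ?_).symm, ?_⟩))
      · refine h.mem (H := Subgroup.centralizer {z}) (by omega) (fun r r1 r2 _ t => ?_)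
          (List.all_eq_true.1 q2 u s) z rfl |>.symm
        rw [t]
        by_cases r3 : r ≤ 92
        · exact (k.lq.2.1 _ (x_mem_L r1 r3)).1.symm
        · exact (k.p1.Qz _ (x_mem_Q (by omega) (by omega))).symm
      · rw [h.app, h.app, h.rev, ey, cj_def]
  · refine fix_le R (M := mat 133 (wa [125])) (h.z ▸ (h.rep _).toMat rfl) (by simp [mat]) ?_ hT q6
    rw [← hT, ← hM]; rfl

omit k in
theorem big (hM : ((gens ws ls ex).map fun w => mat 133 (wa w)) = Ms) {j : ℕ}
    (q : 22 ≤ tl 133 (spin (Ms.map app) j [2 ^ (c + 125)])) : Big (YY ((gens ws ls ex).map wd)) :=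
  H9.E7T.big (h.rl _ hM) (h.eb_eq 125) q

omit k in
theorem mod (hM : ((gens ws ls ex).map fun w => mat 133 (wa w)) = Ms) {m : List ℕ}
    (q1 : Ms.all (mps m m) = true) (q2 : red m (2 ^ (c + 125)) = 0) (q3 : m.length ≤ 90) :
    ∃ U : Submodule F LA, Inv (YY ((gens ws ls ex).map wd)) U ∧ eb 125 ∈ U ∧ finrank F U ≤ 90 :=
  ⟨sp e m, inv_chk (h.rl _ hM) q1, h.eb_eq 125 ▸ mem_of_red e q2, (finrank_sp_le e m).trans q3⟩

/-- root vectors in the span of `B`: images of the unit vector `i` under words `us` in the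
elements `l'` of `L` -/
theorem rv_ge {l' As' : List (List ℕ)} (hA : (l'.map fun w => blk c (mat 133 (wa w))) = As')
    (q1 : l'.all (inR 33 92) = true) {i : ℕ} (hi : i < 32) {us : List (List ℕ)} {l : List ℕ}
    (q2 : us.all (fun u => u.all fun t => Nat.blt t As'.length) = true)
    (q3 : (us.map fun u => wapp As' u (2 ^ i)) = l) (q4 : l.Nodup)
    (q5 : l.all (fun m => Nat.blt m (2 ^ 32) && Nat.beq (red B m) 0) = true) :
    l.length ≤ (RV ∩ sp e2 B).ncard := by
  simp only [List.all_eq_true, Bool.and_eq_true, Nat.blt_eq, Nat.beq_eq] at q2 q5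
  refine ncard_ge (fun m t => ⟨?_, mem_of_red e2 (q5 m t).2⟩) q4 fun m t => (q5 m t).1
  obtain ⟨u, s, rfl⟩ := List.mem_map.1 (q3 ▸ t)
  refine rv_word k (ls := l'.map wd) (fun g t => ?_) (h.rlA l' hA) u (rv_unit k hi) (q2 u s)
  obtain ⟨w, s, rfl⟩ := List.mem_map.1 t
  exact h.memL (List.all_eq_true.1 q1 w s)

theorem rv_up (B : List ℕ) : (RV ∩ sp e2 B).ncard ≤
    (enum (tst c d) (B.map fun b => (b, wa (qw b))) 0 (2 ^ c)).length := by
  have := rv_le k h.tst_of (l := B.map fun b => (b, wa (qw b))) (fun p t => by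
    obtain ⟨b, -, rfl⟩ := List.mem_map.1 t
    exact ⟨_, (h.qw_spec k b).1, (h.qw_spec k b).2, h.rep _⟩) (h.eb_eq 0)
  simpa [Function.comp_def] using this

end WK

variable (k : Kit) {Y : Subgroup G} {B : List ℕ} (hp : Pre Y (sp e2 B))
include k hp

theorem rho_eq : rho Y = 2 * (RV ∩ sp e2 B).ncard + 1 := (k.sc _ _ hp).2.1

theorem root_of (h : 1 ≤ (RV ∩ sp e2 B).ncard) : ∃ a ∈ Y, a ∈ Q ∧ a ∈ D ∧ a ≠ z :=
  (k.sc _ _ hp).2.2.2.1 (Set.nonempty_of_ncard_ne_zero (by omega))

theorem deg_of (h : (RV ∩ sp e2 B).ncard ≤ 0) : Deg Y :=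
  (k.sc _ _ hp).2.2.2.2 ((Set.ncard_eq_zero (Set.toFinite _)).1 (by omega))

end H9.E7T
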