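import Cfsg.Agent.Base

/-! Tower E7MAX (row S5934), abstract layer: root involutions `D = z^G` of a group acting on an
`F₂`-space.  Steps A0 - A3 of `blueprints/E7MAX.md`. -/

set_option autoImplicit false
set_option linter.unusedSectionVars false

namespace H9.E7

open Subgroup

section Defs

variable {G : Type*} [Group G] {V : Type*} [AddCommGroup V] [Module (ZMod 2) V]

/-- `g A g⁻¹` -/
abbrev cj (g : G) (A : Subgroup G) : Subgroup G := A.map (MulAut.conj g).toMonoidHom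

/-- The braid relation. -/
def Br (a b : G) : Prop := a * b * a = b * a * b

/-- `b ∈ Q_a` -/
def InQ (z : G) (Q : Subgroup G) (a b : G) : Prop := ∃ g, a = g * z * g⁻¹ ∧ g⁻¹ * b * g ∈ Q

/-- A chain `a - d - b` of collinear root elements with `d ∈ ⟨a, b⟩`. -/
def Spe (z : G) (Q : Subgroup G) (a b : G) : Prop :=
  ∃ d ∈ closure {a, b}, IsConj z d ∧ InQ z Q a d ∧ InQ z Q d b

/-- `z^M` -/
def cls (M : Subgroup G) (z : G) : Set G := {a | ∃ m ∈ M, a = m * z * m⁻¹}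

/-- The facts of Part I. -/
structure Geo (ρ : G →* Module.End (ZMod 2) V) (z y : G) (Q : Subgroup G) (v : V) : Prop where
  nq : ∀ k, Commute k z → ∀ x ∈ Q, k * x * k⁻¹ ∈ Q
  zq : z ∈ Q
  br : Br z y
  nc : ¬ Commute z y
  r5 : ∀ b, IsConj z b → Commute z b ∨ Spe z Q z b ∨ ∃ k, Commute k z ∧ b = k * y * k⁻¹
  cs : ∀ g, g * z * g⁻¹ ∈ Q → g⁻¹ * z * g ∈ Q
  ln : ∀ a ∈ Q, IsConj z a → a ≠ z → (Br a y ∨ Br (a * z) y) ∧
    (Spe z Q a y ∨ IsConj z (a * z) ∧ Spe z Q (a * z) y)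
  gen : ∀ M : Subgroup G, Q ≤ M → y ∈ M → M = ⊤
  qd : Q ≤ closure {a | a ∈ Q ∧ IsConj z a}
  cq : ∀ a, IsConj z a → (∀ x ∈ Q, Commute a x) → a = z
  fe : ∀ k, Commute k z → ρ k v = v

/-- The commutator form on `(M ⊓ Q) / Z` is nondegenerate. -/
def ND (z : G) (W : Subgroup G) : Prop :=
  ∀ a ∈ W, a ≠ 1 → a ≠ z → ∃ w ∈ W, w * a * w⁻¹ = a * z

/-- The data of one type. -/
structure Ty (z y : G) (Q Y : Subgroup G) : Prop where
  hz : z ∈ Y
  hy : y ∈ Y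
  gen : ∃ S : Set G, Y ≤ closure S ∧ ∀ s ∈ S, s ∈ Y ∧ (Commute s z ∨ IsConj z s)
  hW : ∀ M, Y ≤ M → M ≠ ⊤ → M ⊓ Q ≤ Y
  nd : ND z (Y ⊓ Q)

/-- `W` has a root element other than `z`. -/
def Rt (z : G) (W : Subgroup G) : Prop := ∃ a ∈ W, IsConj z a ∧ a ≠ z

/-- The fixed space of the set `X`. -/
def Fix (ρ : G →* Module.End (ZMod 2) V) (X : Set G) : Submodule (ZMod 2) V :=
  ⨅ a ∈ X, LinearMap.ker (ρ a - 1)

/-- The span of the orbit of `v`. -/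
def Orb (ρ : G →* Module.End (ZMod 2) V) (v : V) (Y : Subgroup G) : Submodule (ZMod 2) V :=
  Submodule.span _ {u | ∃ m ∈ Y, u = ρ m v}

/-- The span of the root vectors of the root elements of `M`. -/
def Rv (ρ : G →* Module.End (ZMod 2) V) (z : G) (v : V) (M : Subgroup G) : Submodule (ZMod 2) V :=
  Submodule.span _ {u | ∃ g, g * z * g⁻¹ ∈ M ∧ u = ρ g v}

/-- `Y` keeps `U`. -/
def Inv (ρ : G →* Module.End (ZMod 2) V) (Y : Subgroup G) (U : Submodule (ZMod 2) V) : Prop :=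
  ∀ g ∈ Y, ∀ u ∈ U, ρ g u ∈ U

theorem mem_Fix {ρ : G →* Module.End (ZMod 2) V} {X : Set G} {u : V} :
    u ∈ Fix ρ X ↔ ∀ a ∈ X, ρ a u = u := by
  simp [Fix, Submodule.mem_iInf, sub_eq_zero]

theorem mem_cj {g a : G} {A : Subgroup G} : a ∈ cj g A ↔ g⁻¹ * a * g ∈ A :=
  ⟨by rintro ⟨b, hb, rfl⟩; simpa [mul_assoc] using hb, fun h => ⟨_, h, by simp [mul_assoc]⟩⟩

end Defs

variable {G : Type*} [Group G] {V : Type*} [AddCommGroup V] [Module (ZMod 2) V]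
  {ρ : G →* Module.End (ZMod 2) V} {z y : G} {Q M N Y : Subgroup G} {v : V} {a b c : G}

theorem isC (g : G) (h : IsConj z a) : IsConj z (g * a * g⁻¹) := h.trans (isConj_iff.2 ⟨g, rfl⟩)

theorem cls_self : z ∈ cls M z := ⟨1, one_mem _, by simp⟩

theorem cls_conj (h : a ∈ cls M z) {m : G} (hm : m ∈ M) : m * a * m⁻¹ ∈ cls M z := by
  obtain ⟨k, hk, rfl⟩ := h
  exact ⟨m * k, mul_mem hm hk, by group⟩

theorem cls_D (h : a ∈ cls M z) : IsConj z a := by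
  obtain ⟨k, -, rfl⟩ := h
  exact isC k (IsConj.refl z)

theorem cls_mem (hz : z ∈ M) (h : a ∈ cls M z) : a ∈ M := by
  obtain ⟨k, hk, rfl⟩ := h
  exact mul_mem (mul_mem hk hz) (inv_mem hk)

theorem cls_mono (h : M ≤ N) : cls M z ⊆ cls N z := fun _ ⟨m, hm, e⟩ => ⟨m, h hm, e⟩

theorem Br.conj (h : Br a b) (g : G) : Br (g * a * g⁻¹) (g * b * g⁻¹) := by
  simp only [Br, conj_mul] at h ⊢
  rw [h]

theorem Br.eq (h : Br a b) : b = (a * b) * a * (a * b)⁻¹ := by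
  rw [h, mul_assoc b, mul_inv_cancel_right]

theorem Br.symm (h : Br a b) : Br b a := Eq.symm h

/-- Braided elements of `M` are conjugate in `M`. -/
theorem Br.cls (h : Br a b) (ha : a ∈ M) (hb : b ∈ M) (h1 : a ∈ cls M z) : b ∈ cls M z :=
  h.eq ▸ cls_conj h1 (mul_mem ha hb)

theorem InQ.conj (h : InQ z Q a b) (g : G) : InQ z Q (g * a * g⁻¹) (g * b * g⁻¹) := by
  obtain ⟨k, rfl, hk⟩ := h
  exact ⟨g * k, by group, by convert hk using 1; group⟩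

theorem Spe.conj (h : Spe z Q a b) (g : G) : Spe z Q (g * a * g⁻¹) (g * b * g⁻¹) := by
  obtain ⟨d, h1, h2, h3, h4⟩ := h
  refine ⟨g * d * g⁻¹, ?_, isC g h2, h3.conj g, h4.conj g⟩
  have := mem_map_of_mem (MulAut.conj g).toMonoidHom h1
  rwa [MonoidHom.map_closure, Set.image_pair] at this

namespace Geo

variable (h : Geo ρ z y Q v)
include h

theorem Dy : IsConj z y := isConj_iff.2 ⟨_, h.br.eq.symm⟩

theorem z1 : z ≠ 1 := fun e => h.nc (by rw [e]; exact Commute.one_left y)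

theorem ne1 (ha : IsConj z a) : a ≠ 1 := fun e => h.z1 (by rw [e] at ha; exact isConj_one_left.1 ha)

theorem inQ {g : G} (h1 : InQ z Q (g * z * g⁻¹) b) : g⁻¹ * b * g ∈ Q := by
  obtain ⟨k, e, hk⟩ := h1
  have := h.nq (g⁻¹ * k) (by
    change g⁻¹ * k * z = z * (g⁻¹ * k)
    calc g⁻¹ * k * z = g⁻¹ * (k * z * k⁻¹) * k := by group
      _ = _ := by rw [← e]; group) _ hk
  convert this using 1; group

theorem inQ_z (h1 : InQ z Q z b) : b ∈ Q := by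
  simpa using h.inQ (g := 1) (b := b) (by simpa using h1)

theorem inQ_symm (hb : IsConj z b) (h1 : InQ z Q a b) : InQ z Q b a := by
  obtain ⟨k, rfl, hk⟩ := h1
  obtain ⟨g, rfl⟩ := isConj_iff.1 hb
  refine ⟨g, rfl, ?_⟩
  have := h.cs (k⁻¹ * g) (by convert hk using 1; group)
  convert this using 1; group

/-- `e(g z g⁻¹) = g v` is well defined. -/
theorem e_eq {g k : G} (e : g * z * g⁻¹ = k * z * k⁻¹) : ρ g v = ρ k v := by
  have := h.fe (k⁻¹ * g) (by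
    change k⁻¹ * g * z = z * (k⁻¹ * g)
    calc k⁻¹ * g * z = k⁻¹ * (g * z * g⁻¹) * g := by group
      _ = _ := by rw [e]; group)
  conv_rhs => rw [← this, ← Module.End.mul_apply, ← map_mul, mul_inv_cancel_left]

theorem e_fix {g : G} (hc : Commute a (g * z * g⁻¹)) : ρ a (ρ g v) = ρ g v := by
  rw [← Module.End.mul_apply, ← map_mul]
  refine h.e_eq ?_
  calc a * g * z * (a * g)⁻¹ = a * (g * z * g⁻¹) * a⁻¹ := by group
    _ = _ := by rw [hc.eq, mul_inv_cancel_right]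

/-- The pair `(a, b)` of root elements. -/
theorem r5' (ha : IsConj z a) (hb : IsConj z b) :
    Commute a b ∨ Spe z Q a b ∨ ∃ g, a = g * z * g⁻¹ ∧ b = g * y * g⁻¹ := by
  obtain ⟨g, rfl⟩ := isConj_iff.1 ha
  obtain ⟨b, rfl⟩ : ∃ c, b = g * c * g⁻¹ := ⟨g⁻¹ * b * g, by group⟩
  rcases h.r5 b (hb.trans (isConj_iff.2 ⟨g⁻¹, by group⟩)) with h1 | h1 | ⟨k, hk, rfl⟩
  · exact Or.inl (h1.conj g)
  · exact Or.inr (Or.inl (h1.conj g))
  · refine Or.inr (Or.inr ⟨g * k, ?_, by group⟩)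
    rw [mul_assoc g k z, hk.eq]; group

/-- A0 at the base point. -/
theorem a0z (hz : z ∈ Y) (hy : y ∈ Y) (nd : ND z (Y ⊓ Q)) (hb : IsConj z b) (h1 : b ∈ Y ⊓ Q) :
    b ∈ cls Y z := by
  by_cases e : b = z
  · exact e ▸ cls_self
  have yc : y ∈ cls Y z := h.br.cls hz hy cls_self
  rcases (h.ln b h1.2 hb e).1 with h2 | h2
  · exact h2.symm.cls hy h1.1 yc
  · obtain ⟨w, hw, e1⟩ := nd b h1 (h.ne1 hb) e
    have := cls_conj (h2.symm.cls hy (mul_mem h1.1 hz) yc) (inv_mem hw.1)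
    rw [← e1] at this
    convert this using 1; group

end Geo

/-- The setting: `Y ≤ M`, `M ⊓ Q ≤ Y`. -/
structure Se (z y : G) (Q Y M : Subgroup G) : Prop where
  hz : z ∈ Y
  hy : y ∈ Y
  le : Y ≤ M
  hW : M ⊓ Q ≤ Y
  nd : ND z (Y ⊓ Q)

theorem Ty.se (t : Ty z y Q Y) (h : Y ≤ M) (hM : M ≠ ⊤) : Se z y Q Y M :=
  ⟨t.hz, t.hy, h, t.hW M h hM, t.nd⟩

theorem Se.inf (s : Se z y Q Y M) : M ⊓ Q = Y ⊓ Q :=
  le_antisymm (le_inf s.hW inf_le_right) (inf_le_inf_right Q s.le)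

theorem Se.top (s : Se z y Q Y M) : Se z y Q M M :=
  ⟨s.le s.hz, s.le s.hy, le_rfl, inf_le_left, s.inf ▸ s.nd⟩

namespace Geo

variable (h : Geo ρ z y Q v) (s : Se z y Q Y M)
include h s

/-- A0: `z^Y` is closed under collinearity in `M`. -/
theorem a0 (ha : a ∈ cls Y z) (hb : IsConj z b) (hM : b ∈ M) (h1 : InQ z Q a b) : b ∈ cls Y z := by
  obtain ⟨m, hm, rfl⟩ := ha
  have h2 := h.inQ h1
  have h3 : m⁻¹ * b * m ∈ M := mul_mem (mul_mem (inv_mem (s.le hm)) hM) (s.le hm)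
  have := cls_conj (h.a0z s.hz s.hy s.nd (hb.trans (isConj_iff.2 ⟨m⁻¹, by group⟩))
    ⟨s.hW ⟨h3, h2⟩, h2⟩) hm
  convert this using 1; group

theorem a0s (ha : a ∈ cls Y z) (hb : IsConj z b) (hM : b ∈ M) (h1 : Spe z Q a b) :
    b ∈ cls Y z := by
  obtain ⟨d, h2, h3, h4, h5⟩ := h1
  refine h.a0 s (h.a0 s ha h3 ((closure_le M).2 ?_ h2) h4) hb hM h5
  rintro _ (rfl | rfl)
  exacts [s.le (cls_mem s.hz ha), hM]

/-- A1. -/
theorem a1 (ha : a ∈ cls M z) (hb : IsConj z b) (hM : b ∈ M) (hn : b ∉ cls M z) : Commute a b := by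
  rcases h.r5' (cls_D ha) hb with h1 | h1 | ⟨g, rfl, rfl⟩
  · exact h1
  · exact (hn (h.a0s s.top ha hb hM h1)).elim
  · exact (hn ((h.br.conj g).cls (cls_mem s.top.hz ha) hM ha)).elim

/-- A2: `M` contains no conjugate of `Q`. -/
theorem a2 (hM : M ≠ ⊤) (g : G) : ¬ cj g Q ≤ M := fun hg => by
  have bM : g * z * g⁻¹ ∈ M := hg ⟨z, h.zq, rfl⟩
  by_cases hb : g * z * g⁻¹ ∈ cls M z
  · obtain ⟨m, hm, e⟩ := hb
    refine hM (h.gen M (fun x hx => ?_) s.top.hy)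
    have h1 : InQ z Q (g * z * g⁻¹) (m * x * m⁻¹) := ⟨m, e, by simpa [mul_assoc] using hx⟩
    have := mul_mem (mul_mem (inv_mem hm) (hg (mem_cj.2 (h.inQ h1)))) hm
    convert this using 1; group
  · refine hb ?_
    have : g⁻¹ * z * g = z := h.cq _ (isConj_iff.2 ⟨g⁻¹, by group⟩) fun x hx => by
      refine (closure_le (centralizer {g⁻¹ * z * g})).2 (fun c hc => ?_) (h.qd hx) _ rfl
      have hc' := isC g hc.2
      have h2 : Commute z (g * c * g⁻¹) := h.a1 s cls_self hc' (hg ⟨c, hc.1, rfl⟩) fun h3 =>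
        hb (h.a0 s.top h3 (isC g (IsConj.refl z)) bM
          (h.inQ_symm hc' ⟨g, rfl, by simpa [mul_assoc] using hc.1⟩))
      rintro _ rfl
      have := (h2.conj g⁻¹).eq
      convert this using 1 <;> group
    exact ⟨1, one_mem _, by
      conv_lhs => rw [← this]
      group⟩

/-- A3: for a ROOT type a root element of `M` is in `z^Y` or centralises `z^Y`. -/
theorem a3 (r : Rt z (Y ⊓ Q)) (ha : a ∈ cls Y z) (hb : IsConj z b) (hM : b ∈ M)
    (hn : b ∉ cls Y z) : Commute a b := by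
  rcases h.r5' (cls_D ha) hb with h1 | h1 | ⟨g, rfl, rfl⟩
  · exact h1
  · exact (hn (h.a0s s ha hb hM h1)).elim
  refine (hn ?_).elim
  obtain ⟨c, hc, h2, h3⟩ := r
  obtain ⟨m, hm, e⟩ := ha
  have aY : m * z * m⁻¹ ∈ cls Y z := cls_conj cls_self hm
  have c1 : m * c * m⁻¹ ∈ Y := mul_mem (mul_mem hm hc.1) (inv_mem hm)
  have q1 : g⁻¹ * (m * c * m⁻¹) * g ∈ Q :=
    h.inQ ⟨m, e, by simpa [mul_assoc] using hc.2⟩
  have key : ∀ d, d ∈ Q → IsConj z d → g * d * g⁻¹ ∈ Y → Spe z Q d y →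
      g * y * g⁻¹ ∈ cls Y z := fun d d1 d2 d3 d4 =>
    h.a0s s (h.a0 s aY (isC g d2) (s.le d3) ⟨g, e.symm, by simpa [mul_assoc] using d1⟩) hb hM
      (d4.conj g)
  have d2 : IsConj z (g⁻¹ * (m * c * m⁻¹) * g) :=
    (isC m h2).trans (isConj_iff.2 ⟨g⁻¹, by group⟩)
  rcases (h.ln _ q1 d2 fun e1 => h3 (by
    have : m * c * m⁻¹ = m * z * m⁻¹ := by rw [← e, ← e1]; group
    simpa using this)).2 with h4 | ⟨h4, h5⟩
  · exact key _ q1 d2 (by convert c1 using 1; group) h4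
  · refine key _ (mul_mem q1 h.zq) h4 ?_ h5
    convert mul_mem c1 (cls_mem s.hz aY) using 1
    rw [← e]; group

omit s in
theorem inv_Rv : Inv ρ M (Rv ρ z v M) := fun m hm u hu => by
  refine Submodule.span_le (p := (Rv ρ z v M).comap (ρ m)).2 ?_ hu
  rintro _ ⟨g, hg, rfl⟩
  refine Submodule.subset_span ⟨m * g, ?_, by rw [map_mul]; rfl⟩
  convert mul_mem (mul_mem hm hg) (inv_mem hm) using 1; group

/-- The consequence of A3. -/
theorem Rv_le (r : Rt z (Y ⊓ Q)) {U : Submodule (ZMod 2) V} (hU : Inv ρ Y U) (hv : v ∈ U) :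
    Rv ρ z v M ≤ U ⊔ Fix ρ (cls Y z) := by
  refine Submodule.span_le.2 ?_
  rintro _ ⟨g, hg, rfl⟩
  by_cases hn : g * z * g⁻¹ ∈ cls Y z
  · obtain ⟨m, hm, e⟩ := hn
    exact Submodule.mem_sup_left (h.e_eq e ▸ hU m hm v hv)
  · exact Submodule.mem_sup_right (mem_Fix.2 fun a ha =>
      h.e_fix (h.a3 s r ha (isC g (IsConj.refl z)) hg hn))

/-- DEG types: two elements of `z^M` commute or form an opposite pair. -/
theorem deg (r : ¬ Rt z (Y ⊓ Q)) (ha : a ∈ cls M z) (hb : b ∈ cls M z) (hn : ¬ Commute a b) :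
    ∃ g, a = g * z * g⁻¹ ∧ b = g * y * g⁻¹ := by
  have key : ∀ a ∈ cls M z, ∀ b ∈ M, IsConj z b → InQ z Q a b → b = a := by
    rintro _ ⟨m, hm, rfl⟩ b h1 h2 h3
    by_contra h4
    have h5 : m⁻¹ * b * m ∈ M := mul_mem (mul_mem (inv_mem hm) h1) hm
    refine r ⟨m⁻¹ * b * m, s.inf ▸ ⟨h5, h.inQ h3⟩,
      h2.trans (isConj_iff.2 ⟨m⁻¹, by group⟩), fun e => h4 (by rw [← e]; group)⟩
  rcases h.r5' (cls_D ha) (cls_D hb) with h1 | ⟨d, h2, h3, h4, h5⟩ | h1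
  · exact (hn h1).elim
  · have bM := cls_mem s.top.hz hb
    rw [key a ha d ((closure_le M).2 (by
      rintro _ (rfl | rfl)
      exacts [cls_mem s.top.hz ha, bM]) h2) h3 h4] at h5
    exact (hn (key a ha b bM (cls_D hb) h5 ▸ Commute.refl _)).elim
  · exact h1

end Geo

end H9.E7
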