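/- CKS (S2193), chapters A and P: specification and kit (blueprints/CKA.md). -/
import Cfsg.Agent.H32.CKSpec
import Cfsg.Agent.H54.LieCh2
import Cfsg.Agent.H67.LieAll

set_option autoImplicit false

namespace H9.CK

open Cfsg H54 H64 H32.CK
open scoped MatrixGroups commutatorElement

section defs
variable {Φ ι : Type*}

/-- Condition (C): the non-simple positive root groups lie in `U'`. -/
def CC {R : WData Φ ι} {L : Type*} [Group L] (T : GRD R L) : Prop :=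
  ∀ r, R.pos r → (∀ i, r ≠ R.p i) → T.X r ≤ ⁅T.U, T.U⁆

/-- `W = W_J ∪ W_J s W_J` for `J` the complement of the node `i`. -/
def TwoAt (R : WData Φ ι) (i : ι) : Prop :=
  ∀ w : R.W, w ∉ R.WJ {i}ᶜ → ∃ u ∈ R.WJ {i}ᶜ, ∃ v ∈ R.WJ {i}ᶜ, w = u * R.sW i * v

def HasC (p : ℕ) (G : Type) [Group G] : Prop := ∃ Λ : LieS p G, CC Λ.T

def HasT (p : ℕ) (G : Type) [Group G] : Prop :=
  ∃ Λ : LieS p G, Nonempty Λ.ι ∧ ∀ i, ¬ TwoAt Λ.R i

/-- Rank one with `|U| = N`. -/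
def HasR (p : ℕ) (G : Type) [Group G] (N : ℕ) : Prop :=
  ∃ Λ : LieS p G, Nonempty Λ.ι ∧ Subsingleton Λ.ι ∧ Nat.card Λ.T.U = N

end defs

section kit
variable {Φ ι : Type*} {R : WData Φ ι}

theorem CC.map [Finite Φ] {L L' : Type*} [Group L] [Group L'] {T : GRD R L} (h : CC T)
    (φ : L →* L') (hφ : ∀ g ∈ T.Gp, φ g = 1 → g ∈ T.H) : CC (T.map φ hφ) := fun r hr hs => by
  rw [GRD.map_X', GRD.map_U, ← Subgroup.map_commutator]
  exact Subgroup.map_mono (h r hr hs)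

theorem CC.of_subsingleton [Finite Φ] [Subsingleton ι] {L : Type*} [Group L] (T : GRD R L) :
    CC T := fun r hr hs => by
  exfalso
  obtain ⟨w, hw⟩ := R.exists_w0
  have key : ∀ v : R.W, ∀ c, R.pos c → (∀ i, c ≠ R.p i) → R.pos (v.1 c) := by
    intro v
    refine R.W_induction (P := fun v => ∀ c, R.pos c → (∀ i, c ≠ R.p i) → R.pos (v.1 c))
      (fun c hc _ => hc) (fun v i _ ih c hc hc' => ?_) v
    exact ih _ (R.s_pos i c hc (hc' i)) fun j => Subsingleton.elim i j ▸ R.s_ne_p hc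
  exact (hw r).1 (key w r hr hs) hr

theorem apply_WJ {J : Set ι} {A : Type*} {ω : Φ → A} (h : ∀ j ∈ J, ∀ r, ω (R.s j r) = ω r)
    {u : R.W} (hu : u ∈ R.WJ J) (r : Φ) : ω (u.1 r) = ω r := by
  revert r
  refine R.WJ_induction (P := fun u => ∀ r, ω (u.1 r) = ω r) (fun _ => rfl) ?_ hu
  intro w _ j hj _ ih r
  rw [R.mul_apply, ih, R.sW_val, h j hj]

/-- The criterion: `ω` is the coefficient at the node `i`; two roots change sign under `w`. -/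
theorem not_twoAt {i : ι} (ω : Φ → ℤ) (h1 : ∀ j, j ≠ i → ∀ r, ω (R.s j r) = ω r)
    (h2 : ∀ r, R.pos r → 0 ≤ ω r) (h3 : ∀ r, ω (R.neg r) = -ω r) (w : R.W) {a b : Φ}
    (hab : a ≠ b) (ha : 0 < ω a) (hb : 0 < ω b) (ha' : ω (w.1 a) < 0) (hb' : ω (w.1 b) < 0) :
    ¬ TwoAt R i := fun h => by
  have inv : ∀ u ∈ R.WJ {i}ᶜ, ∀ r, ω (u.1 r) = ω r := fun u hu =>
    apply_WJ (fun j hj => h1 j hj) hu
  obtain ⟨u, hu, v, hv, rfl⟩ := h w fun hw => by rw [inv w hw] at ha'; omega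
  have key : ∀ c, 0 < ω c → ω ((u * R.sW i * v).1 c) < 0 → v.1 c = R.p i := by
    intro c hc hc'
    rw [R.mul_apply, R.mul_apply, inv u hu, R.sW_val] at hc'
    refine R.eq_p_of_s_not_pos ?_ fun hp => by have := h2 _ hp; omega
    by_contra hn
    have := h2 _ ((R.pos_neg _).2 hn)
    rw [h3, inv v hv] at this
    omega
  exact hab (v.1.injective ((key a ha ha').trans (key b hb hb').symm))

variable {p : ℕ} {G G' : Type} [Group G] [Group G']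

theorem HasC.congr (h : HasC p G) (e : G' ≃* G) : HasC p G' := by
  obtain ⟨Λ, h⟩ := h
  have := Λ.finΦ
  exact ⟨Λ.congr e.symm, h.map _ fun g _ h => by
    rw [(map_eq_one_iff _ e.symm.injective).1 h]; exact one_mem _⟩

theorem HasC.quot [Finite G] (h : HasC p G) : HasC p (G ⧸ Subgroup.center G) := by
  obtain ⟨Λ, h⟩ := h
  have := Λ.finΦ
  exact ⟨Λ.quotCenter, h.map _ fun g _ hg => Λ.T.mem_H_of_comm (by rw [Λ.top]; trivial)
    fun _ x _ => (Subgroup.mem_center_iff.1 ((QuotientGroup.eq_one_iff g).1 hg) x).symm⟩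

theorem HasT.congr (h : HasT p G) (e : G' ≃* G) : HasT p G' := by
  obtain ⟨Λ, h⟩ := h
  exact ⟨Λ.congr e.symm, h⟩

theorem HasT.quot [Finite G] (h : HasT p G) : HasT p (G ⧸ Subgroup.center G) := by
  obtain ⟨Λ, h⟩ := h
  exact ⟨Λ.quotCenter, h⟩

theorem HasR.congr {N : ℕ} (h : HasR p G N) (e : G' ≃* G) : HasR p G' N := by
  obtain ⟨Λ, h1, h2, h3⟩ := h
  have := Λ.finΦ
  exact ⟨Λ.congr e.symm, h1, h2, (Λ.T.card_map_U _ fun g _ h => by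
    rw [(map_eq_one_iff _ e.symm.injective).1 h]; exact one_mem _).trans h3⟩

theorem HasR.hasC {N : ℕ} (h : HasR p G N) : HasC p G := by
  obtain ⟨Λ, -, h2, -⟩ := h
  have := Λ.finΦ
  exact ⟨Λ, CC.of_subsingleton _⟩

/-- Condition (C) of a twisted group, in the ambient group. -/
theorem cc_tw {R₀ ι₀ Ω : Type} [Fintype R₀] [DecidableEq R₀] [Fintype ι₀] [DecidableEq ι₀]
    {D : H68.RD R₀ ι₀} {A : Type*} [Group A] {T : RGD D.toW A} {τ : H68.Tw D Ω}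
    {S : H68.TwG T τ} {K : Subgroup A} (hK : S.IsTw K)
    (h : gen T.X {r | D.pos r ∧ ∀ i, r ≠ D.sim i} ⊓ K ≤ ⁅T.U ⊓ K, T.U ⊓ K⁆) : CC hK.grdK := by
  intro B hB hs x hx
  have h1 : (x : A) ∈ gen T.X B.1 ⊓ K := hx
  have h2 : gen T.X B.1 ≤ gen T.X {r | D.pos r ∧ ∀ i, r ≠ D.sim i} := by
    refine gen_mono _ fun r hr => ⟨hB r hr, ?_⟩
    rintro i rfl
    refine hs (τ.orb i) (τ.wdata.eq_p_of_s_not_pos hB fun hp => ?_)
    have hi : D.sim i ∈ τ.PS (τ.orb i) := ⟨H68.RD.pos_sim i, H68.RD.inJ_sim.2 rfl⟩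
    exact (H68.Tw.mem_PS.1 hi).2 (hp _ (τ.mem_act_gen _ hr))
  have h3 := h ⟨h2 h1.1, h1.2⟩
  have e : T.U ⊓ K = hK.grdK.U.map K.subtype := by
    ext g
    exact ⟨fun hg => ⟨⟨g, hg.2⟩, hK.mem_grdK_U.2 hg.1, rfl⟩, by
      rintro ⟨g, hg, rfl⟩; exact ⟨hK.mem_grdK_U.1 hg, g.2⟩⟩
  rw [e, ← Subgroup.map_commutator] at h3
  obtain ⟨y, hy, e'⟩ := h3
  exact Subtype.ext e' ▸ hy

end kit

/-! ### The generic chapters -/

/-- The support formula. -/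
def Form {p : ℕ} [Fact p.Prime] {G : Type} [Group G] [Finite G] (D : H67.SBN p G) (Ω : Type)
    [MulAction G Ω] (m : Finset D.P.S → ℤ) : Prop :=
  ∀ (J : Finset D.P.S) (lam : D.U →* ℂˣ), (∀ x : D.U, x.1 ∈ D.R (J : Set _) → lam x = 1) →
    (∀ s ∈ J, ∃ x : D.U, x.1 ∈ D.X s ∧ lam x ≠ 1) →
    ∑ᶠ u : D.U, (Nat.card (MulAction.fixedBy Ω u.1) : ℂ) * (lam u : ℂ) =
      Nat.card D.U * ((∑ I ∈ J.powerset, (-1) ^ I.card * m I : ℤ) : ℂ)

def JobA1 : Prop := ∀ (p : ℕ) [Fact p.Prime] (G Ω : Type) [Group G] [Finite G] [MulAction G Ω]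
  [Finite Ω] (D : H67.SBN p G), Act G Ω → (∃ a b : Ω, ∀ g ∈ D.B, g • a ≠ b) →
  Form D Ω fun I => Nat.card (MulAction.orbitRel.Quotient (D.PJ (I : Set _)) Ω)

def JobA2 : Prop := ∀ (p : ℕ) [Fact p.Prime] (G Ω : Type) [Group G] [Finite G] [MulAction G Ω]
  [Finite Ω] (D : H67.SBN p G) [Fintype D.P.S] (m : Finset D.P.S → ℤ), m Finset.univ = 1 →
  (∀ (J : Set D.P.S) (lam : D.U →* ℂˣ), (∀ s, s ∉ J → ∀ x : D.U, x.1 ∈ D.X s → lam x = 1) →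
    ∀ x : D.U, x.1 ∈ D.R J → lam x = 1) → Form D Ω m → ∃ a : Ω, ∀ u ∈ D.U, u • a = a

def JobP0 : Prop := ∀ (p : ℕ) [Fact p.Prime] (G Ω : Type) [Group G] [Finite G] [MulAction G Ω]
  [Finite Ω] (Λ : LieS p G), Nonempty Λ.ι → Act G Ω → ¬ p ∣ Nat.card Ω →
  ∃ (i : Λ.ι) (a : Ω), MulAction.stabilizer G a = Λ.T.PJ {i}ᶜ ∧ TwoAt Λ.R i ∧
    (Subsingleton Λ.ι → Nat.card Ω = Nat.card Λ.T.U + 1)

def JobPL : Prop := ∀ (p : ℕ) [Fact p.Prime] (F : Type) [Field F] [Fintype F] [CharP F p] (n : ℕ),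
  2 ≤ n → ∀ i, TwoAt (liePSL F n p).R i →
    ((liePSL F n p).T.PJ {i}ᶜ).index * (Fintype.card F - 1) = Fintype.card F ^ n - 1

def JobR1 : Prop :=
  (∀ (p : ℕ) [Fact p.Prime] (F : Type) [Field F] [Fintype F] [CharP F p] (q : ℕ),
    Fintype.card F = q ^ 2 → HasR p (PSU 3 F q) (q ^ 3)) ∧
  (∀ (F : Type) [Field F] [Fintype F] (m : ℕ), 1 ≤ m → Fintype.card F = 2 ^ (2 * m + 1) →
    HasR 2 (Lie.Sz F (2 ^ (m + 1))) (Fintype.card F ^ 2)) ∧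
  ∀ (K : Type) [Field K] [Fintype K] (m : ℕ), 1 ≤ m → Fintype.card K = 3 ^ (2 * m + 1) →
    HasR 3 (Lie.twistedG2 K (3 ^ m)) (Fintype.card K ^ 3)

/-! ### Condition (C), family by family -/

def JobCD : Prop := ∀ (F J G : Type) [Field F] [Fintype J] [DecidableEq J] [Group G] [Finite G]
  (m : ℕ) (D : CD F J (Fin m) G) (P : D.Ht) (δ : ℤ), (∀ a, IsStdWt (D.wt a)) →
  (∀ k, ∃ a, D.wt a = Pi.single k 1) → P.ht = htFin m δ → (D.short → δ = 0) →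
  (¬ D.short → δ = 1) →
  (D.short → ∀ k l : Fin m, k.val + 1 = l.val → l.val + 1 = m →
    D.US (ray (Pi.single k 1 + Pi.single l 1)) ≤ ⁅P.grd.U, P.grd.U⁆ ∨
    D.US (ray (Pi.single k 1)) ≤ ⁅P.grd.U, P.grd.U⁆) → CC P.grd

def JobC1 : Prop := ∀ (p : ℕ) [Fact p.Prime] (F : Type) [Field F] [Fintype F] [CharP F p],
  (∀ n, HasC p PSL(n, F)) ∧ (∀ m, 3 ≤ Fintype.card F → HasC p (PSp m F)) ∧
  ∀ m, 4 ≤ m → HasC p (POmega F (quadFormPlus m F))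

def JobC2 : Prop := ∀ (p : ℕ) [Fact p.Prime] (F : Type) [Field F] [Fintype F] [CharP F p]
  (n q : ℕ), Fintype.card F = q ^ 2 → HasC p (PSU n F q)

def JobC3 : Prop := ∀ (p : ℕ) [Fact p.Prime] (F : Type) [Field F] [Fintype F] [CharP F p] (m : ℕ),
  (Odd (Fintype.card F) → HasC p (POmega F (quadFormOdd m F))) ∧
  ∀ a b : F, (∀ z₁ z₂ : F, z₁ ^ 2 + a * z₁ * z₂ + b * z₂ ^ 2 = 0 → z₁ = 0 ∧ z₂ = 0) →
    HasC p (POmega F (quadFormMinus m F a b))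

def JobCCh : Prop := ∀ (p : ℕ) [Fact p.Prime] (F : Type) [Field F] [Fintype F] [CharP F p],
  (4 ≤ Fintype.card F → HasC p (Lie.chevG2.group F)) ∧
  (3 ≤ Fintype.card F → HasC p (Lie.chevF4.group F)) ∧ HasC p (Lie.chevE6.group F) ∧
  HasC p (Lie.chevE7.group F) ∧ HasC p (Lie.chevE8.group F)

def JobCE6 : Prop := ∀ (p : ℕ) [Fact p.Prime] (K : Type) [Field K] [Fintype K] [CharP K p] (q : ℕ),
  IsPrimePow q → Fintype.card K = q ^ 2 → HasC p (Lie.twistedE6 K q)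

def JobCD4 : Prop := ∀ (p : ℕ) [Fact p.Prime] (K : Type) [Field K] [Fintype K] [CharP K p] (q : ℕ),
  IsPrimePow q → Fintype.card K = q ^ 3 → HasC p (Lie.twistedD4 K q)

def JobCF4 : Prop := ∀ (K : Type) [Field K] [Fintype K] (m : ℕ), 1 ≤ m →
  Fintype.card K = 2 ^ (2 * m + 1) → HasC 2 (Lie.twistedF4 K (2 ^ m))

/-! ### Three double cosets, family by family -/

def JobTD : Prop := ∀ (p : ℕ) [Fact p.Prime] (F : Type) [Field F] [Fintype F] [CharP F p] (m : ℕ),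
  (2 ≤ m → HasT p (PSp m F)) ∧ (∀ q, Fintype.card F = q ^ 2 → 4 ≤ m → HasT p (PSU m F q)) ∧
  (2 ≤ m → Odd (Fintype.card F) → HasT p (POmega F (quadFormOdd m F))) ∧
  (4 ≤ m → HasT p (POmega F (quadFormPlus m F))) ∧
  ∀ a b : F, 2 ≤ m → (∀ z₁ z₂ : F, z₁ ^ 2 + a * z₁ * z₂ + b * z₂ ^ 2 = 0 → z₁ = 0 ∧ z₂ = 0) →
    HasT p (POmega F (quadFormMinus m F a b))

def JobTCh : Prop := ∀ (p : ℕ) [Fact p.Prime] (F : Type) [Field F] [Fintype F] [CharP F p],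
  HasT p (Lie.chevG2.group F) ∧ HasT p (Lie.chevF4.group F) ∧ HasT p (Lie.chevE6.group F) ∧
  HasT p (Lie.chevE7.group F) ∧ HasT p (Lie.chevE8.group F)

def JobTTw : Prop := ∀ (p : ℕ) [Fact p.Prime] (K : Type) [Field K] [Fintype K] [CharP K p],
  (∀ q, IsPrimePow q → Fintype.card K = q ^ 2 → HasT p (Lie.twistedE6 K q)) ∧
  (∀ q, IsPrimePow q → Fintype.card K = q ^ 3 → HasT p (Lie.twistedD4 K q)) ∧
  ∀ m, Fintype.card K = 2 ^ (2 * m + 1) → HasT p (Lie.twistedF4 K (2 ^ m))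

end H9.CK
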