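import Cfsg.Agent.H42.IVSpec

/-! Job Exp of the tower IV: the dihedral action on a self-centralising abelian normal subgroup. -/

set_option autoImplicit false

namespace H9.IVExp

open Subgroup H42.IV
open scoped IsMulCommutative

universe u

theorem cheb_res {M : Type*} [AddCommGroup M] {γ : Module.End ℤ M} {T : Submodule ℤ M}
    (h : ∀ x ∈ T, γ x ∈ T) (i : ℕ) :
    ∀ t : T, ((cheb (γ.restrict h : Module.End ℤ T) i t : T) : M) = cheb γ i (t : M) := by
  induction i with
  | zero => intro t; rfl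
  | succ i ih =>
    intro t
    rw [show ∀ {R : Type _} [Ring R] (g : R), cheb g (i + 1) = cheb g i * cheb g i - 2 from
      fun _ => rfl, show cheb γ (i + 1) = cheb γ i * cheb γ i - 2 from rfl]
    simp only [LinearMap.sub_apply, Module.End.mul_apply, Module.End.ofNat_apply,
      Submodule.coe_sub, ih, Submodule.coe_smul_of_tower]

theorem cp_res {M : Type*} [AddCommGroup M] {γ : Module.End ℤ M} {T : Submodule ℤ M}
    (h : ∀ x ∈ T, γ x ∈ T) (i : ℕ) :
    ∀ t : T, ((cp (γ.restrict h : Module.End ℤ T) i t : T) : M) = cp γ i (t : M) := by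
  induction i with
  | zero => intro t; rfl
  | succ i ih =>
    intro t
    show ((cp (γ.restrict h : Module.End ℤ T) i (cheb (γ.restrict h : Module.End ℤ T) i t) : T) : M) =
      cp γ i (cheb γ i (t : M))
    rw [ih, cheb_res]

variable {P : Type u} [Group P] (A : Subgroup P) [A.Normal] [IsMulCommutative A]

/-- conjugation as a linear endomorphism -/
def cj : P →* Module.End ℤ (Additive A) where
  toFun g := (MonoidHom.toAdditive (MulAut.conjNormal g : MulAut A).toMonoidHom).toIntLinearMap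
  map_one' := by
    ext v
    simp
  map_mul' g h := by
    ext v
    simp

theorem cj_val (g : P) (v : Additive A) :
    (((cj A g v).toMul : A) : P) = g * (v.toMul : A) * g⁻¹ := rfl

theorem kill [Finite P] (hC : JobCheb.{u}) {x : P} {κ N : ℕ} (hN : ∀ v : P, v ^ 2 ^ N = 1)
    (hx : Cond A x κ) {γ : Module.End ℤ (Additive A)} (hγ : IsNilpotent γ)
    (hc : Commute γ (cj A x)) : cp γ κ * (1 + cj A x) = 0 := by
  let T : Submodule ℤ (Additive A) := LinearMap.range (1 + cj A x)
  have hT : ∀ y ∈ T, γ y ∈ T := by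
    rintro _ ⟨v, rfl⟩
    refine ⟨γ v, ?_⟩
    have := congrArg (fun f : Module.End ℤ (Additive A) => f v) ((Commute.one_right γ).add_right hc).eq
    exact this.symm
  let φ : T → P := fun t => ((t : Additive A).toMul : A)
  have hφ : Function.Injective φ := fun s t e =>
    Subtype.ext (Additive.toMul.injective (Subtype.ext e))
  have hsm : ∀ (n : ℕ) (t : T), φ (n • t) = φ t ^ n := fun n t => by
    simp [φ]
  have h0 : φ 0 = 1 := rfl
  have hr : ∀ y, y ∈ nrm A x ↔ ∃ t : T, φ t = y := by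
    intro y
    constructor
    · rintro ⟨z, hz, rfl⟩
      exact ⟨⟨_, Additive.ofMul ⟨z, hz⟩, rfl⟩, rfl⟩
    · rintro ⟨⟨_, v, rfl⟩, rfl⟩
      exact ⟨(v.toMul : A), (v.toMul : A).2, rfl⟩
  have key := hC T (γ.restrict hT) κ N (fun v => hφ (by rw [hsm, hN, h0]))
    (Module.End.isNilpotent.restrict hT hγ) (fun r s hs h1 => hx r s ?_ h1)
  · ext v
    have := cp_res hT κ ⟨_, v, rfl⟩
    rw [key] at this
    exact congrArg (fun w : Additive A => ((w.toMul : A) : P)) this.symm
  · rw [← hs, ← Set.ncard_image_of_injective _ hφ]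
    congr 1
    ext v
    constructor
    · rintro ⟨h2, y, hy, rfl⟩
      obtain ⟨t, rfl⟩ := (hr y).1 hy
      exact ⟨2 ^ r • t, ⟨hφ (by rw [hsm, hsm, h2, h0]), t, rfl⟩, hsm _ _⟩
    · rintro ⟨_, ⟨h2, t, rfl⟩, rfl⟩
      exact ⟨by rw [← hsm, h2, h0], φ t, (hr _).2 ⟨t, rfl⟩, (hsm _ _).symm⟩

theorem jobExp : JobExp.{u} := by
  intro hC hD P _ _ A _ _ a b κ hP hA ha hb ca cb
  have : Fact (Nat.Prime 2) := ⟨Nat.prime_two⟩
  obtain ⟨N, hN⟩ := IsPGroup.iff_card.1 hP
  have hN' : ∀ v : P, v ^ 2 ^ N = 1 := fun v => by rw [← hN, pow_card_eq_one']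
  obtain ⟨⟨h1, h2⟩, h3, h4⟩ := hD (Module.End ℤ (Additive A)) (cj A a) (cj A b) κ
    (by rw [← map_mul, ha, map_one]) (by rw [← map_mul, hb, map_one])
  have hγ := h3 N N (by rw [← map_mul, ← map_pow, hN', map_one]) (by
    refine LinearMap.ext fun v => ?_
    have : (2 : Module.End ℤ (Additive A)) ^ N = ((2 ^ N : ℕ) : Module.End ℤ (Additive A)) := by
      push_cast
      rfl
    rw [this, Module.End.natCast_apply]
    refine Additive.toMul.injective (Subtype.ext ?_)
    simpa using hN' _)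
  have h5 := h4 (kill A hC hN' ca hγ h1) (kill A hC hN' cb hγ h2)
  rw [← map_mul, ← map_pow] at h5
  refine hA (mem_centralizer_iff.2 fun v hv => ?_)
  have := cj_val A ((a * b) ^ 2 ^ (κ + 1)) (Additive.ofMul ⟨v, hv⟩)
  rw [h5] at this
  exact eq_mul_inv_iff_mul_eq.1 this

end H9.IVExp
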