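import Cfsg.Agent.H9.A34M
import Cfsg.Agent.H55.SL2Link

/-! Computations in the extensions of `2^(1+4)_-` by `S₄`. -/

set_option autoImplicit false

namespace H9.A34

open Subgroup H31 Equiv

def ps : Perm (Fin 4) := swap 0 1
def pr : Perm (Fin 4) := swap 0 1 * swap 1 2
def p1 : Perm (Fin 4) := swap 0 1 * swap 2 3
def p2 : Perm (Fin 4) := swap 0 3 * swap 1 2

/-- the relations -/
structure Rel {G : Type*} [Group G] (a b : Bool) (z : G) (v : Fin 4 → G) (s r t1 t2 : G) : Prop where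
  zz : z * z = 1
  vv : ∀ i, v i * v i = 1
  vz : ∀ i, v i * z * (v i)⁻¹ = z
  va : ∀ i j, i ≠ j → v i * v j * (v i)⁻¹ = v j * z
  cz : s * z * s⁻¹ = z ∧ r * z * r⁻¹ = z ∧ t1 * z * t1⁻¹ = z ∧ t2 * z * t2⁻¹ = z
  cv : ∀ j, s * v j * s⁻¹ = v (ps j) ∧ r * v j * r⁻¹ = v (pr j) ∧ t1 * v j * t1⁻¹ = v (p1 j) ∧
    t2 * v j * t2⁻¹ = v (p2 j)
  sq : s * s = cond a z 1 ∧ r * r * r = 1 ∧ t1 * t1 = cond b z 1 ∧ t2 * t2 = cond b z 1
  ct : t1 * t2 * t1⁻¹ = t2 * cond b z 1 ∧ r * t1 * r⁻¹ = t2 ∧ r * t2 * r⁻¹ = t1 * t2 * cond b z 1 ∧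
    s * r * s⁻¹ = r * r ∧ s * t1 * s⁻¹ = t1 * cond b z 1 ∧ s * t2 * s⁻¹ = t1 * t2

namespace M

theorem rel (a b : Bool) : Rel a b (z : M a b) v s r t1 t2 := by
  constructor <;> revert a b <;> decide +kernel

theorem gen1 : ∀ a b, ∀ e : ME, (⟨e, 1⟩ : M a b) = v 0 ^ (e.num % 2) * v 1 ^ (e.num / 2 % 2) *
    v 2 ^ (e.num / 4 % 2) * v 3 ^ (e.num / 8 % 2) * z ^ (e.num / 16) := by decide +kernel
theorem gen2 : ∀ a b, ∀ p : MS, (⟨1, p⟩ : M a b) = s ^ (p.num / 12) * r ^ (p.num % 12 / 4) *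
    t1 ^ (p.num % 4 / 2) * t2 ^ (p.num % 2) := by decide +kernel
theorem act_one' : ∀ p, act p 1 = 1 := by decide +kernel
theorem split {a b : Bool} (x : M a b) : x = ⟨x.e, 1⟩ * ⟨1, x.p⟩ :=
  ext' (by rw [mul_e, act_one', cb_one, mul_one, mul_one]) (one_mul _).symm
theorem pure : ∀ a b, ∀ π : Perm (Fin 4), ∃ p : MS, ∀ j,
    (⟨1, p⟩ : M a b) * v j * (⟨1, p⟩ : M a b)⁻¹ = v (π j) := by decide +kernel
theorem signs : ∀ a b, ∀ c : Fin 4 → Bool, ∃ q : ME, ∀ j,
    (⟨q, 1⟩ : M a b) * v j * (⟨q, 1⟩ : M a b)⁻¹ = v j * cond (c j) z 1 := by decide +kernel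
theorem cz : ∀ a b, ∀ x : M a b, x * z = z * x := by decide +kernel
theorem z_ne : ∀ a b, (z : M a b) ≠ 1 ∧ (z : M a b) * z = 1 := by decide +kernel
theorem zS : ∀ a b, ∀ x : M a b, (∀ j, v j * x = x * v j) → x = 1 ∨ x = z := by decide +kernel
theorem ES : ∀ a b, ∀ e : ME, (⟨e, 1⟩ : M a b) ∈ S := by decide +kernel
theorem vS : ∀ a b j, (v j : M a b) ∈ S := by decide +kernel
theorem card_S (a b : Bool) : Nat.card (S : Subgroup (M a b)) = 256 :=
  (card_eq_cnt (· ∈ S)).trans (by revert a b; decide +kernel)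
theorem card_S0 (a b : Bool) : Nat.card (S0 : Subgroup (M a b)) = 128 :=
  (card_eq_cnt (· ∈ S0)).trans (by revert a b; decide +kernel)
theorem card_S1 (a b : Bool) : Nat.card (S1 : Subgroup (M a b)) = 128 :=
  (card_eq_cnt (· ∈ S1)).trans (by revert a b; decide +kernel)
theorem card_T (a b : Bool) : Nat.card (T : Subgroup (M a b)) = 64 :=
  (card_eq_cnt (· ∈ T)).trans (by revert a b; decide +kernel)
theorem T_le : ∀ a b, ∀ x : M a b, x ∈ T → x ∈ S ∧ x ∈ S1 := by decide +kernel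
theorem S_le : ∀ a b, ∀ x : M a b, (x ∈ S0 → x ∈ S ∧ x * u = u * x) ∧ (x ∈ S1 → x ∈ S) := by
  decide +kernel

def L0 {a b : Bool} : List (M a b) := [t1, t2, el 3 0, el 6 0, el 4 12]
theorem L0_mem : ∀ a b, ∀ x ∈ (L0 : List (M a b)), x ∈ S0 := by decide +kernel
theorem zS0 : ∀ a b, ∀ x : M a b, x ∈ S0 → (∀ y ∈ L0, y * x = x * y) →
    x = 1 ∨ x = z ∨ x = u ∨ x = uz := by decide +kernel
theorem nS0 : ∀ a b, ∀ m : M a b, m * u = u * m → m * el 4 12 * m⁻¹ ∈ S0 → m ∈ S0 := by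
  decide +kernel
theorem zu0 : ∀ a b, (z : M a b) ∈ S0 ∧ (u : M a b) ∈ S0 ∧ (el 4 12 : M a b) ∈ S0 ∧ (z : M a b) ≠ u ∧
    ee * u * ee⁻¹ = (uz : M a b) ∧ ee * uz * ee⁻¹ = (u : M a b) ∧ u * uz = (z : M a b) ∧
    uz * u = (z : M a b) ∧ (u : M a b) ≠ 1 ∧ (uz : M a b) ≠ 1 ∧ (u : M a b) ≠ uz := by decide +kernel
theorem sqz : ∀ a b, (a || b) = true → cnt (fun x : M a b => x ∈ S0 ∧ x * x = uz) <
    cnt (fun x : M a b => x ∈ S0 ∧ x * x = z) := by decide +kernel
theorem nz : ∀ a b, ∀ t : M a b, iv t = true → t ∉ T → ∃ x : ME, ⟨x, 1⟩ * t = t * ⟨x, 1⟩ ∧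
    ∃ y : ME, ⟨y, 1⟩ * t = t * ⟨y, 1⟩ ∧ (⟨x, 1⟩ : M a b) * ⟨y, 1⟩ = ⟨y, 1⟩ * ⟨x, 1⟩ * z := by
  decide +kernel
theorem inv3 : ∀ a b, ∀ w : M a b, sg w.p = false → par w.e = false → w * w = 1 → w ∈ T := by
  decide +kernel

theorem comm_T {a b : Bool} {x y w : M a b} (h : x * y = y * x * w) (h2 : w * w = 1) : w ∈ T := by
  have h3 := congrArg (fun x : M a b => sg x.p) h
  have h4 := congrArg (fun x : M a b => par x.e) h
  simp only [mul_p, sg_mul] at h3
  simp only [par_mul'] at h4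
  refine inv3 a b w ?_ ?_ h2
  · revert h3; cases sg x.p <;> cases sg y.p <;> cases sg w.p <;> simp
  · revert h4; cases par x.e <;> cases par y.e <;> cases par w.e <;> simp

theorem q4 : ∀ a, ∀ x : M a true, x ∈ T → x * x = 1 → x = 1 ∨ x = z ∨ x = u ∨ x = uz := by
  decide +kernel

def mk' {a b : Bool} (m : ℕ) (x : M a b) : Bool :=
  Nat.beq (bit m (Nat.add (Nat.mul 24 x.e.num) x.p.num)) 1
def aM : ℕ := 0xf00000000000000000000000000000000000000000000000000000000000000000000000000000000000000000f00000f00000000000000000000000000000000000000000000000000000000000000000000000000000000000000000f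
def bM : ℕ := 0x1000000000000000004000000000008000002000000000000000002000008000000000004000000000000000001000001000000000000000004000000000008000002000000000000000002000008000000000004000000000000000001

theorem aM_cl : ∀ a, mk' aM (1 : M a false) = true ∧ ∀ x : M a false, mk' aM x = true →
    ∀ y : M a false, mk' aM y = true → mk' aM (x * y) = true := by decide +kernel
theorem bM_cl : ∀ a, mk' bM (1 : M a false) = true ∧ ∀ x : M a false, mk' bM x = true →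
    ∀ y : M a false, mk' bM y = true → mk' bM (x * y) = true := by decide +kernel

def A {a : Bool} : Subgroup (M a false) :=
  ofP (mk' aM) (aM_cl a).1 fun x y hx hy => (aM_cl a).2 x hx y hy
def B {a : Bool} : Subgroup (M a false) :=
  ofP (mk' bM) (bM_cl a).1 fun x y hx hy => (bM_cl a).2 x hx y hy
instance decA {a : Bool} : DecidablePred (· ∈ (A : Subgroup (M a false))) := decOfP _ _ _
instance decB {a : Bool} : DecidablePred (· ∈ (B : Subgroup (M a false))) := decOfP _ _ _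

theorem card_A (a : Bool) : Nat.card (A : Subgroup (M a false)) = 16 :=
  (card_eq_cnt (· ∈ A)).trans (by revert a; decide +kernel)
theorem card_B (a : Bool) : Nat.card (B : Subgroup (M a false)) = 16 :=
  (card_eq_cnt (· ∈ B)).trans (by revert a; decide +kernel)
theorem elA : ∀ a, ∀ x : M a false, x ∈ A → x * x = 1 ∧ x ∈ T ∧ ee * x * ee⁻¹ ∈ B := by
  decide +kernel
theorem elB : ∀ a, ∀ x : M a false, x ∈ B → x * x = 1 ∧ x ∈ T ∧ ee * x * ee⁻¹ ∈ A := by
  decide +kernel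
theorem memA : ∀ a, (t2 : M a false) ∈ A ∧ (u : M a false) ∈ A ∧ (uz : M a false) ∈ A ∧
    (z : M a false) ∈ A ∧ (t2 : M a false) ≠ z := by decide +kernel
theorem ab1 : ∀ a, ∀ x : M a false, x ∈ T → x * x = 1 → x ∈ A ∨ x ∈ B := by decide +kernel
theorem ab2 : ∀ a, ∀ x : M a false, x ∈ A → ∀ y : M a false, y ∈ B → x * y = y * x →
    x ∈ B ∨ y ∈ A := by decide +kernel
theorem cls : ∀ a, ∀ y : M a false, y ∈ T → y * y = 1 →
    y = 1 ∨ y = z ∨ y = u ∨ y = uz ∨ ∃ h : M a false, h * t2 * h⁻¹ = y := by decide +kernel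

def flt {a b : Bool} (t x : M a b) : Bool :=
  iv x && (par t.e && sg t.p || par t.e && !sg x.p || !par t.e && !par x.e)
theorem e16c : ∀ a, ∀ t : M a false, iv t = true → t ∉ T →
    cnt (fun x => flt t x = true ∧ x * t = t * x) < 16 := by decide +kernel

theorem e16T {a : Bool} {W : Subgroup (M a false)} (h : Nat.card W = 16) (h2 : ∀ x ∈ W, x * x = 1) :
    W ≤ T := by
  have cm : ∀ x ∈ W, ∀ y ∈ W, x * y = y * x := fun x hx y hy => by
    rw [← inv_eq_of_mul_eq_one_right (h2 _ (mul_mem hx hy)), mul_inv_rev,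
      inv_eq_of_mul_eq_one_right (h2 x hx), inv_eq_of_mul_eq_one_right (h2 y hy)]
  have key : ∀ t ∈ W, t ∉ T → ∃ x ∈ W, flt t x = false := fun t ht hT => by
    by_contra hn
    push Not at hn
    have := e16c a t ((iv_iff _ _ _).2 (h2 t ht)) hT
    rw [← card_eq_cnt, ← h] at this
    exact this.not_ge (Nat.card_le_card_of_injective
      (fun x : W => ⟨x.1, by simpa using hn x.1 x.2, cm _ x.2 _ ht⟩)
      fun x y e => Subtype.ext (congrArg (fun w => w.1) e))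
  have i : ∀ x ∈ W, iv x = true := fun x hx => (iv_iff _ _ _).2 (h2 x hx)
  have nT : ∀ t : M a false, (par t.e || sg t.p) = true → t ∉ T := by
    clear * -; revert a; decide +kernel
  have k1 : ∀ t ∈ W, (par t.e && sg t.p) = false := fun t ht => by
    by_contra e
    rw [Bool.not_eq_false, Bool.and_eq_true] at e
    obtain ⟨x, hx, e'⟩ := key t ht (nT t (by simp [e.1]))
    simp [flt, i x hx, e.1, e.2] at e'
  have k2 : ∀ t ∈ W, par t.e = false := fun t ht => by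
    by_contra e
    rw [Bool.not_eq_false] at e
    obtain ⟨x, hx, e'⟩ := key t ht (nT t (by simp [e]))
    have e1 := k1 t ht
    have e2 := k1 x hx
    have e3 := k1 _ (mul_mem hx ht)
    rw [par_mul', mul_p, sg_mul] at e3
    simp only [flt, i x hx, e] at e' e1 e3
    revert e' e1 e2 e3
    cases par x.e <;> cases sg x.p <;> cases sg t.p <;> simp
  intro t ht
  by_contra hT
  obtain ⟨x, hx, e'⟩ := key t ht hT
  simp [flt, i x hx, k2 t ht, k2 x hx] at e'

theorem e16 {a : Bool} {W : Subgroup (M a false)} (h : Nat.card W = 16) (h2 : ∀ x ∈ W, x * x = 1) :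
    W = A ∨ W = B := by
  have hT := e16T h h2
  have : W ≤ A ∨ W ≤ B := by
    by_contra hn
    rw [not_or, SetLike.not_le_iff_exists, SetLike.not_le_iff_exists] at hn
    obtain ⟨⟨x, hx, xA⟩, y, hy, yB⟩ := hn
    have xB := (ab1 a x (hT hx) (h2 x hx)).resolve_left xA
    have yA := (ab1 a y (hT hy) (h2 y hy)).resolve_right yB
    rcases ab1 a _ (hT (mul_mem hx hy)) (h2 _ (mul_mem hx hy)) with e | e
    · exact xA ((mul_mem_cancel_right yA).1 e)
    · exact yB ((mul_mem_cancel_left xB).1 e)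
  exact this.imp (fun e => eq_of_le_of_card_ge e (by rw [h, card_A]))
    fun e => eq_of_le_of_card_ge e (by rw [h, card_B])

/-- the true type -/
abbrev M0 : Type := M false false

theorem cS : ∀ t : M0, t ∈ S → t * t = 1 → t ∉ T → cnt (fun x => x ∈ S ∧ x * t = t * x) ≤ 32 := by
  decide +kernel
theorem ce : cnt (fun x : M0 => x ∈ S ∧ x * ee = ee * x) = 32 := by decide +kernel
theorem f2 : ∀ t : M0, t ∈ S1 → t * t = 1 → t ∈ T ∨
    ∃ w, w ∈ T ∧ w * w = 1 ∧ w ≠ 1 ∧ w ≠ z ∧ w * t = t * w := by decide +kernel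
theorem f3 : ∀ w : M0, w ∈ T → w * w = 1 → w * ee = ee * w → w = 1 ∨ w = z := by decide +kernel
theorem cos : ∀ x : M0, x ∈ S → x ∈ T ∨ x * ee ∈ T ∨ x * s ∈ T ∨ x * ff ∈ T := by decide +kernel
theorem reps : (ee * ee = (1 : M0) ∧ ee ∈ (S : Subgroup M0) ∧ ee ∉ (T : Subgroup M0)) ∧
    (s * s = (1 : M0) ∧ s ∈ (S : Subgroup M0) ∧ s ∉ (T : Subgroup M0)) ∧
    (ff * ff = (1 : M0) ∧ ff ∈ (S : Subgroup M0) ∧ ff ∉ (T : Subgroup M0)) ∧
    s * ff * ee ∈ (T : Subgroup M0) ∧ z ∈ (T : Subgroup M0) ∧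
    t2 = (el 0 3 : M0) * r * (el 0 3)⁻¹ * r⁻¹ ∧ (r : M0) ^ 3 = 1 := by decide +kernel
theorem genT : ∀ x : M0, x ∈ T → ∃ y, y ∈ A ∧ y * x ∈ B := by decide +kernel
theorem genU : ∀ x : M0, x = 1 ∨ x = z ∨ x = u ∨ x = uz → ∃ h, h * t2 * h⁻¹ = t2 * x := by
  decide +kernel
def LT : List M0 := [t1, t2, el 3 0, el 6 0]
theorem cT : (∀ x ∈ LT, x ∈ T) ∧ ∀ x : M0, (∀ y ∈ LT, y * x = x * y) → x ∈ T := by decide +kernel

def uE : ℕ := 0x3130c1c15050a1a061609190f1f100003130c1c15050a1a061609190f1f100003130c1c15050a1a061609190f1f100003130c1c15050a1a061609190f1f1000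
def uP : ℕ := 0x1010101000000000202020203030303000000000101010103030303020202020303030302020202000000000101010102020202030303030101010100000000
def cd (a : H55.F4) : ℕ := a.re.val + 2 * a.im.val
def uu (a b c : H55.F4) : M0 :=
  el (tbe uE (16 * cd a + 4 * cd b + cd c)) (tbe uP (16 * cd a + 4 * cd b + cd c))

theorem uu_mul : ∀ a b c a' b' c', uu a b c * uu a' b' c' = uu (a + a') (b + b') (c + c' + a * b') := by
  decide +kernel
theorem uu_inj : ∀ a b c, uu a b c = 1 → a = 0 ∧ b = 0 ∧ c = 0 := by decide +kernel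
theorem uu_T : (∀ a b c, uu a b c ∈ T) ∧ ∀ x : M0, x ∈ T → ∃ a b c, uu a b c = x := by
  decide +kernel
theorem uu_e : (∀ a c, ∃ b c', ee * uu a 0 c * ee⁻¹ = uu 0 b c') ∧
    (∀ b c, ∃ a c', ee * uu 0 b c * ee⁻¹ = uu a 0 c') ∧ uu 0 0 1 = z := by decide +kernel

end M

end H9.A34
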