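import Cfsg.Agent.Rz.H31_PCL_eq_def
import Cfsg.Agent.H9.A34N
import Cfsg.Agent.H78.Form
import Cfsg.Agent.H78.Large
import Cfsg.Agent.H98.Sylow
import Cfsg.Agent.H9.PBasic

/-! A centraliser `2^(1+4)_-.S₄` is one of the four models. -/

set_option autoImplicit false

namespace H9.A34

open Subgroup H31 H78 H98 Equiv

variable {G : Type*} [Group G]

theorem lm {l : List G} {x : G} (h : x ∈ l) : x ∈ closure {y | y ∈ l} := subset_closure h

theorem pcl_card {l : List G} (h : PCL l) : Nat.card (closure {y | y ∈ l}) ≤ 2 ^ l.length := by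
  obtain ⟨s, hs, hm⟩ := h.exists_finset
  refine le_trans ?_ hs
  rw [← Nat.card_eq_finsetCard]
  exact Nat.card_le_card_of_injective (fun x : closure {y | y ∈ l} => (⟨x.1, hm _ x.2⟩ : s))
    fun a b e => Subtype.ext (congrArg (fun y : s => y.1) e)

theorem card_step [Finite G] {l : List G} {x : G} {n : ℕ} (hn : 0 < n)
    (h1 : x ^ n ∈ closure {y | y ∈ l}) (h2 : ∀ y ∈ l, x * y * x⁻¹ ∈ closure {y | y ∈ l}) :
    Nat.card (closure {y | y ∈ x :: l}) ≤ n * Nat.card (closure {y | y ∈ l}) := by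
  set K := closure {y | y ∈ l}
  have hx : x ∈ normalizer (K : Set G) := mem_normalizer_of_cj_le (by
    rw [cj, map_le_iff_le_comap, closure_le]; exact h2)
  have hle : closure {y | y ∈ x :: l} ≤ K ⊔ zpowers x := (closure_le _).2 fun y hy =>
    (List.mem_cons.1 hy).elim (fun e => e ▸ mem_sup_right (mem_zpowers _))
      fun e => mem_sup_left (lm e)
  rw [← Nat.card_fin n, ← Nat.card_prod]
  have key : ∀ g : closure {y | y ∈ x :: l}, ∃ p : Fin n × K, g.1 = p.2 * x ^ p.1.1 := fun g => by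
    obtain ⟨k, hk, y, hy, e⟩ := (mem_sup_right_norm (zpowers_le.2 hx)).1 (hle g.2)
    obtain ⟨m, rfl⟩ := (mem_powers_iff_mem_zpowers.2 hy)
    refine ⟨(⟨m % n, Nat.mod_lt _ hn⟩, ⟨k * (x ^ n) ^ (m / n), mul_mem hk (pow_mem h1 _)⟩), ?_⟩
    show g.1 = k * (x ^ n) ^ (m / n) * x ^ (m % n)
    rw [e, mul_assoc, ← pow_mul, ← pow_add, Nat.div_add_mod]
  choose f hf using key
  exact Nat.card_le_card_of_injective f fun a b e => Subtype.ext (by rw [hf, hf, e])

theorem exists_hom_of_card {M : Type*} [Group M] [Finite M] {K : Subgroup (M × G)} [Finite K]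
    (hc : Nat.card K ≤ Nat.card M) (hs : ⊤ ≤ K.map (MonoidHom.fst M G)) :
    ∃ ψ : M →* G, ∀ p ∈ K, ψ p.1 = p.2 := by
  let f : K →* M := (MonoidHom.fst M G).comp K.subtype
  have bf : Function.Bijective f := Function.Surjective.bijective_of_nat_card_le
    (fun m => let ⟨p, hp, e⟩ := hs (mem_top m); ⟨⟨p, hp⟩, e⟩) hc
  refine ⟨((MonoidHom.snd M G).comp K.subtype).comp (MulEquiv.ofBijective f bf).symm.toMonoidHom,
    fun p hp => ?_⟩
  have : (MulEquiv.ofBijective f bf).symm p.1 = ⟨p, hp⟩ := (MulEquiv.symm_apply_eq _).2 rfl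
  simp [this]

theorem inj_of_card {H : Type*} [Group H] [Finite G] [Finite H] (f : G →* H) {S : Subgroup H}
    (h : S ≤ f.range) (hc : Nat.card G ≤ Nat.card S) : Function.Injective f ∧ f.range = S := by
  have c1 := Nat.card_le_card_of_surjective _ f.rangeRestrict_surjective
  have c2 := card_le_of_le h
  refine ⟨?_, (eq_of_le_of_card_ge h (by omega)).symm⟩
  have := ((Nat.bijective_iff_surjective_and_card f.rangeRestrict).2
    ⟨f.rangeRestrict_surjective, by omega⟩).1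
  exact fun x y e => this (Subtype.ext e)

/-- anticommuting involutions -/
structure R0 {ι : Type} (z : G) (v : ι → G) : Prop where
  zz : z * z = 1
  vv : ∀ i, v i * v i = 1
  vz : ∀ i, v i * z * (v i)⁻¹ = z
  va : ∀ i j, i ≠ j → v i * v j * (v i)⁻¹ = v j * z

theorem R0.pcl {z : G} {v : Fin 4 → G} (h : R0 z v) : PCL [v 0, v 1, v 2, v 3, z] := by
  simp only [PCL, List.forall_mem_cons, h.zz, h.vv, h.vz, one_mem, true_and, List.not_mem_nil,
    false_imp_iff, implies_true, and_true, h.va 0 1 (by decide), h.va 0 2 (by decide),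
    h.va 0 3 (by decide), h.va 1 2 (by decide), h.va 1 3 (by decide), h.va 2 3 (by decide)]
  refine ⟨⟨⟨?_, ?_, ?_⟩, ?_, ?_, ?_⟩, ?_, ?_, ?_, ?_⟩ <;>
    first | exact mul_mem (lm (by simp; done)) (lm (by simp; done)) | exact lm (by simp)

theorem Rel.prod {H : Type*} [Group H] {a b : Bool} {z s r t1 t2 : G} {v : Fin 4 → G}
    {z' s' r' t1' t2' : H} {v' : Fin 4 → H} (h : Rel a b z v s r t1 t2)
    (k : Rel a b z' v' s' r' t1' t2') :
    Rel a b (z, z') (fun i => (v i, v' i)) (s, s') (r, r') (t1, t1') (t2, t2') := by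
  have e : ∀ c : Bool, cond c (z, z') 1 = (cond c z 1, cond c z' 1) := fun c => by cases c <;> rfl
  obtain ⟨a1, a2, a3, a4, a5, a6, a7, a8⟩ := h
  obtain ⟨b1, b2, b3, b4, b5, b6, b7, b8⟩ := k
  refine ⟨Prod.ext a1 b1, fun i => Prod.ext (a2 i) (b2 i), fun i => Prod.ext (a3 i) (b3 i),
    fun i j n => Prod.ext (a4 i j n) (b4 i j n), ?_, fun j => ?_, ?_, ?_⟩ <;>
  simp only [e, Prod.ext_iff, Prod.fst_mul, Prod.snd_mul, Prod.fst_inv, Prod.snd_inv, Prod.fst_one,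
    Prod.snd_one]
  · tauto
  · have := a6 j; have := b6 j; tauto
  · tauto
  · tauto

theorem Rel.card [Finite G] {a b : Bool} {z s r t1 t2 : G} {v : Fin 4 → G}
    (h : Rel a b z v s r t1 t2) :
    Nat.card (closure {y | y ∈ [s, r, t1, t2, v 0, v 1, v 2, v 3, z]}) ≤ 768 := by
  have m : ∀ {l : List G}, (∀ j, v j ∈ l) → z ∈ l → ∀ {x : G} {π : Perm (Fin 4)}, x * z * x⁻¹ = z →
      (∀ j, x * v j * x⁻¹ = v (π j)) →
      ∀ y ∈ [v 0, v 1, v 2, v 3, z], x * y * x⁻¹ ∈ closure {y | y ∈ l} := fun hv hz x π e1 e2 => by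
    simp only [List.forall_mem_cons, e1, e2]
    exact ⟨lm (hv _), lm (hv _), lm (hv _), lm (hv _), lm hz, by simp⟩
  have c : ∀ {l : List G}, z ∈ l → ∀ c : Bool, cond c z 1 ∈ closure {y | y ∈ l} := fun hz c => by
    cases c
    exacts [one_mem _, lm hz]
  have v4 : ∀ l : List G, ∀ j, v j ∈ l ++ [v 0, v 1, v 2, v 3, z] := fun l j => by
    fin_cases j <;> simp
  obtain ⟨z1, z2, z3, z4⟩ := h.cz
  obtain ⟨q1, q2, q3, q4⟩ := h.sq
  obtain ⟨c1, c2, c3, c4, c5, c6⟩ := h.ct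
  have p : PCL [t1, t2, v 0, v 1, v 2, v 3, z] :=
    ⟨⟨R0.pcl ⟨h.zz, h.vv, h.vz, h.va⟩, q4 ▸ c (by simp) b,
      m (v4 []) (by simp) z4 fun j => (h.cv j).2.2.2⟩, q3 ▸ c (by simp) b,
      List.forall_mem_cons.2 ⟨c1 ▸ mul_mem (lm (by simp)) (c (by simp) b),
        m (v4 [t2]) (by simp) z3 fun j => (h.cv j).2.2.1⟩⟩
  have k1 := card_step (x := r) (l := [t1, t2, v 0, v 1, v 2, v 3, z]) (n := 3) (by decide)
    (by rw [pow_three', q2]; exact one_mem _) (List.forall_mem_cons.2 ⟨c2 ▸ lm (by simp),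
      List.forall_mem_cons.2 ⟨c3 ▸ mul_mem (mul_mem (lm (by simp)) (lm (by simp))) (c (by simp) b),
        m (v4 [t1, t2]) (by simp) z2 fun j => (h.cv j).2.1⟩⟩)
  have k2 := card_step (x := s) (l := [r, t1, t2, v 0, v 1, v 2, v 3, z]) (n := 2) (by decide)
    (by rw [pow_two, q1]; exact c (by simp) a) (List.forall_mem_cons.2
      ⟨c4 ▸ mul_mem (lm (by simp)) (lm (by simp)), List.forall_mem_cons.2
        ⟨c5 ▸ mul_mem (lm (by simp)) (c (by simp) b), List.forall_mem_cons.2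
          ⟨c6 ▸ mul_mem (lm (by simp)) (lm (by simp)),
            m (v4 [r, t1, t2]) (by simp) z1 fun j => (h.cv j).1⟩⟩⟩)
  have := pcl_card p
  simp only [List.length_cons, List.length_nil] at this
  omega

theorem Rel.exists_hom [Finite G] {a b : Bool} {z s r t1 t2 : G} {v : Fin 4 → G}
    (h : Rel a b z v s r t1 t2) : ∃ ψ : M a b →* G, ψ M.z = z ∧ ∀ j, ψ (M.v j) = v j := by
  obtain ⟨ψ, hψ⟩ := exists_hom_of_card (((M.rel a b).prod h).card.trans M.card.ge) fun x _ => by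
    have g : ∀ {l : List (M a b × G)} {p}, p ∈ l →
        p.1 ∈ (closure {y | y ∈ l}).map (MonoidHom.fst _ _) := fun hp => ⟨_, lm hp, rfl⟩
    rw [M.split x, M.gen1, M.gen2]
    refine mul_mem (mul_mem (mul_mem (mul_mem (mul_mem ?_ ?_) ?_) ?_) ?_)
      (mul_mem (mul_mem (mul_mem ?_ ?_) ?_) ?_) <;> refine pow_mem ?_ _
    exacts [g (p := (M.v 0, v 0)) (by simp), g (p := (M.v 1, v 1)) (by simp),
      g (p := (M.v 2, v 2)) (by simp), g (p := (M.v 3, v 3)) (by simp), g (p := (M.z, z)) (by simp),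
      g (p := (M.s, s)) (by simp), g (p := (M.r, r)) (by simp), g (p := (M.t1, t1)) (by simp),
      g (p := (M.t2, t2)) (by simp)]
  refine ⟨ψ, hψ (M.z, z) (lm (by simp)), fun j => hψ (M.v j, v j) (lm ?_)⟩
  fin_cases j <;> simp

/-- a frame -/
structure Fr (z : G) (v : Fin 4 → G) : Prop extends R0 z v where
  ne : z ≠ 1
  pure : ∀ π : Perm (Fin 4), ∃ h, h * z * h⁻¹ = z ∧ ∀ j, h * v j * h⁻¹ = v (π j)
  cen : ∀ h, h * z * h⁻¹ = z → (∀ j, h * v j * h⁻¹ = v j) → h = 1 ∨ h = z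
  all : ∀ h, h * z * h⁻¹ = z → ∃ π : Perm (Fin 4), ∀ j,
    h * v j * h⁻¹ = v (π j) ∨ h * v j * h⁻¹ = v (π j) * z

/-- pure permutations of the frame -/
def Pu (z : G) (v : Fin 4 → G) (h : G) (π : Perm (Fin 4)) : Prop :=
  h * z * h⁻¹ = z ∧ ∀ j, h * v j * h⁻¹ = v (π j)

section Pu

variable {z h k : G} {v : Fin 4 → G} {π ρ : Perm (Fin 4)}

theorem cc (h k x : G) : h * k * x * (h * k)⁻¹ = h * (k * x * k⁻¹) * h⁻¹ := by group

theorem Pu.mul (a : Pu z v h π) (b : Pu z v k ρ) : Pu z v (h * k) (π * ρ) :=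
  ⟨by rw [cc, b.1, a.1], fun j => by rw [cc, b.2, a.2]; rfl⟩

theorem Pu.inv (a : Pu z v h π) : Pu z v h⁻¹ π⁻¹ :=
  ⟨by conv_lhs => rw [← a.1]
      group, fun j => by
    have := a.2 (π⁻¹ j)
    rw [show π (π⁻¹ j) = j by simp] at this
    conv_lhs => rw [← this]
    group⟩

theorem Pu.cj (a : Pu z v h π) (b : Pu z v k ρ) : Pu z v (h * k * h⁻¹) (π * ρ * π⁻¹) :=
  (a.mul b).mul a.inv

theorem Pu.cast (a : Pu z v h π) (e : π = ρ) : Pu z v h ρ := e ▸ a

theorem Pu.comm (a : Pu z v h π) (c : Bool) : Commute (cond c z 1) h := by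
  cases c
  exacts [Commute.one_left _, (mul_inv_eq_iff_eq_mul.1 a.1).symm]

theorem Fr.eq (F : Fr z v) (a : Pu z v h π) (b : Pu z v k π) : ∃ c : Bool, k = h * cond c z 1 := by
  have := (a.inv.mul b).cast (inv_mul_cancel π)
  rcases F.cen _ this.1 this.2 with e | e
  · exact ⟨false, inv_mul_eq_iff_eq_mul.1 e⟩
  · exact ⟨true, inv_mul_eq_iff_eq_mul.1 e⟩

theorem Fr.puz (F : Fr z v) (c : Bool) : Pu z v (cond c z 1) 1 := by
  cases c
  · exact ⟨by simp, by simp⟩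
  · exact ⟨by simp, fun j => by
      rw [mul_inv_eq_iff_eq_mul]; exact (mul_inv_eq_iff_eq_mul.1 (F.vz j)).symm⟩

theorem Fr.sq (F : Fr z v) (c : Bool) : cond c z 1 * cond c z 1 = 1 := by
  cases c
  exacts [one_mul _, F.zz]

theorem Fr.exists_rel (F : Fr z v) : ∃ a b s r t1 t2, Rel a b z v s r t1 t2 := by
  obtain ⟨r, pr, r3⟩ : ∃ r, Pu z v r pr ∧ r * r * r = 1 := by
    obtain ⟨r, h⟩ : ∃ r, Pu z v r pr := F.pure _
    obtain ⟨c, e⟩ := F.eq (F.puz false) (((h.mul h).mul h).cast (by decide))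
    refine ⟨r * cond c z 1, (h.mul (F.puz c)).cast (mul_one _), ?_⟩
    rw [← pow_three', (h.comm c).symm.mul_pow, pow_three', e, pow_three', F.sq]
    simpa using F.sq c
  obtain ⟨t1, p1, t3⟩ : ∃ t, Pu z v t p1 ∧ t * (r * t * r⁻¹) * (r * (r * t * r⁻¹) * r⁻¹) = 1 := by
    obtain ⟨t, h⟩ : ∃ t, Pu z v t p1 := F.pure _
    obtain ⟨c, e⟩ := F.eq (F.puz false) (((h.mul (pr.cj h)).mul (pr.cj (pr.cj h))).cast (by decide))
    refine ⟨t * cond c z 1, (h.mul (F.puz c)).cast (mul_one _), ?_⟩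
    have q := F.sq c
    have c1 := (pr.comm c).left_comm
    have c2 := (pr.inv.comm c).left_comm
    have c3 := (h.comm c).left_comm
    have c4 := (pr.inv.comm c).eq
    generalize cond c z 1 = y at *
    simp only [mul_assoc, c1, c2, c3, c4, cond_false, one_mul, q, mul_one] at e ⊢
    rw [← q]
    nth_rw 2 [← e]
    simp only [mul_assoc]
  obtain ⟨s, ps⟩ : ∃ s, Pu z v s ps := F.pure _
  obtain ⟨a, sa⟩ := F.eq (F.puz false) ((ps.mul ps).cast (by decide))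
  obtain ⟨b, tb⟩ := F.eq (F.puz false) ((p1.mul p1).cast (by decide))
  obtain ⟨c, sc⟩ := F.eq (pr.mul pr) ((ps.cj pr).cast (by decide))
  obtain ⟨d, sd⟩ := F.eq p1 ((ps.cj p1).cast (by decide))
  have p2 : Pu z v (r * t1 * r⁻¹) p2 := (pr.cj p1).cast (by decide)
  simp only [cond_false, one_mul] at sa tb
  have sr : s * r * s⁻¹ = r * r := by
    have e : (s * r * s⁻¹) ^ 3 = 1 := by rw [conj_pow, pow_three', r3]; simp
    rw [sc, ((pr.mul pr).comm c).symm.mul_pow, (Commute.refl r).mul_pow, pow_three', r3, pow_three',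
      F.sq] at e
    rw [sc, show cond c z 1 = 1 by simpa using e, mul_one]
  have cb : ∀ (c : Bool) (x : G), r * (x * cond c z 1) * r⁻¹ = r * x * r⁻¹ * cond c z 1 :=
    fun c x => by rw [mul_assoc r, mul_assoc x, (pr.inv.comm c).eq]; group
  have t2b : r * t1 * r⁻¹ * (r * t1 * r⁻¹) = cond b z 1 := by
    rw [conj_mul, tb]; simpa using cb b 1
  have ri : r⁻¹ = r * r := inv_eq_of_mul_eq_one_left r3
  have e1 : r * (r * (r * t1 * r⁻¹) * r⁻¹) * r⁻¹ = t1 := by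
    rw [show r * (r * (r * t1 * r⁻¹) * r⁻¹) * r⁻¹ = r * r * r * t1 * (r * r * r)⁻¹ by group, r3]
    simp
  have s2 : s * (r * t1 * r⁻¹) * s⁻¹ = r * (r * t1 * r⁻¹) * r⁻¹ * cond d z 1 := by
    rw [← conj_mul, ← conj_mul, ← conj_inv, sr, sd, cc, cb, cb]
  have s3 : s * (r * (r * t1 * r⁻¹) * r⁻¹) * s⁻¹ = r * t1 * r⁻¹ * cond d z 1 := by
    rw [← conj_mul, ← conj_mul, ← conj_inv, sr, s2, cc, cb, cb, e1]
  generalize ht : r * t1 * r⁻¹ = t2 at *
  have t3b : r * t2 * r⁻¹ * (r * t2 * r⁻¹) = cond b z 1 := by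
    rw [conj_mul, t2b]; simpa using cb b 1
  have yi : (cond b z 1)⁻¹ = cond b z 1 := inv_eq_of_mul_eq_one_right (F.sq b)
  have e3 : r * t2 * r⁻¹ = t1 * t2 * cond b z 1 := by
    rw [← t3b, ← mul_assoc, t3, one_mul]
  have e4 : t1 * t2 * t1⁻¹ = t2 * cond b z 1 := by
    rw [e3, ← mul_assoc, mul_eq_one_iff_eq_inv, yi] at t3
    calc t1 * t2 * t1⁻¹ = t1 * t2 * (t1 * t2) * t2⁻¹ * (t1 * t1)⁻¹ := by group
      _ = t2 * (t2 * t2)⁻¹ := by rw [t3, tb, (p2.inv.comm b).eq]; group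
      _ = _ := by rw [t2b, yi]
  have e5 : cond d z 1 = cond b z 1 := by
    have e : s * (t1 * t2 * (r * t2 * r⁻¹)) * s⁻¹ = 1 := by rw [t3]; simp
    rw [← conj_mul, ← conj_mul, sd, s2, s3, e3] at e
    have c1 := (p1.comm d).left_comm
    have c2 := (p2.comm d).left_comm
    have c3 := (p2.comm b).left_comm
    have c4 := ((F.puz b).comm d).left_comm
    have q := F.sq d
    simp only [mul_assoc, c1, c2, c3, c4, q, mul_one] at e
    rw [← mul_assoc, ← mul_assoc t2, tb, t2b, ← mul_assoc, F.sq, one_mul, mul_eq_one_iff_inv_eq, yi] at e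
    exact e.symm
  exact ⟨a, b, s, r, t1, t2, F.zz, F.vv, F.vz, F.va, ⟨ps.1, pr.1, p1.1, p2.1⟩,
    fun j => ⟨ps.2 j, pr.2 j, p1.2 j, p2.2 j⟩, ⟨sa, r3, tb, t2b⟩, e4, ht, e3, sr, e5 ▸ sd,
    by rw [s2, e3, e5, mul_assoc, F.sq, mul_one]⟩

end Pu

/-- the model of the centraliser -/
structure Md {a b : Bool} (ψ : M a b →* G) : Prop where
  inj : Function.Injective ψ
  ran : ∀ g, g ∈ ψ.range ↔ g * ψ M.z = ψ M.z * g

theorem Fr.exists_md [Finite G] {z : G} {v : Fin 4 → G} (F : Fr z v)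
    (hc : Nat.card (centralizer ({z} : Set G)) = 768) :
    ∃ (a b : Bool) (ψ : M a b →* G), Md ψ ∧ ψ M.z = z := by
  classical
  obtain ⟨a, b, s, r, t1, t2, h⟩ := F.exists_rel
  obtain ⟨ψ, hz, hv⟩ := h.exists_hom
  obtain ⟨i, e⟩ := inj_of_card ψ (S := centralizer {z}) (fun g hg => by
    have g1 := mul_inv_eq_iff_eq_mul.2 (mem_centralizer_singleton_iff.1 hg)
    obtain ⟨π, hπ⟩ := F.all g g1
    obtain ⟨p, hp⟩ := M.pure a b π
    obtain ⟨q, hq⟩ := M.signs a b fun j => decide (g * v j * g⁻¹ ≠ v (π j))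
    have cz : ∀ m, ψ m * z * (ψ m)⁻¹ = z := fun m => by
      rw [← hz, ← map_mul, M.cz, map_mul, mul_inv_cancel_right]
    have u1 : Pu z v (ψ ⟨1, p⟩) π :=
      ⟨cz _, fun j => by rw [← hv, ← hv, ← hp, map_mul, map_mul, map_inv]⟩
    have u2 : Pu z v (g * ψ ⟨q, 1⟩) π := ⟨by rw [cc, cz, g1], fun j => by
      rw [cc, ← hv, ← map_inv, ← map_mul, ← map_mul, hq, map_mul, hv, ← conj_mul]
      by_cases n : g * v j * g⁻¹ = v (π j)
      · simp [n]
      · simp only [n, ne_eq, not_false_eq_true, decide_true, cond_true]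
        rw [hz, g1, (hπ j).resolve_left n, mul_assoc, F.zz, mul_one]⟩
    obtain ⟨c, e⟩ := F.eq u1 u2
    refine (mul_mem_cancel_right (⟨⟨q, 1⟩, rfl⟩ : ψ _ ∈ ψ.range)).1 (e ▸ mul_mem ⟨_, rfl⟩ ?_)
    cases c
    exacts [one_mem _, ⟨_, hz⟩]) (by rw [M.card, hc])
  exact ⟨a, b, ψ, ⟨i, fun g => by rw [e, hz, mem_centralizer_singleton_iff]⟩, hz⟩

end H9.A34
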