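import Cfsg.Agent.H9.A34R

/-! The frame of singular vectors of `2^(1+4)_-`. -/

set_option autoImplicit false

namespace H9.A34

open Subgroup H31 H78 H98 Equiv

variable {G : Type*} [Group G] [Finite G] {Q : Subgroup G} {z : G}

theorem le_of_invol {A : Subgroup G} (h : XS Q z) (h8 : 8 < Nat.card Q)
    (hA : ∀ x ∈ Q, x * x = 1 → x ∈ A) : Q ≤ A := fun x hx => by
  by_cases hs : x * x = 1
  · exact hA x hx hs
  have key : ∀ a ∈ Q, sf a = 0 → cf a x = 1 → x ∈ A := fun a ha h0 h1 => by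
    have h2 := hA _ (Q.mul_mem ha hx) (sf_eq_zero.1 (by
      rw [h.sf_mul ha hx, h0, h1, sf_eq_one.2 hs]; decide))
    exact (A.mul_mem_cancel_left (hA a ha (sf_eq_zero.1 h0))).1 h2
  obtain ⟨y, hy, e⟩ := h.exists_cf_eq_one hx (fun e => hs (by rw [e, one_mul]))
    fun e => hs (by rw [e, h.z_sq])
  rw [cf_symm] at e
  obtain ⟨r, hr, s, hs', e1, e2, e3⟩ := h.exists_nonab_cent h8 hx
  rw [← cf_eq_zero] at e1 e2
  rw [← cf_eq_one] at e3
  have c1 : cf (y * r) x = 1 := by rw [h.cf_mul_left hy hr hx, e, e1, add_zero]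
  have c2 : cf (y * s) x = 1 := by rw [h.cf_mul_left hy hs' hx, e, e2, add_zero]
  have c3 : cf (y * r * s) x = 1 := by
    rw [h.cf_mul_left (Q.mul_mem hy hr) hs' hx, c1, e2, add_zero]
  rcases zmod2_cases (sf y) with a0 | a0
  · exact key y hy a0 e
  rcases zmod2_cases (sf (y * r)) with a1 | a1
  · exact key _ (Q.mul_mem hy hr) a1 c1
  rcases zmod2_cases (sf (y * s)) with a2 | a2
  · exact key _ (Q.mul_mem hy hs') a2 c2
  refine key _ (Q.mul_mem (Q.mul_mem hy hr) hs') ?_ c3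
  rw [h.sf_mul hy hs', a0] at a2
  rw [h.sf_mul (Q.mul_mem hy hr) hs', a1, h.cf_mul_left hy hr hs', e3]
  revert a2
  generalize sf s = a
  generalize cf y s = b
  revert a b
  decide

theorem dbl {X Y : Subgroup G} (h : X ≤ Y) {y : G} (h1 : y ∈ Y) (h2 : y ∉ X) :
    2 * Nat.card X ≤ Nat.card Y := by
  obtain ⟨k, hk⟩ := card_dvd_of_le h
  have : k ≠ 1 := fun e => h2 ((eq_of_le_of_card_ge h (by rw [hk, e, mul_one])).ge h1)
  have : k ≠ 0 := fun e => (Nat.card_pos (α := Y)).ne' (by rw [hk, e, mul_zero])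
  rw [hk, mul_comm]
  exact Nat.mul_le_mul_left _ (by omega)

/-- no elementary abelian subgroup of order eight -/
def No8 (Q : Subgroup G) : Prop := ∀ A : Subgroup G, A ≤ Q → (∀ x ∈ A, x * x = 1) → Nat.card A ≠ 8

theorem anti (h : XS Q z) (hm : No8 Q) {a b : G} (ha : a ∈ Q) (hb : b ∈ Q) (a2 : a * a = 1)
    (b2 : b * b = 1) (a1 : a ∉ closure {y | y ∈ [z]}) (b1 : b ∉ closure {y | y ∈ [a, z]}) :
    a * b * a⁻¹ = b * z := by
  refine (h.conj_eq_or hb ha).resolve_left fun e => ?_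
  have c1 : Commute a b := mul_inv_eq_iff_eq_mul.1 e
  have c2 : Commute z a := h.z_comm a ha
  have c3 : Commute z b := h.z_comm b hb
  have p : PCL [b, a, z] := by
    simp only [PCL, List.forall_mem_cons, h.z_sq, a2, b2, one_mem, true_and, List.not_mem_nil,
      false_imp_iff, implies_true, and_true, c1.symm.mul_inv_cancel, c2.symm.mul_inv_cancel,
      c3.symm.mul_inv_cancel]
    exact ⟨lm (by simp), lm (by simp), lm (by simp)⟩
  have cm : ∀ x ∈ [b, a, z], ∀ y ∈ closure {y | y ∈ [b, a, z]}, x * y = y * x := fun x hx y hy => by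
    refine mem_centralizer_singleton_iff.1 ((closure_le (centralizer {x})).2 ?_ hy) |>.symm
    revert x
    simp only [Set.subset_def, Set.mem_setOf_eq, List.forall_mem_cons, SetLike.mem_coe,
      mem_centralizer_singleton_iff, c1.eq, c2.eq, c3.eq]
    simp
  have cm' : ∀ x ∈ closure {y | y ∈ [b, a, z]}, ∀ y ∈ closure {y | y ∈ [b, a, z]}, x * y = y * x :=
    fun x hx y hy => mem_centralizer_singleton_iff.1 ((closure_le (centralizer {y})).2
      (fun w hw => mem_centralizer_singleton_iff.2 (cm w hw y hy)) hx)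
  refine hm _ ((closure_le _).2 ?_) (fun x hx => ?_) (le_antisymm (pcl_card p) ?_)
  · simp only [Set.subset_def, Set.mem_setOf_eq, List.forall_mem_cons]
    exact ⟨hb, ha, h.z_mem, by simp⟩
  · induction hx using closure_induction with
    | mem y hy =>
      revert y
      simp only [Set.mem_setOf_eq, List.forall_mem_cons]
      exact ⟨b2, a2, h.z_sq, by simp⟩
    | one => simp
    | mul x y hx hy e1 e2 => rw [mul_assoc, ← mul_assoc y, ← cm' x hx y hy, mul_assoc, e2, mul_one, e1]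
    | inv x _ e => rw [← mul_inv_rev, e, inv_one]
  · have d1 := dbl (X := ⊥) (Y := closure {y | y ∈ [z]}) bot_le (lm (by simp)) h.z_ne
    have d2 := dbl (X := closure {y | y ∈ [z]}) (Y := closure {y | y ∈ [a, z]})
      (closure_mono fun _ => List.mem_cons_of_mem _) (lm (by simp)) a1
    have d3 := dbl (X := closure {y | y ∈ [a, z]}) (Y := closure {y | y ∈ [b, a, z]})
      (closure_mono fun _ => List.mem_cons_of_mem _) (lm (by simp)) b1
    rw [card_bot] at d1
    omega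

theorem exists_v (h : XS Q z) (hc : Nat.card Q = 32) (hm : No8 Q) :
    ∃ v : Fin 4 → G, (∀ i, v i ∈ Q) ∧ R0 z v := by
  have step : ∀ l : List G, l.length ≤ 3 → (∀ x ∈ l, x ∈ Q ∧ x * x = 1) → PCL (l ++ [z]) →
      ∃ x ∈ Q, x * x = 1 ∧ x ∉ closure {y | y ∈ l ++ [z]} ∧ PCL (x :: l ++ [z]) := fun l hl h1 p => by
    by_contra hn
    have h2 := card_le_of_le (le_of_invol (A := closure {y | y ∈ l ++ [z]}) h (by omega)
      fun x hx x2 => by_contra fun e => hn ⟨x, hx, x2, e, p, x2 ▸ one_mem _, fun y hy => by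
        have hy' : y ∈ Q := (List.mem_append.1 hy).elim (fun e => (h1 y e).1)
          fun e => List.mem_singleton.1 e ▸ h.z_mem
        rcases h.conj_eq_or hy' hx with e | e <;> rw [e]
        exacts [lm hy, mul_mem (lm hy) (lm (by simp))]⟩)
    have h3 := (pcl_card p).trans (Nat.pow_le_pow_right (by decide) (show _ ≤ 4 by simp; omega))
    omega
  obtain ⟨a, a0, a1, a2, pa⟩ := step [] (by simp) (by simp) ⟨trivial, h.z_sq ▸ one_mem _, by simp⟩
  obtain ⟨b, b0, b1, b2, pb⟩ := step [a] (by simp) (by simp [a0, a1]) pa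
  obtain ⟨c, c0, c1, c2, pc⟩ := step [b, a] (by simp) (by simp [a0, a1, b0, b1]) pb
  obtain ⟨d, d0, d1, d2, -⟩ := step [c, b, a] (by simp) (by simp [a0, a1, b0, b1, c0, c1]) pc
  have mono : ∀ {l l' : List G} {x : G}, x ∉ closure {y | y ∈ l} → (∀ y ∈ l', y ∈ l) →
      x ∉ closure {y | y ∈ l'} := fun h1 h2 e => h1 (closure_mono h2 e)
  have sy : ∀ {x y : G}, x ∈ Q → y ∈ Q → x * y * x⁻¹ = y * z → y * x * y⁻¹ = x * z :=
    fun {x y} hx hy e => (h.conj_eq_or hx hy).resolve_left fun e' => h.z_ne (by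
      rw [← mul_inv_eq_iff_eq_mul.1 e', mul_inv_cancel_right] at e
      exact left_eq_mul.1 e)
  have ab := anti h hm a0 b0 a1 b1 a2 b2
  have ac := anti h hm a0 c0 a1 c1 a2 (mono c2 (by simp))
  have ad := anti h hm a0 d0 a1 d1 a2 (mono d2 (by simp))
  have bc := anti h hm b0 c0 b1 c1 (mono b2 (by simp)) (mono c2 (by simp))
  have bd := anti h hm b0 d0 b1 d1 (mono b2 (by simp)) (mono d2 (by simp))
  have cd := anti h hm c0 d0 c1 d1 (mono c2 (by simp)) (mono d2 (by simp))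
  have m : ∀ i, ![a, b, c, d] i ∈ Q := fun i => by fin_cases i <;> assumption
  refine ⟨![a, b, c, d], m, h.z_sq, fun i => by fin_cases i <;> assumption,
    fun i => mul_inv_eq_iff_eq_mul.2 (h.z_comm _ (m i)).symm, fun i j n => ?_⟩
  fin_cases i <;> fin_cases j <;> first | exact absurd rfl n | assumption | skip
  exacts [sy a0 b0 ab, sy a0 c0 ac, sy b0 c0 bc, sy a0 d0 ad, sy b0 d0 bd, sy c0 d0 cd]

def zE : ME := TB.el 16
def wE (i : Fin 5) : ME := TB.el (if i = 4 then 15 else 2 ^ i.1)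

theorem r0E : R0 zE wE := by constructor <;> decide +kernel
theorem invE : ∀ x : ME, x * x = 1 → x = 1 ∨ x = zE ∨ ∃ i, x = wE i ∨ x = wE i * zE := by
  decide +kernel
theorem cenE : ∀ x : ME, (∀ y, y * x = x * y) → x = 1 ∨ x = zE := by decide +kernel
theorem signE : ∀ c : Fin 4 → Bool, ∃ q : ME, ∀ j : Fin 4,
    q * wE j.castSucc * q⁻¹ = wE j.castSucc * cond (c j) zE 1 := by decide +kernel

omit [Finite G] in
theorem R0.comp {ι κ : Type} {v : ι → G} (h : R0 z v) {f : κ → ι} (hf : Function.Injective f) :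
    R0 z (v ∘ f) := ⟨h.zz, fun _ => h.vv _, fun _ => h.vz _, fun _ _ n => h.va _ _ (hf.ne n)⟩

omit [Finite G] in
theorem R0.uniq {ι : Type} {v : ι → G} (h : R0 z v) (hz : z ≠ 1) {x : G} {i j : ι}
    (h1 : x = v i ∨ x = v i * z) (h2 : x = v j ∨ x = v j * z) : i = j := by
  by_contra n
  have c : Commute (v i) x := by
    rcases h1 with rfl | rfl
    exacts [Commute.refl _, (Commute.refl _).mul_right (mul_inv_eq_iff_eq_mul.1 (h.vz i))]
  have := c.mul_inv_cancel
  rcases h2 with rfl | rfl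
  · rw [h.va i j n] at this
    exact hz (mul_eq_left.1 this)
  · rw [← conj_mul, h.va i j n, h.vz] at this
    exact hz (mul_eq_left.1 this)

theorem exists_eps (h : XS Q z) (hc : Nat.card Q = 32) {v : Fin 4 → G} (hv : ∀ i, v i ∈ Q)
    (r : R0 z v) : ∃ ε : ME →* G, Function.Injective ε ∧ ε.range = Q ∧ ε zE = z ∧
      (∀ j, ε (wE j.castSucc) = v j) ∧
      ∀ K : Subgroup G, z ∈ K → (∀ j, v j ∈ K) → Q ≤ K := by
  have r1 := r0E.comp (Fin.castSucc_injective 4)
  have r2 : R0 (zE, z) fun j : Fin 4 => (wE j.castSucc, v j) :=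
    ⟨Prod.ext r1.zz r.zz, fun i => Prod.ext (r1.vv i) (r.vv i), fun i => Prod.ext (r1.vz i) (r.vz i),
      fun i j n => Prod.ext (r1.va i j n) (r.va i j n)⟩
  have hg : closure {y | y ∈ [wE 0, wE 1, wE 2, wE 3, zE]} = ⊤ :=
    TB.closure_gens (by decide +kernel)
  obtain ⟨ε, hε⟩ := exists_hom_of_pcl r2.pcl (TB.card (h := eOK)).ge hg
  have e1 : ε zE = z := hε (zE, z) (by simp)
  have e2 : ∀ j, ε (wE j.castSucc) = v j := fun j => hε (wE j.castSucc, v j) (by
    fin_cases j <;> simp)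
  have i : Function.Injective ε := by
    rw [← MonoidHom.ker_eq_bot_iff]
    by_contra hk
    obtain ⟨x, hx, c, o⟩ := H9.exists_mem_center_orderOf_eq (p := 2)
      (IsPGroup.of_card (n := 5) TB.card) hk
    rcases cenE x (mem_center_iff.1 c) with rfl | rfl
    · simp at o
    · exact h.z_ne (e1 ▸ hx)
  have le : ∀ K : Subgroup G, z ∈ K → (∀ j, v j ∈ K) → ε.range ≤ K := fun K h1 h2 => by
    rw [MonoidHom.range_eq_map, ← hg, map_le_iff_le_comap, closure_le]
    simp only [Set.subset_def, Set.mem_setOf_eq, List.forall_mem_cons]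
    exact ⟨(e2 0 ▸ h2 0 :), (e2 1 ▸ h2 1 :), (e2 2 ▸ h2 2 :), (e2 3 ▸ h2 3 :), (e1 ▸ h1 :), by simp⟩
  have e : ε.range = Q := eq_of_le_of_card_ge (le Q h.z_mem hv) (by
    rw [hc, ← Nat.card_congr (MonoidHom.ofInjective i).toEquiv, TB.card]; rfl)
  exact ⟨ε, i, e, e1, e2, e ▸ le⟩

theorem frame_aux (h : LX Q z) (hc : Nat.card Q = 32) {v : Fin 4 → G} (hv : ∀ i, v i ∈ Q)
    (r : R0 z v) : (∀ g, g * z * g⁻¹ = z → (∀ j, g * v j * g⁻¹ = v j) → g = 1 ∨ g = z) ∧
      ∀ g (w : Fin 4 → G), g * z * g⁻¹ = z → (∀ j, g * v j * g⁻¹ = w j ∨ g * v j * g⁻¹ = w j * z) →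
        ∃ q ∈ Q, g * q * z * (g * q)⁻¹ = z ∧ ∀ j, g * q * v j * (g * q)⁻¹ = w j := by
  classical
  obtain ⟨ε, -, e, e1, e2, le⟩ := exists_eps h.toXS hc hv r
  refine ⟨fun g h1 h2 => h.cent' fun y hy => (mem_centralizer_singleton_iff.1
    (le (centralizer {g}) (mem_centralizer_singleton_iff.2 (mul_inv_eq_iff_eq_mul.1 h1).symm)
      (fun j => mem_centralizer_singleton_iff.2 (mul_inv_eq_iff_eq_mul.1 (h2 j)).symm) hy)).symm,
    fun g w h1 h2 => ?_⟩
  obtain ⟨q, hq⟩ := signE fun j => decide (g * v j * g⁻¹ ≠ w j)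
  have m : ε q ∈ Q := e ▸ ⟨q, rfl⟩
  refine ⟨ε q, m, by rw [cc, ← h.z_comm _ m, mul_inv_cancel_right, h1], fun j => ?_⟩
  rw [cc, ← e2, ← map_inv, ← map_mul, ← map_mul, hq, map_mul, e2, ← conj_mul]
  by_cases n : g * v j * g⁻¹ = w j
  · simp [n]
  · simp only [n, ne_eq, not_false_eq_true, decide_true, cond_true]
    rw [e1, h1, (h2 j).resolve_left n, mul_assoc, r.zz, mul_one]

theorem perm5a : ∀ a : Perm (Fin 5), a ^ 4 = 1 → a ^ 2 ≠ 1 →
    ∃ i, ∀ j, j ≠ i → ∀ k, k ≠ i → ∃ n : Fin 4, (a ^ n.1) j = k := by decide +kernel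
theorem perm5b : ∀ i : Fin 5, ∀ σ : Perm (Fin 5), σ i = i →
    ∃ π : Perm (Fin 4), ∀ j, σ (i.succAbove j) = i.succAbove (π j) := by decide +kernel
theorem perm5c : ∀ i : Fin 5, ∀ π : Perm (Fin 4),
    ∃ σ : Perm (Fin 5), σ i = i ∧ ∀ j, σ (i.succAbove j) = i.succAbove (π j) := by decide +kernel

theorem perm5 (f : Perm (Fin 4) →* Perm (Fin 5)) (hf : Function.Injective f) :
    ∃ i : Fin 5, f.range = MulAction.stabilizer _ i := by
  have c : Nat.card f.range = 24 := by
    rw [← Nat.card_congr (MonoidHom.ofInjective hf).toEquiv, Nat.card_perm]; simp [Nat.factorial]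
  obtain ⟨i, hi⟩ := perm5a (f (finRotate 4)) (by rw [← map_pow, show finRotate 4 ^ 4 = 1 by decide, map_one])
    fun e => absurd (hf (a₁ := finRotate 4 ^ 2) (a₂ := 1) (by rw [map_pow, e, map_one])) (by decide)
  refine ⟨i, eq_of_le_of_card_ge (fun r hr => by_contra fun n => ?_) ?_⟩
  · have o : MulAction.orbit f.range i = Set.univ := Set.eq_univ_of_forall fun k => by
      by_cases e : k = i
      · exact e ▸ MulAction.mem_orbit_self _
      · obtain ⟨m, hm⟩ := hi (r i) n k e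
        exact ⟨⟨_, mul_mem (pow_mem (f.mem_range.2 ⟨_, rfl⟩) m.1) hr⟩, hm⟩
    have := (MulAction.stabilizer f.range i).index_dvd_card
    rw [MulAction.index_stabilizer, o, c] at this
    simp at this
  · have := (MulAction.stabilizer (Perm (Fin 5)) i).card_mul_index
    rw [MulAction.index_stabilizer_of_transitive, Nat.card_perm] at this
    rw [c]
    simp only [Nat.factorial, Nat.card_eq_fintype_card (α := Fin 5), Fintype.card_fin] at this
    omega

theorem exists_frame (E : Subgroup (centralizer ({z} : Set G))) [E.Normal]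
    (h : LX (E.map (centralizer {z}).subtype) z) (hc : Nat.card (E.map (centralizer {z}).subtype) = 32)
    (hm : No8 (E.map (centralizer {z}).subtype))
    (e : (centralizer ({z} : Set G) ⧸ E) ≃* Perm (Fin 4)) : ∃ v, Fr z v := by
  obtain ⟨v, hv, r⟩ := exists_v h.toXS hc hm
  obtain ⟨ε, i, e0, e1, e2, -⟩ := exists_eps h.toXS hc hv r
  let w := fun j => ε (wE j)
  have wQ : ∀ j, w j ∈ E.map (centralizer {z}).subtype := fun j => e0 ▸ ⟨_, rfl⟩
  have rw' : R0 z w := ⟨r.zz, fun j => by rw [← map_mul, r0E.vv, map_one],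
    fun j => by rw [← e1, ← map_inv, ← map_mul, ← map_mul, r0E.vz],
    fun j k n => by rw [← e1, ← map_inv, ← map_mul, ← map_mul, r0E.va j k n, map_mul]⟩
  have cz : ∀ g : centralizer ({z} : Set G), g * z * (g : G)⁻¹ = z := fun g =>
    mul_inv_eq_iff_eq_mul.2 (mem_centralizer_singleton_iff.1 g.2)
  have ex : ∀ (g : centralizer ({z} : Set G)) j, ∃ k,
      g * w j * (g : G)⁻¹ = w k ∨ g * w j * (g : G)⁻¹ = w k * z := fun g j => by
    obtain ⟨x, hx⟩ := e0.ge (h.norm g (mem_centralizer_singleton_iff.1 g.2) _ (wQ j))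
    have nc : ∀ y, (∀ m, m * y = y * m) → x ≠ y := fun y hy n => by
      obtain ⟨k, hk⟩ := exists_ne j
      have h1 := rw'.va k j hk
      obtain ⟨m, hm⟩ := e0.ge (h.norm g (mem_centralizer_singleton_iff.1 g.2) _ (wQ k))
      have h2 := congrArg (fun t => g * t * (g : G)⁻¹) h1
      simp only [← conj_mul, ← conj_inv, cz, ← hx, ← hm, n] at h2
      rw [← map_mul, hy, map_mul, mul_inv_cancel_right] at h2
      exact h.z_ne (left_eq_mul.1 h2)
    rcases invE x (i (by rw [map_mul, hx, conj_mul, rw'.vv]; simp)) with n | n | ⟨k, n⟩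
    · exact absurd n (nc 1 (by simp))
    · exact absurd n (nc _ fun m => (ze_comm m).symm)
    · exact ⟨k, by rw [← hx, ← e1, ← map_mul]; exact n.imp (congrArg ε) (congrArg ε)⟩
  choose f hf using ex
  let κ : centralizer ({z} : Set G) →* Perm (Fin 5) := MonoidHom.toHomPerm
    { toFun := f
      map_one' := funext fun j => rw'.uniq h.z_ne (hf 1 j) (Or.inl (by simp; rfl))
      map_mul' := fun a b => funext fun j => rw'.uniq h.z_ne (hf (a * b) j) (by
        show _ = w (f a (f b j)) ∨ _ = w (f a (f b j)) * z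
        rw [coe_mul, cc]
        rcases hf b j with e | e <;> rw [e]
        · exact hf a _
        · rw [← conj_mul, cz]
          rcases hf a (f b j) with e | e <;> rw [e]
          exacts [Or.inr rfl, Or.inl (by rw [mul_assoc, r.zz, mul_one])]) }
  have hκ : ∀ g j, κ g j = f g j := fun _ _ => rfl
  obtain ⟨k1, k2⟩ := frame_aux h hc hv r
  have ker : κ.ker = E := by
    refine le_antisymm (fun g hg => ?_) fun g hg => Equiv.ext fun j => rw'.uniq h.z_ne (hf g j)
      (h.conj_eq_or (wQ j) ⟨g, hg, rfl⟩)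
    obtain ⟨q, hq, h1, h2⟩ := k2 g v (cz g) fun j => by
      have := hf g j.castSucc
      rwa [← hκ, show κ g = 1 from hg, Perm.one_apply, show w j.castSucc = v j from e2 j] at this
    have : (g : G) * q ∈ E.map (centralizer {z}).subtype := by
      rcases k1 _ h1 h2 with e | e <;> rw [e]
      exacts [one_mem _, h.z_mem]
    obtain ⟨x, hx, e⟩ := (mul_mem_cancel_right hq).1 this
    exact Subtype.ext e ▸ hx
  obtain ⟨a, ha⟩ := perm5 ((QuotientGroup.lift E κ fun x hx => ker.ge hx).comp e.symm.toMonoidHom)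
    (((injective_iff_map_eq_one (QuotientGroup.lift E κ fun x hx => ker.ge hx)).2 fun x hx => by
      obtain ⟨x, rfl⟩ := QuotientGroup.mk_surjective x
      exact (QuotientGroup.eq_one_iff _).2 (ker.le hx)).comp e.symm.injective)
  have r' := rw'.comp (Fin.succAbove_right_injective (p := a))
  obtain ⟨k3, k4⟩ := frame_aux h hc (v := w ∘ a.succAbove) (fun j => wQ _) r'
  refine ⟨_, r', h.z_ne, fun π => ?_, k3, fun g hg => ?_⟩
  · obtain ⟨σ, s1, s2⟩ := perm5c a π
    obtain ⟨x, hx⟩ := ha.ge s1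
    obtain ⟨g, hg⟩ := QuotientGroup.mk_surjective (e.symm x)
    have e3 : κ g = σ := by
      rw [← hx]
      show _ = QuotientGroup.lift E κ (fun x hx => ker.ge hx) (e.symm x)
      rw [← hg]; rfl
    obtain ⟨q, -, h1⟩ := k4 g (fun j => w (a.succAbove (π j))) (cz g) fun j => by
      rw [← s2, ← e3]; exact hf g _
    exact ⟨_, h1⟩
  · let g' : centralizer ({z} : Set G) :=
      ⟨g, mem_centralizer_singleton_iff.2 (mul_inv_eq_iff_eq_mul.1 hg)⟩
    obtain ⟨π, hπ⟩ := perm5b a (κ g') (ha.le ⟨e g', by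
      show QuotientGroup.lift E κ (fun x hx => ker.ge hx) (e.symm (e g')) = _
      rw [e.symm_apply_apply]; rfl⟩)
    exact ⟨π, fun j => by
      show _ = w (a.succAbove (π j)) ∨ _ = w (a.succAbove (π j)) * z
      rw [← hπ]; exact hf g' _⟩

end H9.A34
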