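import Cfsg.Agent.H9.Ab8A
import Cfsg.Agent.H1.Coprime2
import Cfsg.Agent.H2.MinNormal
import Cfsg.Agent.H3.FrattiniP
import Cfsg.Agent.S0095

/-! Solvable groups minimal with a non-cyclic abelian subgroup of order eight. -/

set_option autoImplicit false

namespace H9.Ab8

open Cfsg Subgroup H98
open scoped commutatorElement

variable {S : Type*} [Group S] [Finite S] {H P Q A : Subgroup S}

theorem relIndex_le_two [Q.Normal] (hQ : IsPGroup 2 Q) (hc : centralizer (Q : Set S) ≤ Q)
    (hA : IsPGroup 2 A) (h : V4 Q ∨ Q8 Q) : Q.relIndex A ≤ 2 := by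
  have hB := hA.to_sup_of_normal_right hQ
  refine (relIndex_le_of_le_right (le_sup_left : A ≤ A ⊔ Q) index_ne_zero_of_finite).trans ?_
  have d := H48.relIndex_centralizer_dvd_card_mulAut (R := Q) (A := A ⊔ Q) le_normalizer_of_normal
  have e := relIndex_mul_relIndex _ _ _ hc (le_sup_right : Q ≤ A ⊔ Q)
  obtain ⟨k, hk⟩ : ∃ k, Q.relIndex (A ⊔ Q) = 2 ^ k := hB.index _
  rw [← e, hk] at d
  rw [hk]
  have d2 : 2 ^ k ∣ 6 := by
    rcases h with h | h
    · rw [H3.card_mulAut_of_elementary (p := 2) (r := 2)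
        (fun a b => Subtype.ext (comm_of_sq h.2 b.2 a a.2))
        (fun a => Subtype.ext ((pow_two (a : S)).trans (h.2 a a.2))) h.1] at d
      exact (dvd_mul_left _ _).trans d
    · have c := card_le_two (W := centralizer (Q : Set S)) fun a ha b hb =>
        h.uniq a (hc ha) b (hc hb) (h.cen a (hc ha) ha) (h.cen b (hc hb) hb)
      have e1 := ((centralizer (Q : Set S)).subgroupOf Q).card_mul_index
      rw [Nat.card_congr (subgroupOfEquivOfLe hc).toEquiv, h.card] at e1
      have d4 : 4 ∣ (centralizer (Q : Set S)).relIndex Q := by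
        unfold relIndex
        have := Nat.card_pos (α := centralizer (Q : Set S))
        generalize Nat.card (centralizer (Q : Set S)) = n at *
        interval_cases n <;> omega
      exact Nat.dvd_of_mul_dvd_mul_left (by norm_num : 0 < 4)
        ((mul_dvd_mul_right d4 _).trans (d.trans h.aut))
  rcases k with _ | _ | k
  · norm_num
  · norm_num
  · exact absurd (Dvd.dvd.trans ⟨2 ^ k, by ring⟩ d2 : 4 ∣ 6) (by norm_num)

theorem not_small [hn : Q.Normal] (hQ : IsPGroup 2 Q) (hc : centralizer (Q : Set S) ≤ Q)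
    (h : V4 Q ∨ Q8 Q) : ¬ Bad (⊤ : Subgroup S) := by
  rintro ⟨A, -, ab, nc, c8⟩
  have hA : IsPGroup 2 A := .of_card (n := 3) c8
  have cm : ∀ {a b : S}, a ∈ A → b ∈ A → a * b = b * a := fun ha hb =>
    mul_comm_of_mem_isMulCommutative A ha hb
  have h2 := relIndex_le_two hQ hc hA h
  have e := (Q.subgroupOf A).card_mul_index
  rw [← inf_subgroupOf_right, Nat.card_congr (subgroupOfEquivOfLe inf_le_right).toEquiv,
    inf_subgroupOf_right, c8] at e
  have c4 : 4 ≤ Nat.card (Q ⊓ A : Subgroup S) := by unfold relIndex at h2; nlinarith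
  rcases h with h | h
  · have l : Q ≤ A := inf_eq_left.1 (eq_of_le_of_card_ge inf_le_left (h.1 ▸ c4))
    have := card_le_of_le (show A ≤ Q from fun a ha => hc fun b hb => cm (l hb) ha)
    have := h.1
    omega
  obtain ⟨d, dA, dQ, d2⟩ : ∃ d ∈ A, d ∉ Q ∧ d * d = 1 := by
    obtain ⟨x, y, hx, hy, hxy⟩ := H3.exists_pair_of_comm_pgroup hA nc
    have s : ∀ {x : A}, orderOf x = 2 → (x : S) * x = 1 ∧ (x : S) ≠ 1 := fun {x} hx =>
      ⟨congrArg Subtype.val ((pow_two x).symm.trans (hx ▸ pow_orderOf_eq_one x)), fun e => by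
        rw [show x = 1 from Subtype.ext e, orderOf_one] at hx; omega⟩
    by_contra hn
    push Not at hn
    rcases h.uniq x (by_contra fun e => hn x x.2 e (s hx).1) y
      (by_contra fun e => hn y y.2 e (s hy).1) (s hx).1 (s hy).1 with e | e | e
    exacts [(s hx).2 e, (s hy).2 e, hxy (Subtype.ext e ▸ mem_zpowers x)]
  obtain ⟨i, hi, i2⟩ : ∃ i ∈ Q ⊓ A, i * i ≠ 1 := by
    by_contra hn
    push Not at hn
    have := card_le_two (W := Q ⊓ A) fun a ha b hb => h.uniq a ha.1 b hb.1 (hn a ha) (hn b hb)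
    omega
  replace hi := mem_inf.1 hi
  obtain ⟨j, hj, ij⟩ := h.nc' i hi.1 i2
  have di := cm dA hi.2
  have fin : ∀ u : S, u * i = i * u → u * j * u⁻¹ = j → u ∈ Q := fun u h1 h2 =>
    hc fun w hw => mem_centralizer_singleton_iff.1 (h.le hi.1 hj ij (K := centralizer {u})
      (mem_centralizer_singleton_iff.2 h1.symm)
      (mem_centralizer_singleton_iff.2 (mul_inv_eq_iff_eq_mul.1 h2).symm) hw)
  have nc : ∀ u : S, u * i = i * u → d * j * d⁻¹ ≠ u := fun u hu e => ij (by
    calc i * j = d⁻¹ * (d * i) * d⁻¹ * (d * j * d⁻¹) * d := by group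
      _ = d⁻¹ * (i * u) * d := by rw [di, e]; group
      _ = d⁻¹ * (d * j * d⁻¹) * (i * d) := by rw [← hu, e]; group
      _ = j * i := by rw [← di]; group)
  have tw : ∀ u : S, d * u = u * d → d * j * d⁻¹ = u * j → u * u = 1 := fun u hu e => by
    have : d * d * j * (d * d)⁻¹ = u * u * j := by
      calc d * d * j * (d * d)⁻¹ = d * (d * j * d⁻¹) * d⁻¹ := by group
        _ = d * (u * j) * d⁻¹ := by rw [e]
        _ = d * u * d⁻¹ * (d * j * d⁻¹) := by group
        _ = _ := by rw [hu, e]; group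
    rw [d2] at this
    exact mul_right_cancel (b := j) (by rw [← this]; group)
  rcases h.gen i hi.1 j hj ij _ (hn.conj_mem j hj d) with e | e | e | e | e | e | e | e
  · exact nc _ (by group) e
  · exact nc _ rfl e
  · exact nc _ (by group) e
  · exact nc _ (by group) e
  · exact dQ (fin d di e)
  · exact i2 (tw i di e)
  · refine dQ ((mul_mem_cancel_left (inv_mem hi.1)).1 (fin (i⁻¹ * d) ?_ ?_))
    · rw [mul_assoc, di]; group
    · calc i⁻¹ * d * j * (i⁻¹ * d)⁻¹ = i⁻¹ * (d * j * d⁻¹) * i := by group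
        _ = j := by rw [e]; group
  · have := tw i⁻¹ (show Commute d i from di).inv_right e
    rw [← mul_inv_rev, inv_eq_one] at this
    exact i2 this

/-- The setting of the second step. -/
structure St (H P : Subgroup S) : Prop where
  odd : Odd (Nat.card H)
  pg : IsPGroup 2 P
  top : P ⊔ H = ⊤
  bad : Bad P
  min : ∀ Y ≤ P, H ≤ normalizer (Y : Set S) → Bad Y → Y = P
  na : ¬ P ≤ centralizer (P : Set S)

namespace St

variable (s : St H P) [hP : P.Normal]
include s

omit hP in
theorem normal {N : Subgroup S} (h1 : P ≤ normalizer (N : Set S))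
    (h2 : H ≤ normalizer (N : Set S)) : N.Normal :=
  normal_of_top_le_normalizer (s.top.ge.trans (sup_le h1 h2))

omit hP in
theorem cent {K : Subgroup S} (hK : K ≤ P) (hn : H ≤ normalizer (K : Set S))
    (h : H ≤ centralizer ((⁅K, H⁆ : Subgroup S) : Set S)) : H ≤ centralizer (K : Set S) := by
  obtain ⟨k, hk⟩ := (s.pg.to_le hK).exists_card_eq
  have e := H1.commutator_commutator_eq hn
    (hk ▸ Nat.Coprime.pow_right k (Nat.coprime_two_right.2 s.odd))
    (Or.inr (H1.isSolvable_of_isPGroup (s.pg.to_le hK)))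
  rw [← H1.commutator_eq_bot_iff_le_centralizer'] at h ⊢
  exact e.symm.trans h

omit hP in
theorem nc : ¬ H ≤ centralizer (P : Set S) := fun h => by
  obtain ⟨A, h1, h2, h3⟩ := s.bad
  have e := s.min A h1 (le_normalizer_of_le_centralizer (h.trans (centralizer_anti h1)))
    ⟨A, le_rfl, h2, h3⟩
  exact s.na (e ▸ le_centralizer_iff_isMulCommutative.2 h2)

theorem vq {N : Subgroup S} [N.Normal] (l : N < P) (hc : ¬ H ≤ centralizer (N : Set S)) :
    (V4 N ∧ N ≤ centralizer (P : Set S)) ∨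
      (Q8 N ∧ ∀ x ∈ P, ∃ n ∈ N, ∃ c ∈ P ⊓ centralizer (N : Set S), x = n * c) := by
  have hN := s.pg.to_le l.le
  have nb : ¬ Bad N := fun b => l.ne (s.min N l.le le_normalizer_of_normal b)
  have lt := commutator_lt_of_isPGroup hN s.pg le_normalizer_of_normal
    fun e => hc (by rw [e, centralizer_bot']; exact le_top)
  have c := (proper s.odd hN nb le_normalizer_of_normal hc lt le_normalizer_of_normal).2
  refine (small s.odd hN nb le_normalizer_of_normal hc).imp (fun h => ⟨h, ?_⟩) fun h => ⟨h, ?_⟩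
  · rw [h.1] at c
    exact le_centralizer_iff.1 (H1.commutator_eq_bot_iff_le_centralizer'.1
      (card_le_one_iff_eq_bot _ |>.1 (by omega)))
  · intro x hx
    obtain ⟨i, hi, j, hj, ij⟩ := h.nc
    have sq : ∀ w ∈ ⁅N, P⁆, w * w = 1 := fun w hw => by
      have h1 := _root_.orderOf_le_card (x := (⟨w, hw⟩ : ↥⁅N, P⁆))
      have h2 := orderOf_pos (⟨w, hw⟩ : ↥⁅N, P⁆)
      have := h.card
      have h3 : orderOf (⟨w, hw⟩ : ↥⁅N, P⁆) ∣ 2 := by
        generalize orderOf (⟨w, hw⟩ : ↥⁅N, P⁆) = n at *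
        have : n ≤ 2 := by omega
        interval_cases n <;> norm_num
      exact congrArg Subtype.val ((pow_two _).symm.trans (orderOf_dvd_iff_pow_eq_one.1 h3))
    have m : ∀ a ∈ N, ⁅x, a⁆ ∈ ⁅N, P⁆ := fun a ha =>
      commutator_comm N P ▸ commutator_mem_commutator hx ha
    obtain ⟨n, hn, h1, h2⟩ := h.inn i hi j hj ij _ (lt.le (m i hi)) _ (lt.le (m j hj))
      (sq _ (m i hi)) (sq _ (m j hj))
    have f : ∀ a : S, n * a * n⁻¹ = ⁅x, a⁆ * a → a ∈ centralizer {n⁻¹ * x} := fun a e =>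
      mem_centralizer_singleton_iff.2 (by
        calc a * (n⁻¹ * x) = n⁻¹ * (n * a * n⁻¹) * x := by group
          _ = _ := by rw [e, commutatorElement_def]; group)
    exact ⟨n, hn, n⁻¹ * x, ⟨P.mul_mem (P.inv_mem (l.le hn)) hx, fun w hw =>
      mem_centralizer_singleton_iff.1 (h.le hi hj ij (f i h1) (f j h2) hw)⟩, by group⟩

theorem comm_normal : (⁅P, H⁆ : Subgroup S).Normal :=
  s.normal (normalizer_commutator_ge_left P H) (normalizer_commutator_ge_right P H)

theorem caseA (hY : ⁅P, H⁆ ≠ P) : ∃ Y ≤ P, Y.relIndex P = 2 ∧ Nonempty (Y ≃* QuaternionGroup 2) ∧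
    Y ⊔ P ⊓ centralizer (Y : Set S) = P := by
  have := s.comm_normal
  have l : ⁅P, H⁆ < P := lt_of_le_of_ne (commutator_le_left _ _) hY
  have hc : ¬ H ≤ centralizer ((⁅P, H⁆ : Subgroup S) : Set S) := fun h =>
    s.nc (s.cent le_rfl le_normalizer_of_normal h)
  have nb : ¬ Bad ⁅P, H⁆ := fun b => hY (s.min _ l.le le_normalizer_of_normal b)
  have mono : ∀ K ≤ P, ⁅K, H⁆ ≤ ⁅P, H⁆ := fun K hK => commutator_mono hK le_rfl
  obtain ⟨k, hk⟩ := s.pg.exists_card_eq
  have e := H1.commutator_sup_centralizer (A := H) (K := P) le_normalizer_of_normal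
    (hk ▸ Nat.Coprime.pow_right k (Nat.coprime_two_right.2 s.odd))
    (Or.inr (H1.isSolvable_of_isPGroup s.pg))
  generalize ⁅P, H⁆ = Y at *
  have ov : ∀ d ∈ P, d ∈ centralizer (H : Set S) → Bad (Y ⊔ zpowers d) → Y ⊔ zpowers d = P :=
    fun d h1 h2 => s.min _ (sup_le l.le (zpowers_le.2 h1)) (le_normalizer_sup le_normalizer_of_normal
      (le_normalizer_of_le_centralizer (le_centralizer_iff.1 (zpowers_le.2 h2))))
  have zp : ∀ d : S, zpowers d ≤ centralizer (zpowers d) := fun d =>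
    le_centralizer_iff_isMulCommutative.2 inferInstance
  rcases s.vq l hc with ⟨h1, h2⟩ | ⟨h1, h2⟩
  · obtain ⟨d, hd, dY⟩ := SetLike.not_le_iff_exists.1
      fun h : P ⊓ centralizer (H : Set S) ≤ Y => hY (e.symm.trans (sup_eq_left.2 h)).symm
    have l1 := sup_le l.le (zpowers_le.2 hd.1)
    have ab : Y ⊔ zpowers d ≤ centralizer (Y ⊔ zpowers d : Subgroup S) :=
      sup_le (h2.trans (centralizer_anti l1)) (centralizer_sup Y _ ▸
        le_inf ((zpowers_le.2 hd.1).trans (le_centralizer_iff.1 h2)) (zp d))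
    refine absurd (ov d hd.1 hd.2 (bad_of (s.pg.to_le l1) ab (fun h => ?_) ?_) ▸ ab) s.na
    · exact not_cyc h1.2 (by rw [h1.1]; norm_num) (isCyclic_of_le (le_sup_left : Y ≤ Y ⊔ zpowers d))
    · exact h1.1 ▸ card_lt (lt_of_le_of_ne le_sup_left fun e =>
        dY (e.ge (mem_sup_right (mem_zpowers d))))
  have e2 : Y ⊔ P ⊓ centralizer (Y : Set S) = P := le_antisymm (sup_le l.le inf_le_left)
    fun x hx => let ⟨_, h3, _, h4, h5⟩ := h2 x hx; h5 ▸ mul_mem_sup h3 h4
  obtain ⟨i, hi, j, hj, ij⟩ := h1.nc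
  have hC : H ≤ centralizer ((P ⊓ centralizer (Y : Set S) : Subgroup S) : Set S) :=
    s.cent inf_le_left le_normalizer_of_normal ((proper s.odd (s.pg.to_le l.le) nb
      le_normalizer_of_normal hc (W := Y ⊓ centralizer (Y : Set S))
      (lt_of_le_of_ne inf_le_left fun e => ij ((e.ge hj).2 i hi)) le_normalizer_of_normal).1.trans
      (centralizer_anti (le_inf (mono _ inf_le_left) ((commutator_le_left _ _).trans inf_le_right))))
  obtain ⟨d, hd, dY, d2⟩ : ∃ d ∈ P ⊓ centralizer (Y : Set S), d ∉ Y ∧ d ^ 2 ∈ Y := by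
    classical
    obtain ⟨c, hc, cY⟩ := SetLike.not_le_iff_exists.1
      fun h : P ⊓ centralizer (Y : Set S) ≤ Y => hY (e2.symm.trans (sup_eq_left.2 h)).symm
    obtain ⟨k, hk⟩ := isPGroup_iff_forall.1 s.pg c hc.1
    have ex : ∃ k, c ^ 2 ^ k ∈ Y := ⟨k, hk ▸ one_mem _⟩
    obtain ⟨n, hn⟩ := Nat.exists_eq_succ_of_ne_zero
      ((Nat.find_eq_zero ex).not.2 (by simpa using cY))
    exact ⟨c ^ 2 ^ n, pow_mem hc _, Nat.find_min ex (by omega), by
      have := Nat.find_spec ex
      rwa [hn, pow_succ, pow_mul] at this⟩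
  have i2 := h1.ne i hi j hj ij
  have di : i * d = d * i := hd.2 i hi
  obtain ⟨u, uB, uY, u2, ui⟩ : ∃ u ∈ Y ⊔ zpowers d, u ∉ Y ∧ u * u = 1 ∧ i * u = u * i := by
    rw [pow_two] at d2
    rcases h1.uniq _ d2 _ (mul_mem hi hi) (h1.cen _ d2 (mul_mem hd.2 hd.2)) (h1.four i hi) with
      e | e | e
    · exact ⟨d, mem_sup_right (mem_zpowers d), dY, e, di⟩
    · exact absurd e i2
    · refine ⟨i * d, mul_mem_sup hi (mem_zpowers d), fun h => dY ((mul_mem_cancel_left hi).1 h), ?_,
        by rw [mul_assoc, ← di]⟩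
      rw [(show Commute d i from di.symm).mul_mul_mul_comm, e, h1.four i hi]
  have o4 : orderOf i = 2 ^ 2 := orderOf_eq_prime_pow (by rwa [pow_one, pow_two])
    (by rw [← h1.four i hi]; simp [pow_succ, mul_assoc])
  have l1 : zpowers i ⊔ zpowers u ≤ Y ⊔ zpowers d :=
    sup_le (zpowers_le.2 (mem_sup_left hi)) (zpowers_le.2 uB)
  have l2 := sup_le l.le (zpowers_le.2 hd.1)
  have c1 : zpowers i ≤ centralizer (zpowers u) := zpowers_le.2 fun w hw => by
    obtain ⟨k, rfl⟩ := mem_zpowers_iff.1 hw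
    exact ((show Commute i u from ui).zpow_right k).symm
  have e3 := ov d hd.1 (le_centralizer_iff.1 hC hd) ((bad_of (s.pg.to_le (l1.trans l2))
    ((le_inf (sup_le (zp i) (le_centralizer_iff.1 c1)) (sup_le c1 (zp u))).trans
      (centralizer_sup _ _).ge)
    (H3.not_isCyclic_of_pair (p := 2) (x := i * i) (mem_sup_left (mul_mem (mem_zpowers i)
      (mem_zpowers i))) (mem_sup_right (mem_zpowers u))
      (orderOf_eq_prime ((pow_two _).trans (h1.four i hi)) i2) ((pow_two u).trans u2)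
      fun h => uY (zpowers_le.2 (mul_mem hi hi) h))
    (lt_of_eq_of_lt (by rw [Nat.card_zpowers, o4]; rfl) (card_lt (lt_of_le_of_ne le_sup_left
      fun e => uY (zpowers_le.2 hi (e.ge (mem_sup_right (mem_zpowers u)))))))).mono l1)
  exact ⟨Y, l.le, e3 ▸ H3.relIndex_sup_zpowers_eq_prime dY d2, h1.iso, e2⟩

theorem sq_cent (hY : ⁅P, H⁆ = P) : ∀ x ∈ P, x * x ∈ centralizer (P : Set S) := by
  by_cases h : ∃ N : Subgroup S, N.Normal ∧ N < P ∧ ¬ N ≤ centralizer (P : Set S)
  · obtain ⟨N, _, l, hc⟩ := h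
    obtain ⟨h1, h2⟩ := (s.vq l fun h => hc (le_centralizer_iff.1 (hY.ge.trans
      ((commutator_mono le_rfl h).trans (commutator_le_right _ _))))).resolve_left fun h => hc h.2
    have l2 : P ⊓ centralizer (N : Set S) < P := lt_of_le_of_ne inf_le_left fun e =>
      hc (le_centralizer_iff.1 (inf_eq_left.1 e))
    have h3 := s.vq l2 fun h => l.not_ge (hY.ge.trans ((H1.commutator_le_of_mul_centralizer
      fun x hx => let ⟨n, h3, c, h4, h5⟩ := h2 x hx
        ⟨n, h3, c, le_centralizer_iff.1 h h4, h5⟩).trans (commutator_le_left _ _)))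
    have f : ∀ u : S, u ∈ centralizer (N : Set S) →
        u ∈ centralizer ((P ⊓ centralizer (N : Set S) : Subgroup S) : Set S) →
        u ∈ centralizer (P : Set S) := fun u h4 h5 x hx => by
      obtain ⟨n, hn, c, hc, rfl⟩ := h2 x hx
      exact Commute.mul_left (h4 n hn) (h5 c hc)
    intro x hx
    obtain ⟨n, hn, c, hc, rfl⟩ := h2 x hx
    rw [(show Commute c n from (hc.2 n hn).symm).mul_mul_mul_comm]
    refine mul_mem (f _ (fun a ha => (h1.sq n hn a ha).symm) fun a ha =>
      (ha.2 _ (mul_mem hn hn)).symm) (f _ (mul_mem hc.2 hc.2) fun a ha => ?_)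
    rcases h3 with h3 | h3
    · rw [h3.1.2 c hc, mul_one, one_mul]
    · exact (h3.1.sq c hc a ha).symm
  · push Not at h
    intro x hx
    refine h ((frattini P).map P.subtype) inferInstance (lt_of_le_of_ne (map_subtype_le _)
      fun e => s.na ?_) ⟨_, H3.pow_mem_frattini_pgroup s.pg ⟨x, hx⟩, pow_two x⟩
    have e1 : frattini P = ⊤ := map_injective P.subtype_injective (e.trans (map_subtype_top P).symm)
    have e2 : (⊥ : Subgroup P) = ⊤ := frattini_nongenerating (by rw [e1, sup_top_eq])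
    intro a ha b _
    rw [show a = 1 from congrArg Subtype.val (mem_bot.1 (e2.ge (mem_top ⟨a, ha⟩))), mul_one, one_mul]

theorem caseB (hY : ⁅P, H⁆ = P) : (IsExtraspecial 2 P ∧ 32 ≤ Nat.card P) ∨
    (IsSpecial 2 P ∧ Nat.card (center P) = 4) := by
  have sq := s.sq_cent hY
  have cz : ∀ a ∈ P, ∀ b ∈ P, ⁅a, b⁆ ∈ centralizer (P : Set S) := fun a ha b hb => by
    have := mul_mem (mul_mem (sq a ha) (sq _ (mul_mem (inv_mem ha) hb))) (inv_mem (sq b hb))
    convert this using 1
    rw [commutatorElement_def]; group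
  have l1 : ⁅P, P⁆ ≤ P ⊓ centralizer (P : Set S) :=
    le_inf (commutator_le_left _ _) (commutator_le.2 cz)
  have lZ : P ⊓ centralizer (P : Set S) < P := lt_of_le_of_ne inf_le_left fun e =>
    s.na (inf_eq_left.1 e)
  have pZ := s.pg.to_le lZ.le
  have nb : ¬ Bad (P ⊓ centralizer (P : Set S)) := fun b =>
    lZ.ne (s.min _ lZ.le le_normalizer_of_normal b)
  have ab : P ⊓ centralizer (P : Set S) ≤ centralizer (P ⊓ centralizer (P : Set S) : Subgroup S) :=
    inf_le_right.trans (centralizer_anti inf_le_left)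
  have ne : ⁅P, P⁆ ≠ ⊥ := fun e => s.na (H1.commutator_eq_bot_iff_le_centralizer'.1 e)
  have e : ⁅P, P⁆ = P ⊓ centralizer (P : Set S) := by
    by_cases hc : H ≤ centralizer ((P ⊓ centralizer (P : Set S) : Subgroup S) : Set S)
    · refine le_antisymm l1 fun z hz => ?_
      let π := QuotientGroup.mk' ⁅P, P⁆
      have : IsMulCommutative (P.map π) := le_centralizer_iff_isMulCommutative.1
        (H1.commutator_eq_bot_iff_le_centralizer'.1 (by
          rw [← map_commutator, QuotientGroup.map_mk'_self]))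
      obtain ⟨k, hk⟩ := (s.pg.map π).exists_card_eq
      have h := H1.centralizer_inf_commutator_eq_bot (A := H.map π) (V := P.map π)
        (map_le_normalizer_map π le_normalizer_of_normal) (hk ▸ Nat.Coprime.pow_right k
          (Nat.coprime_two_right.2 (s.odd.of_dvd_nat (card_map_dvd H π))))
      rw [← map_commutator, hY] at h
      exact (QuotientGroup.eq_one_iff z).1 (mem_bot.1 (h.le ⟨⟨mem_map_of_mem π hz.1,
        map_le_centralizer_map π (le_centralizer_iff.1 hc) (mem_map_of_mem π hz)⟩,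
        mem_map_of_mem π hz.1⟩))
    · by_contra hn
      have c := (proper s.odd pZ nb le_normalizer_of_normal hc (lt_of_le_of_ne l1 hn)
        le_normalizer_of_normal).2
      rcases small s.odd pZ nb le_normalizer_of_normal hc with h | h
      · rw [h.1] at c
        exact ne (card_le_one_iff_eq_bot _ |>.1 (by omega))
      · obtain ⟨i, hi, j, hj, ij⟩ := h.nc
        exact ij (ab hj i hi)
  have ex : ∀ z ∈ P ⊓ centralizer (P : Set S), z * z = 1 := by
    let K : Subgroup S :=
      { carrier := {z | z ∈ P ⊓ centralizer (P : Set S) ∧ z * z = 1}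
        one_mem' := ⟨one_mem _, mul_one 1⟩
        mul_mem' := fun {a b} ha hb => ⟨mul_mem ha.1 hb.1, by
          rw [(show Commute b a from ab ha.1 b hb.1).mul_mul_mul_comm, ha.2, hb.2, mul_one]⟩
        inv_mem' := fun {a} ha => ⟨inv_mem ha.1, by rw [← mul_inv_rev, ha.2, inv_one]⟩ }
    refine fun z hz => ((commutator_le (H₃ := K)).2 (fun a ha b hb =>
      ⟨l1 (commutator_mem_commutator ha hb), ?_⟩) (e.ge hz)).2
    have h1 := cz a ha b hb a ha
    have h2 := sq a ha b hb
    have h3 : a * b * a⁻¹ = ⁅a, b⁆ * b := by rw [commutatorElement_def]; group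
    generalize ⁅a, b⁆ = c at *
    refine mul_right_cancel (b := b) ?_
    calc c * c * b = c * a * b * a⁻¹ := by rw [mul_assoc, ← h3]; group
      _ = a * (a * b * a⁻¹) * a⁻¹ := by rw [← h1, h3]; group
      _ = a * a * b * a⁻¹ * a⁻¹ := by group
      _ = 1 * b := by rw [← h2]; group
  have m1 := map_subtype_center P
  have e1 : _root_.commutator P = center P :=
    map_injective P.subtype_injective (by rw [map_subtype_commutator, m1, e])
  have sp : IsSpecial 2 P := ⟨s.pg, le_antisymm (H3.frattini_le_of_elementary_quotient (p := 2) _ e1.le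
    fun x => mem_center_iff.2 fun y => Subtype.ext (by
      rw [pow_two]; exact sq x x.2 y y.2)) (e1.ge.trans (H3.commutator_le_frattini_pgroup s.pg)), e1⟩
  have c : Nat.card (center P) = Nat.card (P ⊓ centralizer (P : Set S) : Subgroup S) := by
    rw [← m1, card_map_of_injective P.subtype_injective]
  obtain ⟨k, hk⟩ := pZ.exists_card_eq
  rcases k with _ | _ | _ | k
  · exact absurd (e.trans (card_eq_one.1 hk)) ne
  · refine Or.inl ⟨⟨sp, c.trans hk⟩, ?_⟩
    obtain ⟨n, h1, h2⟩ := Cfsg.Agent.S0095.result ⟨sp, c.trans hk⟩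
    obtain ⟨A, h3, h4, -, h5⟩ := s.bad
    have := card_lt (lt_of_le_of_ne h3 fun e => s.na (e ▸ le_centralizer_iff_isMulCommutative.2 h4))
    rw [h2] at this ⊢
    rcases n with _ | _ | n
    · omega
    · omega
    · exact Nat.pow_le_pow_right two_pos (show 5 ≤ _ by omega)
  · exact Or.inr ⟨sp, c.trans hk⟩
  · have := Nat.two_pow_pos k
    exact absurd (bad_of pZ ab (not_cyc ex (by rw [hk]; omega)) (by rw [hk]; omega)) nb

end St

end H9.Ab8
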