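/- CKS (S2193), chapter A: the support formula (blueprints/CKA.md, A1). -/
import Cfsg.Agent.H9.CKASpec
import Cfsg.Agent.H28.GenChar
import Cfsg.Agent.S0157
import Cfsg.Agent.H32.CKKit
import Cfsg.Agent.H67.Steinberg

set_option autoImplicit false

namespace H9.CK

open Cfsg H67 H28 MulAction H32.CK
open scoped Classical ComplexConjugate

theorem pos_of_norm_one {P : Type*} [Group P] [Fintype P] {St : P → ℂ}
    (h : IsGeneralizedCharacter P St) (h1 : classInner St St = 1) (γ : (P → ℂ) → ℂ)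
    (hl : ∀ (c : ℂ) f, γ (f - c • St) = γ f - c) (h0 : γ 0 = 0)
    (hγ : ∀ θ, IsCharacter P θ → ∃ n : ℕ, γ θ = n) {ψ : P → ℂ} (hψ : IsCharacter P ψ) :
    ∃ n : ℕ, γ ψ - classInner ψ St = n := by
  rcases h.eq_irr_or_neg_of_norm_one h1 with hi | hi
  · obtain ⟨n, hn⟩ := hγ _ (hψ.sub_classInner_smul hi)
    exact ⟨n, by rw [← hn, hl]⟩
  · obtain ⟨n, hn⟩ := hγ _ hi.isCharacter
    have := hl 1 0
    rw [one_smul, zero_sub, hn, h0] at this
    exact absurd (by rw [this]; ring) (Nat.cast_add_one_ne_zero (R := ℂ) n)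

theorem sum_ofix_hom {U Y : Type*} [Group U] [Fintype U] [MulAction U Y] [Finite Y] (a : Y)
    (lam : U →* ℂˣ) {c : Prop} [Decidable c] (hc : (∀ x : U, x • a = a → lam x = 1) ↔ c) :
    ∑ u : U, (ofix ⊤ a u : ℂ) * lam u = Nat.card U * if c then 1 else 0 := by
  have h := sum_ofix_mul (⊤ : Subgroup U) a (fun u => (lam u : ℂ)) fun q _ x _ => by
    rw [map_mul, map_mul, map_inv, mul_inv_cancel_comm]
  have h2 := orbLen_mul_card (⊤ : Subgroup U) a
  rw [Subgroup.card_top] at h2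
  simp only [Subgroup.mem_top, Finset.filter_true, true_and] at h h2
  rw [h]
  split_ifs with hc'
  · rw [← h2, Finset.sum_congr rfl fun x hx => by rw [hc.2 hc' x (Finset.mem_filter.1 hx).2]]
    simp
  · rw [← hc] at hc'
    push Not at hc'
    obtain ⟨x, hx, hx'⟩ := hc'
    have := sum_hom_units_eq_zero ((Units.coeHom ℂ).comp (lam.comp (stabilizer U a).subtype))
      fun e => hx' (Units.ext (by simpa using DFunLike.congr_fun e ⟨x, hx⟩))
    rw [Finset.sum_subtype (p := fun x => x ∈ stabilizer U a) (F := inferInstance) _ (by simp),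
      mul_zero, mul_eq_zero]
    exact Or.inr this

variable {p : ℕ} [Fact p.Prime] {G : Type} [Group G] [Fintype G] (D : SBN p G)
  {J : Finset D.P.S} {lam : D.U →* ℂˣ}

theorem triv_iff (h1 : ∀ x : D.U, x.1 ∈ D.R (J : Set _) → lam x = 1)
    (h2 : ∀ s ∈ J, ∃ x : D.U, x.1 ∈ D.X s ∧ lam x ≠ 1) {n : G} (hn : n ∈ D.N) :
    (∀ x : D.U, n⁻¹ * x * n ∈ D.B → lam x = 1) ↔
      ∀ s ∈ J, ¬ len (sim D.P) (wOf D.P n) < len (sim D.P) (sim D.P s * wOf D.P n) := by
  have E := bn_exch D.P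
  refine ⟨fun h s hs hl => ?_, fun h x hx => h1 x ?_⟩
  · obtain ⟨x, hx, hx'⟩ := h2 s hs
    exact hx' (h x (D.U_le (D.X_conj_of_asc hn hl hx)))
  · refine (D.mem_R_iff (D.nJ_mem _) (D.nJ_longest _)).2 ⟨x.2, D.conj_mem_U_of_len (D.nJ_mem _) hn
      (E.len_add_of_descents (fun j hj => ?_) (D.nJ_longest _).1) x.2 (D.conj_mem_U x.2 hx)⟩
    have := h j hj
    rcases E.len_s_mul_ne j (wOf D.P n) with h | h <;> omega

theorem sum_U (h1 : ∀ x : D.U, x.1 ∈ D.R (J : Set _) → lam x = 1)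
    (h2 : ∀ s ∈ J, ∃ x : D.U, x.1 ∈ D.X s ∧ lam x ≠ 1) {K : Subgroup G} (hK : K = D.B) {n : G}
    (hn : n ∈ D.N) : ∑ u : D.U, (ofix K (QuotientGroup.mk n : G ⧸ K) u.1 : ℂ) * lam u =
      Nat.card D.U * if ∀ s ∈ J, ¬ len (sim D.P) (wOf D.P n) <
        len (sim D.P) (sim D.P s * wOf D.P n) then 1 else 0 := by
  subst hK
  have e : ∀ u : D.U, ofix D.B (QuotientGroup.mk n : G ⧸ D.B) u.1 =
      ofix (⊤ : Subgroup D.U) (QuotientGroup.mk n : G ⧸ D.B) u := fun u => by
    refine Nat.card_congr (Equiv.subtypeEquivRight fun y => and_congr ?_ Iff.rfl)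
    rw [mem_orbit_subgroup_iff, mem_orbit_subgroup_iff]
    refine ⟨?_, fun ⟨q, _, h⟩ => ⟨q, D.U_le q.2, h⟩⟩
    rintro ⟨b, hb, rfl⟩
    obtain ⟨u, hu, h, hh, rfl⟩ := D.split b hb
    refine ⟨⟨u, hu⟩, trivial, ?_⟩
    rw [mul_smul, smul_mk_eq_iff.2 (D.H_conj' hn hh).1]
    rfl
  simp only [e]
  exact sum_ofix_hom _ _ ((forall_congr' fun x => imp_congr_left smul_mk_eq_iff).trans
    (triv_iff D h1 h2 hn))

variable (J lam) in
/-- The defect of the support formula at `f`. -/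
noncomputable def FF (f : G → ℂ) : ℂ :=
  (Nat.card D.U : ℂ)⁻¹ * ∑ u : D.U, f u * lam u - ∑ I ∈ J.powerset, (-1) ^ I.card *
    ((Nat.card (D.PJ (I : Set _)) : ℂ)⁻¹ * ∑ x with x ∈ D.PJ (I : Set _), f x)

omit [Fact p.Prime] in
theorem FF_add (f g : G → ℂ) : FF D J lam (f + g) = FF D J lam f + FF D J lam g := by
  simp only [FF, Pi.add_apply, add_mul, mul_add, Finset.sum_add_distrib]
  ring

theorem FF_nat (h1 : ∀ x : D.U, x.1 ∈ D.R (J : Set _) → lam x = 1)
    (h2 : ∀ s ∈ J, ∃ x : D.U, x.1 ∈ D.X s ∧ lam x ≠ 1) {ψ : G → ℂ} (hψ : IsCharacter G ψ) :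
    ∃ n : ℕ, FF D J lam ψ = n := by
  let P := D.PJ (J : Set _)
  have hU : D.U ≤ P := D.U_le.trans (D.B_le_PJ _)
  have c0 : ∀ K : Subgroup G, (Nat.card K : ℂ) ≠ 0 := fun K => Nat.cast_ne_zero.2 Nat.card_pos.ne'
  let St : P → ℂ := fun x => (stRel D.P J x : ℂ)
  have inn : ∀ f : G → ℂ, classInner (fun x : P => f x) St =
      (Nat.card P : ℂ)⁻¹ * ∑ x with x ∈ P, (stRel D.P J x : ℂ) * f x := fun f => by
    rw [classInner, Finset.sum_subtype (p := fun x => x ∈ P) (F := inferInstance) _ (by simp)]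
    simp only [St, map_intCast, mul_comm]
  have gen : IsGeneralizedCharacter P St := by
    have : St = ∑ K ∈ J.powerset, (((-1) ^ K.card : ℤ) : ℂ) • fun x : P =>
        (Nat.card (fixedBy (P ⧸ stabilizer P
          (QuotientGroup.mk 1 : G ⧸ cellSubgroup D.P (K : Set D.P.S))) x) : ℂ) := by
      ext x
      simp only [St, stRel, Finset.sum_apply, Pi.smul_apply, smul_eq_mul]
      push_cast
      exact Finset.sum_congr rfl fun K _ => by rw [ofix_eq_card_fixedBy _ _ x]; rfl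
    rw [this]
    exact isGeneralizedCharacter_sum _ fun K _ =>
      (isCharacter_perm _).isGeneralizedCharacter.intCast_smul _
  have sq : classInner St St = 1 := by
    rw [inn fun x => (stRel D.P J x : ℂ)]
    have := congrArg (Int.cast : ℤ → ℂ) (sum_stRel_sq (P := D.P) J)
    push_cast at this
    rw [this, inv_mul_cancel₀ (c0 _)]
  have gSt : ∑ u : D.U, St (Subgroup.inclusion hU u) * lam u = Nat.card D.U := by
    have := sum_U D h1 h2 rfl (D.nJ_mem (J : Set _))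
    rw [if_pos fun s (hs : s ∈ J) => ((D.nJ_longest (J : Set _)).2 s hs).not_gt, mul_one] at this
    rw [← this]
    refine Finset.sum_congr rfl fun u _ => ?_
    have := stRel_of_mem_B (P := D.P) J (x := u.1) (D.U_le u.2) (D.nJ_longest (J : Set D.P.S))
    exact congrArg (· * (lam u : ℂ)) ((congrArg (Int.cast : ℤ → ℂ) this).trans (Int.cast_natCast _))
  obtain ⟨n, hn⟩ := pos_of_norm_one gen sq
    (fun θ => (Nat.card D.U : ℂ)⁻¹ * ∑ u : D.U, θ (Subgroup.inclusion hU u) * lam u)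
    (fun c f => by
      simp only [Pi.sub_apply, Pi.smul_apply, smul_eq_mul, sub_mul, Finset.sum_sub_distrib,
        mul_assoc, ← Finset.mul_sum, gSt, mul_sub]
      rw [mul_comm c, inv_mul_cancel_left₀ (c0 _)]) (by simp)
    (fun θ hθ => by
      obtain ⟨n, hn⟩ := (hθ.comp (Subgroup.inclusion hU)).classInner_nat (isCharacter_of_hom lam).conj
      exact ⟨n, by rw [← hn, classInner]; simp only [RCLike.conj_conj]⟩) (hψ.restrict P)
  refine ⟨n, ?_⟩
  rw [← hn, inn, sum_stRel_mul J ψ fun q _ x _ => hψ.isClassFunction x q, FF]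
  congr 1
  rw [Finset.mul_sum]
  refine Finset.sum_congr rfl fun K hK => ?_
  have := congrArg (Nat.cast : ℕ → ℂ) (relIndex_mul_card_of_le (cellSubgroup_mono (P := D.P)
    (Finset.coe_subset.2 (Finset.mem_powerset.1 hK))))
  push_cast at this
  have a := c0 (cellSubgroup D.P (K : Set D.P.S))
  have b := c0 (cellSubgroup D.P (J : Set D.P.S))
  simp only [P, SBN.PJ]
  rw [← this] at b ⊢
  have := left_ne_zero_of_mul b
  field_simp

theorem FF_beta (h1 : ∀ x : D.U, x.1 ∈ D.R (J : Set _) → lam x = 1)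
    (h2 : ∀ s ∈ J, ∃ x : D.U, x.1 ∈ D.X s ∧ lam x ≠ 1) :
    FF D J lam (fun x => Nat.card (fixedBy (G ⧸ cellSubgroup D.P ∅) x)) = 0 := by
  have E := bn_exch D.P
  have := Fintype.ofFinite (Weyl D.P)
  have c0 : ∀ K : Subgroup G, (Nat.card K : ℂ) ≠ 0 := fun K => Nat.cast_ne_zero.2 Nat.card_pos.ne'
  have mk : ∀ (I : Set D.P.S) (x : G), Nat.card (fixedBy (G ⧸ cellSubgroup D.P ∅) x) =
      ∑ d with (∀ j ∈ I, len (sim D.P) d < len (sim D.P) (sim D.P j * d)), ofix (cellSubgroup D.P I)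
        (QuotientGroup.mk (wrep d) : G ⧸ cellSubgroup D.P ∅) x := fun I x => by
    rw [← ofix_top (QuotientGroup.mk 1), ← cellSubgroup_univ (P := D.P),
      ofix_mackey (Set.subset_univ I) (Set.subset_univ ∅)]
    refine Finset.sum_congr (Finset.filter_congr fun d _ => ?_) fun _ _ => rfl
    simp [E.isMinD_iff, mem_WJ_univ]
  have a : ∑ u : D.U, (Nat.card (fixedBy (G ⧸ cellSubgroup D.P ∅) u.1) : ℂ) * lam u =
      Nat.card D.U * ∑ d : Weyl D.P, if ∀ s ∈ J, ¬ len (sim D.P) d <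
        len (sim D.P) (sim D.P s * d) then (1 : ℂ) else 0 := by
    simp only [mk ∅, Set.mem_empty_iff_false, false_imp_iff, implies_true, Finset.filter_true,
      Nat.cast_sum, Finset.sum_mul]
    rw [Finset.sum_comm, Finset.mul_sum]
    refine Finset.sum_congr rfl fun d _ => ?_
    rw [sum_U D h1 h2 cellSubgroup_empty (wrep_mem d), wOf_wrep]
  have b : ∀ I : Finset D.P.S, (Nat.card (D.PJ (I : Set _)) : ℂ)⁻¹ * ∑ x with x ∈ D.PJ (I : Set _),
      (Nat.card (fixedBy (G ⧸ cellSubgroup D.P ∅) x) : ℂ) = ∑ d : Weyl D.P,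
        if ∀ j ∈ I, len (sim D.P) d < len (sim D.P) (sim D.P j * d) then (1 : ℂ) else 0 := fun I => by
    simp only [mk I]
    rw [← Nat.cast_sum, Finset.sum_comm]
    simp only [sum_ofix]
    rw [Finset.sum_const, smul_eq_mul, Nat.cast_mul, mul_comm, mul_inv_cancel_right₀ (c0 _)]
    simp
  rw [FF, a, inv_mul_cancel_left₀ (c0 _), sub_eq_zero]
  simp only [b, Finset.mul_sum]
  rw [Finset.sum_comm]
  refine Finset.sum_congr rfl fun d _ => ?_
  have h := congrArg (Int.cast : ℤ → ℂ) (Finset.sum_powerset_neg_one_pow_card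
    (x := J.filter fun j => len (sim D.P) d < len (sim D.P) (sim D.P j * d)))
  push_cast at h
  rw [if_congr Finset.filter_eq_empty_iff rfl rfl] at h
  refine (if_congr Iff.rfl rfl rfl).trans (h.symm.trans ?_)
  simp only [mul_ite, mul_one, mul_zero]
  rw [← Finset.sum_filter]
  refine Finset.sum_congr ?_ fun _ _ => rfl
  ext K
  simp only [Finset.mem_powerset, Finset.mem_filter, Finset.subset_iff]
  exact ⟨fun h => ⟨fun _ hx => (h hx).1, fun _ hx => (h hx).2⟩, fun h x hx => ⟨h.1 hx, h.2 x hx⟩⟩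

theorem sum_fix {Ω : Type} [MulAction G Ω] [Finite Ω] (K : Subgroup G) :
    ∑ x with x ∈ K, (Nat.card (fixedBy Ω x) : ℂ) =
      Nat.card (orbitRel.Quotient K Ω) * Nat.card K := by
  have := Fintype.ofFinite Ω
  have h := sum_card_fixedBy_eq_card_orbits_mul_card_group K Ω
  simp only [← Nat.card_eq_fintype_card] at h
  rw [Finset.sum_subtype (p := fun x => x ∈ K) (F := inferInstance) _ (by simp), ← Nat.cast_mul, ← h, Nat.cast_sum]
  rfl

theorem jobA1 : JobA1 := by
  intro p _ G Ω _ _ _ _ D hA ⟨a, b, hab⟩ J lam h1 h2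
  have := Fintype.ofFinite G
  have := hA.pre
  have c0 : ∀ K : Subgroup G, (Nat.card K : ℂ) ≠ 0 := fun K => Nat.cast_ne_zero.2 Nat.card_pos.ne'
  let K := cellSubgroup D.P ∅
  have hK : K = D.B := cellSubgroup_empty
  let β : G → ℂ := fun x => Nat.card (fixedBy (G ⧸ K) x)
  have hβ : IsCharacter G β := isCharacter_perm _
  have key : ∀ χ, IsIrrCharacter G χ → ∑ x with x ∈ K, χ x ≠ 0 → FF D J lam χ = 0 := by
    intro χ hχ hs
    have hc : classInner β χ ≠ 0 := by
      rw [hβ.classInner_comm hχ.isCharacter, classInner]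
      have h := sum_ofix_mul (⊤ : Subgroup G) (QuotientGroup.mk 1 : G ⧸ K) χ
        fun q _ x _ => hχ.isCharacter.isClassFunction x q
      have h3 := orbLen_mul_card (⊤ : Subgroup G) (QuotientGroup.mk 1 : G ⧸ K)
      simp only [Subgroup.mem_top, Finset.filter_true, true_and, ofix_top, smul_mk_eq_iff, inv_one,
        one_mul, mul_one] at h
      simp only [β, map_natCast, mul_comm (χ _), h]
      exact mul_ne_zero (inv_ne_zero (Nat.cast_ne_zero.2 Nat.card_pos.ne')) (mul_ne_zero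
        (Nat.cast_ne_zero.2 (left_ne_zero_of_mul (h3 ▸ Nat.card_pos.ne'))) hs)
    obtain ⟨n, hn⟩ := FF_nat D h1 h2 hχ.isCharacter
    obtain ⟨m, hm⟩ := FF_nat D h1 h2 (hβ.sub_irr hχ hc)
    have e := FF_add D (J := J) (lam := lam) χ (β - χ)
    rw [add_sub_cancel, FF_beta D h1 h2, hn, hm, ← Nat.cast_add, eq_comm, Nat.cast_eq_zero] at e
    rw [hn, Nat.cast_eq_zero]
    omega
  have cK : ∑ x with x ∈ K, (1 : ℂ) = Nat.card K := by
    rw [Finset.sum_subtype (p := fun x => x ∈ K) (F := inferInstance) _ (by simp)]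
    simp
  have e1 := key (fun _ => 1) (isCharacter_one.irr_of_degree_one rfl) (cK ▸ c0 K)
  have e2 := key _ ((Cfsg.Agent.S0157.result Ω hA.two_le).2 hA.two) (by
    rw [Finset.sum_sub_distrib, cK, sum_fix, sub_ne_zero]
    intro e
    have e' : Nat.card (orbitRel.Quotient K Ω) = 1 := by
      exact_mod_cast mul_right_cancel₀ (c0 K) (e.trans (one_mul _).symm)
    have := (Nat.card_eq_one_iff_unique.1 e').1
    obtain ⟨g, hg⟩ : b ∈ orbit K a := orbitRel_apply.1 (Quotient.exact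
      (Subsingleton.elim (α := orbitRel.Quotient K Ω) (Quotient.mk _ b) (Quotient.mk _ a)))
    exact hab g (hK ▸ g.2) hg)
  have e := FF_add D (J := J) (lam := lam) (fun _ => 1)
    fun g => (Nat.card (fixedBy Ω g) : ℂ) - 1
  rw [e1, e2, add_zero, FF, sub_eq_zero] at e
  simp only [Pi.add_apply, add_sub_cancel, sum_fix] at e
  rw [finsum_eq_sum_of_fintype, ← mul_inv_cancel_left₀ (c0 D.U) (∑ _ : D.U, _), e]
  push_cast
  refine congrArg _ (Finset.sum_congr rfl fun I _ => ?_)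
  rw [mul_comm (Nat.card (orbitRel.Quotient _ _) : ℂ), inv_mul_cancel_left₀ (c0 _)]

end H9.CK
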