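/- CKS (S2193): assembly of chapters A and P from the jobs of `H9.CKASpec`. -/
import Cfsg.Agent.H9.CKA1

set_option autoImplicit false

namespace H9.CK

open Cfsg H54 H64 H32.CK MulAction
open scoped MatrixGroups commutatorElement

variable {p : ℕ} [Fact p.Prime] {G Ω : Type} [Group G] [Finite G] [MulAction G Ω] [Finite Ω]

theorem CC.lam {Λ : LieS p G} (h : CC Λ.T) (J : Set (H67.ofLieS Λ).P.S)
    (lam : (H67.ofLieS Λ).U →* ℂˣ)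
    (hl : ∀ s, s ∉ J → ∀ x : (H67.ofLieS Λ).U, x.1 ∈ (H67.ofLieS Λ).X s → lam x = 1)
    (x : (H67.ofLieS Λ).U) (hx : x.1 ∈ (H67.ofLieS Λ).R J) : lam x = 1 := by
  obtain ⟨J, rfl⟩ := (sEq Λ.T Λ.top).surjective.image_surjective J
  have hx' : x.1 ∈ Λ.T.UJ J := H67.ofGRD_R Λ.T Λ.top Λ.pU Λ.pH J ▸ hx
  have key : Λ.T.UJ J ≤ lam.ker.map Λ.T.U.subtype := by
    refine gen_le fun r hr y hy => ?_
    have hU : y ∈ Λ.T.U := le_gen Λ.T.X (S := {r | Λ.R.pos r}) hr.1 hy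
    by_cases hs : ∃ i, r = Λ.R.p i
    · obtain ⟨i, rfl⟩ := hs
      refine ⟨⟨y, hU⟩, hl (sEq Λ.T Λ.top i) (fun hi => hr.2 (Λ.R.p_mem_PhiJ ?_)) _ ?_, rfl⟩
      · exact ((sEq Λ.T Λ.top).injective.mem_set_image).1 hi
      · exact (H67.ofGRD_X Λ.T Λ.top Λ.pU Λ.pH i).symm ▸ hy
    · have := h r hr.1 (not_exists.1 hs) hy
      rw [← Subgroup.map_subtype_commutator] at this
      exact Subgroup.map_mono (Abelianization.commutator_subset_ker lam) this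
  obtain ⟨y, hy, e⟩ := key hx'
  exact Subtype.ext e ▸ hy

theorem HasC.cb (A2 : JobA2) (h : HasC p G) (hA : Act G Ω) (hp : p ∣ Nat.card Ω) : CB p G Ω := by
  obtain ⟨Λ, h⟩ := h
  let D := H67.ofLieS Λ
  have := Fintype.ofFinite D.P.S
  have := hA.pre
  by_cases hB : ∀ a b : Ω, ∃ g ∈ D.B, g • a = b
  · refine ⟨hA, hp, fun U a b => ?_⟩
    obtain ⟨g, hg⟩ := D.exists_eq_cjs U
    obtain ⟨t, ht, e⟩ := hB (g⁻¹ • a) (g⁻¹ • b)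
    refine ⟨g * t * g⁻¹, ?_, by rw [mul_smul, mul_smul, e, smul_inv_smul]⟩
    rw [hg, Subgroup.mem_set_normalizer_iff]
    intro x
    rw [SetLike.mem_coe, SetLike.mem_coe, H67.mem_cjs, H67.mem_cjs,
      show g⁻¹ * (g * t * g⁻¹ * x * (g * t * g⁻¹)⁻¹) * g = t * (g⁻¹ * x * g) * t⁻¹ by group]
    exact ⟨D.U_norm t ht _, fun h => by simpa [mul_assoc] using D.U_norm' ht h⟩
  · push Not at hB
    obtain ⟨a, ha⟩ := A2 p G Ω D _ (by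
      rw [Nat.cast_eq_one, Nat.card_eq_one_iff_unique]
      refine ⟨⟨fun x y => Quotient.inductionOn₂ x y fun x y => Quotient.sound ?_⟩,
        ⟨Quotient.mk _ hB.choose⟩⟩
      obtain ⟨g, hg⟩ := exists_smul_eq G y x
      exact ⟨⟨g, by simp [H67.cellSubgroup_univ]⟩, hg⟩) h.lam (jobA1 p G Ω D hA hB)
    exact absurd ((hA.index a ▸ hp).trans (Subgroup.index_dvd_of_le fun u hu => ha u hu))
      D.not_dvd_index_U

theorem jobA_of (A2 : JobA2) (R1 : JobR1) (C1 : JobC1) (C2 : JobC2) (C3 : JobC3) (CCh : JobCCh)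
    (CE6 : JobCE6) (CD4 : JobCD4) (CF4 : JobCF4) : JobA := by
  intro p _ G Ω _ _ _ _ h hx hA hp
  refine HasC.cb A2 ?_ hA hp
  rcases h with ⟨F, iF, fF, _, n, -, -, ⟨e⟩⟩ | ⟨F, iF, fF, _, n, h2, h3, ⟨e⟩⟩ |
    ⟨F, iF, fF, _, n, q, hF, -, -, ⟨e⟩⟩ | ⟨F, iF, fF, _, n, -, h, ⟨e⟩⟩ | ⟨F, iF, fF, _, n, h, ⟨e⟩⟩ |
    ⟨F, iF, fF, _, n, a, b, -, h, ⟨e⟩⟩ | ⟨F, iF, fF, _, ⟨h, ⟨e⟩⟩ | ⟨⟨e⟩⟩ | ⟨⟨e⟩⟩ | ⟨⟨e⟩⟩ | ⟨⟨e⟩⟩⟩ |
    ⟨F, iF, fF, _, q, hq, ⟨h, ⟨e⟩⟩ | ⟨h, ⟨e⟩⟩⟩ | ⟨rfl, F, iF, fF, m, hm, hF, ⟨e⟩⟩ |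
    ⟨rfl, F, iF, fF, m, hm, hF, ⟨e⟩⟩ | ⟨rfl, F, iF, fF, m, hm, hF, ⟨e⟩⟩
  · exact ((C1 p F).1 n).congr e
  · refine ((C1 p F).2.1 n (not_lt.1 fun h => hx ⟨F, iF, fF, Or.inl ?_⟩)).congr e
    have := Fintype.one_lt_card (α := F)
    exact ⟨by omega, n, by omega, ⟨e⟩⟩
  · exact (C2 p F n q hF).congr e
  · exact ((C3 p F n).1 h).congr e
  · exact ((C1 p F).2.2 n h).congr e
  · exact ((C3 p F _).2 a b h).congr e
  · refine ((CCh p F).1 (not_lt.1 fun h' => hx ⟨F, iF, fF, Or.inr (Or.inr ⟨?_, ⟨e⟩⟩)⟩)).congr e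
    exact le_antisymm (Nat.lt_succ_iff.1 h') h
  · refine ((CCh p F).2.1 (not_lt.1 fun h' => hx ⟨F, iF, fF, Or.inr (Or.inl ⟨?_, ⟨e⟩⟩)⟩)).congr e
    exact le_antisymm (Nat.lt_succ_iff.1 h') Fintype.one_lt_card
  · exact (CCh p F).2.2.1.congr e
  · exact (CCh p F).2.2.2.1.congr e
  · exact (CCh p F).2.2.2.2.congr e
  · exact (CE6 p F q hq h).congr e
  · exact (CD4 p F q hq h).congr e
  · exact (R1.2.1 F m hm hF).hasC.congr e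
  · exact (CF4 F m hm hF).congr e
  · exact (R1.2.2 F m hm hF).hasC.congr e

theorem HasT.elim (P0 : JobP0) (h : HasT p G) (hA : Act G Ω) (hp : ¬ p ∣ Nat.card Ω) : False := by
  obtain ⟨Λ, h1, h2⟩ := h
  obtain ⟨i, -, -, h, -⟩ := P0 p G Ω Λ h1 hA hp
  exact h2 i h

theorem HasR.card (P0 : JobP0) {N : ℕ} (h : HasR p G N) (hA : Act G Ω) (hp : ¬ p ∣ Nat.card Ω) :
    Nat.card Ω = N + 1 := by
  obtain ⟨Λ, h1, h2, rfl⟩ := h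
  obtain ⟨i, -, -, -, h⟩ := P0 p G Ω Λ h1 hA hp
  exact h h2

omit [Fact p.Prime] [Finite G] in
theorem index_congr {G' : Type} [Group G'] (Λ : LieS p G') (e : G' ≃* G) (J : Set Λ.ι) :
    ((Λ.congr e).T.PJ J).index = (Λ.T.PJ J).index := by
  rw [← Subgroup.index_map_equiv _ e]
  exact congrArg Subgroup.index (GRD.map_PJ Λ.T e.toMonoidHom (fun g _ h => by
    rw [(map_eq_one_iff _ e.injective).1 h]; exact one_mem _) J)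

theorem jobP_of (P0 : JobP0) (PL : JobPL) (R1 : JobR1) (TD : JobTD) (TCh : JobTCh)
    (TTw : JobTTw) : JobP := by
  intro p _ G Ω _ _ _ _ h hA hp
  have T : HasT p G → Out G (Nat.card Ω) := fun h => (h.elim P0 hA hp).elim
  rcases h with ⟨F, iF, fF, _, n, h2, h4, ⟨e⟩⟩ | ⟨F, iF, fF, _, n, h2, -, ⟨e⟩⟩ |
    ⟨F, iF, fF, _, n, q, hF, h3, h2, ⟨e⟩⟩ | ⟨F, iF, fF, _, n, h3, h, ⟨e⟩⟩ | ⟨F, iF, fF, _, n, h, ⟨e⟩⟩ |
    ⟨F, iF, fF, _, n, a, b, h4, h, ⟨e⟩⟩ | ⟨F, iF, fF, _, ⟨-, ⟨e⟩⟩ | ⟨⟨e⟩⟩ | ⟨⟨e⟩⟩ | ⟨⟨e⟩⟩ | ⟨⟨e⟩⟩⟩ |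
    ⟨F, iF, fF, _, q, hq, ⟨h, ⟨e⟩⟩ | ⟨h, ⟨e⟩⟩⟩ | ⟨rfl, F, iF, fF, m, hm, hF, ⟨e⟩⟩ |
    ⟨rfl, F, iF, fF, m, hm, hF, ⟨e⟩⟩ | ⟨rfl, F, iF, fF, m, hm, hF, ⟨e⟩⟩
  · have := (liePSL F n p).nonempty_of_root ⟨_, CD.isRoot_sub (D := cdSL F n) (fun k => ⟨k, rfl⟩)
      (H67.fin_zero_ne_one h2)⟩
    obtain ⟨i, a, ha, hi, -⟩ := P0 p G Ω ((liePSL F n p).congr e.symm) this hA hp
    have key : Nat.card Ω * (Fintype.card F - 1) = Fintype.card F ^ n - 1 :=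
      (congrArg (· * (Fintype.card F - 1)) ((hA.index a).symm.trans ((congrArg Subgroup.index
        ha).trans (index_congr (liePSL F n p) e.symm _)))).trans (PL p F n h2 i hi)
    rcases h2.eq_or_lt with rfl | h3
    · refine Or.inr (Or.inl ⟨F, iF, fF, h4 rfl, ⟨e⟩, ?_⟩)
      have := h4 rfl
      refine Nat.eq_of_mul_eq_mul_right (m := Fintype.card F - 1) (by omega) ?_
      rw [key, ← Nat.sq_sub_sq, one_pow]
    · exact Or.inl ⟨F, iF, fF, n, h3, ⟨e⟩, key⟩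
  · exact T (((TD p F n).1 h2).congr e)
  · rcases h3.eq_or_lt with rfl | h3
    · refine Or.inr (Or.inr (Or.inl ⟨F, iF, fF, q, ?_, hF, ⟨e⟩,
        ((R1.1 p F q hF).congr e).card P0 hA hp⟩))
      have := Fintype.one_lt_card (α := F)
      have h2 : q ≠ 2 := fun h => h2 ⟨rfl, h⟩
      by_contra h
      interval_cases q <;> omega
    · exact T (((TD p F n).2.1 q hF h3).congr e)
  · exact T (((TD p F n).2.2.1 (by omega) h).congr e)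
  · exact T (((TD p F n).2.2.2.1 h).congr e)
  · exact T (((TD p F _).2.2.2.2 a b (by omega) h).congr e)
  · exact T ((TCh p F).1.congr e)
  · exact T ((TCh p F).2.1.congr e)
  · exact T ((TCh p F).2.2.1.congr e)
  · exact T ((TCh p F).2.2.2.1.congr e)
  · exact T ((TCh p F).2.2.2.2.congr e)
  · exact T (((TTw p F).1 q hq h).congr e)
  · exact T (((TTw p F).2.1 q hq h).congr e)
  · exact Or.inr (Or.inr (Or.inr (Or.inl ⟨F, iF, fF, m, hm, hF, ⟨e⟩,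
      ((R1.2.1 F m hm hF).congr e).card P0 hA hp⟩)))
  · have := charP_of_card_eq_prime_pow hF
    exact T (((TTw 2 F).2.2 m hF).congr e)
  · exact Or.inr (Or.inr (Or.inr (Or.inr (Or.inl ⟨F, iF, fF, m, hm, hF, ⟨e⟩,
      ((R1.2.2 F m hm hF).congr e).card P0 hA hp⟩))))

end H9.CK
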