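/- CKS (S2193): condition (C) for twisted groups, layer by layer. -/
import Cfsg.Agent.H9.CKASpec
import Cfsg.Agent.H21.TwPair

set_option autoImplicit false

namespace H9.CK

open H64 H68 H65 H21 Subgroup Cfsg.Lie
open H63 (RS Rt)
open scoped commutatorElement

variable {D : ChevalleyDatum} [RS D] {K : Type*} [Field K] {G : Type*} [Group G]
  {M : H68.CM D K G} {rk : ℕ → ℕ} {q : ℤ} {c : ℕ}

variable (M rk c) in
/-- `g` lies in the layer of `c` and has coordinate `t` at `c`. -/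
def Cg (g : G) (t : K) : Prop := g ∈ AK M rk (rk c) ∧ co M rk c g = t

variable (D c) in
/-- The coordinate at `c` of `⁅x s u, x r t⁆`. -/
def cw (r s : ℕ) (t u : K) : K :=
  ((D.commTerms r s).map fun z => if z.1 = c then (z.2.1 : K) * t ^ z.2.2.1 * (-u) ^ z.2.2.2 else 0).sum

variable (D rk q c) in
/-- The commutators of `X r` and `X s` lie in the layer of `c`. -/
abbrev PairOK (r s : ℕ) : Prop := D.IsPosRoot r ∧ D.IsPosRoot s ∧ s ≠ r ∧
  ∀ z ∈ D.commTerms r s, q ∣ z.2.1 ∨ D.IsPosRoot z.1 ∧ rk c ≤ rk z.1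

theorem x_mem_U {r : ℕ} (hr : D.IsPosRoot r) (t : K) : M.x r t ∈ M.T.U :=
  AK_le_U (rk := fun _ => 0) 0 (x_mem_AK hr le_rfl t)

theorem wd_mem_U {w : List (ℕ × K)} (h : ∀ p ∈ w, D.IsPosRoot p.1) : M.wd w ∈ M.T.U :=
  AK_le_U (rk := fun _ => 0) 0 (wd_mem_AK fun p hp => ⟨h p hp, le_rfl⟩)

section
variable (hq : (q : K) = 0) (hr : RkOK D q rk) (hc : D.IsPosRoot c)
include hq hr hc

theorem Cg.mul {g h : G} {t u : K} (h1 : Cg M rk c g t) (h2 : Cg M rk c h u) :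
    Cg M rk c (g * h) (t + u) :=
  ⟨mul_mem h1.1 h2.1, by rw [co_mul hq hr hc h1.1 h2.1, h1.2, h2.2]⟩

theorem Cg.succ {g : G} (h : g ∈ AK M rk (rk c + 1)) : Cg M rk c g 0 :=
  ⟨BK_le (AK_succ_le h), co_of_mem hq hr hc (AK_succ_le h)⟩

theorem Cg.conj {g v : G} {t : K} (h : Cg M rk c g t) (hv : v ∈ M.T.U) :
    Cg M rk c (v * g * v⁻¹) t := by
  have := (Cg.succ hq hr hc (comm_mem_AK hq hr hv h.1)).mul hq hr hc h
  rwa [zero_add, commutatorElement_def, inv_mul_cancel_right] at this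

theorem Cg.inv {g : G} {t : K} (h : Cg M rk c g t) : Cg M rk c g⁻¹ (-t) := by
  refine ⟨inv_mem h.1, eq_neg_of_add_eq_zero_left ?_⟩
  rw [← h.2, ← co_mul hq hr hc (inv_mem h.1) h.1, inv_mul_cancel]
  exact (Cg.succ hq hr hc (one_mem _)).2

theorem cg_x {r : ℕ} (t : K) (h : t = 0 ∨ D.IsPosRoot r ∧ rk c ≤ rk r) :
    Cg M rk c (M.x r t) (if r = c then t else 0) := by
  rcases h with rfl | h
  · simpa using Cg.succ hq hr hc (one_mem _)
  · have := co_wd (M := M) hq hr hc (w := [(r, t)]) (by simpa using h)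
    exact ⟨x_mem_AK h.1 h.2 t, by simpa using this⟩

theorem cg_root {r s : ℕ} (h : PairOK D rk q c r s) (t u : K) :
    Cg M rk c ⁅M.x s u, M.x r t⁆ (cw D c r s t u) := by
  obtain ⟨h1, h2, h3, h4⟩ := h
  have h5 : s ≠ D.neg r := fun e => by
    have := (rd_pos (r := ⟨s, h2.1⟩)).2 h2
    rw [show (⟨s, h2.1⟩ : Rt D) = (rd D).neg ⟨r, h1.1⟩ from Fin.ext e] at this
    exact RD.pos_neg.1 this (rd_pos.2 h1)
  have e : ⁅M.x s u, M.x r t⁆ = M.wd (D.commWord K r s (-t) (-u)) := by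
    rw [commutatorElement_def, M.x_inv, M.x_inv, mul_assoc, M.comm' h1.1 h2.1 h3 h5 (-t) (-u),
      ← M.x_inv, ← M.x_inv]
    group
  rw [e, cw, ChevalleyDatum.commWord, neg_neg]
  generalize D.commTerms r s = l at h4
  induction l with
  | nil => exact Cg.succ hq hr hc (one_mem _)
  | cons z l ih =>
    rw [List.forall_mem_cons] at h4
    rw [List.map_cons, List.map_cons, CM.wd_cons, List.sum_cons]
    exact (cg_x hq hr hc _ (h4.1.imp_left fun hm => by obtain ⟨m, hm⟩ := hm; simp [hm, hq])).mul hq hr hc (ih h4.2)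

theorem cg_root_wd {s : ℕ} (u : K) {w : List (ℕ × K)} (h : ∀ p ∈ w, PairOK D rk q c p.1 s) :
    Cg M rk c ⁅M.x s u, M.wd w⁆ (w.map fun p => cw D c p.1 s p.2 u).sum := by
  induction w with
  | nil => simpa using Cg.succ hq hr hc (one_mem _)
  | cons z l ih =>
    rw [List.forall_mem_cons] at h
    have := (cg_root (M := M) hq hr hc h.1 z.2 u).mul hq hr hc
      ((ih h.2).conj hq hr hc (x_mem_U h.1.1 z.2))
    rw [List.map_cons, CM.wd_cons, List.sum_cons]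
    convert this using 1
    simp only [commutatorElement_def]
    group

theorem cg_wd {w w' : List (ℕ × K)} (h0 : ∀ p' ∈ w', D.IsPosRoot p'.1)
    (h : ∀ p' ∈ w', ∀ p ∈ w, PairOK D rk q c p.1 p'.1) :
    Cg M rk c ⁅M.wd w', M.wd w⁆ (w'.map fun p' => (w.map fun p => cw D c p.1 p'.1 p.2 p'.2).sum).sum := by
  induction w' with
  | nil => simpa using Cg.succ hq hr hc (one_mem _)
  | cons z l ih =>
    rw [List.forall_mem_cons] at h h0
    have := ((ih h0.2 h.2).conj hq hr hc (x_mem_U h0.1 z.2)).mul hq hr hc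
      (cg_root_wd (M := M) hq hr hc z.2 h.1)
    rw [List.map_cons, CM.wd_cons, List.sum_cons, add_comm]
    convert this using 1
    simp only [commutatorElement_def]
    group

end

variable {Ω : Type} {τ : Tw (rd D) Ω} {S : SM M τ}
  {hn : ∀ o, ∃ y ∈ VJ M.T (τ.J {o}), y ≠ 1 ∧ S.σ y = y} {L : Subgroup G} {rep : ℕ → ℕ} {n : ℕ}

theorem layers_le (W : TwOK S hn L q rk rep n) {C : Subgroup G} (hC : C ≤ L) (k₀ : ℕ)
    (h : ∀ k < n, k₀ ≤ k → ∀ u : L, u.1 ∈ AK M rk k →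
      ∃ g ∈ C, Cg M rk (rep k) g (co M rk (rep k) u)) : AK M rk k₀ ⊓ L ≤ C := by
  have bot : ∀ k, n ≤ k → AK M rk k ⊓ L ≤ C := fun k hk x hx => by
    have h1 : AK M rk k ≤ AK M rk n := gen_mono _ fun r hr => And.intro hr.1 (hk.trans hr.2)
    have : (⟨x, hx.2⟩ : L) ∈ (AK M rk n).subgroupOf L := h1 hx.1
    rw [tw_bot W.hl L] at this
    rw [show x = 1 from congrArg Subtype.val (mem_bot.1 this)]
    exact one_mem _
  have key : ∀ j k, k + j = n → k₀ ≤ k → AK M rk k ⊓ L ≤ C := by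
    intro j
    induction j with
    | zero => exact fun k hk _ => bot k (by omega)
    | succ j ih =>
      intro k hk h1 u hu
      have hk' : k < n := by omega
      obtain ⟨g, hg, e⟩ := h k hk' h1 ⟨u, hu.2⟩ hu.1
      have hL : g⁻¹ * u ∈ L := L.mul_mem (L.inv_mem (hC hg)) hu.2
      obtain ⟨p1, p2⟩ := W.hl.1 k hk'
      have e0 : Cg M rk (rep k) u (co M rk (rep k) u) := ⟨by rw [p2]; exact hu.1, rfl⟩
      obtain ⟨e1, e2⟩ := (e.inv W.hq W.hr p1).mul W.hq W.hr p1 e0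
      rw [p2] at e1
      have e3 : g⁻¹ * u ∈ AK M rk (k + 1) :=
        ((W.coord hk').ker ⟨g⁻¹ * u, hL⟩ e1).1 (e2.trans (neg_add_cancel _))
      simpa using mul_mem hg (ih (k + 1) (by omega) (by omega) ⟨e3, hL⟩)
  rcases le_total k₀ n with hk | hk
  · exact key (n - k₀) k₀ (by omega) le_rfl
  · exact bot _ hk

/-- Condition (C) from the layers `k₀ ≤ k < n`. -/
theorem cc_of_layers (W : TwOK S hn L q rk rep n) (k₀ : ℕ)
    (h0 : ∀ d < D.nroots, D.IsPosRoot d → (∀ i : Fin D.rank, d ≠ D.simple i) → k₀ ≤ rk d)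
    (h : ∀ k < n, k₀ ≤ k → ∀ u : L, u.1 ∈ AK M rk k →
      ∃ g ∈ ⁅M.T.U ⊓ L, M.T.U ⊓ L⁆, Cg M rk (rep k) g (co M rk (rep k) u)) : CC W.hK.grdK := by
  refine cc_tw W.hK (le_trans (inf_le_inf_right _ ?_)
    (layers_le W ((commutator_le_self _).trans inf_le_right) k₀ h))
  exact gen_mono _ fun (r : Rt D) hr => And.intro hr.1 (h0 r.1 r.2 (rd_pos.1 hr.1)
    fun i e => hr.2 i (Fin.ext e))

end H9.CK
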