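/- CKS (S2193): condition (C) for the twisted groups of type `E₆`. -/
import Cfsg.Agent.H9.CKTw
import Cfsg.Agent.H21.E6Mult

set_option autoImplicit false

namespace H9.CK

open H64 H68 H65 H21 Subgroup Cfsg.Lie
open H63 (RS Rt)
open scoped commutatorElement

/-- The integer coefficient at `c` of the commutator of `X s` and `X r`. -/
def nE6 (c r s : ℕ) : ℤ := ((chevE6.commTerms r s).map fun z => if z.1 = c then z.2.1 else 0).sum

theorem cw_E6 {K : Type*} [Field K] {c r s : ℕ} (h : ∀ z ∈ chevE6.commTerms r s, z.2.2 = (1, 1))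
    (t u : K) : cw chevE6 c r s t u = -(nE6 c r s * t * u) := by
  rw [cw, nE6]
  generalize chevE6.commTerms r s = l at h
  induction l with
  | nil => simp
  | cons z l ih =>
    rw [List.forall_mem_cons] at h
    rw [List.map_cons, List.map_cons, List.sum_cons, List.sum_cons, ih h.2, h.1]
    split_ifs <;> push_cast <;> ring

/-- A root together with its image gives elements of the twisted group. -/
abbrev PrE6 (r : ℕ) : Prop := r < 72 ∧ rhoE6 r < 72 ∧ rhoE6 r = rhoE6 r ∧ rhoE6 (rhoE6 r) = r ∧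
  gamE6 r = gamE6 r ∧ gamE6 (rhoE6 r) = gamE6 r ∧ (gamE6 r = 1 ∨ gamE6 r = -1) ∧
  rhoE6 r ≠ chevE6.neg r ∧ chevE6.commTerms r (rhoE6 r) = []

/-- The four coefficients. -/
def vE6 (c a b : ℕ) : List ℤ := [nE6 c b a, nE6 c (rhoE6 b) a * gamE6 b,
  nE6 c b (rhoE6 a) * gamE6 a, nE6 c (rhoE6 b) (rhoE6 a) * gamE6 a * gamE6 b]

set_option synthInstance.maxSize 4000 in
theorem certE6 : ∀ k < 24, 4 ≤ k → ∃ p ∈ [(36, 37), (37, 39), (39, 46), (36, 40), (37, 43), (37, 47),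
    (36, 44), (36, 48), (37, 50), (36, 51), (39, 51), (36, 59), (36, 53), (36, 62), (37, 54), (36, 64),
    (37, 65), (37, 68), (39, 69), (46, 70)], PrE6 p.1 ∧ PrE6 p.2 ∧
    (∀ s ∈ [p.1, rhoE6 p.1], ∀ r ∈ [p.2, rhoE6 p.2], PairOK chevE6 rkE6 0 (repE6 k) r s ∧
      ∀ z ∈ chevE6.commTerms r s, z.2.2 = (1, 1)) ∧ ∃ e ∈ [(1 : ℤ), -1],
    vE6 (repE6 k) p.1 p.2 ∈ [[e, 0, 0, 0], [e, e, 0, 0]] ∨ (rhoE6 (repE6 k) = repE6 k ∧
      gamE6 (repE6 k) = 1) ∧ vE6 (repE6 k) p.1 p.2 ∈ [[e, 0, 0, e], [e, e, e, e]] := by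
  decide +kernel

theorem jobCE6 : JobCE6 := by
  intro p _ K _ _ _ q hq hK
  have W := twOK_E6 hq hK
  refine ⟨W.hK.lieS p, cc_of_layers W 4 (by decide +kernel) fun k hk h4 u hu => ?_⟩
  obtain ⟨⟨a, b⟩, -, ha, hb, h1, e, he, h2⟩ := certE6 k hk h4
  simp only [List.forall_mem_cons] at h1
  obtain ⟨⟨⟨p1, p1'⟩, ⟨p2, p2'⟩, -⟩, ⟨⟨p3, p3'⟩, ⟨p4, p4'⟩, -⟩, -⟩ := h1
  have key : ∀ t v : K, ∃ g ∈ ⁅(mat chevE6 K).T.U ⊓ twistedE6 K q, (mat chevE6 K).T.U ⊓ twistedE6 K q⁆,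
      Cg (mat chevE6 K) rkE6 (repE6 k) g (-(((vE6 (repE6 k) a b).getD 0 0 : ℤ) * t * v +
        ((vE6 (repE6 k) a b).getD 1 0 : ℤ) * t * v ^ q + ((vE6 (repE6 k) a b).getD 2 0 : ℤ) * t ^ q * v +
        ((vE6 (repE6 k) a b).getD 3 0 : ℤ) * t ^ q * v ^ q)) := fun t v => by
    refine ⟨_, commutator_mem_commutator ⟨wd_mem_U ?_, pair_mem_E6 hq hK ha t⟩
      ⟨wd_mem_U ?_, pair_mem_E6 hq hK hb v⟩, ?_⟩
    · simpa using ⟨p1.2.1, p3.2.1⟩
    · simpa using ⟨p1.1, p2.1⟩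
    convert cg_wd W.hq W.hr (W.hl.1 k hk).1 (w' := [(a, t), (rhoE6 a, gamE6 a * t ^ q)])
      (w := [(b, v), (rhoE6 b, gamE6 b * v ^ q)]) (by simpa using ⟨p1.2.1, p3.2.1⟩)
      (by simpa only [List.forall_mem_cons, List.not_mem_nil, false_imp_iff, implies_true, and_true]
        using ⟨⟨p1, p2⟩, p3, p4⟩) using 1
    simp [cw_E6 p1', cw_E6 p2', cw_E6 p3', cw_E6 p4', vE6]
    ring
  obtain ⟨θ, hθ⟩ := trace2_surj hq hK (one_pow q)
  obtain ⟨f, hf⟩ := exists_frob hq hK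
  have e2 : (e : K) * e = 1 := by
    rcases List.mem_pair.1 he with rfl | rfl <;> simp
  have e3 : ∀ t : K, (-(e * t)) ^ q = -(e * t ^ q) := fun t => by
    rw [← hf, ← hf, map_neg, map_mul, map_intCast]
  generalize hs : co (mat chevE6 K) rkE6 (repE6 k) u = s
  rcases h2 with h2 | ⟨h3, h2⟩
  · rcases List.mem_pair.1 h2 with h2 | h2 <;> rw [h2] at key
    · convert key (-(e * s)) 1 using 4
      simp only [List.getD_cons_zero, List.getD_cons_succ, Int.cast_zero]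
      linear_combination (-s) * e2
    · convert key (-(e * s)) θ using 4
      simp only [List.getD_cons_zero, List.getD_cons_succ, Int.cast_zero]
      linear_combination (-s * (θ + θ ^ q)) * e2 - s * hθ
  · have h5 := W.co_fixed hk ((smE6_ρ hq hK).symm ▸ h3.1) hu
    rw [smE6_γ, smE6_e, h3.2, Int.cast_one, one_mul, hs] at h5
    rcases List.mem_pair.1 h2 with h2 | h2 <;> rw [h2] at key
    · convert key (-(e * (s * θ))) 1 using 4
      simp only [List.getD_cons_zero, List.getD_cons_succ, Int.cast_zero, e3, mul_pow, h5, one_pow]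
      linear_combination (-s * (θ + θ ^ q)) * e2 - s * hθ
    · convert key (-(e * (s * θ))) θ using 4
      simp only [List.getD_cons_zero, List.getD_cons_succ, e3, mul_pow, h5]
      linear_combination (-s * (θ + θ ^ q) ^ 2) * e2 - s * (θ + θ ^ q + 1) * hθ

end H9.CK
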