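/- CKS (S2193): chapter P. -/
import Cfsg.Agent.H9.CKAFin0
import Cfsg.Agent.H56.CkPL

set_option autoImplicit false

namespace H9.CK

theorem jobP : H32.CK.JobP := jobP_of_PL H56.CK.jobPL

end H9.CK
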