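import Cfsg.Agent.H40.CSSpec

/-! Tower CS (S4161): slot I. -/

set_option autoImplicit false

namespace H9.CSI

open Cfsg H40.CS

universe u

theorem prim_of_mem {G : Type u} [Group G] {s : ℕ} [Fact s.Prime] (T : Sylow s G) {t : G} (ht : t ∈ T) :
    IsPrim s t := by
  obtain ⟨k, hk⟩ := IsPGroup.iff_orderOf.1 T.isPGroup' ⟨t, ht⟩
  exact ⟨k, by rw [← hk, ← Subgroup.orderOf_coe]⟩

theorem normal_cen {G : Type u} [Group G] (s : ℕ) :
    (Subgroup.centralizer {d : G | IsPrim s d}).Normal := ⟨fun n hn g =>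
  Subgroup.mem_centralizer_iff.2 fun d ⟨k, hk⟩ => by
    have h := Subgroup.mem_centralizer_iff.1 hn (g⁻¹ * d * g⁻¹⁻¹)
      ⟨k, ((MulAut.conj g⁻¹).orderOf_eq d).trans hk⟩
    calc d * (g * n * g⁻¹) = g * (g⁻¹ * d * g⁻¹⁻¹ * n) * g⁻¹ := by group
      _ = g * n * g⁻¹ * d := by rw [h]; group⟩

theorem job : H40.CS.JobI.{u} := by
  intro hB hN G _ _ p q H hA b s hs hb hpb hq
  have B := hB G
  have := Fact.mk H.hp
  have := Fact.mk H.hq
  have hself : ∀ x : G, p ∣ cs x → q ∣ cs x → False := fun x h1 h2 =>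
    H.hp.one_lt.ne' (Nat.eq_one_of_dvd_coprimes (H.cop x x h1 h2) h1 h1)
  have hne : s ≠ q := by
    rintro rfl
    obtain ⟨P⟩ : Nonempty (Sylow p G) := inferInstance
    exact (B.f3 p b).2 ⟨P, fun a ha => (B.f6 s hs b a hb (hq a (prim_of_mem P ha))
      (H.cop' (XS.self hpb) (hA a (prim_of_mem P ha)))).symm⟩ hpb
  have ho : ¬ q ∣ orderOf b := fun h => by
    obtain ⟨k, hk⟩ := hb
    rw [hk] at h
    exact hne ((Nat.prime_dvd_prime_iff_eq H.hq hs).1 (H.hq.dvd_of_dvd_pow h)).symm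
  have hc : ∀ a d : G, IsPrim p a → IsPrim q d → Commute d a := fun a d ha hd => by
    obtain ⟨x, h1, h2⟩ := B.f5 q H.hq b d (hself b hpb) ho hd
    exact B.f6 q H.hq d a hd (hq a ha) (H.cop' ⟨x, hpb.trans h1, h2⟩ (hA a ha))
  obtain ⟨n, hn, hpn⟩ := hN G q p H.symm _ (normal_cen q) fun a ha =>
    Subgroup.mem_centralizer_iff.2 fun d hd => hc a d ha hd
  obtain ⟨m, hm, hqm⟩ := hN G p q H _ (normal_cen p) fun d hd =>
    Subgroup.mem_centralizer_iff.2 fun a ha => (hc a d ha hd).symm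
  refine hself (n * m) (by_contra fun h => ?_) (by_contra fun h => ?_)
  · obtain ⟨T, hT⟩ := (B.f3 p _).1 h
    refine (B.f3 p n).2 ⟨T, fun t ht => ?_⟩ hpn
    have h1 : Commute t m := Subgroup.mem_centralizer_iff.1 hm t (prim_of_mem T ht)
    simpa using (hT t ht).mul_right h1.inv_right
  · obtain ⟨T, hT⟩ := (B.f3 q _).1 h
    refine (B.f3 q m).2 ⟨T, fun t ht => ?_⟩ hqm
    have h1 : Commute t n := Subgroup.mem_centralizer_iff.1 hn t (prim_of_mem T ht)
    simpa using h1.inv_right.mul_right (hT t ht)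

end H9.CSI
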