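/- Automorphisms of the wreath product of the dihedral group of order `8` by a group of order `2`. -/
import Cfsg.Agent.H9.DW8

set_option autoImplicit false
set_option maxRecDepth 100000
set_option synthInstance.maxSize 4096

namespace H9.DW8

open Subgroup
open scoped Pointwise

attribute [local irreducible] mk mulN iT

theorem nf (α : MulAut M) :
    (α t ∈ Q ∧ α (a * b * (a * b)) ∈ Z0 ∧ α (a * (t * a * t⁻¹)) ∈ Q ∧ α (b * (t * b * t⁻¹)) ∈ Q) ∧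
    ((∃ p, p * α a * p⁻¹ * a⁻¹ ∈ Z0 ∧ p * α b * p⁻¹ * b⁻¹ ∈ Z0 ∧
      p * α (t * a * t⁻¹) * p⁻¹ * (t * a * t⁻¹)⁻¹ ∈ Z0 ∧
      p * α (t * b * t⁻¹) * p⁻¹ * (t * b * t⁻¹)⁻¹ ∈ Z0) ∨
    α a ∉ V1 ∧ α b ∈ V1 ∧ α b ∉ V2 ∧ α a ∈ V2) := by
  simp only [map_mul, map_inv]
  refine (nf0 (α a) ?_ (α b) ?_ ?_ ?_ (α t) ?_ ?_ ?_ ?_ ?_).imp_right
    (Or.imp_left fun ⟨p, _, h⟩ => ⟨p, h⟩)
  all_goals
    simp only [← map_mul, ← map_inv, Ne, EmbeddingLike.apply_eq_iff_eq, EmbeddingLike.map_eq_one_iff]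
    decide +kernel

theorem z1_mem (α : MulAut M) : α (mk 2) ∈ Z0 ∧ α (mk 16) ∈ Z0 := by
  have h := (nf α).1.2.1
  rw [(by decide +kernel : a * b * (a * b) = mk 2)] at h
  refine ⟨h, ?_⟩
  rw [(by decide +kernel : mk 16 = t * mk 2 * t⁻¹), map_mul, map_mul, map_inv]
  exact nZ.conj_mem _ h _

theorem map_Q (α : MulAut M) {u : M} (hu : u ∈ Q) : α u ∈ Q := by
  obtain ⟨i, j, k, l, m, rfl⟩ := (by decide +kernel : ∀ u ∈ Q, ∃ i j k l m : Fin 2,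
    u = mk 2 ^ i.1 * mk 16 ^ j.1 * (a * (t * a * t⁻¹)) ^ k.1 * (b * (t * b * t⁻¹)) ^ l.1 * t ^ m.1) u hu
  have zq : ∀ x ∈ Z0, x ∈ Q := by decide +kernel
  rw [map_mul, map_mul, map_mul, map_mul, map_pow, map_pow, map_pow, map_pow, map_pow]
  exact mul_mem (mul_mem (mul_mem (mul_mem (pow_mem (zq _ (z1_mem α).1) _)
    (pow_mem (zq _ (z1_mem α).2) _)) (pow_mem (nf α).1.2.2.1 _)) (pow_mem (nf α).1.2.2.2 _))
    (pow_mem (nf α).1.1 _)

theorem sw_mul {α β : MulAut M} (h : α b ∈ V1) (k : β a ∈ V2) : (α * β) a ∈ V1 := by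
  obtain ⟨i, j, k, l, e⟩ := (by decide +kernel : ∀ u ∈ V2, ∃ i j k l : Fin 2,
    u = mk 2 ^ i.1 * mk 16 ^ j.1 * b ^ k.1 * (t * b * t⁻¹) ^ l.1) _ k
  have zq : ∀ x ∈ Z0, x ∈ V1 := by decide +kernel
  rw [MulAut.mul_apply, e, map_mul, map_mul, map_mul, map_pow, map_pow, map_pow, map_pow,
    map_mul, map_mul, map_inv]
  exact mul_mem (mul_mem (mul_mem (pow_mem (zq _ (z1_mem α).1) _)
    (pow_mem (zq _ (z1_mem α).2) _)) (pow_mem h _)) (pow_mem (nV1.conj_mem _ h _) _)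

/-- an automorphism that keeps `V1` or `V2` acts on `J / Z0` as an inner one -/
theorem triv {α : MulAut M} (h : α a ∈ V1 ∨ α b ∈ V2) :
    ∃ p, ∀ j ∈ J, (MulAut.conj p * α : MulAut M) j * j⁻¹ ∈ Z0 := by
  obtain ⟨p, h1, h2, h3, h4⟩ := (nf α).2.resolve_right fun k => h.elim k.1 k.2.2.1
  refine ⟨p, fun j hj => ?_⟩
  let K := ((QuotientGroup.mk' Z0).comp (MulAut.conj p * α : MulAut M).toMonoidHom).eqLocus (QuotientGroup.mk' Z0)
  have m : ∀ x, x ∈ K ↔ (MulAut.conj p * α : MulAut M) x * x⁻¹ ∈ Z0 := fun x =>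
    (QuotientGroup.eq_iff_div_mem (N := Z0)).trans (by rw [div_eq_mul_inv]; rfl)
  obtain ⟨i, k, l, n, rfl⟩ := (by decide +kernel : ∀ u ∈ J, ∃ (i k : Fin 2) (l n : Fin 4),
    u = a ^ i.1 * (t * a * t⁻¹) ^ k.1 * (a * b) ^ l.1 * (t * a * t⁻¹ * (t * b * t⁻¹)) ^ n.1) j hj
  have k1 := (m _).2 h1
  have k3 := (m _).2 h3
  exact (m _).1 (mul_mem (mul_mem (mul_mem (pow_mem k1 _) (pow_mem k3 _))
    (pow_mem (mul_mem k1 ((m _).2 h2)) _)) (pow_mem (mul_mem k3 ((m _).2 h4)) _))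

theorem triv_sq {β : MulAut M} (h : ∀ j ∈ J, β j * j⁻¹ ∈ Z0) {j : M} (hj : j ∈ J) : β (β j) = j := by
  have k : ∀ d ∈ Z0, β d = d := fun d hd => by
    obtain ⟨i, hi, rfl⟩ := (by decide +kernel : ∀ d ∈ Z0, ∃ i ∈ J, d = i * i) d hd
    have := (by decide +kernel : ∀ d ∈ Z0, ∀ i ∈ J, d * i * (d * i) = i * i) _ (h i hi) i hi
    rwa [inv_mul_cancel_right, ← map_mul] at this
  have := k _ (h j hj)
  rw [map_mul, map_inv, mul_inv_eq_iff_eq_mul] at this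
  have e := (by decide +kernel : ∀ d ∈ Z0, d * d = 1) _ (h j hj)
  rw [this, ← inv_mul_cancel_right (β j) j, ← mul_assoc]
  simp only [inv_mul_cancel_right]
  rw [e, one_mul]

theorem e16 {V : Subgroup M} (h1 : ∀ g, ∀ v ∈ V, g * v * g⁻¹ ∈ V) (h2 : ∀ v ∈ V, v * v = 1)
    (h3 : ∀ u ∈ V, ∀ v ∈ V, u * v = v * u) (h4 : Nat.card V = 16) : V = V1 ∨ V = V2 := by
  have k : ∀ v ∈ V, v ∈ V1 ∨ v ∈ V2 := fun v hv =>
    (by decide +kernel : ∀ v : M, v * v = 1 → (∀ g : M, v * (g * v * g⁻¹) = g * v * g⁻¹ * v) →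
      v ∈ V1 ∨ v ∈ V2) v (h2 v hv) fun g => h3 v hv _ (h1 g v hv)
  by_cases c : V ≤ V1
  · exact .inl (eq_of_le_of_card_ge c (by rw [h4, card_V1]))
  obtain ⟨v, hv, n⟩ := SetLike.not_le_iff_exists.1 c
  refine .inr (eq_of_le_of_card_ge (fun u hu => (k u hu).elim (fun m => ?_) id) (by rw [h4, card_V2]))
  rcases k _ (mul_mem hu hv) with e | e
  · exact absurd ((mul_mem_cancel_left m).1 e) n
  · exact (mul_mem_cancel_right ((k v hv).resolve_left n)).1 e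

/-- a diagonal of the cube attached to a quaternion subgroup -/
def D (u v : M) : Finset (M × M) := {(u, v), (v, u), (v, u * v), (u * v, v), (u * v, u), (u, u * v),
  (u⁻¹, v⁻¹), (v⁻¹, u⁻¹), (v⁻¹, (u * v)⁻¹), ((u * v)⁻¹, v⁻¹), ((u * v)⁻¹, u⁻¹), (u⁻¹, (u * v)⁻¹)}

theorem smul_D (α : MulAut M) (u v : M) : α • D u v = D (α u) (α v) := by
  simp [D, Finset.smul_finset_insert, Finset.smul_finset_singleton]

abbrev Gd (u v : M) : Prop := u ∈ Q ∧ v ∈ Q ∧ u * u ≠ 1 ∧ v * v ≠ 1 ∧ u * v ≠ v * u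

/-- the eight diagonals -/
def Om : SubMulAction (MulAut M) (Finset (M × M)) where
  carrier := {X | ∃ u v, Gd u v ∧ X = D u v}
  smul_mem' := by
    rintro α _ ⟨u, v, ⟨h1, h2, h3, h4, h5⟩, rfl⟩
    refine ⟨_, _, ⟨map_Q α h1, map_Q α h2, ?_, ?_, ?_⟩, smul_D α u v⟩
    all_goals
      simpa only [← map_mul, Ne, EmbeddingLike.apply_eq_iff_eq, EmbeddingLike.map_eq_one_iff]

def L8 : Finset (Finset (M × M)) := {D (mk 9) (mk 102), D (mk 9) (mk 111), D (mk 9) (mk 116),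
  D (mk 9) (mk 125), D (mk 11) (mk 66), D (mk 11) (mk 73), D (mk 11) (mk 80), D (mk 11) (mk 91)}

theorem card_Om : Nat.card Om = 8 := by
  have e : (Om : Set (Finset (M × M))) = L8 := Set.ext fun X => ⟨by
    rintro ⟨u, v, h, rfl⟩
    exact (by decide +kernel : ∀ u v, Gd u v → D u v ∈ L8) u v h, fun h => by
      simp only [L8, Finset.coe_insert, Finset.coe_singleton, Set.mem_insert_iff,
        Set.mem_singleton_iff] at h
      rcases h with rfl | rfl | rfl | rfl | rfl | rfl | rfl | rfl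
      all_goals exact ⟨_, _, by decide +kernel, rfl⟩⟩
  rw [← (by decide +kernel : L8.card = 8), ← Set.ncard_coe_finset, ← e]
  rfl

def DL (u v : M) : List (M × M) := [(u, v), (v, u), (v, u * v), (u * v, v), (u * v, u), (u, u * v),
  (u⁻¹, v⁻¹), (v⁻¹, u⁻¹), (v⁻¹, (u * v)⁻¹), ((u * v)⁻¹, v⁻¹), ((u * v)⁻¹, u⁻¹), (u⁻¹, (u * v)⁻¹)]

theorem mem_DL {x y u v : M} (h : D x y = D u v) : (x, y) ∈ DL u v ∧ (y, x * y) ∈ DL u v := by
  have k : ∀ p, p ∈ D u v → p ∈ DL u v := fun p => by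
    simp only [D, DL, Finset.mem_insert, Finset.mem_singleton, List.mem_cons, List.not_mem_nil,
      or_false, imp_self]
  refine ⟨k _ ?_, k _ ?_⟩ <;> rw [← h] <;> simp only [D, Finset.mem_insert, true_or, or_true]

theorem fix2 {α : MulAut M} (h : ∀ X : Om, α • X = X) {u v : M} (g : (Gd u v ∧ Gd u v⁻¹ ∧ Gd u⁻¹ v) ∧
    ∀ p ∈ DL u v, (p.2, p.1 * p.2) ∈ DL u v → (p.2⁻¹, p.1 * p.2⁻¹) ∈ DL u v⁻¹ →
      (p.1⁻¹, p.2) ∈ DL u⁻¹ v → p = (u, v)) : α u = u ∧ α v = v := by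
  have k : ∀ u v, Gd u v → D (α u) (α v) = D u v := fun u v g => by
    have := congrArg Subtype.val (h ⟨_, u, v, g, rfl⟩)
    rwa [SubMulAction.val_smul, smul_D] at this
  have k1 := mem_DL (k u v g.1.1)
  have k2 := mem_DL (k _ _ g.1.2.1)
  have k3 := mem_DL (k _ _ g.1.2.2)
  rw [map_inv] at k2 k3
  exact Prod.mk.inj (g.2 _ k1.1 k1.2 k2.2 k3.1)

theorem fix_of {α : MulAut M} (h : ∀ X : Om, α • X = X) : (α (mk 27) = mk 27 ∧ α (mk 102) = mk 102) ∧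
    α (mk 66) = mk 66 ∧ α (mk 25) = mk 25 :=
  ⟨fix2 h (by decide +kernel), fix2 h (by decide +kernel)⟩

/-- the action of the automorphism group on the eight diagonals -/
theorem exists_psi : ∃ ψ : MulAut M →* Equiv.Perm (Fin 8), ∀ α, ψ α = 1 →
    α a ∈ V1 ∧ ∀ m, α = MulAut.conj m → m = 1 ∨ m = z := by
  have : Finite Om := Nat.finite_of_card_ne_zero (by rw [card_Om]; decide)
  let e := Finite.equivFinOfCardEq card_Om
  refine ⟨e.permCongrHom.toMonoidHom.comp (MulAction.toPermHom (MulAut M) Om), fun α h => ?_⟩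
  obtain ⟨⟨h1, h2⟩, h3, h4⟩ := fix_of (α := α) fun X =>
    DFunLike.congr_fun ((EmbeddingLike.map_eq_one_iff (f := e.permCongrHom)).1 h) X
  refine ⟨?_, ?_⟩
  · have k : α (a * (t * a * t⁻¹)) = a * (t * a * t⁻¹) := by
      rw [(by decide +kernel : a * (t * a * t⁻¹) = (mk 66)⁻¹ * mk 102), map_mul, map_inv, h2, h3]
    by_contra c
    have c2 := ((nf α).2.resolve_left fun ⟨p, k, _⟩ => c ((by decide +kernel : ∀ p x : M,
      p * x * p⁻¹ * a⁻¹ ∈ Z0 → x ∈ V1) p _ k)).2.2.2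
    simp only [map_mul, map_inv] at k
    exact c ((by decide +kernel : ∀ x ∈ V2, ∀ y : M, x * (y * x * y⁻¹) = a * (t * a * t⁻¹) → x ∈ V1)
      _ c2 _ k)
  · rintro m rfl
    exact (by decide +kernel : ∀ m : M, m * mk 27 * m⁻¹ = mk 27 → m * mk 102 * m⁻¹ = mk 102 →
      m * mk 66 * m⁻¹ = mk 66 → m * mk 25 * m⁻¹ = mk 25 → m = 1 ∨ m = z) m h1 h2 h3 h4

end H9.DW8
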