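import Cfsg.Agent.H9.E7W

/-! Tower E7MAX (row S5934): two more lemmas for the type files. -/

set_option autoImplicit false

namespace H9.E7T

open Module H36.E7M Cfsg.Lie
open H22.BK hiding F

variable {e : chevE7.Idx ≃ Fin 133} {wd : List ℕ → G} {wa : List ℕ → ℕ → ℕ} {c d : ℕ}
  {ws : List ℕ} {ls ex Ms As : List (List ℕ)}

theorem blk_of (hM : ((gens ws ls ex).map fun w => mat 133 (wa w)) = Ms)
    (hA : ((Ms.drop (2 + ws.length)).take ls.length).map (blk c) = As) :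
    (ls.map fun w => blk c (mat 133 (wa w))) = As := by
  rw [← hA, ← hM]
  simp [gens, Function.comp_def, add_comm 2]

theorem WK.big3 (h : WK e wd wa c d) (k : Kit)
    (hM : ((gens ws ls ex).map fun w => mat 133 (wa w)) = Ms) {r j : ℕ} (hr : r < 126)
    (h1 : [r] ∈ gens ws ls ex)
    (q : 22 ≤ tl 133 (spin (Ms.map app) j [2 ^ (c + 125), 2 ^ (c + r)])) :
    22 ≤ finrank F (spanE (D ∩ YY ((gens ws ls ex).map wd))) := by
  refine big2 (h.rl _ hM) (fun t ht => ?_) q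
  have e1 : vec e (2 ^ (c + 125)) = eb 125 := h.eb_eq 125
  have e2 : vec e (2 ^ (c + r)) = eb ⟨r, hr⟩ := h.eb_eq ⟨r, hr⟩
  rcases List.mem_pair.1 ht with t1 | t1 <;> rw [t1]
  · rw [e1]
    exact ⟨z, mem_YY (List.mem_map.2 ⟨_, .head _, h.z⟩), ev_z⟩
  · rw [e2]
    exact ⟨x r, mem_YY (List.mem_map.2 ⟨_, h1, h.one r hr⟩), (k.w ⟨r, hr⟩).1⟩

end H9.E7T
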