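import Cfsg.Agent.H22.E7K
import Cfsg.Agent.H9.E7X
import Cfsg.Agent.H9.E7DA7

/-! Tower E7MAX (row S5934): the type A7. -/

set_option autoImplicit false

namespace H9.E7T.DA7

open H36.E7M H22.E7K
open H22.BK hiding F

theorem hM0 : (gens ws ls ex).map matW = Ms := by decide +kernel
theorem hM : ((gens ws ls ex).map fun w => mat 133 (wa w)) = Ms := (mats_wa _).trans hM0
theorem q1 : ls.all (inR 33 92) = true := by decide +kernel
theorem q2 : ex.all (inR 33 125) = true := by decide +kernel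
theorem q4 : m.length < rk 133 (m ++ [wa [7] (m.headD 0)]) := by decide +kernel
theorem q5 : m ≠ [] := by decide +kernel
theorem lB : B.length + 1 = 13 := by decide +kernel
theorem b2 : red m (2 ^ (7 + 125)) = 0 := by decide +kernel
theorem b3 : m.length ≤ 90 := by decide +kernel
theorem b4 : red B (2 ^ 0) = 0 := by decide +kernel

theorem tA7 (k : Kit) : TA7 := by
  obtain ⟨h1, h2, h3⟩ := wk.base k hM hT hA q1 q2 q3 q4 q5 q6 q7 q8 q9 q10 q11 q12 q13 q14
  rw [lB] at h3
  have hb := wk.big hM qb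
  have hr : Root (YY ((gens ws ls ex).map wd)) :=
    ⟨(k.sc _ _ h2).2.2.2.1 ⟨_, rv_unit k (i := 0) (by decide), mem_of_red e2 b4⟩,
      wk.mod hM q3 b2 b3, big_of h1.z_mem hb⟩
  exact ⟨_, h1, hr, hb, h3⟩

end H9.E7T.DA7
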