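import Cfsg.Agent.H22.E7K
import Cfsg.Agent.H9.E7X
import Cfsg.Agent.H9.E7DD4

/-! Tower E7MAX (row S5934): the type D4. -/

set_option autoImplicit false

namespace H9.E7T.DD4

open H36.E7M H22.E7K
open H22.BK hiding F

theorem hM0 : (gens ws ls ex).map matW = Ms := by decide +kernel
theorem hM : ((gens ws ls ex).map fun w => mat 133 (wa w)) = Ms := (mats_wa _).trans hM0
theorem q1 : ls.all (inR 33 92) = true := by decide +kernel
theorem q2 : ex.all (inR 33 125) = true := by decide +kernel
theorem q4 : m.length < rk 133 (m ++ [wa [3] (m.headD 0)]) := by decide +kernel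
theorem q5 : m ≠ [] := by decide +kernel
theorem lB : B.length + 1 = 9 := by decide +kernel
theorem b2 : red m (2 ^ (7 + 125)) = 0 := by decide +kernel
theorem b3 : m.length ≤ 90 := by decide +kernel
theorem b4 : red B (2 ^ 0) = 0 := by decide +kernel
theorem up : (enum (tst 7 0) (B.map fun b => (b, wa (qw b))) 0 (2 ^ 7)).length ≤ 27 := by
  decide +kernel
def us : List (List ℕ) := [[], [0], [1], [1, 0], [0, 1], [1, 1], [0, 1, 0], [1, 1, 0], [1, 0, 1], [0, 1, 1]]
def vs : List ℕ := [1, 2, 32769, 1073775617, 65536, 32768, 2147549184, 2129920, 2149646338, 65538]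
theorem g2 : us.all (fun u => u.all fun t => Nat.blt t As.length) = true := by decide +kernel
theorem g3 : (us.map fun u => wapp As u (2 ^ 0)) = vs := by decide +kernel
theorem g4 : vs.Nodup := by decide +kernel
theorem g5 : vs.all (fun m => Nat.blt m (2 ^ 32) && Nat.beq (red B m) 0) = true := by
  decide +kernel
theorem g6 : vs.length = 10 := by decide +kernel

theorem tD4 (k : Kit) : TD4 := by
  obtain ⟨h1, h2, h3⟩ := wk.base k hM hT hA q1 q2 q3 q4 q5 q6 q7 q8 q9 q10 q11 q12 q13 q14
  rw [lB] at h3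
  have hb := wk.big hM qb
  have hr : Root (YY ((gens ws ls ex).map wd)) :=
    ⟨(k.sc _ _ h2).2.2.2.1 ⟨_, rv_unit k (i := 0) (by decide), mem_of_red e2 b4⟩,
      wk.mod hM q3 b2 b3, big_of h1.z_mem hb⟩
  have g := wk.rv_ge k (blk_of hM hA) q1 (by decide) g2 g3 g4 g5
  rw [g6] at g
  have u := (wk.rv_up k B).trans up
  exact ⟨_, h1, hr, hb, h3, by rw [rho_eq k h2]; omega, by rw [rho_eq k h2]; omega⟩

end H9.E7T.DD4
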