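import Cfsg.Agent.H22.E7K
import Cfsg.Agent.H9.E7X
import Cfsg.Agent.H9.E7DNT

/-! Tower E7MAX (row S5934): the type NT. -/

set_option autoImplicit false

namespace H9.E7T.DNT

open H36.E7M H22.E7K
open H22.BK hiding F

theorem hM0 : (gens ws ls ex).map matW = Ms := by decide +kernel
theorem hM : ((gens ws ls ex).map fun w => mat 133 (wa w)) = Ms := (mats_wa _).trans hM0
theorem q1 : ls.all (inR 33 92) = true := by decide +kernel
theorem q2 : ex.all (inR 33 125) = true := by decide +kernel
theorem q4 : m.length < rk 133 (m ++ [wa [3] (m.headD 0)]) := by decide +kernel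
theorem q5 : m ≠ [] := by decide +kernel
theorem lB : B.length + 1 = 1 := by decide +kernel
theorem up : (enum (tst 7 0) (B.map fun b => (b, wa (qw b))) 0 (2 ^ 7)).length ≤ 0 := by
  decide +kernel

theorem tNT (k : Kit) : TNT := by
  obtain ⟨h1, h2, h3⟩ := wk.base k hM hT hA q1 q2 q3 q4 q5 q6 q7 q8 q9 q10 q11 q12 q13 q14
  rw [lB] at h3
  exact ⟨_, h1, deg_of k h2 ((wk.rv_up k B).trans up), wk.big hM qb, h3.trans (pow_one 2)⟩

end H9.E7T.DNT
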