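import Cfsg.Agent.H36.E7MSpec
import Cfsg.Agent.H22.E7K0

/-! Tower E7MAX (row S5934): from bit certificates to the type data. -/

set_option autoImplicit false
set_option linter.unusedSectionVars false

namespace H9.E7T

open Module H36.E7M Cfsg.Lie
open H22.BK hiding F

section Gen

variable {Γ : Type} [Group Γ] [Finite Γ] {W : Type} [AddCommGroup W] [Module F W]

theorem inv_closure (σ : Γ →* (W →ₗ[F] W)) {T : Set Γ} {S : Submodule F W}
    (h : ∀ g ∈ T, ∀ v ∈ S, σ g v ∈ S) : ∀ g ∈ Subgroup.closure T, ∀ v ∈ S, σ g v ∈ S := by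
  intro g hg
  rw [← Subgroup.mem_toSubmonoid, Subgroup.closure_toSubmonoid_of_finite] at hg
  induction hg using Submonoid.closure_induction with
  | mem a ha => exact h a ha
  | one => intro v hv; rwa [map_one]
  | mul a b _ _ ha hb => intro v hv; rw [map_mul]; exact ha _ (hb v hv)

theorem span_inv (f : W →ₗ[F] W) {X : Set W} (h : ∀ v ∈ X, f v ∈ X) {v : W}
    (hv : v ∈ Submodule.span F X) : f v ∈ Submodule.span F X :=
  (Submodule.span_le (p := (Submodule.span F X).comap f)).2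
    (fun u hu => Submodule.subset_span (h u hu)) hv

theorem map_mul' (σ : Γ →* (W →ₗ[F] W)) (a b : Γ) (U : Submodule F W) :
    U.map (σ (a * b)) = (U.map (σ b)).map (σ a) := by
  rw [map_mul, ← Submodule.map_comp]; rfl

theorem sig_inj (σ : Γ →* (W →ₗ[F] W)) (g : Γ) : Function.Injective (σ g) :=
  Function.LeftInverse.injective (g := σ g⁻¹) fun u => by
    rw [← Module.End.mul_apply, ← map_mul, inv_mul_cancel, map_one]; rfl

/-- Two subspaces that are kept or interchanged. -/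
theorem pair [FiniteDimensional F W] (σ : Γ →* (W →ₗ[F] W)) {T : Set Γ} {U U' : Submodule F W}
    (hd : finrank F U = finrank F U')
    (h : ∀ g ∈ T, ((∀ v ∈ U, σ g v ∈ U) ∧ ∀ v ∈ U', σ g v ∈ U') ∨
      ((∀ v ∈ U, σ g v ∈ U') ∧ ∀ v ∈ U', σ g v ∈ U))
    {z : Γ} (hz : (∀ v ∈ U, σ z v ∈ U) ∧ ∀ v ∈ U', σ z v ∈ U') {u : Γ}
    (hu : u ∈ Subgroup.closure T) : ∀ v ∈ U, σ (u * z * u⁻¹) v ∈ U := by
  have k : ∀ (g : Γ) (A B : Submodule F W), finrank F A = finrank F B → (∀ v ∈ A, σ g v ∈ B) →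
      A.map (σ g) = B := fun g A B h1 h2 =>
    Submodule.eq_of_le_of_finrank_le (Submodule.map_le_iff_le_comap.2 h2) (by
      rw [← (Submodule.equivMapOfInjective _ (sig_inj σ g) A).finrank_eq, h1])
  have key : ∀ g ∈ Subgroup.closure T, (U.map (σ g) = U ∧ U'.map (σ g) = U') ∨
      (U.map (σ g) = U' ∧ U'.map (σ g) = U) := by
    intro g hg
    rw [← Subgroup.mem_toSubmonoid, Subgroup.closure_toSubmonoid_of_finite] at hg
    induction hg using Submonoid.closure_induction with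
    | mem a ha =>
      exact (h a ha).imp (fun t => ⟨k _ _ _ rfl t.1, k _ _ _ rfl t.2⟩)
        fun t => ⟨k _ _ _ hd t.1, k _ _ _ hd.symm t.2⟩
    | one => left; simp [Module.End.one_eq_id]
    | mul a b _ _ ha hb =>
      rw [map_mul', map_mul']
      rcases ha with ha | ha <;> rcases hb with hb | hb <;> simp [ha, hb]
  have e : U.map (σ (u * z * u⁻¹)) = U := by
    have h1 : (U.map (σ u⁻¹)).map (σ u) = U := by
      rw [← map_mul', mul_inv_cancel, map_one, Module.End.one_eq_id, Submodule.map_id]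
    rw [map_mul', map_mul']
    rcases key _ (inv_mem hu) with h2 | h2 <;> rw [h2.1] at h1 ⊢
    · rw [k _ _ _ rfl hz.1, h1]
    · rw [k _ _ _ rfl hz.2, h1]
  exact fun v hv => e ▸ ⟨v, hv, rfl⟩

end Gen

section Bits

variable {I : Type} [Fintype I] [DecidableEq I] {n : ℕ} {e : I ≃ Fin n}

theorem dot_tr {M : List ℕ} (hM : M.length = n) (a w : ℕ) :
    vec e (app (tr n M) a) ⬝ᵥ vec e w = vec e a ⬝ᵥ vec e (app M w) := by
  rw [vec_app hM, vec_app (by simp [tr]), sum_dotProduct, dotProduct_sum]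
  simp only [dotProduct, smul_eq_mul, Pi.smul_apply]
  rw [Finset.sum_comm]
  refine Finset.sum_congr rfl fun i _ => Finset.sum_congr rfl fun j _ => ?_
  have : vec e ((tr n M).getD (e j) 0) i = vec e (M.getD (e i) 0) j := by
    rw [vec, vec, ← rowF_bit M]; simp [tr]
  rw [this]; ring

/-- The maps `fs` have the matrices `Ms`. -/
def RL (e : I ≃ Fin n) (fs : List ((I → F) →ₗ[F] (I → F))) (Ms : List (List ℕ)) : Prop :=
  List.Forall₂ (fun f M => Rep e f (app M) ∧ M.length = n) fs Ms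

variable {fs : List ((I → F) →ₗ[F] (I → F))} {Ms : List (List ℕ)} {S : Submodule F (I → F)}

theorem RL.nil : RL e [] [] := List.Forall₂.nil
theorem RL.cons {f : (I → F) →ₗ[F] (I → F)} {ψ : ℕ → ℕ} {M : List ℕ} (h : Rep e f ψ)
    (q : mat n ψ = M) (t : RL e fs Ms) : RL e (f :: fs) (M :: Ms) :=
  List.Forall₂.cons ⟨h.toMat q, by rw [← q]; simp [mat]⟩ t

theorem RL.len (h : RL e fs Ms) : ∀ M ∈ Ms, M.length = n := by
  induction h with
  | nil => simp
  | cons h _ ih => exact List.forall_mem_cons.2 ⟨h.2, ih⟩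

theorem RL.cl (h : RL e fs Ms) (k : ∀ f ∈ fs, ∀ v ∈ S, f v ∈ S) : Cl e (Ms.map app) S := by
  induction h with
  | nil => exact Cl.nil
  | cons h _ ih =>
    exact Cl.cons h.1 (k _ List.mem_cons_self) (ih fun f hf => k f (List.mem_cons_of_mem _ hf))

theorem RL.set (h : RL e fs Ms) {X : Set (I → F)} (k : ∀ f ∈ fs, ∀ v ∈ X, f v ∈ X) :
    ∀ M ∈ Ms, ∀ m, vec e m ∈ X → vec e (app M m) ∈ X := by
  induction h with
  | nil => simp
  | cons h _ ih =>
    refine List.forall_mem_cons.2 ⟨fun m hm => ?_, ih fun f hf => k f (.tail _ hf)⟩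
    rw [← h.1]
    exact k _ (.head _) _ hm

/-- `M` maps the span of `A` into the span of `B` -/
noncomputable def mps (A B M : List ℕ) : Bool := A.all fun b => Nat.beq (red B (app M b)) 0

theorem RL.all (h : RL e fs Ms) {p : List ℕ → Bool} {P : ((I → F) →ₗ[F] (I → F)) → Prop}
    (k : ∀ f M, Rep e f (app M) → p M = true → P f) (q : Ms.all p = true) : ∀ f ∈ fs, P f := by
  induction h with
  | nil => simp
  | cons h _ ih =>
    rw [List.all_cons, Bool.and_eq_true] at q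
    exact List.forall_mem_cons.2 ⟨k _ _ h.1 q.1, ih q.2⟩

theorem RL.inv (h : RL e fs Ms) {B : List ℕ} (q : Ms.all (mps B B) = true) :
    ∀ f ∈ fs, ∀ v ∈ sp e B, f v ∈ sp e B := h.all (fun _ _ r t => r.inv t) q

/-- An invariant subspace fixed by `f` is small. -/
theorem RL.fix (h : RL e fs Ms) (k : ∀ f ∈ fs, ∀ v ∈ S, f v ∈ S) {f : (I → F) →ₗ[F] (I → F)}
    {M T : List ℕ} (hf : Rep e f (app M)) (hM : M.length = n) (hT : tr n M = T)
    (hS : ∀ v ∈ S, f v = v) {Ts : List (List ℕ)} (hTs : Ms.map (tr n) = Ts) (j : ℕ) (as : List ℕ) :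
    finrank F S + tl n (spin (Ts.map app) j (as.map fun a => Nat.xor (app T a) a)) ≤ n := by
  subst hT hTs
  have h1 := spin_dim ((h.cl k).perp h.len) j (l := as.map fun a => Nat.xor (app (tr n M) a) a)
    fun b hb v hv => by
      obtain ⟨a, -, rfl⟩ := List.mem_map.1 hb
      obtain ⟨w, rfl⟩ := vec_surj e v
      change vec e (app (tr n M) a ^^^ a) ⬝ᵥ _ = 0
      rw [vec_xor, add_dotProduct, dot_tr hM, ← hf, hS _ hv, F_add_self]
  exact (Nat.add_le_add_left h1 _).trans (finrank_perp e S).le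

theorem not_mem_sp {B : List ℕ} {v : ℕ} (h : B.length < rk n (B ++ [v])) : vec e v ∉ sp e B :=
  fun hv => by
    have h1 := rk_le_of e (l := B ++ [v]) (S := sp e B) fun b hb => by
      rcases List.mem_append.1 hb with hb | hb
      · exact mem_sp e hb
      · rwa [List.mem_singleton.1 hb]
    have := finrank_sp_le e B
    omega

theorem sp_le_of {A B : List ℕ} (h : A.all (fun b => Nat.beq (red B b) 0) = true) :
    sp e A ≤ sp e B := (sp_le e).2 fun b hb =>
  mem_of_red e (Nat.eq_of_beq_eq_true (List.all_eq_true.1 h b hb))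

end Bits

section E7

abbrev e2 : Fin 32 ≃ Fin 32 := Equiv.refl _

/-- the subgroup generated by a list -/
def YY (gs : List G) : Subgroup G := Subgroup.closure {g | g ∈ gs}

theorem mem_YY {gs : List G} {g : G} (h : g ∈ gs) : g ∈ YY gs := Subgroup.subset_closure h

variable {e : chevE7.Idx ≃ Fin 133} {gs : List G} {Ms : List (List ℕ)} {Y : Subgroup G}

theorem inv_YY {S : Submodule F LA} (h : ∀ f ∈ gs.map ρ, ∀ v ∈ S, f v ∈ S) : Inv (YY gs) S :=
  inv_closure ρ fun g hg => h _ (List.mem_map.2 ⟨g, hg, rfl⟩)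

theorem of_inv {S : Submodule F LA} (h : Inv (YY gs) S) : ∀ f ∈ gs.map ρ, ∀ v ∈ S, f v ∈ S :=
  fun _ hf => by
    obtain ⟨g, hg, rfl⟩ := List.mem_map.1 hf
    exact h g (mem_YY hg)

theorem inv_chk (h : RL e (gs.map ρ) Ms) {B : List ℕ} (q : Ms.all (mps B B) = true) :
    Inv (YY gs) (sp e B) := inv_YY (h.inv q)

theorem ne_top {B : List ℕ} (h : Inv Y (sp e B)) {g : G} {ψ : ℕ → ℕ} (r : Rep e (ρ g) ψ) {b : ℕ}
    (hb : b ∈ B) (q : B.length < rk 133 (B ++ [ψ b])) : Y ≠ ⊤ := fun t =>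
  not_mem_sp (e := e) q (r b ▸ h g (t ▸ Subgroup.mem_top g) _ (mem_sp e hb))

theorem rho_cj (g a : G) (v : LA) : ρ (cj g a) (ρ g v) = ρ g (ρ a v) := by
  simp only [← Module.End.mul_apply, ← map_mul, cj, inv_mul_cancel_right]

theorem orb_cj {a g : G} (hg : g ∈ Y) (h : a ∈ orb Y) : cj g a ∈ orb Y := by
  obtain ⟨u, hu, rfl⟩ := h
  exact ⟨g * u, mul_mem hg hu, cj_cj _ _ _⟩

theorem z_orb : z ∈ orb Y := ⟨1, one_mem _, (cj_one z).symm⟩

theorem inv_fix : Inv Y (fixS (orb Y)) := fun g hg v hv a ha => by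
  rw [← cj_cj_inv g a, rho_cj, hv _ (orb_cj (inv_mem hg) ha)]

theorem inv_spanE {S : Set G} (h : ∀ g ∈ Y, ∀ a ∈ S, cj g a ∈ S) : Inv Y (spanE S) :=
  fun g hg v hv => by
    refine span_inv (ρ g) (X := {v | ∃ a ∈ S, Ev a v}) ?_ hv
    rintro u ⟨a, ha, h1⟩
    exact ⟨_, h g hg a ha, h1.cj g⟩

theorem fix_le (h : RL e (gs.map ρ) Ms) {M T : List ℕ} (hf : Rep e (ρ z) (app M))
    (hM : M.length = 133) (hT : tr 133 M = T) {Ts : List (List ℕ)} (hTs : Ms.map (tr 133) = Ts)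
    {j : ℕ} {as : List ℕ}
    (q : 112 ≤ tl 133 (spin (Ts.map app) j (as.map fun a => Nat.xor (app T a) a))) :
    finrank F (fixS (orb (YY gs))) ≤ 21 := by
  exact Nat.le_of_add_le_add_right (b := 112) ((Nat.add_le_add_left q _).trans
    (h.fix (of_inv inv_fix) hf hM hT (fun v hv => hv z z_orb) hTs j as))

theorem big (h : RL e (gs.map ρ) Ms) {t j : ℕ} (ht : vec e t = eb 125)
    (q : 22 ≤ tl 133 (spin (Ms.map app) j [t])) : Big (YY gs) :=
  q.trans (spin_dim (h.cl (of_inv (inv_spanE fun _ hg _ ha => orb_cj hg ha))) j fun b hb => by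
    rw [List.mem_singleton.1 hb, ht]
    exact Submodule.subset_span ⟨z, z_orb, ev_z⟩)

theorem big_of (hz : z ∈ Y) (h : Big Y) : 22 ≤ finrank F (spanE (D ∩ Y)) :=
  h.trans (Submodule.finrank_mono (Submodule.span_mono fun _ ⟨a, ⟨u, hu, t⟩, h1⟩ =>
    ⟨a, ⟨⟨u, t⟩, t ▸ cj_mem hu hz⟩, h1⟩))

theorem big2 (h : RL e (gs.map ρ) Ms) {l : List ℕ} {j : ℕ}
    (ht : ∀ t ∈ l, ∃ a ∈ YY gs, Ev a (vec e t))
    (q : 22 ≤ tl 133 (spin (Ms.map app) j l)) : 22 ≤ finrank F (spanE (D ∩ YY gs)) :=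
  q.trans (spin_dim (h.cl (of_inv (inv_spanE (S := D ∩ YY gs)
    fun g hg _ ha => ⟨D_cj g ha.1, cj_mem hg ha.2⟩))) j
    fun b hb => by
      obtain ⟨a, h1, h2⟩ := ht b hb
      exact Submodule.subset_span ⟨a, ⟨h2.imp fun _ t => t.1, h1⟩, h2⟩)

theorem u27 (h : RL e (gs.map ρ) Ms) {M : List ℕ} (hf : Rep e (ρ z) (app M)) {A B : List ℕ}
    (a1 : tri 133 A = true) (a2 : A.length = 27) (b1 : tri 133 B = true) (b2 : B.length = 27)
    (q : Ms.all (fun N => (mps A A N && mps B B N) || (mps A B N && mps B A N)) = true)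
    (q1 : mps A A M = true) (q2 : mps B B M = true) : U27 (YY gs) := by
  have d1 : finrank F (sp e A) = 27 := (finrank_sp e a1).trans a2
  have d2 : finrank F (sp e B) = 27 := (finrank_sp e b1).trans b2
  refine ⟨sp e A, d1, ?_⟩
  rintro _ ⟨u, hu, rfl⟩
  refine pair ρ (d1.trans d2.symm) (fun g hg => ?_) ⟨hf.maps q1, hf.maps q2⟩ hu
  refine h.all (P := fun f => ((∀ v ∈ sp e A, f v ∈ sp e A) ∧ ∀ v ∈ sp e B, f v ∈ sp e B) ∨
    ((∀ v ∈ sp e A, f v ∈ sp e B) ∧ ∀ v ∈ sp e B, f v ∈ sp e A)) (fun f N r t => ?_) q _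
    (List.mem_map.2 ⟨g, hg, rfl⟩)
  simp only [Bool.or_eq_true, Bool.and_eq_true] at t
  exact t.imp (fun t => ⟨r.maps t.1, r.maps t.2⟩) fun t => ⟨r.maps t.1, r.maps t.2⟩

/-! ### the space `V` -/

variable (k : Kit) {ls : List G} {As : List (List ℕ)} {B : List ℕ}
include k

/-- `Y ⊓ Q` is the preimage of the span of `B` -/
theorem pre (hz : z ∈ Y) (hy : y ∈ Y) (hY : Y ≠ ⊤) (hl : ∀ l ∈ ls, l ∈ Y ∧ l ∈ L)
    (h : RL e2 (ls.map A) As) {ws : List ℕ} (hw : ∀ w ∈ ws, ∃ q ∈ Y, q ∈ Q ∧ φ q = vec e2 w)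
    {j : ℕ} (q : B.all (fun b => Nat.beq (red (spin (As.map app) j ws) b) 0) = true)
    {p : List (List ℕ)} {T : List ℕ} {v a : ℕ} (hT : mat 32 (papp As p) = T)
    (hc : nortonChk 32 B T v a = true) (h1 : 32 ≤ tl 32 (spin (As.map app) j (B ++ [v])))
    (h2 : 32 ≤ tl 32 (spin ((As.map (tr 32)).map app) j [a]) + rk 32 B) :
    (∀ M : Subgroup G, Y ≤ M → M ≠ ⊤ → M ⊓ Q ≤ Y) ∧ Pre Y (sp e2 B) := by
  refine k.sb Y _ hz hy hY ((sp_le_of q).trans (spin_le (h.cl fun f hf u hu => ?_) j fun w t => ?_))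
    fun S s1 s2 => nortonTop e2 s1 h.len (h.cl fun f hf => ?_) hT hc h1 h2
  · obtain ⟨l, t, rfl⟩ := List.mem_map.1 hf
    refine span_inv (A l) (X := {v | ∃ w ∈ Y, w ∈ Q ∧ φ w = v}) ?_ hu
    rintro _ ⟨w, w1, w2, rfl⟩
    exact ⟨cj l w, cj_mem (hl l t).1 w1, k.lq.1 l (hl l t).2 w w2,
      k.phi.2.2.2.2 l (hl l t).2 w w2⟩
  · exact Submodule.subset_span (hw w t)
  · obtain ⟨l, t, rfl⟩ := List.mem_map.1 hf
    exact s2 l (hl l t).1 (hl l t).2

omit k in
theorem bf_eq (u v : V) : Bf u v = u ⬝ᵥ fun i => v i.rev := rfl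

/-- reverse the 32 bits -/
noncomputable def rv (b : ℕ) : ℕ := app ((List.range 32).map fun j => 2 ^ (31 - j)) b

omit k in
theorem vec_rv (b : ℕ) : vec e2 (rv b) = fun i => vec e2 b i.rev := by
  rw [rv, vec_app (by simp)]
  funext i
  have : ∀ j : Fin 32, vec e2 (((List.range 32).map fun j => 2 ^ (31 - j)).getD (e2 j) 0) =
      Pi.single j.rev 1 := fun j => by
    rw [← vec_pow e2]
    congr 1
    simp [Fin.val_rev]
  simp only [this, Finset.sum_apply, Pi.smul_apply, smul_eq_mul]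
  rw [Finset.sum_eq_single i.rev]
  · simp
  · intro j _ hj
    rw [Pi.single_eq_of_ne (fun t => hj (by rw [t, Fin.rev_rev])), mul_zero]
  · simp

omit k in
/-- the form is nondegenerate on the span of `B`; `C` spans the complement of it -/
theorem gram {C : List ℕ} (q : C.all (fun c => B.all fun b => !dt 32 c b) = true)
    (h : 32 ≤ rk 32 (B.map rv ++ C)) : ∀ u ∈ sp e2 B, u ≠ 0 → ∃ v ∈ sp e2 B, Bf u v = 1 := by
  intro u hu h0
  by_contra hn
  push Not at hn
  have h1 : rk 32 (B.map rv ++ C) ≤ finrank F (perp (Submodule.span F {u})) :=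
    rk_le_of e2 fun c hc w hw => by
      obtain ⟨t, rfl⟩ := Submodule.mem_span_singleton.1 hw
      rw [dotProduct_smul]
      refine smul_eq_zero_of_right _ ?_
      rcases List.mem_append.1 hc with hc | hc
      · obtain ⟨b, hb, rfl⟩ := List.mem_map.1 hc
        have := hn _ (mem_sp e2 hb)
        rw [bf_eq, ← vec_rv, dotProduct_comm] at this
        revert this
        generalize vec e2 (rv b) ⬝ᵥ u = s
        revert s; decide
      · exact mem_perp_sp (List.all_eq_true.1 q c hc) u hu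
  have h2 := finrank_perp e2 (Submodule.span F {u})
  rw [finrank_span_singleton h0] at h2
  change _ ≤ finrank H22.BK.F _ at h1
  omega

theorem base (hz : z ∈ gs) (hy : y ∈ gs) (hY : YY gs ≠ ⊤)
    (hg : ∀ g ∈ gs, g ∈ Q ∨ g ∈ L ∨ Rel (-2) z g)
    (hp : (∀ M : Subgroup G, YY gs ≤ M → M ≠ ⊤ → M ⊓ Q ≤ YY gs) ∧ Pre (YY gs) (sp e2 B))
    (hb : ∀ u ∈ sp e2 B, u ≠ 0 → ∃ v ∈ sp e2 B, Bf u v = 1)
    (hf : finrank F (fixS (orb (YY gs))) ≤ 21) : Base (YY gs) :=
  ⟨mem_YY hz, mem_YY hy, hY, hp.1, (k.sc _ _ hp.2).2.2.1 hb,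
    Subgroup.closure_mono fun g t => ⟨mem_YY t, by
      rcases hg g t with h | h | h
      exacts [Or.inl (k.p1.Qz g h), Or.inl (k.lq.2.1 g h).1, Or.inr h]⟩, hf⟩

theorem nq (hp : Pre Y (sp e2 B)) (h : tri 32 B = true) : nQ Y = 2 ^ (B.length + 1) := by
  rw [(k.sc _ _ hp).1]
  exact congrArg (fun t => 2 ^ (t + 1)) (finrank_sp e2 h)

/-- images of unit vectors under words in the matrices of elements of `L` -/
theorem rv_word (hl : ∀ l ∈ ls, l ∈ L) (h : RL e2 (ls.map A) As) (w : List ℕ) {m : ℕ}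
    (hm : vec e2 m ∈ RV) (hw : ∀ i ∈ w, i < As.length) : vec e2 (wapp As w m) ∈ RV := by
  have key : ∀ M ∈ As, ∀ m, vec e2 m ∈ RV → vec e2 (app M m) ∈ RV := by
    clear hw
    refine RL.set h fun f hf => ?_
    obtain ⟨l, t, rfl⟩ := List.mem_map.1 hf
    exact k.sr.2.2.1 l (hl l t)
  induction w with
  | nil => exact hm
  | cons i t ih =>
    have : wapp As (i :: t) m = app (As.getD i []) (wapp As t m) := frc_eq _ _
    rw [this, List.getD_eq_getElem _ _ (hw i (.head _))]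
    exact key _ (List.getElem_mem _) _ (ih fun j s => hw j (.tail _ s))

theorem rv_unit {i : ℕ} (hi : i < 32) : vec e2 (2 ^ i) ∈ RV := by
  have := vec_pow e2 ⟨i, hi⟩
  exact this ▸ k.sr.2.1 ⟨i, hi⟩

omit k in
theorem ncard_ge {l : List ℕ} {S : Set V} (h : ∀ m ∈ l, vec e2 m ∈ S) (hn : l.Nodup)
    (hl : ∀ m ∈ l, m < 2 ^ 32) : l.length ≤ S.ncard := by
  have : (l.map (vec e2)).Nodup := hn.map_on fun a ha b hb => vec_inj e2 (hl a ha) (hl b hb)
  rw [← List.length_map (vec e2), ← List.toFinset_card_of_nodup this, ← Set.ncard_coe_finset]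
  refine Set.ncard_le_ncard (fun v hv => ?_) (Set.toFinite _)
  obtain ⟨m, hm, rfl⟩ := List.mem_map.1 (List.mem_toFinset.1 hv)
  exact h m hm

omit k in
theorem ncard_le {l : List ℕ} {S : Set V} (h : ∀ v ∈ S, ∃ m ∈ l, vec e2 m = v) :
    S.ncard ≤ l.length := by
  rw [← List.length_map (vec e2)]
  refine le_trans ?_ (List.toFinset_card_le _)
  rw [← Set.ncard_coe_finset]
  exact Set.ncard_le_ncard (fun v hv => List.mem_toFinset.2 (List.mem_map.2 (h v hv)))
    (Set.toFinite _)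

/-- run through the span: `(b, ψ)` is a vector with the action of a lift; keep the nonzero
vectors that pass the test -/
noncomputable def enum (tst : ℕ → Bool) (l : List (ℕ × (ℕ → ℕ))) : ℕ → ℕ → List ℕ :=
  List.rec (motive := fun _ => ℕ → ℕ → List ℕ)
    (fun v u => cond (tst u && !Nat.beq v 0) [v] [])
    (fun p _ r v u => r v u ++ frc (Nat.xor p.1 v) fun v' => frc (p.2 u) (r v')) l

theorem enum_spec {tst : ℕ → Bool} (ht : ∀ u, Crit (vec e u) → tst u = true)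
    {l : List (ℕ × (ℕ → ℕ))} (hl : ∀ p ∈ l, ∃ q ∈ Q, φ q = vec e2 p.1 ∧ Rep e (ρ q) p.2)
    {q : G} (hq : q ∈ Q) {v u : ℕ} (h1 : φ q = vec e2 v) (h2 : ρ q (eb 0) = vec e u) {t : V}
    (h3 : t ∈ RV) (h4 : t + vec e2 v ∈ sp e2 (l.map Prod.fst)) :
    ∃ m ∈ enum tst l v u, vec e2 m = t := by
  induction l generalizing q v u with
  | nil =>
    rw [List.map_nil, sp_nil, Submodule.mem_bot] at h4
    have h5 : vec e2 v = t := by
      have := congrArg (· + vec e2 v) h4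
      simpa [add_assoc, v_add_self] using this.symm
    have h6 := ht u (h2 ▸ k.sr.2.2.2 q hq (by rw [h1, h5]; exact h3))
    have h7 : Nat.beq v 0 = false := by
      cases h8 : Nat.beq v 0
      · rfl
      · rw [Nat.eq_of_beq_eq_true h8, vec_zero] at h5
        exact (k.sr.1 (h5 ▸ h3)).elim
    exact ⟨v, by simp [enum, h6, h7], h5⟩
  | cons p l ih =>
    have e1 : enum tst (p :: l) v u = enum tst l v u ++ enum tst l (p.1 ^^^ v) (p.2 u) := by
      change _ ++ frc _ _ = _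
      rw [frc_eq, frc_eq]; rfl
    obtain ⟨w, w1, w2, w3⟩ := hl p (.head _)
    have hl' := fun p' s => hl p' (.tail _ s)
    rw [List.map_cons, sp_cons, Submodule.mem_sup] at h4
    obtain ⟨_, ha, b, hb, h5⟩ := h4
    obtain ⟨c, rfl⟩ := Submodule.mem_span_singleton.1 ha
    rw [e1]
    have : c = 0 ∨ c = 1 := (by decide : ∀ c : ZMod 2, c = 0 ∨ c = 1) c
    rcases this with rfl | rfl
    · obtain ⟨m, h6, h7⟩ := ih hl' hq h1 h2 (by rw [← h5]; simpa using hb)
      exact ⟨m, List.mem_append_left _ h6, h7⟩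
    · obtain ⟨m, h6, h7⟩ := ih hl' (mul_mem w1 hq) (v := p.1 ^^^ v) (u := p.2 u)
        (by rw [k.phi.1 w w1 q hq, w2, h1, vec_xor])
        (by rw [map_mul, Module.End.mul_apply, h2, w3])
        (by
          rw [vec_xor, add_left_comm, ← h5, one_smul, ← add_assoc, v_add_self, zero_add]
          exact hb)
      exact ⟨m, List.mem_append_right _ h6, h7⟩

theorem rv_le {tst : ℕ → Bool} (ht : ∀ u, Crit (vec e u) → tst u = true)
    {l : List (ℕ × (ℕ → ℕ))} (hl : ∀ p ∈ l, ∃ q ∈ Q, φ q = vec e2 p.1 ∧ Rep e (ρ q) p.2)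
    {u : ℕ} (hu : vec e u = eb 0) :
    (RV ∩ sp e2 (l.map Prod.fst)).ncard ≤ (enum tst l 0 u).length :=
  ncard_le fun t h => enum_spec k ht hl (one_mem Q) (v := 0)
    (by rw [vec_zero]; exact (k.phi.2.1 1 (one_mem Q)).2 (Or.inl rfl))
    (by rw [map_one, hu]; rfl) h.1 (by simpa using h.2)

end E7

end H9.E7T
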