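import Cfsg.Agent.H11.FBSpec

/-! Job OR of the tower FB: transport of OD to a subgroup acting on an invariant set. -/

set_option autoImplicit false

namespace H9.FBOR

open MulAction Subgroup H11.FB

universe u v

variable {G : Type u} {Ω : Type v} [Group G] [MulAction G Ω]

/-- the action of `M` on the invariant set `S` -/
@[reducible] def act (M : Subgroup G) (S : Set Ω) (h : ∀ m ∈ M, ∀ x ∈ S, m • x ∈ S) :
    MulAction M S where
  smul m x := ⟨(m : G) • (x : Ω), h m m.2 x x.2⟩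
  one_smul x := Subtype.ext (one_smul G (x : Ω))
  mul_smul m n x := Subtype.ext (mul_smul (m : G) (n : G) (x : Ω))

theorem nm_map {M : Subgroup G} {N : Subgroup M} (h : Nm (⊤ : Subgroup M) N) :
    Nm M (N.map M.subtype) := by
  rintro m hm _ ⟨x, hx, rfl⟩
  exact ⟨_, h ⟨m, hm⟩ trivial x hx, rfl⟩

theorem nm_sub {M N : Subgroup G} (h : Nm M N) : Nm (⊤ : Subgroup M) (N.subgroupOf M) := by
  intro m _ x hx
  exact h m m.2 x hx

theorem jobOR : JobOR.{u, v} := by
  intro hOD G Ω _ _ _ _ M S hS hf hodd htr a ha b hb hab hinv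
  letI : MulAction M S := act M S hS
  have hsm : ∀ (m : M) (x : S), ((m • x : S) : Ω) = (m : G) • (x : Ω) := fun _ _ => rfl
  haveI : FaithfulSMul M S := ⟨fun {m n} h => by
    have h1 : ((n⁻¹ * m : M) : G) = 1 := hf _ (n⁻¹ * m).2 fun x hx => by
      have := congrArg Subtype.val (h ⟨x, hx⟩)
      rw [hsm, hsm] at this
      rw [coe_mul, coe_inv, mul_smul, inv_smul_eq_iff]
      exact this
    have h2 : n⁻¹ * m = 1 := Subtype.ext h1
    exact (inv_mul_eq_one.1 h2).symm⟩
  have hcard : Nat.card S = S.ncard := Nat.card_coe_set_eq S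
  have out := hOD (G := M) (Ω := S) (hcard ▸ hodd) (fun a b c d hab hcd => by
      obtain ⟨g, hg, e1, e2⟩ := htr a a.2 b b.2 c c.2 d d.2 (fun e => hab (Subtype.ext e))
        (fun e => hcd (Subtype.ext e))
      exact ⟨⟨g, hg⟩, Subtype.ext e1, Subtype.ext e2⟩) ⟨a, ha⟩ ⟨b, hb⟩
    (fun e => hab (congrArg Subtype.val e)) (fun x hx y hy x1 xx y1 yy xy => by
      rw [mem_Y2] at hx hy
      refine Subtype.ext (hinv x ⟨x.2, mem_Y2.2 ⟨congrArg Subtype.val hx.1,
        congrArg Subtype.val hx.2⟩⟩ y ⟨y.2, mem_Y2.2 ⟨congrArg Subtype.val hy.1,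
        congrArg Subtype.val hy.2⟩⟩ (fun e => x1 (Subtype.ext e)) (congrArg Subtype.val xx)
        (fun e => y1 (Subtype.ext e)) (congrArg Subtype.val yy) (congrArg Subtype.val xy)))
  rcases out with ⟨N, -, hn, ht, hr⟩ | ⟨J, -, hJ, hn, hmin, hcase⟩
  · refine Or.inl ⟨N.map M.subtype, map_subtype_le N, nm_map hn, fun x hx y hy => ?_, ?_⟩
    · obtain ⟨g, hg, e⟩ := ht ⟨x, hx⟩ trivial ⟨y, hy⟩ trivial
      exact ⟨g, ⟨g, hg, rfl⟩, congrArg Subtype.val e⟩
    · rintro x hx _ ⟨g, hg, rfl⟩ e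
      exact congrArg Subtype.val (hr ⟨x, hx⟩ trivial g hg (Subtype.ext e))
  · refine Or.inr ⟨J.map M.subtype, map_subtype_le J,
      fun e => hJ ((map_eq_bot_iff_of_injective _ M.subtype_injective).1 e), nm_map hn,
      fun N hNM hN hN1 => ?_, ?_⟩
    · have h1 : N.subgroupOf M ≠ ⊥ := by
        intro e
        apply hN1
        rw [← map_subgroupOf_eq_of_le hNM, e, Subgroup.map_bot]
      rw [← map_subgroupOf_eq_of_le hNM]
      exact map_mono (hmin _ le_top (nm_sub hN) h1)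
    · rcases hcase with hQ | ⟨h11, hJc⟩
      · refine Or.inl fun c hc => ?_
        obtain ⟨Q, hp, hmem, ht, hr⟩ := hQ ⟨c, hc⟩ trivial
        refine ⟨Q.map M.subtype, hp.map _, fun x => ⟨?_, ?_⟩, fun x hx y hy xc yc => ?_, ?_⟩
        · rintro ⟨g, hg, rfl⟩
          obtain ⟨h1, h2, k, h3⟩ := (hmem g).1 hg
          exact ⟨⟨g, h1, rfl⟩, congrArg Subtype.val h2, k, congrArg Subtype.val h3⟩
        · rintro ⟨⟨g, hg, rfl⟩, h2, k, h3⟩
          exact ⟨g, (hmem g).2 ⟨hg, Subtype.ext h2, k, Subtype.ext h3⟩, rfl⟩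
        · obtain ⟨g, hg, e⟩ := ht ⟨x, hx⟩ trivial ⟨y, hy⟩ trivial
            (fun e => xc (congrArg Subtype.val e)) (fun e => yc (congrArg Subtype.val e))
          exact ⟨g, ⟨g, hg, rfl⟩, congrArg Subtype.val e⟩
        · rintro x hx xc _ ⟨g, hg, rfl⟩ e
          exact congrArg Subtype.val (hr ⟨x, hx⟩ trivial (fun e => xc (congrArg Subtype.val e)) g hg
            (Subtype.ext e))
      · refine Or.inr ⟨?_, ?_⟩
        · rw [← hcard, ← Set.ncard_univ]
          exact h11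
        · rw [card_map_of_injective M.subtype_injective]
          exact hJc

end H9.FBOR
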