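import Cfsg.Agent.H9.GlRep
import Cfsg.Agent.H10.Uniserial
import Cfsg.Agent.H12.Offender
import Cfsg.Agent.H98.Coprime

/-! Glauberman's replacement for quadratic offenders inside an ambient group. -/

set_option autoImplicit false

namespace H9.Gl

open Module Subgroup Cfsg H98
open scoped commutatorElement

universe u

variable {Ω : Type u} [Group Ω] {p : ℕ} [hp : Fact p.Prime] {V G : Subgroup Ω}

/-- Linear coordinates for the action of `G` on `V`. -/
structure Rp (V G : Subgroup Ω) {M : Type u} [AddCommGroup M] [Module (ZMod p) M] (e : M → Ω)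
    (ρ : G →* End (ZMod p) M) : Prop where
  inj : Function.Injective e
  add : ∀ u v, e (u + v) = e u * e v
  mem : ∀ x, x ∈ V ↔ ∃ v, e v = x
  cj : ∀ (g : G) v, e (ρ g v) = g * e v * (g : Ω)⁻¹

theorem exists_lin {W : Type u} [CommGroup W] (hW : ∀ x : W, x ^ p = 1) {H : Type u} [Group H]
    (σ : H →* MulAut W) : ∃ (M : Type u) (_ : AddCommGroup M) (_ : Module (ZMod p) M) (e : M ≃ W)
      (ρ : H →* End (ZMod p) M), (∀ u v, e (u + v) = e u * e v) ∧ ∀ g v, e (ρ g v) = σ g (e v) := by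
  obtain ⟨_⟩ : Nonempty (Module (ZMod p) (Additive W)) :=
    ⟨AddCommGroup.zmodModule fun x => hW x.toMul⟩
  let ρ : H →* End (ZMod p) (Additive W) :=
    { toFun := fun g => (MonoidHom.toAdditive (σ g).toMonoidHom).toZModLinearMap p
      map_one' := LinearMap.ext fun v => by rw [map_one]; rfl
      map_mul' := fun g h => LinearMap.ext fun v => by rw [map_mul]; rfl }
  exact ⟨Additive W, inferInstance, inferInstance, Additive.toMul, ρ, fun _ _ => rfl, fun _ _ => rfl⟩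

theorem exists_rp (hV : IsElementaryAbelian p V) (hGV : G ≤ normalizer (V : Set Ω)) :
    ∃ (M : Type u) (_ : AddCommGroup M) (_ : Module (ZMod p) M) (e : M → Ω)
      (ρ : G →* End (ZMod p) M), Rp V G e ρ := by
  have := hV.1
  obtain ⟨M, _, _, e, ρ, h1, h2⟩ := @exists_lin p _ V { mul_comm := mul_comm' }
    (fun x => Subtype.ext (hV.2 _ x.2)) G _ (V.normalizerMonoidHom.comp (inclusion hGV))
  exact ⟨M, _, _, fun v => e v, ρ, fun u v h => e.injective (Subtype.ext h),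
    fun u v => congrArg Subtype.val (h1 u v),
    fun x => ⟨fun h => ⟨e.symm ⟨x, h⟩, by simp⟩, fun ⟨v, h⟩ => h ▸ (e v).2⟩,
    fun g v => congrArg Subtype.val (h2 g v)⟩

namespace Rp

variable {M : Type u} [AddCommGroup M] [Module (ZMod p) M] {e : M → Ω} {ρ : G →* End (ZMod p) M}
  (r : Rp V G e ρ) {a : Submodule (ZMod p) (End (ZMod p) M)}
include r

theorem zero : e 0 = 1 := mul_left_cancel (a := e 0) (by rw [← r.add, add_zero, mul_one])

theorem sub (u v : M) : e (u - v) = e u * (e v)⁻¹ := by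
  rw [eq_mul_inv_iff_mul_eq, ← r.add, sub_add_cancel]

theorem comm (g : G) (v : M) : e ((ρ g - 1) v) = ⁅(g : Ω), e v⁆ := by
  rw [LinearMap.sub_apply, r.sub, r.cj]; rfl

theorem zero_iff (g : G) (v : M) : (ρ g - 1) v = 0 ↔ (g : Ω) * e v = e v * g := by
  rw [← r.inj.eq_iff, r.comm, r.zero, commutatorElement_eq_one_iff_mul_comm]

/-- The subspace belonging to a subgroup. -/
def sm (W : Subgroup Ω) : Submodule (ZMod p) M := AddSubgroup.toZModSubmodule p
  { carrier := {v | e v ∈ W}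
    zero_mem' := (congrArg (· ∈ W) r.zero).mpr (one_mem W)
    add_mem' := fun {u v} hu hv => (congrArg (· ∈ W) (r.add u v)).mpr (W.mul_mem hu hv)
    neg_mem' := fun {u} hu => (congrArg (· ∈ W) (by
      rw [← zero_sub, r.sub, r.zero, one_mul])).mpr (W.inv_mem hu) }

theorem card_sm {W : Subgroup Ω} (h : W ≤ V) : Nat.card W = Nat.card (r.sm W) :=
  (Nat.card_congr (Equiv.ofBijective (fun v : r.sm W => (⟨e v, v.2⟩ : W))
    ⟨fun _ _ h => Subtype.ext (r.inj (congrArg Subtype.val h)), fun x => by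
      obtain ⟨v, hv⟩ := (r.mem x).1 (h x.2)
      exact ⟨⟨v, (congrArg (· ∈ W) hv).mpr x.2⟩, Subtype.ext hv⟩⟩)).symm

theorem sm_top : r.sm V = ⊤ := eq_top_iff.2 fun v _ => (r.mem _).2 ⟨v, rfl⟩

theorem sm_fix (h : Q ρ a) :
    r.sm (V ⊓ centralizer ((h.grp.map G.subtype : Subgroup Ω) : Set Ω)) = fix a := by
  ext v
  refine ⟨fun hv x hx => ?_, fun hv => ⟨(r.mem _).2 ⟨v, rfl⟩, ?_⟩⟩
  · obtain ⟨g, hg⟩ := h.ex x hx
    have e1 : ρ g - 1 = x := by rw [hg, add_sub_cancel_left]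
    exact e1 ▸ (r.zero_iff g v).2 (hv.2 g ⟨g, h.mem_grp.2 (e1 ▸ hx), rfl⟩)
  · rintro _ ⟨g, hg, rfl⟩
    exact (r.zero_iff g v).1 (hv _ hg)

theorem faithful (hf : G ⊓ centralizer (V : Set Ω) = ⊥) : Function.Injective ρ :=
  (injective_iff_map_eq_one ρ).2 fun g hg => Subtype.ext (mem_bot.1 (hf.le ⟨g.2, fun x hx => by
    obtain ⟨v, rfl⟩ := (r.mem x).1 hx
    exact ((r.zero_iff g v).1 (by rw [hg, sub_self]; rfl)).symm⟩))

omit r in
theorem card_grp (hi : Function.Injective ρ) (h : Q ρ a) :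
    Nat.card (h.grp.map G.subtype) = Nat.card a := by
  rw [card_map_of_injective G.subtype_injective]
  exact Nat.card_congr (Equiv.ofBijective (fun g : h.grp => (⟨ρ g - 1, g.2⟩ : a))
    ⟨fun _ _ h => Subtype.ext (hi (sub_left_injective (congrArg Subtype.val h))), fun x => by
      obtain ⟨g, hg⟩ := h.ex x x.2
      have e1 : ρ g - 1 = x := by rw [hg, add_sub_cancel_left]
      exact ⟨⟨g, h.mem_grp.2 (e1 ▸ x.2)⟩, Subtype.ext e1⟩⟩)

theorem exists_q (hi : Function.Injective ρ) {A : Subgroup Ω} (hA : A ≤ G)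
    (hq : A ≤ centralizer ((⁅V, A⁆ : Subgroup Ω) : Set Ω)) :
    ∃ (a : Submodule (ZMod p) (End (ZMod p) M)) (h : Q ρ a), h.grp.map G.subtype = A := by
  have sq : ∀ g k : G, (g : Ω) ∈ A → (k : Ω) ∈ A → (ρ g - 1) * (ρ k - 1) = 0 := fun g k hg hk =>
    LinearMap.ext fun v => (r.zero_iff g _).2 (by
      rw [r.comm]
      exact (hq hg _ (commutator_comm V A ▸
        commutator_mem_commutator hk ((r.mem _).2 ⟨v, rfl⟩))).symm)
  let a : Submodule (ZMod p) (End (ZMod p) M) := AddSubgroup.toZModSubmodule p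
    { carrier := {x | ∃ g : G, (g : Ω) ∈ A ∧ ρ g - 1 = x}
      zero_mem' := ⟨1, one_mem _, by simp⟩
      add_mem' := by
        rintro _ _ ⟨g, hg, rfl⟩ ⟨k, hk, rfl⟩
        refine ⟨g * k, A.mul_mem hg hk, ?_⟩
        rw [← add_zero (_ + _), ← sq g k hg hk, map_mul]; noncomm_ring
      neg_mem' := by
        rintro _ ⟨g, hg, rfl⟩
        exact ⟨g⁻¹, A.inv_mem hg, by
          rw [inv_eq (add_sub_cancel _ _).symm (sq g g hg hg), sub_sub_cancel_left]⟩ }
  refine ⟨a, ⟨?_, ?_⟩, le_antisymm ?_ fun x hx => ⟨⟨x, hA hx⟩, ⟨_, hx, rfl⟩, rfl⟩⟩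
  · rintro _ ⟨g, hg, rfl⟩ _ ⟨k, hk, rfl⟩
    exact sq g k hg hk
  · rintro _ ⟨g, -, rfl⟩
    exact ⟨g, (add_sub_cancel _ _).symm⟩
  · rintro _ ⟨g, ⟨k, hk, e⟩, rfl⟩
    exact hi (sub_left_injective e) ▸ hk

theorem quad (h : Q ρ a) : ⁅⁅V, h.grp.map G.subtype⁆, h.grp.map G.subtype⁆ = ⊥ := by
  rw [commutator_eq_bot_iff_le_centralizer, commutator_le]
  rintro x hx _ ⟨g, hg, rfl⟩
  obtain ⟨v, rfl⟩ := (r.mem x).1 hx
  rw [← commutatorElement_inv, inv_mem_iff]
  rintro _ ⟨k, hk, rfl⟩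
  exact r.comm g v ▸ (r.zero_iff k _).1 (LinearMap.congr_fun (h.sq _ hk _ hg) v)

omit r in
theorem elem (hi : Function.Injective ρ) (h : Q ρ a) :
    IsElementaryAbelian p (h.grp.map G.subtype) := by
  refine ⟨le_centralizer_iff_isMulCommutative.1 ?_, ?_⟩
  · rintro _ ⟨g, hg, rfl⟩ _ ⟨k, hk, rfl⟩
    refine congrArg Subtype.val (hi ?_ : k * g = g * k)
    rw [map_mul, map_mul, ← sub_eq_zero, ← sub_self (0 : End (ZMod p) M)]
    nth_rw 1 [← h.sq _ hk _ hg]
    rw [← h.sq _ hg _ hk]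
    noncomm_ring
  · rintro _ ⟨g, hg, rfl⟩
    have : ∀ n : ℕ, ρ (g ^ n) = 1 + n • (ρ g - 1) := fun n => by
      induction n with
      | zero => simp
      | succ n ih =>
        rw [pow_succ, map_mul, ih, succ_nsmul, ← add_zero (1 + (_ + _)),
          ← h.sq _ (nsmul_mem (h.mem_grp.1 hg) n) _ hg]
        noncomm_ring
    refine congrArg Subtype.val (hi ?_ : g ^ p = 1)
    rw [this, ← Nat.cast_smul_eq_nsmul (ZMod p), ZMod.natCast_self, zero_smul, add_zero, map_one]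

end Rp

theorem exists_iter [Finite Ω] (hV : IsPGroup p V) (hG : IsPGroup p G)
    (hGV : G ≤ normalizer (V : Set Ω)) : ∃ n, iterCommutator V G n = ⊥ := by
  by_contra hn
  push Not at hn
  have : ∀ k, k + Nat.card (iterCommutator V G k) ≤ Nat.card V := fun k => by
    induction k with
    | zero => exact (zero_add _).le
    | succ k ih =>
      have l := commutator_lt_of_isPGroup (hV.to_le (H10.iterCommutator_le hGV k)) hG
        (H10.le_normalizer_iterCommutator hGV k) (hn k)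
      have := lt_of_le_of_ne (card_le_of_le l.le) fun e => l.ne (eq_of_le_of_card_ge l.le e.ge)
      change Nat.card (iterCommutator V G (k + 1)) < _ at this
      omega
  have := this (Nat.card V + 1)
  omega

theorem glauberman [Finite Ω] (h2 : p ≠ 2) (hV : IsElementaryAbelian p V) (hG : IsPGroup p G)
    (hGV : G ≤ normalizer (V : Set Ω)) (hf : G ⊓ centralizer (V : Set Ω) = ⊥) {A : Subgroup Ω}
    (hA : A ≤ G) (A0 : A ≠ ⊥) (hq : A ≤ centralizer ((⁅V, A⁆ : Subgroup Ω) : Set Ω)) :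
    ∃ B : Subgroup Ω, B ≤ G ∧ IsElementaryAbelian p B ∧ Nat.card A ≤ Nat.card B ∧
      Nat.card (V ⊓ centralizer (A : Set Ω) : Subgroup Ω) ≤
        Nat.card (V ⊓ centralizer (B : Set Ω) : Subgroup Ω) ∧ ⁅⁅V, B⁆, B⁆ = ⊥ ∧
      ∀ g ∈ G, ∀ b ∈ B, g * b * g⁻¹ ∈ normalizer (B : Set Ω) := by
  obtain ⟨M, _, _, e, ρ, r⟩ := exists_rp hV hGV
  have : Finite M := .of_injective e r.inj
  have : Finite (End (ZMod p) M) := .of_injective _ DFunLike.coe_injective
  have hi := r.faithful hf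
  obtain ⟨a, h, rfl⟩ := r.exists_q hi hA hq
  obtain ⟨n, hn⟩ := exists_iter (isPGroup_iff_forall.2 fun x hx => ⟨1, by
    rw [pow_one, hV.2 x hx]⟩) hG hGV
  obtain ⟨b, h', h3, h4, h5⟩ := replace hG (U := fun k => r.sm (iterCommutator V G k)) (n := n)
    (fun e => h2 ((Nat.prime_dvd_prime_iff_eq hp.out Nat.prime_two).1
      ((ZMod.natCast_eq_zero_iff 2 p).1 e))) r.sm_top
    (eq_bot_iff.2 fun v hv => r.inj ((mem_bot.1 (hn.le hv)).trans r.zero.symm))
    (fun k v hv => H10.iterCommutator_succ_le hGV k hv) (fun g k v hv => by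
      change e _ ∈ ⁅iterCommutator V G k, G⁆
      rw [r.comm, commutator_comm]
      exact commutator_mem_commutator g.2 hv) h fun e => A0 (card_eq_one.1 (by
        rw [Rp.card_grp hi h, e]; simp))
  refine ⟨_, map_subtype_le _, Rp.elem hi h', ?_, ?_, r.quad h', ?_⟩
  · rw [Rp.card_grp hi, Rp.card_grp hi, natCard_eq_pow_finrank (K := ZMod p),
      natCard_eq_pow_finrank (K := ZMod p) (V := b)]
    exact Nat.pow_le_pow_right Nat.card_pos h3
  · rw [r.card_sm inf_le_left, r.card_sm inf_le_left, r.sm_fix, r.sm_fix,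
      natCard_eq_pow_finrank (K := ZMod p), natCard_eq_pow_finrank (K := ZMod p) (V := fix b)]
    exact Nat.pow_le_pow_right Nat.card_pos h4
  · rintro g hg _ ⟨s, hs, rfl⟩
    exact map_le_normalizer_map G.subtype le_rfl (mem_map_of_mem _ (h5 ⟨g, hg⟩ s hs))

end H9.Gl
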