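import Cfsg.Agent.Base

/-! The limit of a subspace of an algebra under conjugation by `1 + t β`, `β² = 0`. -/

set_option autoImplicit false

namespace H9.Gl

open Polynomial Module

theorem expand {S : Type*} [Ring S] {b P x : S} (h1 : Commute x P) (h2 : Commute x b) :
    (1 + b * x) * P * (1 - b * x) = P + (b * P - P * b) * x - b * P * b * x ^ 2 := by
  simp only [mul_add, add_mul, mul_sub, sub_mul, mul_assoc, one_mul, mul_one, pow_two, h1.eq,
    h1.left_comm, h2.left_comm]
  abel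

variable {F R : Type*} [Field F] [Ring R] [Algebra F R] {β : R} {c d l : Submodule F R}

/-- Conjugation of polynomials by `1 + β X`. -/
noncomputable def cjp (F : Type*) [Field F] [Algebra F R] (β : R) : R[X] →ₗ[F] R[X] :=
  LinearMap.mulLeftRight F (1 + C β * X, 1 - C β * X)

theorem cjp_apply (P : R[X]) : cjp F β P = (1 + C β * X) * P * (1 - C β * X) := rfl

theorem cjp_eq (P : R[X]) :
    cjp F β P = P + (C β * P - P * C β) * X ^ 1 - C β * P * C β * X ^ 2 := by
  rw [cjp_apply, expand (commute_X P) (commute_X _), pow_one]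

theorem inv_mul (h : β * β = 0) : (1 - C β * X) * (1 + C β * X) = 1 := by
  have := expand (b := C (-β)) (commute_X 1) (commute_X _)
  simpa [← C_mul, h, sub_eq_add_neg] using this

theorem cjp_cjp (h : β * β = 0) (P : R[X]) : cjp F (-β) (cjp F β P) = P := by
  have e := inv_mul h
  have e' := inv_mul (β := -β) (by simpa using h)
  simp only [cjp_apply, map_neg, neg_mul, sub_neg_eq_add, ← sub_eq_add_neg] at e' ⊢
  calc _ = ((1 - C β * X) * (1 + C β * X)) * P * ((1 - C β * X) * (1 + C β * X)) := by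
        simp only [mul_assoc]
    _ = P := by rw [e, one_mul, mul_one]

theorem coeff_cjp_mem {P : R[X]} (hP : ∀ k, P.coeff k ∈ c)
    (h : ∀ x ∈ c, x ∈ l ∧ β * x - x * β ∈ l ∧ β * x * β ∈ l) (n : ℕ) : (cjp F β P).coeff n ∈ l := by
  rw [cjp_eq, coeff_sub, coeff_add, coeff_mul_X_pow', coeff_mul_X_pow']
  refine sub_mem (add_mem (h _ (hP n)).1 ?_) ?_ <;> split_ifs
  · rw [coeff_sub, coeff_C_mul, coeff_mul_C]; exact (h _ (hP _)).2.1
  · exact zero_mem _
  · rw [coeff_mul_C, coeff_C_mul]; exact (h _ (hP _)).2.2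
  · exact zero_mem _

/-- The span of the top coefficients of the conjugates of polynomials over `c`. -/
def lim (β : R) (c : Submodule F R) : Submodule F R := Submodule.span F
  {r | ∃ (P : R[X]) (n : ℕ), (∀ k, P.coeff k ∈ c) ∧ (cjp F β P).natDegree ≤ n ∧
    (cjp F β P).coeff n = r}

theorem mem_lim {P : R[X]} {n : ℕ} (h1 : ∀ k, P.coeff k ∈ c) (h2 : (cjp F β P).natDegree ≤ n) :
    (cjp F β P).coeff n ∈ lim β c := Submodule.subset_span ⟨P, n, h1, h2, rfl⟩

theorem lim_mono (h : c ≤ d) : lim β c ≤ lim β d :=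
  Submodule.span_mono fun _ ⟨P, n, h1, h2⟩ => ⟨P, n, fun k => h (h1 k), h2⟩

theorem lim_le (h : ∀ x ∈ c, x ∈ l ∧ β * x - x * β ∈ l ∧ β * x * β ∈ l) : lim β c ≤ l :=
  Submodule.span_le.2 fun _ ⟨_, n, h1, _, e⟩ => e ▸ coeff_cjp_mem h1 h n

theorem lim_mul (hβ : β * β = 0) (h : ∀ x ∈ c, ∀ y ∈ d, x * y = 0) :
    ∀ x ∈ lim β c, ∀ y ∈ lim β d, x * y = 0 := by
  have : lim β c * lim β d ≤ ⊥ := by
    rw [lim, lim, Submodule.span_mul_span, Submodule.span_le]
    rintro _ ⟨_, ⟨P, n, h1, h2, rfl⟩, _, ⟨Q, m, h3, h4, rfl⟩, rfl⟩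
    have e : P * Q = 0 := Polynomial.ext fun k => by
      rw [coeff_mul]; exact Finset.sum_eq_zero fun i _ => h _ (h1 _) _ (h3 _)
    have e2 : cjp F β P * cjp F β Q = 0 := by
      calc _ = (1 + C β * X) * P * ((1 - C β * X) * (1 + C β * X)) * Q * (1 - C β * X) := by
            simp only [cjp_apply, mul_assoc]
        _ = 0 := by rw [inv_mul hβ, mul_one, mul_assoc _ P, e, mul_zero, zero_mul]
    change _ * _ = 0
    rw [← coeff_mul_add_eq_of_natDegree_le h2 h4, e2, coeff_zero]
  exact fun x hx y hy => this (Submodule.mul_mem_mul hx hy)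

theorem finrank_le_mul [FiniteDimensional F R] (n : ℕ) : ∀ (U : Submodule F R[X])
    [FiniteDimensional F U], (∀ f ∈ U, (∃ P : R[X], (∀ k, P.coeff k ∈ c) ∧ cjp F β P = f) ∧
      ∀ m, n ≤ m → f.coeff m = 0) → finrank F U ≤ n * finrank F (lim β c) := by
  induction n with
  | zero =>
    intro U _ h
    rw [show U = ⊥ from eq_bot_iff.2 fun f hf => Polynomial.ext fun m => (h f hf).2 m m.zero_le]
    simp
  | succ n ih =>
    intro U _ h
    let φ : U →ₗ[F] R := ((lcoeff R n).restrictScalars F).comp U.subtype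
    have h1 : LinearMap.range φ ≤ lim β c := by
      rintro _ ⟨⟨f, hf⟩, rfl⟩
      obtain ⟨⟨P, h1, rfl⟩, h2⟩ := h f hf
      exact mem_lim h1 (natDegree_le_iff_coeff_eq_zero.2 h2)
    have h2 := ih ((LinearMap.ker φ).map U.subtype) (by
      rintro _ ⟨⟨f, hf⟩, h3, rfl⟩
      exact ⟨(h f hf).1, fun m hm => hm.eq_or_lt.elim (fun e => e ▸ h3) ((h f hf).2 m)⟩)
    rw [Submodule.finrank_map_subtype_eq] at h2
    have h3 := Submodule.finrank_mono h1
    rw [← φ.finrank_range_add_finrank_ker, add_mul, one_mul]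
    omega

theorem finrank_le_lim [FiniteDimensional F R] (hβ : β * β = 0) :
    finrank F c ≤ finrank F (lim β c) := by
  have key : ∀ N : ℕ, N * finrank F c ≤ (N + 2) * finrank F (lim β c) := fun N => by
    let ψ : (Fin N → c) →ₗ[F] R[X] := ∑ i : Fin N,
      ((monomial (i : ℕ)).restrictScalars F).comp (c.subtype.comp (LinearMap.proj i))
    have hψ : ∀ v (k : ℕ), (ψ v).coeff k = if h : k < N then (v ⟨k, h⟩ : R) else 0 := fun v k => by
      simp only [ψ, LinearMap.sum_apply, finset_sum_coeff, LinearMap.comp_apply,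
        LinearMap.restrictScalars_apply, coeff_monomial, LinearMap.proj_apply, Submodule.subtype_apply]
      split_ifs with h
      · rw [Finset.sum_eq_single ⟨k, h⟩ (fun b _ hb => if_neg fun e => hb (Fin.ext e)) (by simp),
          if_pos rfl]
      · exact Finset.sum_eq_zero fun b _ => if_neg fun e : (b : ℕ) = k => h (e ▸ b.2)
    have inj : Function.Injective ((cjp F β).comp ψ) :=
      (Function.LeftInverse.injective (cjp_cjp hβ)).comp fun v w e => funext fun i => Subtype.ext (by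
        have := hψ v i
        rw [e, hψ, dif_pos i.2, dif_pos i.2] at this
        exact this.symm)
    have := finrank_le_mul (β := β) (c := c) (N + 2) (LinearMap.range ((cjp F β).comp ψ)) (by
      rintro _ ⟨v, rfl⟩
      refine ⟨⟨ψ v, fun k => ?_, rfl⟩, fun m hm => ?_⟩
      · rw [hψ]; split_ifs; exacts [Subtype.property _, zero_mem _]
      · rw [LinearMap.comp_apply, cjp_eq, coeff_sub, coeff_add, coeff_mul_X_pow', coeff_mul_X_pow',
          if_pos (by omega), if_pos (by omega), coeff_sub, coeff_C_mul, coeff_mul_C, coeff_mul_C,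
          coeff_C_mul, hψ, hψ, hψ, dif_neg (by omega), dif_neg (by omega), dif_neg (by omega)]
        simp)
    rwa [LinearMap.finrank_range_of_inj inj, finrank_pi_fintype, Finset.sum_const, Finset.card_univ,
      Fintype.card_fin, smul_eq_mul] at this
  have := key (2 * finrank F (lim β c) + 1)
  by_contra hn
  nlinarith [Nat.succ_le_of_lt (not_le.1 hn)]

theorem cjp_C (x : R) :
    cjp F β (C x) = C x + C (β * x - x * β) * X ^ 1 - C (β * x * β) * X ^ 2 := by
  simp only [cjp_eq, map_sub, map_mul]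

theorem coeff_C_mem {x : R} (h : x ∈ c) (k : ℕ) : (C x).coeff k ∈ c := by
  rw [coeff_C]; split_ifs; exacts [h, zero_mem _]

theorem mem_lim_self (hβ : β * β = 0)
    (h : ∀ x ∈ c, β * x - x * β ∈ c ∧ β * x * β ∈ c) : c ≤ lim β c := fun x hx => by
  have e := cjp_cjp (F := F) (β := -β) (by simpa using hβ) (C x)
  rw [neg_neg] at e
  have := mem_lim (β := β) (n := 0) (coeff_cjp_mem (β := -β) (coeff_C_mem hx) (l := c) fun y hy =>
    ⟨hy, by convert neg_mem (h y hy).1 using 1; noncomm_ring, by simpa using (h y hy).2⟩)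
    (by rw [e, natDegree_C])
  rwa [e, coeff_C_zero] at this

theorem mem_lim_two {x : R} (hx : x ∈ c) : β * x * β ∈ lim β c := by
  have := mem_lim (β := β) (n := 2) (coeff_C_mem hx) (by rw [cjp_C]; compute_degree)
  rw [cjp_C] at this
  simpa [-map_sub, -map_mul, coeff_C, coeff_X] using this

theorem mem_lim_one (hβ : β * β = 0) {x : R} (hx : x ∈ c) (h : β * x * β ∈ c) :
    β * x - x * β ∈ lim β c := by
  have e : cjp F β (C x + C (β * x * β) * X ^ 2) = C x + C (β * x - x * β) * X ^ 1 := by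
    have h1 : β * (β * x * β) = 0 := by rw [← mul_assoc, ← mul_assoc, hβ, zero_mul, zero_mul]
    have h2 : β * x * β * β = 0 := by rw [mul_assoc, hβ, mul_zero]
    rw [map_add, cjp_C, cjp_eq, mul_assoc _ (X ^ 2) (C β), ← mul_assoc (C β) (C _), ← C_mul, h1,
      ((commute_X (C β)).pow_left 2).eq, ← mul_assoc, ← C_mul, h2]
    simp
  have := mem_lim (β := β) (n := 1) (P := C x + C (β * x * β) * X ^ 2) (c := c) (fun k => by
    rw [coeff_add, coeff_mul_X_pow']
    refine add_mem (coeff_C_mem hx k) ?_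
    split_ifs; exacts [coeff_C_mem h _, zero_mem _]) (by rw [e]; compute_degree)
  rw [e] at this
  simpa [-map_sub, -map_mul, coeff_C, coeff_X] using this

theorem br_mem (h2 : (2 : F) ≠ 0) (h : ∀ x ∈ c, ∀ y ∈ d, (1 + y) * x * (1 - y) ∈ c) {x y : R}
    (hx : x ∈ c) (hy : y ∈ d) : x * y - y * x ∈ c := by
  refine (c.smul_mem_iff h2).1 ?_
  convert sub_mem (h x hx _ (neg_mem hy)) (h x hx y hy) using 1
  rw [two_smul]; noncomm_ring

theorem exp_three (h2 : (2 : F) ≠ 0) {x y z : R} (xx : x * x = 0) (yy : y * y = 0) (zz : z * z = 0)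
    (xyx : x * (y * x) = 0) (yxy : y * (x * y) = 0) (xzx : x * (z * x) = 0) (zxz : z * (x * z) = 0)
    (yzy : y * (z * y) = 0) (zyz : z * (y * z) = 0) (yxzy : y * (x * (z * y)) = 0)
    (zxyz : z * (x * (y * z)) = 0) (h : (x + y + z) * (x + y + z) = 0) :
    (1 + (x - (2 : F)⁻¹ • (x * y - y * x) - (2 : F)⁻¹ • (x * z - z * x))) *
      (1 + (y - (2 : F)⁻¹ • (y * z - z * y))) * (1 + z) = 1 + (x + y + z) := by
  have hh : (2 : F)⁻¹ + 2⁻¹ = 1 := by field_simp; norm_num
  generalize (2 : F)⁻¹ = k at *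
  have a2 : ∀ {a b : R}, a * b = 0 → ∀ r, a * (b * r) = 0 := fun h r => by
    rw [← mul_assoc, h, zero_mul]
  have a3 : ∀ {a b c : R}, a * (b * c) = 0 → ∀ r, a * (b * (c * r)) = 0 := fun h r => by
    rw [← mul_assoc _ _ r, ← mul_assoc _ _ r, h, zero_mul]
  have a4 : ∀ r, y * (x * (z * (y * r))) = 0 := fun r => by
    rw [← mul_assoc _ _ r, ← mul_assoc _ _ r, ← mul_assoc _ _ r, yxzy, zero_mul]
  have e1 := congrArg (z * ·) h
  have e2 := congrArg (y * ·) h
  have e3 := congrArg (· * x) h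
  simp only [mul_add, add_mul, mul_sub, sub_mul, mul_assoc, xx, yy, zz, a2 xx, a2 yy, a2 zz, xyx, yxy,
    xzx, zxz, yzy, zyz, a3 yxy, a3 zxz, a3 yzy, yxzy, zxyz, a4, mul_zero, zero_mul, smul_mul_assoc,
    mul_smul_comm, mul_one, one_mul] at h e1 e2 e3 ⊢
  linear_combination (norm := module) k • h + k • e1 + k • e2 - k • e3 -
    hh • (x * y + x * z + y * z + x * (y * z))

end H9.Gl
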