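import Cfsg.Agent.H9.GlLim
import Cfsg.Agent.H98.Basic
import Cfsg.Agent.H3.FrattiniP

/-! Glauberman's replacement for quadratic offenders, in linear form. -/

set_option autoImplicit false

namespace H9.Gl

open Module Subgroup

section alg

variable {F R Γ : Type*} [Field F] [Ring R] [Algebra F R] [Group Γ] {ρ : Γ →* R}
  {a c d e : Submodule F R}

/-- `1 + a` is a quadratic subgroup of the image of `ρ`. -/
structure Q (ρ : Γ →* R) (a : Submodule F R) : Prop where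
  sq : ∀ x ∈ a, ∀ y ∈ a, x * y = 0
  ex : ∀ x ∈ a, ∃ g, ρ g = 1 + x

theorem inv_eq {g : Γ} {x : R} (h : ρ g = 1 + x) (hx : x * x = 0) : ρ g⁻¹ = 1 - x := by
  calc ρ g⁻¹ = ρ g⁻¹ * ((1 + x) * (1 - x)) := by
        rw [show (1 + x) * (1 - x) = 1 - x * x by noncomm_ring, hx, sub_zero, mul_one]
    _ = 1 - x := by rw [← h, ← mul_assoc, ← map_mul, inv_mul_cancel, map_one, one_mul]

/-- The subgroup belonging to `a`. -/
def Q.grp (h : Q ρ a) : Subgroup Γ where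
  carrier := {g | ρ g - 1 ∈ a}
  one_mem' := by simp
  mul_mem' {g k} hg hk := by
    have := a.add_mem hg hk
    rw [← add_zero (_ + _), ← h.sq _ hg _ hk] at this
    change ρ (g * k) - 1 ∈ a
    convert this using 1
    rw [map_mul]; noncomm_ring
  inv_mem' {g} hg := by
    change ρ g⁻¹ - 1 ∈ a
    rw [inv_eq (add_sub_cancel _ _).symm (h.sq _ hg _ hg), sub_sub_cancel_left]
    exact neg_mem hg

theorem Q.mem_grp (h : Q ρ a) {g : Γ} : g ∈ h.grp ↔ ρ g - 1 ∈ a := Iff.rfl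

theorem conj_sub (g s : Γ) : ρ (g * s * g⁻¹) - 1 = ρ g * (ρ s - 1) * ρ g⁻¹ := by
  rw [mul_sub, sub_mul, mul_one, ← map_mul, ← map_mul, ← map_mul, mul_inv_cancel, map_one]

theorem Q.nrm (h : Q ρ a) {n : Γ} (hn : n ∈ normalizer (h.grp : Set Γ)) {x : R} (hx : x ∈ a) :
    ρ n * x * ρ n⁻¹ ∈ a := by
  obtain ⟨s, hs⟩ := h.ex x hx
  have e : ρ s - 1 = x := by rw [hs, add_sub_cancel_left]
  rw [← e, ← conj_sub]
  exact H98.conj_mem_of_mem_normalizer hn (h.mem_grp.2 (e ▸ hx))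

/-- The conjugate subspace. -/
def cg (ρ : Γ →* R) (g : Γ) (a : Submodule F R) : Submodule F R :=
  a.map (LinearMap.mulLeftRight F (ρ g, ρ g⁻¹))

theorem mem_cg (g : Γ) {x : R} (h : x ∈ a) : ρ g * x * ρ g⁻¹ ∈ cg ρ g a := ⟨x, h, rfl⟩

theorem Q.cg (h : Q ρ a) (g : Γ) : Q ρ (cg ρ g a) where
  sq := by
    rintro _ ⟨x, hx, rfl⟩ _ ⟨y, hy, rfl⟩
    calc ρ g * x * ρ g⁻¹ * (ρ g * y * ρ g⁻¹) = ρ g * (x * ρ (g⁻¹ * g) * y) * ρ g⁻¹ := by
          simp only [map_mul, mul_assoc]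
      _ = 0 := by rw [inv_mul_cancel, map_one, mul_one, h.sq x hx y hy, mul_zero, zero_mul]
  ex := by
    rintro _ ⟨x, hx, rfl⟩
    obtain ⟨s, hs⟩ := h.ex x hx
    exact ⟨g * s * g⁻¹, by rw [← sub_eq_iff_eq_add', conj_sub, hs, add_sub_cancel_left]; rfl⟩

/-- `1 + d` normalises `c`. -/
def Nm (c d : Submodule F R) : Prop := ∀ x ∈ c, ∀ y ∈ d, (1 + y) * x * (1 - y) ∈ c

theorem Q.nm (h : Q ρ a) {y y' : Γ}
    (hn : ∀ s ∈ h.grp, y'⁻¹ * y * s * (y'⁻¹ * y)⁻¹ ∈ normalizer (h.grp : Set Γ)) :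
    Nm (Gl.cg ρ y' a) (Gl.cg ρ y a) := by
  rintro _ ⟨x, hx, rfl⟩ _ ⟨z, hz, rfl⟩
  obtain ⟨s, hs⟩ := h.ex z hz
  have e : ρ (y * s * y⁻¹) = 1 + LinearMap.mulLeftRight F (ρ y, ρ y⁻¹) z := by
    rw [← sub_eq_iff_eq_add', conj_sub, hs, add_sub_cancel_left]; rfl
  rw [← inv_eq e ((h.cg y).sq _ (mem_cg y hz) _ (mem_cg y hz)), ← e]
  convert mem_cg y' (h.nrm (hn s (h.mem_grp.2 (by rwa [hs, add_sub_cancel_left]))) hx) using 1
  change ρ _ * (ρ y' * x * ρ y'⁻¹) * _ = _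
  simp only [← mul_assoc, ← map_mul]
  simp only [mul_assoc, ← map_mul]
  congr 2 <;> group

theorem sand (h2 : (2 : F) ≠ 0) (h : Q ρ c) (n : Nm c d) {x x' y : R} (hx : x ∈ c) (hx' : x' ∈ c)
    (hy : y ∈ d) : x * (y * x') = 0 := by
  rw [← sub_sub_cancel (x' * y) (y * x'), mul_sub, h.sq _ hx _ (br_mem h2 n hx' hy), ← mul_assoc,
    h.sq _ hx _ hx', zero_mul, sub_zero]

theorem sand2 (h2 : (2 : F) ≠ 0) (h : Q ρ c) (n : Nm c d) (n' : Nm c e) {x x' y z : R} (hx : x ∈ c)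
    (hx' : x' ∈ c) (hy : y ∈ d) (hz : z ∈ e) : x * (y * (z * x')) = 0 := by
  rw [← sub_sub_cancel (x' * z) (z * x'), mul_sub, mul_sub, sand h2 h n hx (br_mem h2 n' hx' hz) hy,
    ← mul_assoc y, ← mul_assoc, sand h2 h n hx hx' hy, zero_mul, sub_zero]

theorem ex_three (h2 : (2 : F) ≠ 0) (hc : Q ρ c) (hd : Q ρ d) (he : Q ρ e) (cd : Nm c d)
    (dc : Nm d c) (ce : Nm c e) (ec : Nm e c) (de : Nm d e) (ed : Nm e d) {w : R}
    (hw : w ∈ c ⊔ d ⊔ e) (ww : w * w = 0) : ∃ g, ρ g = 1 + w := by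
  obtain ⟨_, h, z, hz, rfl⟩ := Submodule.mem_sup.1 hw
  obtain ⟨x, hx, y, hy, rfl⟩ := Submodule.mem_sup.1 h
  obtain ⟨g1, h1⟩ := hc.ex _ (sub_mem (sub_mem hx (c.smul_mem (2 : F)⁻¹ (br_mem h2 cd hx hy)))
    (c.smul_mem (2 : F)⁻¹ (br_mem h2 ce hx hz)))
  obtain ⟨g2, h3⟩ := hd.ex _ (sub_mem hy (d.smul_mem (2 : F)⁻¹ (br_mem h2 de hy hz)))
  obtain ⟨g3, h4⟩ := he.ex z hz
  exact ⟨g1 * g2 * g3, by
    rw [map_mul, map_mul, h1, h3, h4, exp_three h2 (hc.sq _ hx _ hx) (hd.sq _ hy _ hy)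
      (he.sq _ hz _ hz) (sand h2 hc cd hx hx hy) (sand h2 hd dc hy hy hx) (sand h2 hc ce hx hx hz)
      (sand h2 he ec hz hz hx) (sand h2 hd de hy hy hz) (sand h2 he ed hz hz hy)
      (sand2 h2 hd dc de hy hy hx hz) (sand2 h2 he ec ed hz hz hx hy) ww]⟩

theorem Q.lim (h2 : (2 : F) ≠ 0) (h : Q ρ a) {b : Γ} {β : R} (hb : ρ b = 1 + β) (hβ : β * β = 0)
    {Y : Subgroup Γ} (bY : b ∈ Y)
    (hn : ∀ y ∈ Y, ∀ s ∈ h.grp, y * s * y⁻¹ ∈ normalizer (h.grp : Set Γ)) : Q ρ (lim β a) := by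
  have n : ∀ {y y' : Γ}, y' ∈ Y → y ∈ Y → Nm (Gl.cg ρ y' a) (Gl.cg ρ y a) := fun h1 h2 =>
    h.nm (hn _ (mul_mem (inv_mem h1) h2))
  have o := one_mem Y
  have i := inv_mem bY
  refine ⟨lim_mul hβ h.sq, fun w hw => ex_three h2 (h.cg 1) (h.cg b) (h.cg b⁻¹) (n o bY) (n bY o)
    (n o i) (n i o) (n bY i) (n i bY) (lim_le (fun x hx => ?_) hw) (lim_mul hβ h.sq w hw w hw)⟩
  have h0 := Submodule.mem_sup_left (T := Gl.cg ρ b⁻¹ a)
    (Submodule.mem_sup_left (T := Gl.cg ρ b a) (mem_cg (ρ := ρ) 1 hx))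
  have h1 := Submodule.mem_sup_left (T := Gl.cg ρ b⁻¹ a)
    (Submodule.mem_sup_right (S := Gl.cg ρ 1 a) (mem_cg (ρ := ρ) b hx))
  have h3 := Submodule.mem_sup_right (S := Gl.cg ρ 1 a ⊔ Gl.cg ρ b a) (mem_cg (ρ := ρ) b⁻¹ hx)
  rw [inv_one, map_one, mul_one, one_mul] at h0
  rw [inv_eq hb hβ, hb] at h1
  rw [inv_inv, inv_eq hb hβ, hb] at h3
  refine ⟨h0, (Submodule.smul_mem_iff _ h2).1 ?_, (Submodule.smul_mem_iff _ h2).1 ?_⟩
  · convert sub_mem h1 h3 using 1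
    rw [two_smul]; noncomm_ring
  · convert sub_mem (sub_mem (add_mem h0 h0) h1) h3 using 1
    rw [two_smul]; noncomm_ring

theorem bb_mem (h2 : (2 : F) ≠ 0) {β x : R} (hβ : β * β = 0)
    (h : β * (β * x - x * β) - (β * x - x * β) * β ∈ a) : β * x * β ∈ a := by
  refine (a.smul_mem_iff h2).1 ?_
  convert neg_mem h using 1
  rw [two_smul, mul_sub, sub_mul, ← mul_assoc, hβ, mul_assoc x, hβ]
  noncomm_ring

theorem grow [FiniteDimensional F R] (h2 : (2 : F) ≠ 0) {β : R} (hβ : β * β = 0)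
    {J : ℕ → Submodule F R} {n : ℕ} (hn : J n = ⊥) (h0 : a ≤ J 0) (an : ∀ i, J (i + 1) ≤ J i)
    (hJ : ∀ i, ∀ r ∈ J i, β * r ∈ J (i + 1) ∧ r * β ∈ J (i + 1))
    (nn : ¬ ∀ x ∈ a, β * x - x * β ∈ a) :
    ∑ i ∈ Finset.range (n + 1), finrank F (a ⊓ J i : Submodule F R) <
      ∑ i ∈ Finset.range (n + 1), finrank F (lim β a ⊓ J i : Submodule F R) := by
  classical
  have D : ∀ i, ∀ r ∈ J i, β * r - r * β ∈ J (i + 1) := fun i r hr =>
    sub_mem (hJ i r hr).1 (hJ i r hr).2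
  have B : ∀ i, ∀ r ∈ J i, β * r * β ∈ J (i + 1) := fun i r hr =>
    (hJ i _ (an i (hJ i r hr).1)).2
  have ex : ∃ j, ∀ x ∈ a ⊓ J j, β * x - x * β ∈ a :=
    ⟨n, fun x hx => by rw [show x = 0 from hn.le hx.2]; simp⟩
  obtain ⟨i, hi⟩ := Nat.exists_eq_succ_of_ne_zero
    ((Nat.find_eq_zero ex).not.2 fun h => nn fun x hx => h x ⟨hx, h0 hx⟩)
  have h1 := Nat.find_spec ex
  have h3 := Nat.find_min ex (m := i) (by omega)
  have h4 : Nat.find ex ≤ n := Nat.find_min' ex fun x hx => by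
    rw [show x = 0 from hn.le hx.2]; simp
  rw [hi] at h1 h4
  refine Finset.sum_lt_sum (fun j _ => (finrank_le_lim hβ).trans (Submodule.finrank_mono
    (le_inf (lim_mono inf_le_left) (lim_le fun x hx => ⟨hx.2, an j (D j x hx.2), an j (B j x hx.2)⟩))))
    ⟨i + 1, Finset.mem_range.2 (by omega), Submodule.finrank_lt_finrank_of_lt ?_⟩
  have st : ∀ x ∈ a ⊓ J (i + 1), β * x - x * β ∈ a ⊓ J (i + 1) := fun x hx =>
    ⟨h1 x hx, an _ (D _ x hx.2)⟩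
  refine lt_of_le_of_ne (le_inf ((mem_lim_self hβ fun x hx =>
    ⟨st x hx, bb_mem h2 hβ (st _ (st x hx))⟩).trans (lim_mono inf_le_left)) inf_le_right) fun e => ?_
  refine h3 fun x hx => ?_
  have h5 : β * x * β ∈ a := (e.ge ⟨mem_lim_two hx.1, B i x hx.2⟩).1
  exact (e.ge ⟨mem_lim_one hβ hx.1 h5, D i x hx.2⟩).1

end alg

variable {F M Γ : Type*} [Field F] [AddCommGroup M] [Module F M] [Group Γ] {ρ : Γ →* End F M}

/-- The vectors killed by `a`. -/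
def fix (a : Submodule F (End F M)) : Submodule F M where
  carrier := {v | ∀ x ∈ a, x v = 0}
  zero_mem' x _ := map_zero x
  add_mem' hu hv x hx := by rw [map_add, hu x hx, hv x hx, add_zero]
  smul_mem' t _ hv x hx := by rw [map_smul, hv x hx, smul_zero]

variable [FiniteDimensional F M]

theorem fix_le_lim {β : End F M} (hβ : β * β = 0) {a : Submodule F (End F M)} (ha : a ≠ ⊥) :
    finrank F (fix a) ≤ finrank F (fix (lim β a)) := by
  obtain ⟨f, f0, hf⟩ := (LinearMap.range β).exists_le_ker_of_lt_top (lt_top_iff_ne_top.2 fun e =>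
    ha (eq_bot_iff.2 fun x _ => LinearMap.ext fun v => by
      obtain ⟨w, rfl⟩ := e.ge (Submodule.mem_top (x := v))
      obtain ⟨u, rfl⟩ := e.ge (Submodule.mem_top (x := w))
      rw [show β (β u) = 0 from LinearMap.congr_fun hβ u, map_zero, map_zero]))
  let e : M →ₗ[F] End F M := LinearMap.smulRightₗ f
  have e1 : ∀ (r : End F M) v, r * e v = e (r v) := fun r v => LinearMap.ext fun w => by simp [e]
  have e2 : ∀ v, e v * β = 0 := fun v => LinearMap.ext fun w => by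
    simp [e, show f (β w) = 0 from hf ⟨w, rfl⟩]
  have inj : Function.Injective e := (injective_iff_map_eq_zero e).2 fun v hv => by
    obtain ⟨w, hw⟩ := DFunLike.ne_iff.1 f0
    exact (smul_eq_zero.1 (LinearMap.congr_fun hv w : f w • v = 0)).resolve_left hw
  rw [(Submodule.equivMapOfInjective e inj _).finrank_eq,
    (Submodule.equivMapOfInjective e inj (fix (lim β a))).finrank_eq]
  refine (finrank_le_lim hβ).trans (Submodule.finrank_mono fun r hr => ?_)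
  obtain ⟨v, rfl⟩ := lim_le (l := LinearMap.range e) (by
    rintro _ ⟨v, -, rfl⟩
    exact ⟨⟨v, rfl⟩, ⟨β v, by rw [e2, sub_zero, e1]⟩, ⟨0, by rw [mul_assoc, e2, mul_zero, map_zero]⟩⟩) hr
  refine ⟨v, fun x hx => inj ?_, rfl⟩
  rw [← e1, map_zero]
  refine lim_mul hβ ?_ x hx _ hr
  rintro y hy _ ⟨w, hw, rfl⟩
  rw [e1, hw y hy, map_zero]

theorem exists_pair [Finite Γ] {p : ℕ} [Fact p.Prime] (hΓ : IsPGroup p Γ) {A : Subgroup Γ}
    (h : ¬ ∀ g, ∀ s ∈ A, g * s * g⁻¹ ∈ normalizer (A : Set Γ)) :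
    ∃ (Y : Subgroup Γ) (g s : Γ), s ∈ A ∧ g * s * g⁻¹ ∈ Y ∧ g * s * g⁻¹ ∉ normalizer (A : Set Γ) ∧
      ∀ y ∈ Y, ∀ s ∈ A, y * s * y⁻¹ ∈ normalizer (A : Set Γ) := by
  push Not at h
  obtain ⟨g, s, hs, hg⟩ := h
  obtain ⟨Y, ⟨AY, g, s, hs, h1, h2⟩, hm⟩ := exists_minimal_of_wellFoundedLT
    (fun Y : Subgroup Γ => A ≤ Y ∧ ∃ g, ∃ s ∈ A, g * s * g⁻¹ ∈ Y ∧
      g * s * g⁻¹ ∉ normalizer (A : Set Γ)) ⟨⊤, le_top, g, s, hs, mem_top _, hg⟩
  refine ⟨Y, g, s, hs, h1, h2, fun y hy t ht => by_contra fun hn => ?_⟩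
  obtain ⟨K, hK, l⟩ := (eq_top_or_exists_le_coatom (A.subgroupOf Y)).resolve_left fun e =>
    h2 (le_normalizer (subgroupOf_eq_top.1 e h1))
  have := H3.normal_of_isCoatom_pgroup (hΓ.to_subgroup Y) hK
  have l2 : A ≤ K.map Y.subtype := fun x hx => ⟨⟨x, AY hx⟩, l hx, rfl⟩
  exact hK.1 (eq_top_iff.2 fun x _ => by
    obtain ⟨z, hz, e⟩ := hm ⟨l2, y, t, ht, H98.conj_mem_of_mem_normalizer
      (H98.le_normalizer_map_subtype K hy) (l2 ht), hn⟩ (map_subtype_le K) x.2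
    exact Subtype.ext e ▸ hz)

theorem replace [Finite Γ] {p : ℕ} [Fact p.Prime] (hΓ : IsPGroup p Γ) (h2 : (2 : F) ≠ 0)
    {U : ℕ → Submodule F M} {n : ℕ} (U0 : U 0 = ⊤) (Un : U n = ⊥) (an : ∀ k, U (k + 1) ≤ U k)
    (hU : ∀ g k, ∀ v ∈ U k, (ρ g - 1) v ∈ U (k + 1)) {a : Submodule F (End F M)} (ha : Q ρ a)
    (a0 : a ≠ ⊥) : ∃ (a' : Submodule F (End F M)) (h : Q ρ a'), finrank F a ≤ finrank F a' ∧
      finrank F (fix a) ≤ finrank F (fix a') ∧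
      ∀ g, ∀ s ∈ h.grp, g * s * g⁻¹ ∈ normalizer (h.grp : Set Γ) := by
  classical
  let J : ℕ → Submodule F (End F M) := fun i =>
    { carrier := {r | ∀ k, ∀ v ∈ U k, r v ∈ U (k + i)}
      zero_mem' := fun k v _ => zero_mem _
      add_mem' := fun hr hs k v hv => add_mem (hr k v hv) (hs k v hv)
      smul_mem' := fun t _ hr k v hv => Submodule.smul_mem _ t (hr k v hv) }
  have Jn : J n = ⊥ := eq_bot_iff.2 fun r hr => LinearMap.ext fun v => by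
    have := hr 0 v (U0.ge Submodule.mem_top)
    rwa [zero_add, Un] at this
  let Φ : Submodule F (End F M) → ℕ := fun a =>
    ∑ i ∈ Finset.range (n + 1), finrank F (a ⊓ J i : Submodule F _)
  let P : ℕ → Prop := fun m => ∃ a' : Submodule F (End F M), Q ρ a' ∧ finrank F a ≤ finrank F a' ∧
    finrank F (fix a) ≤ finrank F (fix a') ∧ Φ a' = m
  have bd : ∀ a, Φ a ≤ (n + 1) * finrank F (End F M) := fun a =>
    (Finset.sum_le_card_nsmul _ _ _ fun i _ => Submodule.finrank_le _).trans (by simp)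
  obtain ⟨a', h, h3, h4, h5⟩ := Nat.findGreatest_spec (P := P) (bd a) ⟨a, ha, le_rfl, le_rfl, rfl⟩
  refine ⟨a', h, h3, h4, by_contra fun hn => ?_⟩
  obtain ⟨Y, g, s, hs, h6, h7, h8⟩ := exists_pair hΓ hn
  have hβ := (h.cg g).sq _ (mem_cg g hs) _ (mem_cg g hs)
  rw [← conj_sub] at hβ
  generalize g * s * g⁻¹ = b at *
  have a1 : a' ≠ ⊥ := fun e => a0 (Submodule.finrank_eq_zero.1 (by
    rw [e, finrank_bot] at h3; omega))
  refine Nat.findGreatest_is_greatest (P := P) (h5.symm.trans_lt (grow (a := a') h2 hβ Jn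
    (fun x hx k v hv => ?_)
    (fun i r hr k v hv => an _ (hr k v hv)) (fun i r hr => ⟨fun k v hv => hU b _ _ (hr k v hv),
      fun k v hv => ?_⟩) fun hD => h7 ?_)) (bd _) ⟨_, h.lim h2 (add_sub_cancel _ _).symm hβ h6 h8,
      h3.trans (finrank_le_lim hβ), h4.trans (fix_le_lim hβ a1), rfl⟩
  · obtain ⟨t, ht⟩ := h.ex x hx
    have := an _ (hU t k v hv)
    rwa [ht, add_sub_cancel_left] at this
  · have := hr _ _ (hU b k v hv)
    rwa [add_assoc, add_comm 1] at this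
  · refine H98.mem_normalizer_of_cj_le ?_
    rintro _ ⟨t, ht, rfl⟩
    change ρ (b * t * b⁻¹) - 1 ∈ a'
    rw [conj_sub, inv_eq (add_sub_cancel _ _).symm hβ]
    convert a'.sub_mem (a'.add_mem ht (hD _ ht)) (bb_mem h2 hβ (hD _ (hD _ ht))) using 1
    noncomm_ring

end H9.Gl
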