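/- The standard Heisenberg group `p^{1+2n}` over `ZMod p`. -/
import Cfsg.Agent.H27.Extra

set_option autoImplicit false
open H27

namespace H9

/-- The bilinear map `((x, y), (x', y')) ↦ x ⬝ y'`. -/
def heisβ (p : ℕ) (ι : Type) [Fintype ι] :
    ((ι → ZMod p) × (ι → ZMod p)) →ₗ[ZMod p] ((ι → ZMod p) × (ι → ZMod p)) →ₗ[ZMod p] ZMod p :=
  (dotProductBilin (ZMod p) (ZMod p)).compl₁₂ (LinearMap.fst _ _ _) (LinearMap.snd _ _ _)

theorem heisβ_apply {p : ℕ} {ι : Type} [Fintype ι] (u v : (ι → ZMod p) × (ι → ZMod p)) :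
    heisβ p ι u v = u.1 ⬝ᵥ v.2 := rfl

variable (p : ℕ) [hp : Fact p.Prime] (ι : Type) [Fintype ι]

theorem heis_nondeg : LinearMap.BilinForm.Nondegenerate ((Heis.cform (heisβ p ι)).B p) := by
  classical
  have key : ∀ u, (∀ v, (Heis.cform (heisβ p ι)).B p u v = 0) → u = 0 := by
    intro u hu
    ext i
    · simpa [Heis.cform_B, heisβ_apply] using hu (0, Pi.single i 1)
    · simpa [Heis.cform_B, heisβ_apply] using hu (Pi.single i 1, 0)
  exact ⟨key, fun u hu => key u fun v => by rw [CForm.B_swap, hu, neg_zero]⟩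

theorem heis_isExtraspecial [Nonempty ι] : Cfsg.IsExtraspecial p (Heis (heisβ p ι)) :=
  (Heis.cform (heisβ p ι)).isExtraspecial (heis_nondeg p ι)

theorem heis_card : Nat.card (Heis (heisβ p ι)) = p ^ (1 + 2 * Fintype.card ι) := by
  rw [(Heis.cform (heisβ p ι)).card_eq, Nat.card_prod, Nat.card_fun, Nat.card_zmod,
    Nat.card_eq_fintype_card]
  ring

theorem heis_pow_eq_one (hp2 : p ≠ 2) (x : Heis (heisβ p ι)) : x ^ p = 1 := by
  rw [← (Heis.cform (heisβ p ι)).P_eq_zero_iff p, Heis.cform_P]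
  obtain ⟨k, hk⟩ := dvd_choose_two_of_odd (hp.out.odd_of_ne_two hp2)
  rw [hk, nsmul_eq_mul, Nat.cast_mul, ZMod.natCast_self, zero_mul, zero_mul]

end H9
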