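/- `p'`-groups of automorphisms of metacyclic `p`-groups. -/
import Cfsg.Agent.H9.AbAut
import Cfsg.Agent.H9.Meta2
import Cfsg.Agent.H9.Homocyc

set_option autoImplicit false

namespace H9
open Cfsg Subgroup H92
open scoped commutatorElement

variable {G : Type*} [Group G] [Finite G] {p : ℕ} [hp : Fact p.Prime]

theorem inv_mul_mem_of_relIndex_le {Q R : Subgroup G} (hc : ∀ y ∈ R, ∀ z ∈ R, ⁅y, z⁆ ∈ Q)
    (hpow : ∀ y ∈ R, y ^ p ∈ Q) (hi : Q.relIndex R ≤ p) (h1 : ∀ α : MulAut G, ∀ y ∈ R, α y ∈ R)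
    (h2 : ∀ α : MulAut G, ∀ y ∈ Q, α y ∈ Q) (α β : MulAut G) {y : G} (hy : y ∈ R) :
    y⁻¹ * ⁅α, β⁆ y ∈ Q ∧ y⁻¹ * (α ^ (p - 1)) y ∈ Q := by
  let φ := MulAut.congr (topEquiv (G := G)).symm
  have e : ∀ γ y, af (φ γ) y = γ y := fun γ y => af_coe (φ γ) ⟨y, mem_top y⟩
  have := inv_mul_af_mem_of_relIndex_le (E := ⊤) le_top hc hpow hi (A := ⊤)
    (fun γ _ y hy => by rw [← φ.apply_symm_apply γ, e]; exact h1 _ y hy)
    (fun γ _ y _ hy => by rw [← φ.apply_symm_apply γ, e]; exact h2 _ y hy)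
    (mem_top (φ α)) (mem_top (φ β)) hy
  rwa [← map_commutatorElement, ← map_pow, e, e] at this

theorem autAb_of_chain (hG : IsPGroup p G) {M : Subgroup G}
    (hM : ∀ α : MulAut G, ∀ y ∈ M, α y ∈ M) (hΦ : frattini G ≤ M) (h1 : M.index ≤ p)
    (h2 : (frattini G).relIndex M ≤ p) : AutAb p G := by
  have e1 := fun α β y => inv_mul_mem_of_relIndex_le (R := ⊤)
    (fun y _ z _ => hΦ (commutatorElement_mem_frattini hG y z))
    (fun y _ => hΦ (pow_mem_frattini hG y)) (by rwa [relIndex_top_right])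
    (fun _ _ _ => mem_top _) hM α β (mem_top y)
  have e2 := fun α β y (hy : y ∈ M) => inv_mul_mem_of_relIndex_le
    (fun y _ z _ => commutatorElement_mem_frattini hG y z) (fun y _ => pow_mem_frattini hG y) h2 hM
    (fun α _ => map_mem_frattini α) α β hy
  have e3 : ∀ H : Subgroup (MulAut G), (Nat.card H).Coprime p → ∀ γ ∈ H, (orderOf γ).Coprime p :=
    fun H hH γ h => hH.coprime_dvd_left (orderOf_dvd_natCard H h)
  refine fun H hH => ⟨isMulCommutative_iff_forall.mpr fun α hα β hβ => ?_, fun α hα => ?_⟩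
  · exact commutatorElement_eq_one_iff_mul_comm.mp (aut_eq_one_of_chain_frattini hG
      (e3 H hH _ (by rw [commutatorElement_def]; exact mul_mem (mul_mem (mul_mem hα hβ)
        (inv_mem hα)) (inv_mem hβ))) (fun y => (e1 α β y).1) fun y hy => (e2 α β y hy).1)
  · exact aut_eq_one_of_chain_frattini hG (e3 H hH _ (pow_mem hα _)) (fun y => (e1 α α y).2)
      fun y hy => (e2 α α y hy).2

theorem autAb_of_char (hG : IsPGroup p G) (hi : (frattini G).index ≤ p ^ 2) {M : Subgroup G}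
    (hM : ∀ α : MulAut G, ∀ y ∈ M, α y ∈ M) (h1 : M ≠ ⊤) (h2 : ¬ M ≤ frattini G) : AutAb p G := by
  have h3 : frattini G ≤ M ⊔ frattini G := le_sup_right
  have h4 := relIndex_mul_index h3
  obtain ⟨i, hi'⟩ := hG.index (M ⊔ frattini G)
  obtain ⟨j, hj⟩ := H19.isPGroup_relIndex hG (frattini G) (M ⊔ frattini G)
  have h5 : i ≠ 0 := by
    rintro rfl
    exact h1 (frattini_nongenerating (index_eq_one.mp hi'))
  have h6 : j ≠ 0 := by
    rintro rfl
    exact h2 (le_sup_left.trans (relIndex_eq_one.mp hj))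
  rw [← h4, hi', hj, ← pow_add, pow_le_pow_iff_right₀ hp.out.one_lt] at hi
  refine autAb_of_chain hG (fun α y hy => ?_) h3 ?_ ?_
  · obtain ⟨u, hu, v, hv, rfl⟩ := mem_sup_of_normal_right.mp hy
    rw [map_mul]
    exact mul_mem (mem_sup_left (hM α u hu)) (mem_sup_right (map_mem_frattini α hv))
  · rw [hi', show i = 1 by omega, pow_one]
  · rw [hj, show j = 1 by omega, pow_one]

/-- For odd `p`, the `p'`-automorphism groups of a metacyclic `p`-group are abelian of exponent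
dividing `p - 1` unless the group is homocyclic of rank two. -/
theorem autAb_or_homocyclic (hp2 : p ≠ 2) (hG : IsPGroup p G) (hm : IsMetacyclic G) :
    AutAb p G ∨ ∃ a b : G, a ≠ 1 ∧ Commute a b ∧ orderOf a = orderOf b ∧
      zpowers a ⊓ zpowers b = ⊥ ∧ zpowers a ⊔ zpowers b = ⊤ := by
  refine or_iff_not_imp_left.mpr fun h => ?_
  have hi := index_frattini_le_of_isMetacyclic hG hm
  have hch : ∀ M : Subgroup G, (∀ α : MulAut G, ∀ y ∈ M, α y ∈ M) → ∀ a ∈ M, a ∉ frattini G →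
      ∀ y, y ∈ M := fun M hM a ha ha' y => by_contra fun hy =>
    h (autAb_of_char hG hi hM (fun e => hy (e ▸ mem_top y)) fun e => ha' (e ha))
  have hcyc : ∀ y : G, zpowers y ⊔ frattini G ≠ ⊤ := fun y hy => h (autAb_of_chain hG
    (fun α _ => map_mem_frattini α) le_rfl (index_frattini_le_of_isCyclic hG
      (isCyclic_iff_exists_zpowers_eq_top.mpr ⟨y, frattini_nongenerating hy⟩))
    (by rw [relIndex_self]; exact hp.out.one_le))
  obtain ⟨a, b, hab⟩ := H19.exists_MC hm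
  have hR := hab.regAt hp2 hG
  have htop : zpowers a ⊔ zpowers b = ⊤ := eq_top_iff.mpr fun g _ => by
    obtain ⟨i, j, rfl⟩ := hab.gen g
    exact mul_mem (mem_sup_left (zpow_mem (mem_zpowers a) i))
      (mem_sup_right (zpow_mem (mem_zpowers b) j))
  have ha : a ∉ frattini G := fun h => hcyc b (eq_top_iff.mpr (htop ▸ sup_le
    (zpowers_le.mpr (mem_sup_right h)) le_sup_left))
  have hb : ∀ i : ℤ, (a ^ i)⁻¹ * b ∉ frattini G := fun i h => hcyc a (eq_top_iff.mpr (htop ▸ sup_le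
    le_sup_left (zpowers_le.mpr (by
      simpa using mul_mem (mem_sup_left (zpow_mem (mem_zpowers a) i)) (mem_sup_right h)))))
  have ha1 : a ≠ 1 := fun e => ha (e ▸ one_mem _)
  have hom : ∀ k y, y ∉ frattini G → y ^ p ^ k = 1 → ∀ z : G, z ^ p ^ k = 1 := fun k y hy e z =>
    (hR.mem_omega hG).mp (hch (hR.omega hG k) (fun α y hy => (hR.mem_omega hG).mpr (by
      rw [← map_pow, (hR.mem_omega hG).mp hy, map_one])) y ((hR.mem_omega hG).mpr e) hy z)
  obtain ⟨n, hn⟩ := IsPGroup.iff_orderOf.mp hG a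
  obtain ⟨k, rfl⟩ : ∃ k, n = k + 1 := Nat.exists_eq_succ_of_ne_zero (by
    rintro rfl
    exact ha1 (orderOf_eq_one_iff.mp hn))
  have h1 := hom (k + 1) a ha (hn ▸ pow_orderOf_eq_one a)
  have h2 : ∀ y ∉ frattini G, y ^ p ^ k ≠ 1 := fun y hy e => absurd
    (orderOf_dvd_of_pow_eq_one (hom k y hy e a)) (by
      rw [hn, Nat.pow_dvd_pow_iff_le_right hp.out.one_lt]; omega)
  have h6 : ∀ c ∉ frattini G, orderOf (c ^ p ^ k) = p := fun c hc =>
    orderOf_eq_prime (by rw [← pow_mul, ← pow_succ, h1]) (h2 c hc)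
  have hb' : b ∉ frattini G := by simpa using hb 0
  have h7 : ∀ c ∉ frattini G, ∀ N : Subgroup G, N ≤ zpowers c → N ≠ ⊥ → c ^ p ^ k ∈ N :=
    fun c hc N h h' => by
      obtain ⟨z, hz⟩ := exists_prime_orderOf_dvd_card' (G := N) p
        ((IsPGroup.card_eq_or_dvd (hG.to_subgroup _)).resolve_left (mt card_eq_one.mp h'))
      exact zpowers_le.mpr z.2 (H3.mem_zpowers_of_isCyclic_subgroup (H := zpowers c) inferInstance
        (pow_mem (mem_zpowers c) _) (h z.2) (by rw [← pow_mul, ← pow_succ, h1])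
        ((orderOf_coe z).trans hz))
  have h8 : b ^ p ^ k ∉ zpowers a := fun h => by
    obtain ⟨i, hi⟩ := H3.mem_zpowers_of_isCyclic_subgroup (H := zpowers a) inferInstance h
      (pow_mem (mem_zpowers a) (p ^ k)) (by rw [← pow_mul, ← pow_succ, h1]) (h6 a ha)
    refine h2 _ (hb i) ((hR.pow_eq_pow_iff hG k _ _).mp ?_)
    simp only at hi
    rw [← hi, ← zpow_natCast, ← zpow_natCast, ← zpow_mul, ← zpow_mul, mul_comm]
  refine ⟨a, b, ha1, by_contra fun h => h8 (hab.commutator_le ?_), hn.trans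
    (orderOf_eq_prime_pow (h2 b hb') (h1 b)).symm,
    by_contra fun h => h8 (h7 b hb' _ inf_le_right h).1, htop⟩
  have hQ := hG.to_quotient (commutator G)
  have e : ∀ y, y ∈ ((hR.quotient _).omega hQ k).comap (QuotientGroup.mk' (commutator G)) ↔
      y ^ p ^ k ∈ commutator G := fun y => by
    rw [mem_comap, H19.RegAt.mem_omega, ← map_pow, QuotientGroup.mk'_apply, QuotientGroup.eq_one_iff]
  refine (e b).mp (hch _ (fun α y hy => (e _).mpr ?_) a ((e a).mpr (h7 a ha _ hab.commutator_le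
    fun h' => h ?_)) ha b)
  · rw [← map_pow]
    exact (characteristic_iff_map_le.mp inferInstance α) ⟨_, (e y).mp hy, rfl⟩
  · exact commutatorElement_eq_one_iff_commute.mp
      (mem_bot.mp (h' ▸ commutatorElement_mem_commutator a b))

end H9
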