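import Cfsg.Agent.H11.SL2Act
import Cfsg.Agent.H3.AutP
import Cfsg.Agent.H49.PStable
import Cfsg.Agent.H3.SecRank
import Cfsg.Agent.S0501

/-! Automorphisms of `3`-power order of small `2`-groups have order at most three. -/

set_option autoImplicit false

namespace H9.Nine

open Subgroup

theorem mem_of_ne {A : Type*} [Group A] [Finite A] {ρ g : A} {k : ℕ} (hk : orderOf ρ = 3 ^ (k + 1))
    (hg : g ∈ zpowers ρ) (h1 : g ≠ 1) : ρ ^ 3 ^ k ∈ zpowers g := by
  obtain ⟨j, rfl⟩ := mem_powers_iff_mem_zpowers.2 hg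
  have hj : ¬ 3 ^ (k + 1) ∣ j := fun h => h1 (by rw [← hk] at h; exact orderOf_dvd_iff_pow_eq_one.1 h)
  have hd : Nat.gcd j (3 ^ (k + 1)) ∣ 3 ^ k := by
    obtain ⟨i, hi, e⟩ := (Nat.dvd_prime_pow Nat.prime_three).1 (Nat.gcd_dvd_right j (3 ^ (k + 1)))
    rw [e]
    refine pow_dvd_pow 3 ?_
    by_contra hc
    have : i = k + 1 := by omega
    rw [this] at e
    exact hj (e ▸ Nat.gcd_dvd_left _ _)
  obtain ⟨c, hc⟩ := hd
  have hg : ρ ^ Nat.gcd j (3 ^ (k + 1)) ∈ zpowers (ρ ^ j) := by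
    have hb := Nat.gcd_eq_gcd_ab j (3 ^ (k + 1))
    refine ⟨Nat.gcdA j (3 ^ (k + 1)), ?_⟩
    show (ρ ^ j) ^ Nat.gcdA j (3 ^ (k + 1)) = ρ ^ Nat.gcd j (3 ^ (k + 1))
    rw [← zpow_natCast ρ (Nat.gcd _ _), hb, zpow_add, zpow_mul, zpow_mul, zpow_natCast, zpow_natCast,
      ← hk, pow_orderOf_eq_one, one_zpow, mul_one]
  rw [hc, pow_mul]
  exact pow_mem hg c

/-- On a group of order `2 ^ a`, `a ≤ 5`, an automorphism of `3`-power order has order dividing `3`. -/
theorem cube_of_small {V : Type*} [Group V] [Finite V] {a n : ℕ} (hV : Nat.card V = 2 ^ a) (ha : a ≤ 5)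
    (ρ : MulAut V) (h : ρ ^ 3 ^ n = 1) : ρ ^ 3 = 1 := by
  obtain ⟨k, -, hk⟩ := (Nat.dvd_prime_pow Nat.prime_three).1 (orderOf_dvd_of_pow_eq_one h)
  by_contra h3
  have hk2 : 2 ≤ k := by
    by_contra hc
    apply h3
    apply orderOf_dvd_iff_pow_eq_one.1
    rw [hk]
    calc 3 ^ k ∣ 3 ^ 1 := pow_dvd_pow 3 (by omega)
      _ = 3 := by norm_num
  obtain ⟨k, rfl⟩ : ∃ j, k = j + 1 := ⟨k - 1, by omega⟩
  set τ := ρ ^ 3 ^ k with hτ
  have hτ1 : τ ≠ 1 := fun e => by
    have := orderOf_dvd_of_pow_eq_one e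
    rw [hk] at this
    have := (Nat.pow_dvd_pow_iff_le_right (by norm_num : 1 < 3)).1 this
    omega
  let C : Subgroup V :=
    { carrier := {x | τ x = x}
      mul_mem' := fun {x y} hx hy => by
        show τ (x * y) = x * y
        rw [map_mul, hx, hy]
      one_mem' := map_one τ
      inv_mem' := fun {x} hx => by
        show τ x⁻¹ = x⁻¹
        rw [map_inv, hx] }
  have hC : C ≠ ⊤ := fun e => hτ1 (by
    ext x
    have : x ∈ C := e ▸ mem_top x
    exact this)
  have hd := H11.card_dvd_ncard_of_free (H := zpowers ρ) (X := V) (C : Set V)ᶜ (fun g x hx hc => hx (by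
      have hc' : τ (g.1 x) = g.1 x := hc
      have cm : Commute τ g.1 := by
        obtain ⟨j, hj⟩ := g.2
        rw [← hj]
        exact ((Commute.refl ρ).pow_left _).zpow_right _
      have e : g.1 (τ x) = g.1 x := by
        rw [← MulAut.mul_apply, ← cm.eq, MulAut.mul_apply, hc']
      exact g.1.injective e))
    (fun g x hx e => by
      by_contra h1
      have h1' : g.1 ≠ 1 := fun e => h1 (Subtype.ext e)
      obtain ⟨j, hj⟩ := mem_powers_iff_mem_zpowers.2 (mem_of_ne hk g.2 h1')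
      apply hx
      show τ x = x
      have e' : g.1 x = x := e
      rw [hτ, ← hj]
      clear hj
      induction j with
      | zero => rfl
      | succ j ih => show (g.1 ^ (j + 1)) x = x; rw [pow_succ, MulAut.mul_apply, e']; exact ih)
  rw [Nat.card_zpowers, hk] at hd
  have hc : (C : Set V).ncard + (C : Set V)ᶜ.ncard = 2 ^ a := by
    rw [Set.ncard_add_ncard_compl, hV]
  have hcd : Nat.card C ∣ 2 ^ a := hV ▸ C.card_subgroup_dvd_card
  obtain ⟨b, hb, e⟩ := (Nat.dvd_prime_pow Nat.prime_two).1 hcd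
  have hlt : Nat.card C < Nat.card V := lt_of_le_of_ne (C.card_le_card_group) fun e =>
    hC (C.eq_top_of_card_eq e)
  have e2 : (C : Set V).ncard = 2 ^ b := by rw [← e]; rfl
  rw [e2] at hc
  rw [e, hV] at hlt
  have hba : b < a := (Nat.pow_lt_pow_iff_right (by norm_num)).1 hlt
  have h9 : 9 ∣ (C : Set V)ᶜ.ncard := (show 9 ∣ 3 ^ (k + 1) from
    (show (9 : ℕ) = 3 ^ 2 by norm_num) ▸ pow_dvd_pow 3 hk2).trans hd
  generalize (C : Set V)ᶜ.ncard = m at h9 hc
  have hb5 : b < 5 := by omega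
  interval_cases a <;> interval_cases b <;> omega

/-- On a `2`-group without normal elementary abelian subgroups of order eight, an automorphism of `3`-power
order has order dividing `3`. -/
theorem cube_of_rank {P : Type*} [Group P] [Finite P] (hP : IsPGroup 2 P)
    (hr : ∀ A : Subgroup P, A.Normal → IsMulCommutative A → (∀ a ∈ A, a ^ 2 = 1) → Nat.card A ≤ 4)
    {n : ℕ} (σ : MulAut P) (h : σ ^ 3 ^ n = 1) : σ ^ 3 = 1 := by
  haveI : Fact (Nat.Prime 2) := ⟨Nat.prime_two⟩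
  have r4 := Cfsg.Agent.S0501.result hP hr
  have hle : Nat.card (P ⧸ frattini P) ≤ 16 := H3.index_frattini_le_of_sectionalPRankLE hP r4
  obtain ⟨a, ha⟩ := IsPGroup.iff_card.1 (hP.to_quotient (frattini P))
  have ha5 : a ≤ 5 := by
    rw [ha] at hle
    by_contra hc
    have : 2 ^ 6 ≤ 2 ^ a := Nat.pow_le_pow_right (by norm_num) (by omega)
    omega
  have h3 := cube_of_small ha ha5 (H3.frattiniAut P σ) (n := n) (by rw [← map_pow, h, map_one])
  rw [← map_pow] at h3
  refine H49.aut_eq_one_of_frattini hP ?_ ((H3.mem_ker_frattiniAut _).1 h3)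
  have : orderOf (σ ^ 3) ∣ 3 ^ n := by
    apply orderOf_dvd_of_pow_eq_one
    rw [← pow_mul, mul_comm, pow_mul, h, one_pow]
  exact Nat.Coprime.coprime_dvd_left this (Nat.Coprime.pow_left n (by norm_num))

theorem cube_cen {X : Type*} [Group X] [Finite X] {P : Subgroup X} (hP : IsPGroup 2 P)
    (hr : ∀ A : Subgroup X, A ≤ P → Cfsg.IsElementaryAbelian 2 A → Nat.card A ≤ 4) {d : X}
    (hd : d ∈ normalizer (P : Set X)) {n : ℕ} (h : d ^ 3 ^ n = 1) : d ^ 3 ∈ centralizer (P : Set X) := by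
  have h3 := cube_of_rank hP (fun A _ hc he => by
    rw [← card_map_of_injective P.subtype_injective]
    refine hr _ (map_subtype_le A) ⟨?_, ?_⟩
    · infer_instance
    · rintro _ ⟨a, ha, rfl⟩
      rw [← map_pow, he a ha, map_one]) (n := n) (P.normalizerMonoidHom ⟨d, hd⟩) (by
    rw [← map_pow]
    have : (⟨d, hd⟩ : normalizer (P : Set X)) ^ 3 ^ n = 1 := Subtype.ext h
    rw [this, map_one])
  rw [← map_pow, ← MonoidHom.mem_ker, normalizerMonoidHom_ker, mem_subgroupOf] at h3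
  exact h3

end H9.Nine
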