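/- Tower OV, job KS: the small groups `U₃(4)`, `A₇`, `M₁₁`. -/
import Cfsg.Agent.H51.OVSpec
import Cfsg.Agent.H43.M11E
import Cfsg.Agent.S1248

set_option autoImplicit false
set_option maxRecDepth 100000

namespace H9.OV

open Subgroup H51.OV

universe u

theorem ord2 {G : Type*} [Group G] {a : G} (h : a * a = 1 ∧ a ≠ 1) : orderOf a = 2 :=
  orderOf_eq_prime (by rw [pow_two, h.1]) h.2

/-- The data of `BadY` with `y` of order `3`, in a decidable form. -/
def BY {P : Type*} [Group P] (y s z z' : P) : Prop :=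
  y ≠ 1 ∧ y ^ 3 = 1 ∧ (s * s = 1 ∧ s ≠ 1) ∧ (z * z = 1 ∧ z ≠ 1) ∧ (z' * z' = 1 ∧ z' ≠ 1) ∧
    s * y * s⁻¹ = y⁻¹ ∧ z * s = s * z ∧ z * y = y * z ∧ z' * y = y * z' ∧ z ≠ z'

theorem badY_of {G : Type u} {P : Type*} [Group G] [Group P] {K : Subgroup P} (e : G ≃* K)
    {y s z z' : P} (hy : y ∈ K) (hs : s ∈ K) (hz : z ∈ K) (hz' : z' ∈ K) (h : BY y s z z') :
    BadY G := by
  let f : G →* P := K.subtype.comp e.toMonoidHom
  have hf : Function.Injective f := Subtype.val_injective.comp e.injective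
  have ex : ∀ x ∈ K, ∃ g, f g = x := fun x hx => ⟨e.symm ⟨x, hx⟩, by simp [f]⟩
  obtain ⟨y, rfl⟩ := ex y hy
  obtain ⟨s, rfl⟩ := ex s hs
  obtain ⟨z, rfl⟩ := ex z hz
  obtain ⟨z', rfl⟩ := ex z' hz'
  obtain ⟨h1, h2, h3, h4, h5, h6, h7, h8, h9, h10⟩ := h
  have o : ∀ a, orderOf (f a) = orderOf a := orderOf_injective f hf
  refine ⟨y, s, z, z', fun c => h1 (by rw [c, map_one]), ?_, o s ▸ ord2 h3, o z ▸ ord2 h4,
    o z' ▸ ord2 h5, hf (by simpa using h6), hf (by simpa using h7), hf (by simpa using h8),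
    hf (by simpa using h9), fun c => h10 (by rw [c])⟩
  rw [← o]
  exact Odd.of_dvd_nat (by decide : Odd 3) (orderOf_dvd_of_pow_eq_one h2)

open Equiv in
theorem jobKA7 : JobKA7 :=
  badY_of (K := alternatingGroup (Fin 7)) (MulEquiv.refl _) (y := swap 0 1 * swap 1 2)
    (s := swap 0 1 * swap 3 4) (z := swap 3 4 * swap 5 6) (z' := swap 3 5 * swap 4 6)
    (by rw [Perm.mem_alternatingGroup]; decide) (by rw [Perm.mem_alternatingGroup]; decide)
    (by rw [Perm.mem_alternatingGroup]; decide) (by rw [Perm.mem_alternatingGroup]; decide)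
    (by unfold BY; decide)

open H43.P12 in
theorem jobKM11 : JobKM11.{u} := fun G _ _ hG => by
  have := hG.1
  obtain ⟨e⟩ := H43.equiv_G0 hG.2
  have hW : W ∈ G0 := subset_closure (by simp)
  have hY : Y ∈ G0 := subset_closure (by simp)
  have hV : V ∈ G0 := subset_closure (by simp)
  refine badY_of e (y := W * W * V * V * W) (s := V * Y * V)
    (z := Y * W * W * V * Y * V * W * Y * W) (z' := V * W * V * V * Y * W * V) ?_ ?_ ?_ ?_
    (by unfold BY; decide +kernel)
  all_goals repeat first | assumption | apply mul_mem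

theorem jobKU4 : JobKU4 := fun F _ _ hF => by
  have : Fact (Nat.Prime 2) := ⟨Nat.prime_two⟩
  obtain ⟨S⟩ : Nonempty (Sylow 2 (Cfsg.PSU 3 F 4)) := inferInstance
  obtain ⟨h64, hK, hc, -, -, hq⟩ := Cfsg.Agent.S1248.result hF S
  generalize (S : Subgroup (Cfsg.PSU 3 F 4)) = T at h64 hK hc hq
  have h4 : Nat.card (center T) = 4 := IsKleinFour.card_four
  have : Finite (center T) := Nat.finite_of_card_ne_zero (by omega)
  obtain ⟨x, hx⟩ : ∃ x : T, x ∉ center T := by
    by_contra! h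
    rw [(eq_top_iff' _).2 h, card_top] at h4
    omega
  have hx2 : x * x ∈ center T := by
    rw [← QuotientGroup.eq_one_iff, QuotientGroup.mk_mul, ← pow_two, hq]
  have e2 : ∀ a ∈ center T, a * a = 1 := fun a ha =>
    congrArg Subtype.val (IsKleinFour.mul_self (⟨a, ha⟩ : center T))
  have h1 : x * x ≠ 1 := fun c =>
    hx (hc ▸ subset_closure (ord2 ⟨c, fun d => hx (d ▸ one_mem _)⟩))
  obtain ⟨b, hb1, hb2⟩ : ∃ b : center T, b ≠ 1 ∧ b ≠ ⟨x * x, hx2⟩ := by
    classical
    by_contra! h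
    have := Fintype.ofFinite (center T)
    have k : (Finset.univ : Finset (center T)) ⊆ {1, ⟨x * x, hx2⟩} := fun b _ => by
      by_cases c : b = 1
      · simp [c]
      · simp [h b c]
    have := (Finset.card_le_card k).trans Finset.card_le_two
    rw [Finset.card_univ, ← Nat.card_eq_fintype_card, h4] at this
    omega
  refine ⟨x, b.1, ?_, ?_, fun c => hb2 (Subtype.ext (Subtype.ext c)), ?_⟩
  · rw [← coe_mul, orderOf_coe]; exact ord2 ⟨e2 _ hx2, h1⟩
  · rw [orderOf_coe]; exact ord2 ⟨e2 _ b.2, fun c => hb1 (Subtype.ext c)⟩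
  · exact congrArg Subtype.val (mem_center_iff.1 b.2 x)

end H9.OV
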