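import Cfsg.Agent.H52.RCSpec
import Cfsg.Agent.H66.SzInst
import Cfsg.Agent.H66.SzBorel

/-! Job RO3 of the tower RC: a real element of order 7 of Sz(8) with centraliser of order 7. -/

set_option autoImplicit false

namespace H9.RCRO3

open H52.RC

universe u

theorem jobRO3 : JobRO3.{u} := by
  rintro S _ ⟨F, _, _, hF, ⟨e⟩⟩
  have hT := H66.titsOf_isFin F (m := 1) le_rfl hF
  let M := (H66.modelB hT).ofEquiv e
  have h8 : Nat.card F = 8 := by rw [Nat.card_eq_fintype_card, hF]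
  have hH : Nat.card M.H = 7 := by rw [M.card_H, h8]
  have hG : Nat.card S = 29120 := by rw [M.card_G, h8]; norm_num
  refine ⟨?_, by rw [hG]; norm_num⟩
  have hu : Nontrivial Fˣ := by
    rw [← Finite.one_lt_card_iff_nontrivial, Nat.card_units, h8]
    norm_num
  obtain ⟨k, hk⟩ := exists_ne (1 : Fˣ)
  have hx : M.h k ∈ M.H := M.mem_H.2 ⟨k, rfl⟩
  have h1 : M.h k ≠ 1 := fun h => hk (M.h_eq_one.1 h)
  refine ⟨M.h k, h1, ?_, ⟨M.w, ?_⟩, ?_⟩
  · have := Subgroup.orderOf_dvd_natCard M.H hx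
    rw [hH] at this
    exact Odd.of_dvd_nat (by decide) this
  · show M.w * M.h k * M.w⁻¹ = (M.h k)⁻¹
    rw [M.w_inv, M.w_h_w, map_inv]
  · show Odd (Nat.card (Subgroup.centralizer ({M.h k} : Set S)))
    rw [M.centralizer_h hx h1, hH]
    decide

end H9.RCRO3
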