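/- Tower RV (row S5207): the jobs Ess, Ext, Mv, SL. -/
import Cfsg.Agent.H9.RVKit

set_option autoImplicit false
set_option linter.unusedSectionVars false

open Matrix Subgroup Cfsg H92

namespace H9.RV

variable {p : ℕ} [hp : Fact p.Prime] {F : FusionSystem (⊤ : Subgroup (He p))}

theorem z_mem {P : Subgroup (He p)} {v : V2 p} {c : ZMod p} (hZ : ZZ p ≤ P) (h : (⟨v, c⟩ : He p) ∈ P) :
    VV v ≤ P := fun u ⟨t, ht⟩ => by
  obtain ⟨n, hn⟩ := exists_pow (⟨v, c⟩ : He p) t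
  have e : u = (⟨v, c⟩ : He p) ^ n * ⟨0, u.c - t * c⟩ := by
    rw [hn]; exact He.ext (by simp [ht]) (by simp)
  rw [e]
  exact mul_mem (pow_mem h n) (hZ rfl)

theorem jobEss : JobEss := by
  intro p _ h2 F hF P hP
  have hlt := ((isEssential_iff pgroup_top hF).1 hP).1
  have hc : FusionSystem.centralizerIn ⊤ P ≤ P := by
    refine hP.1.2 P ⟨_, F.conj_mem le_top (one_mem _), ?_⟩
    ext x
    simp [conjHom]
  have hZ : ZZ p ≤ P := fun z hz => hc ⟨trivial, mem_centralizer_iff.2 fun u _ => comm_ZZ hz u⟩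
  obtain ⟨u, hu, hv⟩ : ∃ u ∈ P, u.v ≠ 0 := by
    by_contra! h
    exact hlt.ne (top_le_iff.1 fun x _ =>
      hc ⟨trivial, mem_centralizer_iff.2 fun u hu => (comm_ZZ (h u hu) x).symm⟩)
  refine ⟨u.v, hv, le_antisymm (fun w hw => (mem_VV_iff hv).2 ?_) (z_mem (c := u.c) hZ hu)⟩
  by_contra ho
  obtain ⟨A, h1, h2, -⟩ := exists_cols ho
  refine hlt.ne (top_le_iff.1 fun x _ => ?_)
  have e : x.v = (act A⁻¹ x.v 0) • u.v + (act A⁻¹ x.v 1) • w.v := by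
    rw [← h1, ← h2, ← act_smul, ← act_smul, ← act_add]
    conv_lhs => rw [← act_act_inv A x.v]
    congr 1
    funext i
    fin_cases i <;> simp
  have e' : x = ⟨(act A⁻¹ x.v 0) • u.v, 0⟩ * ⟨(act A⁻¹ x.v 1) • w.v,
      x.c - om ((act A⁻¹ x.v 0) • u.v) ((act A⁻¹ x.v 1) • w.v)⟩ := He.ext e (by simp)
  rw [e']
  exact mul_mem (z_mem (c := u.c) hZ hu (mk_mem_VV _ _ _)) (z_mem (c := w.c) hZ hw (mk_mem_VV _ _ _))

theorem mk_eq {v : V2 p} {a a' c c' : ZMod p} (h1 : a = a') (h2 : c = c') :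
    (⟨a • v, c⟩ : He p) = ⟨a' • v, c'⟩ := by rw [h1, h2]

theorem inv_app (g : Equiv.Perm (He p)) (x : He p) : g⁻¹ (g x) = x := g.symm_apply_apply x

/-- a map on `VV v` is linear -/
theorem mor_lin {v : V2 p} {f : He p → He p} (h : Mor F (VV v) f) (t s : ZMod p) :
    ∃ m n : ℕ, (m : ZMod p) = t ∧ (n : ZMod p) = s ∧ f ⟨t • v, s⟩ = f ⟨v, 0⟩ ^ m * f ⟨0, 1⟩ ^ n := by
  refine ⟨t.val, s.val, ZMod.natCast_zmod_val t, ZMod.natCast_zmod_val s, ?_⟩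
  rw [← h.map_pow (self_mem_VV v 0), ← h.map_pow (ZZ_le_VV v rfl),
    ← h.map_mul (pow_mem (self_mem_VV v 0) _) (pow_mem (ZZ_le_VV v rfl) _), pow_eq, pow_eq]
  congr 1
  exact He.ext (by simp) (by simp)

theorem mor_lin' {v w : V2 p} {f : He p → He p} (h : Mor F (VV v) f) {a b c d : ZMod p}
    (h1 : f ⟨0, 1⟩ = ⟨c • w, a⟩) (h2 : f ⟨v, 0⟩ = ⟨d • w, b⟩) (t s : ZMod p) :
    f ⟨t • v, s⟩ = ⟨(c * s + d * t) • w, a * s + b * t⟩ := by
  obtain ⟨m, n, rfl, rfl, e⟩ := mor_lin h t s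
  rw [e, h1, h2, pow_eq, pow_eq]
  simp only [smul_smul]
  rw [mul_VV]
  exact mk_eq (by ring) (by ring)

/-- the determinant of a map is not zero -/
theorem mor_det {v w : V2 p} (hv : v ≠ 0) {f : He p → He p} (h : Mor F (VV v) f) {a b c d : ZMod p}
    (h1 : f ⟨0, 1⟩ = ⟨c • w, a⟩) (h2 : f ⟨v, 0⟩ = ⟨d • w, b⟩) : a * d - b * c ≠ 0 := fun e => by
  have k : ∀ t s, c * s + d * t = 0 → a * s + b * t = 0 → t = 0 ∧ s = 0 := fun t s e1 e2 => by
    have := (h.eq_one_iff (mk_mem_VV v t s)).1 (by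
      rw [mor_lin' h h1 h2, e1, e2]; exact He.ext (by simp) rfl)
    exact ⟨smul_inj hv ((congrArg He.v this).trans (zero_smul _ _).symm), congrArg He.c this⟩
  obtain ⟨a1, a2⟩ := k a (-b) (by linear_combination e) (by ring)
  obtain ⟨a3, a4⟩ := k c (-d) (by ring) (by linear_combination -e)
  exact one_ne_zero (k 1 0 (by rw [neg_eq_zero.1 a4]; ring) (by rw [neg_eq_zero.1 a2]; ring)).1

theorem fc_normal (hF : F.IsSaturated p) (P : Subgroup (He p)) (h : ∀ s x, x ∈ P → s * x * s⁻¹ ∈ P) :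
    F.IsFullyCentralized P :=
  fc_of_fn pgroup_top hF (fullyNormalized_of_normal F le_top fun s _ x => h s x)

theorem jobExt : JobExt := by
  intro p _ h2 F hF v hv f hf hV hZ
  have e := hf.img_eq_of_maps hV
  obtain ⟨g, hg, hgf⟩ := exists_ext_Nx pgroup_top hF hf (e.symm ▸ fc_normal hF _ fun s _ => conj_mem_VV s)
  obtain ⟨d, hd⟩ := hV _ (self_mem_VV v 0)
  have h1 : f ⟨0, 1⟩ = ⟨(0 : ZMod p) • v, (f ⟨0, 1⟩).c⟩ := He.ext (by rw [zero_smul]; exact hZ _ rfl) rfl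
  have h2' : f ⟨v, 0⟩ = ⟨d • v, (f ⟨v, 0⟩).c⟩ := He.ext hd rfl
  have hd0 : d ≠ 0 := fun k => mor_det hv hf h1 h2' (by rw [k]; ring)
  have hN : Nx ⊤ (VV v) f = ⊤ := top_le_iff.1 fun x _ => by
    obtain ⟨y, hy⟩ := exists_om hv ((f ⟨0, 1⟩).c * om x.v v / d)
    refine mem_Nx.2 ⟨⟨trivial, by rw [normalizer_eq_top]; trivial⟩, ⟨y, 0⟩, trivial, fun u ⟨t, ht⟩ => ?_⟩
    obtain ⟨w, s⟩ := u
    obtain rfl : w = t • v := ht
    rw [conj_eq, conj_eq, mor_lin' hf h1 h2', mor_lin' hf h1 h2']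
    refine He.ext (by simp) ?_
    simp only [om_smul_right, hy]
    field_simp
    ring
  rw [hN] at hg
  obtain ⟨θ, hθ⟩ := exists_aut hg
  exact ⟨θ, hg.congr fun x _ => (hθ x).symm, fun u hu => (hθ u).trans (hgf u hu)⟩

theorem jobMv : JobMv := by
  intro p _ h2 F v hv f hf hV
  refine or_iff_not_imp_left.2 fun h => ?_
  push Not at h
  obtain ⟨z, hz, hz'⟩ := h
  obtain ⟨t, ht⟩ := hV z (ZZ_le_VV v hz)
  have ht0 : t ≠ 0 := fun k => hz' (by rw [mem_ZZ, ht, k, zero_smul])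
  obtain ⟨g, hg, e⟩ := hf.exists_perm
  have hi := hg.perm_inv
  rw [hg.img_eq_of_maps fun x hx => by rw [e x hx]; exact hV x hx] at hi
  obtain ⟨y, hy⟩ := exists_conj h2 hv 0 (t⁻¹ * (f z).c)
  obtain ⟨n, hn⟩ := exists_pow (f z) t⁻¹
  have hle : zpowers (⟨v, 0⟩ : He p) ≤ VV v := zpowers_le.2 (self_mem_VV v 0)
  refine ⟨hv, _, (mor_conj F le_top (mem_top y)).comp hi fun x hx => conj_mem_VV y (hle hx), ?_⟩
  have k : y * ⟨v, 0⟩ * y⁻¹ = g (z ^ n) := by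
    rw [hg.map_pow (ZZ_le_VV v hz), e z (ZZ_le_VV v hz), hn, hy, ht, smul_smul, inv_mul_cancel₀ ht0, one_smul]
  simp only [k, inv_app]
  exact pow_mem hz n

/-- the matrix `(a, b, c, d)` is induced on `VV v` -/
def Ind (F : FusionSystem (⊤ : Subgroup (He p))) (v : V2 p) (a b c d : ZMod p) : Prop :=
  ∃ f, Mor F (VV v) f ∧ ∀ t s : ZMod p, f ⟨t • v, s⟩ = ⟨(c * s + d * t) • v, a * s + b * t⟩

theorem Ind.mul {v : V2 p} {a b c d a' b' c' d' : ZMod p} (h : Ind F v a b c d) (k : Ind F v a' b' c' d') :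
    Ind F v (a * a' + b * c') (a * b' + b * d') (c * a' + d * c') (c * b' + d * d') := by
  obtain ⟨f, hf, e⟩ := h
  obtain ⟨g, hg, e'⟩ := k
  refine ⟨_, hg.comp hf fun x ⟨t, ht⟩ => ?_, fun t s => ?_⟩
  · rw [show x = ⟨t • v, x.c⟩ from He.ext ht rfl, e']; exact mk_mem_VV _ _ _
  · simp only [e, e']
    exact mk_eq (by ring) (by ring)

theorem ind_U (h2 : p ≠ 2) {v : V2 p} (hv : v ≠ 0) (k : ZMod p) : Ind F v 1 k 0 1 := by
  obtain ⟨y, hy⟩ := exists_om hv (k / 2)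
  refine ⟨_, mor_conj F le_top (mem_top ⟨y, 0⟩), fun t s => ?_⟩
  have := two_ne h2
  rw [conj_eq]
  exact He.ext (by simp) (by simp only [om_smul_right, hy]; field_simp)

theorem ind_L (h2 : p ≠ 2) (hF : F.IsSaturated p) {v : V2 p} (hv : v ∈ RF F) (k : ZMod p) : Ind F v 1 0 k 1 := by
  obtain ⟨hv, f, hf, hx⟩ := hv
  have hZ : ∀ x ∈ zpowers (⟨v, 0⟩ : He p), f x ∈ ZZ p := fun x ⟨n, hn⟩ => by
    rw [← hn, hf.map_zpow (mem_zpowers _)]; exact zpow_mem (show f ⟨v, 0⟩ ∈ ZZ p from hx) n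
  obtain ⟨g, hg, e⟩ := exists_ext_Nx pgroup_top hF hf (fc_normal hF _ fun s x hx => by
    rwa [conj_ZZ (img_le_iff.2 hZ hx)])
  have hc : ∀ y ∈ VV v, ∀ x ∈ zpowers (⟨v, 0⟩ : He p), y * x * y⁻¹ = x := fun y hy x hx => by
    rw [comm_VV hy (zpowers_le.2 (self_mem_VV v 0) hx), mul_inv_cancel_right]
  have hle : VV v ≤ Nx ⊤ (zpowers (⟨v, 0⟩ : He p)) f := fun y hy =>
    mem_Nx.2 ⟨⟨trivial, mem_normalizer_fintype fun x hx => by rw [hc y hy x hx]; exact hx⟩, 1, trivial,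
      fun x hx => by rw [hc y hy x hx]; simp⟩
  obtain ⟨g, hg, e'⟩ := (hg.mono hle).exists_perm
  set w := (g ⟨0, 1⟩).v
  have h1 : g ⟨0, 1⟩ = ⟨(1 : ZMod p) • w, (g ⟨0, 1⟩).c⟩ := He.ext (one_smul _ _).symm rfl
  have h2' : g ⟨v, 0⟩ = ⟨(0 : ZMod p) • w, (g ⟨v, 0⟩).c⟩ :=
    He.ext (by rw [e' _ (self_mem_VV v 0), e _ (mem_zpowers _), zero_smul]; exact hx) rfl
  have hw : w ≠ 0 := fun k => mor_det (w := w) (c := 0) hv hg (He.ext (by rw [zero_smul]; exact k) rfl) h2' (by ring)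
  have hb : (g ⟨v, 0⟩).c ≠ 0 := fun k => mor_det hv hg h1 h2' (by rw [k]; ring)
  obtain ⟨y, hy⟩ := exists_om hw ((g ⟨v, 0⟩).c * k / 2)
  have key : ∀ t s : ZMod p, ⟨y, 0⟩ * g ⟨t • v, s⟩ * (⟨y, 0⟩ : He p)⁻¹ = g ⟨(k * s + 1 * t) • v, 1 * s + 0 * t⟩ :=
    fun t s => by
      have := two_ne h2
      rw [mor_lin' hg h1 h2', mor_lin' hg h1 h2', conj_eq]
      refine mk_eq (by ring) ?_
      simp only [om_smul_right, hy]
      field_simp
      ring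
  refine ⟨_, (hg.comp (mor_conj F le_rfl (mem_top ⟨y, 0⟩)) fun _ _ => trivial).comp hg.perm_inv
    fun x ⟨t, ht⟩ => ?_, fun t s => ?_⟩
  · rw [show x = ⟨t • v, x.c⟩ from He.ext ht rfl, key]
    exact mem_img_of_mem _ (mk_mem_VV _ _ _)
  · simp only [key, inv_app]

theorem jobSL : JobSL := by
  intro p _ h2 F hF v hv
  have k : ∀ a b c d : ZMod p, c ≠ 0 → a * d - b * c = 1 → Ind F v a b c d := fun a b c d hc e => by
    have := ((ind_U h2 hv.1 ((a - 1) / c)).mul (ind_L h2 hF hv c)).mul (ind_U h2 hv.1 ((d - 1) / c))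
    convert this using 1
    · field_simp; ring
    · field_simp; linear_combination -e
    · ring
    · field_simp; ring
  intro a b c d e
  show Ind F v a b c d
  by_cases hc : c = 0
  · have ha : a ≠ 0 := fun h => by simp [h, hc] at e
    have := (ind_L h2 hF hv (-1)).mul (k a b (c + a) (d + b) (by simpa [hc] using ha) (by linear_combination e))
    convert this using 1 <;> ring
  · exact k a b c d hc e

end H9.RV
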