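/- Tower RV (row S5207): the job Two. -/
import Cfsg.Agent.H9.RVKit

set_option autoImplicit false
set_option linter.unusedSectionVars false

open Matrix Subgroup Cfsg H92

namespace H9.RV

theorem jobTwo : JobTwo := by
  intro p _ h2 W R ad ⟨v, hv, w, hw, ho⟩ ht
  obtain ⟨A, a1, a2, -⟩ := exists_cols ho
  obtain ⟨W', R', c1, c2⟩ := exists_cj A⁻¹ W R
  have cj : Cj W R W' R' := ⟨A⁻¹, c1, c2⟩
  have ad' := cj.adm ad
  have ht' : ¬ Thr R' := fun h => ht (cj.symm.thr h)
  have e1 : (![1, 0] : V2 p) ∈ R' := by rw [← act_inv_act A ![1, 0], a1, ← c2]; exact hv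
  have e2 : (![0, 1] : V2 p) ∈ R' := by rw [← act_inv_act A ![0, 1], a2, ← c2]; exact hw
  have hR : R' = Rax p := Set.ext fun u => ⟨fun hu => ⟨ad'.ne u hu, by
      by_contra h
      refine ht' ⟨_, e1, _, e2, u, hu, by simp [om], ?_, ?_⟩
      · simpa [om] using right_ne_zero_of_mul h
      · simpa [om] using left_ne_zero_of_mul h⟩, fun ⟨hu, h⟩ => by
    rcases mul_eq_zero.1 h with h | h
    · have k : u = u 1 • ![0, 1] := funext fun i => by fin_cases i <;> simp [h]
      rw [k]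
      exact ad'.smul _ e2 _ fun h' => hu (by rw [k, h', zero_smul])
    · have k : u = u 0 • ![1, 0] := funext fun i => by fin_cases i <;> simp [h]
      rw [k]
      exact ad'.smul _ e1 _ fun h' => hu (by rw [k, h', zero_smul])⟩
  have mon : ∀ B ∈ W', (B 0 1 = 0 ∧ B 1 0 = 0) ∨ (B 0 0 = 0 ∧ B 1 1 = 0) := fun B hB => by
    have b1 := (hR.le (ad'.inv B hB _ e1)).2
    have b2 := (hR.le (ad'.inv B hB _ e2)).2
    have d := dt_ne B
    rw [dt_eq] at d
    simp only [act_apply0, act_apply1, cons_val_zero, cons_val_one, mul_one, mul_zero, add_zero, zero_add,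
      mul_eq_zero] at b1 b2
    rcases b1 with b1 | b1 <;> rcases b2 with b2 | b2
    · simp [b1, b2] at d
    · exact Or.inr ⟨b1, b2⟩
    · exact Or.inl ⟨b2, b1⟩
    · simp [b1, b2] at d
  refine ⟨W', ⟨mon, fun a ha => ?_, fun a ha => ?_⟩, hR ▸ cj⟩
  · obtain ⟨B, hB, k1, k2⟩ := ad'.tor _ e1 a ha
    have x := congrFun k1 0
    simp only [act_apply0, cons_val_zero, cons_val_one, mul_one, mul_zero, add_zero, Pi.smul_apply,
      smul_eq_mul] at x
    rw [dt_eq, x] at k2
    obtain ⟨y, z⟩ := (mon B hB).resolve_right fun h => inv_ne_zero ha (x.symm.trans h.1)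
    rw [y, zero_mul, sub_zero, inv_mul_eq_iff_eq_mul₀ ha] at k2
    refine ⟨B, hB, Matrix.ext fun i j => ?_⟩
    fin_cases i <;> fin_cases j
    exacts [x, y, z, k2.trans (sq a).symm]
  · obtain ⟨B, hB, k1, k2⟩ := ad'.tor _ e2 a ha
    have x := congrFun k1 1
    simp only [act_apply1, cons_val_zero, cons_val_one, mul_one, mul_zero, zero_add, Pi.smul_apply,
      smul_eq_mul] at x
    rw [dt_eq, x] at k2
    obtain ⟨y, z⟩ := (mon B hB).resolve_right fun h => inv_ne_zero ha (x.symm.trans h.2)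
    rw [y, zero_mul, sub_zero, mul_inv_eq_iff_eq_mul₀ ha] at k2
    refine ⟨B, hB, Matrix.ext fun i j => ?_⟩
    fin_cases i <;> fin_cases j
    exacts [k2.trans (sq a).symm, y, z, x]

end H9.RV
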